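import Mathlib
import Cfsg.Agent.H41.AutAlt

/-!
# Sylow subgroups of groups between `Inn(A_n)` and `Aut(A_n)` (helper11)

* `perm_pgroup_commute`: a `q`-subgroup of `Perm α` with `card α < q ^ 2` is commutative.
* `exists_orderOf_mul`: for primes `p < q` and `q ^ 2 ≤ n` the alternating group of degree `n`
  has an element of order `p * q`.
* `aut_odd_three_cycle`: an automorphism of odd order of an alternating group of degree `≥ 5`
  maps three-cycles to three-cycles (degree six included).
* `aut_alt_surj_of_three`: an automorphism preserving three-cycles is conjugation by a permutation.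
-/

set_option autoImplicit false

namespace Cfsg.Agent.H11.AltAut

open Equiv Equiv.Perm

section PGroup

variable {α : Type*} [Fintype α]

/-- A group of order `1` or a prime `q` is commutative. -/
theorem comm_of_card_dvd_prime {R : Type*} [Group R] [Finite R] {q : ℕ} [hq : Fact q.Prime]
    (h : Nat.card R ∣ q) (a b : R) : a * b = b * a := by
  rcases (Nat.dvd_prime hq.out).1 h with h1 | h1
  · have : Subsingleton R := (Nat.card_eq_one_iff_unique.1 h1).1
    exact Subsingleton.elim _ _
  · have : IsCyclic R := isCyclic_of_prime_card h1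
    exact mul_comm' a b

/-- A `q`-subgroup of the symmetric group of degree less than `q ^ 2` is commutative. -/
theorem perm_pgroup_commute {q : ℕ} [hq : Fact q.Prime] (Q : Subgroup (Perm α))
    (hQ : IsPGroup q Q) (hcard : Fintype.card α < q ^ 2) {σ τ : Perm α} (hσ : σ ∈ Q)
    (hτ : τ ∈ Q) : σ * τ = τ * σ := by
  classical
  ext x
  have hfin : Finite (MulAction.orbit Q x) := inferInstance
  obtain ⟨k, hk⟩ := hQ.card_orbit x
  have hle : Nat.card (MulAction.orbit Q x) ≤ Fintype.card α := by
    rw [← Nat.card_eq_fintype_card]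
    exact Nat.card_le_card_of_injective _ Subtype.val_injective
  have hq2 : 2 ≤ q := hq.out.two_le
  have hk1 : k ≤ 1 := by
    by_contra hcon
    have h2 : 2 ≤ k := by omega
    have : q ^ 2 ≤ q ^ k := Nat.pow_le_pow_right (by omega) h2
    omega
  have hOq : Nat.card (MulAction.orbit Q x) ≤ q := by
    rw [hk]
    calc q ^ k ≤ q ^ 1 := Nat.pow_le_pow_right (by omega) hk1
      _ = q := pow_one q
  let ρ : Q →* Perm (MulAction.orbit Q x) := MulAction.toPermHom Q (MulAction.orbit Q x)
  have hR : IsPGroup q ρ.range := hQ.of_surjective ρ.rangeRestrict ρ.rangeRestrict_surjective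
  obtain ⟨j, hj⟩ := IsPGroup.iff_card.1 hR
  have hdvd : Nat.card ρ.range ∣ q.factorial := by
    have h1 := Subgroup.card_subgroup_dvd_card ρ.range
    rw [Nat.card_perm] at h1
    exact h1.trans (Nat.factorial_dvd_factorial hOq)
  have hj1 : j ≤ 1 := by
    by_contra hcon
    have h2 : 2 ≤ j := by omega
    have h3 : q ^ 2 ∣ q.factorial := by
      rw [hj] at hdvd
      exact (pow_dvd_pow q h2).trans hdvd
    have h4 : q.factorial = q * (q - 1).factorial := by
      have : q = (q - 1) + 1 := by omega
      conv_lhs => rw [this]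
      rw [Nat.factorial_succ]
      congr 1
      omega
    rw [h4, pow_two] at h3
    have h5 : q ∣ (q - 1).factorial := Nat.dvd_of_mul_dvd_mul_left (by omega) h3
    have h6 := (Nat.Prime.dvd_factorial hq.out).1 h5
    omega
  have hRq : Nat.card ρ.range ∣ q := by
    rw [hj]
    calc q ^ j ∣ q ^ 1 := pow_dvd_pow q hj1
      _ = q := pow_one q
  have hcomm := comm_of_card_dvd_prime hRq (⟨ρ ⟨σ, hσ⟩, ⟨_, rfl⟩⟩ : ρ.range)
    ⟨ρ ⟨τ, hτ⟩, ⟨_, rfl⟩⟩
  have h7 : ρ ⟨σ, hσ⟩ * ρ ⟨τ, hτ⟩ = ρ ⟨τ, hτ⟩ * ρ ⟨σ, hσ⟩ := congrArg Subtype.val hcomm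
  have h8 := congrArg (fun f : Perm (MulAction.orbit Q x) =>
    ((f ⟨x, MulAction.mem_orbit_self x⟩ : MulAction.orbit Q x) : α)) h7
  simpa [ρ, MulAction.toPermHom_apply, MulAction.toPerm_apply, Perm.mul_apply] using h8

end PGroup

section Order

/-- For primes `p < q` and `q ^ 2 ≤ n`, the alternating group of degree `n` has an element of
order `p * q`. -/
theorem exists_orderOf_mul {n p q : ℕ} (hp : p.Prime) (hq : q.Prime) (hpq : p < q)
    (hn : q ^ 2 ≤ n) : ∃ g : alternatingGroup (Fin n), orderOf g = p * q := by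
  have hp2 : 2 ≤ p := hp.two_le
  have hq3 : 3 ≤ q := by omega
  have hqq : 3 * q ≤ q ^ 2 := by nlinarith
  have hqodd : Odd q := hq.odd_of_ne_two (by omega)
  have hcop : Nat.Coprime p q := (Nat.coprime_primes hp hq).2 (by omega)
  by_cases h2 : p = 2
  · subst h2
    obtain ⟨g, hg⟩ := (Equiv.Perm.exists_with_cycleType_iff (Fin n) (m := {2, 2, q})).2
      ⟨by simp; omega, by intro a ha; simp at ha; omega⟩
    have hsign : Equiv.Perm.sign g = 1 := by
      rw [Equiv.Perm.sign_of_cycleType, hg]
      have : Even (({2, 2, q} : Multiset ℕ).sum + Multiset.card ({2, 2, q} : Multiset ℕ)) := by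
        obtain ⟨k, hk⟩ := hqodd
        refine ⟨k + 4, ?_⟩
        simp
        omega
      exact this.neg_one_pow
    refine ⟨⟨g, Equiv.Perm.mem_alternatingGroup.2 hsign⟩, ?_⟩
    rw [← Subgroup.orderOf_coe]
    show orderOf g = 2 * q
    rw [← Equiv.Perm.lcm_cycleType, hg]
    have : ({2, 2, q} : Multiset ℕ).lcm = Nat.lcm 2 (Nat.lcm 2 q) := by
      have h' : ({2, 2, q} : Multiset ℕ) = 2 ::ₘ 2 ::ₘ {q} := rfl
      rw [h', Multiset.lcm_cons, Multiset.lcm_cons, Multiset.lcm_singleton, normalize_eq]
      rfl
    rw [this, hcop.lcm_eq_mul]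
    exact Nat.lcm_eq_right (Dvd.intro q rfl)
  · have hpodd : Odd p := hp.odd_of_ne_two h2
    obtain ⟨g, hg⟩ := (Equiv.Perm.exists_with_cycleType_iff (Fin n) (m := {p, q})).2
      ⟨by simp; omega, by intro a ha; simp at ha; omega⟩
    have hsign : Equiv.Perm.sign g = 1 := by
      rw [Equiv.Perm.sign_of_cycleType, hg]
      have : Even (({p, q} : Multiset ℕ).sum + Multiset.card ({p, q} : Multiset ℕ)) := by
        obtain ⟨k, hk⟩ := hqodd
        obtain ⟨l, hl⟩ := hpodd
        refine ⟨k + l + 2, ?_⟩
        simp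
        omega
      exact this.neg_one_pow
    refine ⟨⟨g, Equiv.Perm.mem_alternatingGroup.2 hsign⟩, ?_⟩
    rw [← Subgroup.orderOf_coe]
    show orderOf g = p * q
    rw [← Equiv.Perm.lcm_cycleType, hg]
    have : ({p, q} : Multiset ℕ).lcm = Nat.lcm p q := by
      have h' : ({p, q} : Multiset ℕ) = p ::ₘ {q} := rfl
      rw [h', Multiset.lcm_cons, Multiset.lcm_singleton, normalize_eq]
      rfl
    rw [this, hcop.lcm_eq_mul]

end Order

section Three

variable {α : Type*} [Fintype α] [DecidableEq α]

/-- The images of two three-cycles under an automorphism have the same cycle type. -/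
theorem three_cycleType_eq (h5 : 5 ≤ Fintype.card α) (φ : MulAut (alternatingGroup α))
    {g g' : alternatingGroup α} (hg : (g : Perm α).IsThreeCycle)
    (hg' : (g' : Perm α).IsThreeCycle) :
    ((φ g : alternatingGroup α) : Perm α).cycleType =
      ((φ g' : alternatingGroup α) : Perm α).cycleType := by
  have h1 : IsConj g g' :=
    alternatingGroup.isThreeCycle_isConj (by rwa [Nat.card_eq_fintype_card]) hg hg'
  have h2 : IsConj (φ g) (φ g') := MonoidHom.map_isConj φ.toMonoidHom h1
  have h3 := MonoidHom.map_isConj (alternatingGroup α).subtype h2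
  exact Equiv.Perm.isConj_iff_cycleType_eq.1 h3

/-- In degree six an element of order three has cycle type `{3}` or `{3, 3}`. -/
theorem cycleType_of_order_three (h6 : Fintype.card α = 6) {σ : Perm α} (ho : orderOf σ = 3) :
    σ.cycleType = {3} ∨ σ.cycleType = {3, 3} := by
  obtain ⟨j, hj⟩ := Perm.cycleType_prime_order (σ := σ) (by rw [ho]; exact Nat.prime_three)
  rw [ho] at hj
  have hsum : σ.cycleType.sum = 3 * (j + 1) := by
    rw [hj]; simp; ring
  have hle : 3 * (j + 1) ≤ 6 := by
    rw [← hsum, Perm.sum_cycleType, ← h6]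
    exact Finset.card_le_univ _
  have hj' : j = 0 ∨ j = 1 := by omega
  rcases hj' with rfl | rfl
  · left; exact hj
  · right; exact hj

theorem orderOf_of_cycleType_three {σ : Perm α} (h : σ.cycleType = {3}) : orderOf σ = 3 := by
  rw [← Equiv.Perm.lcm_cycleType, h, Multiset.lcm_singleton, normalize_eq]

theorem orderOf_of_cycleType_three_three {σ : Perm α} (h : σ.cycleType = {3, 3}) :
    orderOf σ = 3 := by
  rw [← Equiv.Perm.lcm_cycleType, h]
  have h' : ({3, 3} : Multiset ℕ) = 3 ::ₘ {3} := rfl
  rw [h', Multiset.lcm_cons, Multiset.lcm_singleton, normalize_eq]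
  rfl

/-- An automorphism of odd order of an alternating group of degree at least five maps
three-cycles to three-cycles. -/
theorem aut_odd_three_cycle (h5 : 5 ≤ Fintype.card α) (φ : MulAut (alternatingGroup α))
    (hodd : Odd (orderOf φ)) (g : alternatingGroup α) (hg : (g : Perm α).IsThreeCycle) :
    ((φ g : alternatingGroup α) : Perm α).IsThreeCycle := by
  by_cases h6 : Fintype.card α = 6
  swap
  · exact Cfsg.Agent.H41.aut_three_cycle h6 φ g hg
  by_contra hnot
  -- the order of the image of an element of order three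
  have hord : ∀ x : alternatingGroup α, orderOf (x : Perm α) = 3 →
      orderOf ((φ x : alternatingGroup α) : Perm α) = 3 := by
    intro x hx
    rw [Subgroup.orderOf_coe, MulEquiv.orderOf_eq, ← Subgroup.orderOf_coe, hx]
  have hgT : ((φ g : alternatingGroup α) : Perm α).cycleType = {3, 3} := by
    rcases cycleType_of_order_three h6 (hord g hg.orderOf) with h | h
    · exact absurd h hnot
    · exact h
  -- every three-cycle is mapped to type `{3, 3}`
  have hA : ∀ x : alternatingGroup α, (x : Perm α).cycleType = {3} →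
      ((φ x : alternatingGroup α) : Perm α).cycleType = {3, 3} := by
    intro x hx
    rw [three_cycleType_eq h5 φ (show (x : Perm α).IsThreeCycle from hx) hg, hgT]
  -- counting
  have cT : (Finset.univ.filter fun σ : Perm α => σ.cycleType = {3}).card = 40 := by
    rw [Equiv.Perm.card_of_cycleType, h6]
    decide
  have cT' : (Finset.univ.filter fun σ : Perm α => σ.cycleType = {3, 3}).card = 40 := by
    rw [Equiv.Perm.card_of_cycleType, h6]
    decide
  have hmemT : ∀ a : Perm α, a ∈ (Finset.univ.filter fun σ : Perm α => σ.cycleType = {3}) →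
      a ∈ alternatingGroup α := by
    intro a ha
    rw [Finset.mem_filter] at ha
    exact Equiv.Perm.IsThreeCycle.mem_alternatingGroup ha.2
  have hsurj := Finset.surj_on_of_inj_on_of_card_le
    (s := Finset.univ.filter fun σ : Perm α => σ.cycleType = {3})
    (t := Finset.univ.filter fun σ : Perm α => σ.cycleType = {3, 3})
    (fun a ha => ((φ ⟨a, hmemT a ha⟩ : alternatingGroup α) : Perm α))
    (by
      intro a ha
      rw [Finset.mem_filter]
      refine ⟨Finset.mem_univ _, hA ⟨a, hmemT a ha⟩ ?_⟩
      exact (Finset.mem_filter.1 ha).2)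
    (by
      intro a₁ a₂ ha₁ ha₂ h
      have h1 : φ ⟨a₁, hmemT a₁ ha₁⟩ = φ ⟨a₂, hmemT a₂ ha₂⟩ := Subtype.ext h
      have h2 := φ.injective h1
      exact congrArg Subtype.val h2)
    (by rw [cT, cT'])
  -- every element of type `{3, 3}` is mapped to a three-cycle
  have hB : ∀ x : alternatingGroup α, (x : Perm α).cycleType = {3, 3} →
      ((φ x : alternatingGroup α) : Perm α).cycleType = {3} := by
    intro x hx
    rcases cycleType_of_order_three h6 (hord x (orderOf_of_cycleType_three_three hx)) with h | h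
    · exact h
    · exfalso
      obtain ⟨a, ha, hfa⟩ := hsurj ((φ x : alternatingGroup α) : Perm α)
        (by rw [Finset.mem_filter]; exact ⟨Finset.mem_univ _, h⟩)
      have h1 : φ x = φ ⟨a, hmemT a ha⟩ := Subtype.ext hfa
      have h2 := φ.injective h1
      have h3 : (x : Perm α) = a := congrArg Subtype.val h2
      have h4 : a.cycleType = {3} := (Finset.mem_filter.1 ha).2
      rw [h3, h4] at hx
      exact absurd hx (by decide)
  -- even powers preserve three-cycles
  have hC : ∀ (j : ℕ) (x : alternatingGroup α), (x : Perm α).cycleType = {3} →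
      (((φ ^ (2 * j)) x : alternatingGroup α) : Perm α).cycleType = {3} := by
    intro j
    induction j with
    | zero => intro x hx; simpa using hx
    | succ j ih =>
      intro x hx
      have e : φ ^ (2 * (j + 1)) = φ * (φ * φ ^ (2 * j)) := by
        rw [show 2 * (j + 1) = 2 * j + 1 + 1 by ring, pow_succ', pow_succ']
      rw [e, MulAut.mul_apply, MulAut.mul_apply]
      exact hB _ (hA _ (ih x hx))
  obtain ⟨j, hj⟩ := hodd
  have h1 : φ ^ (2 * j + 1) = 1 := by rw [← hj]; exact pow_orderOf_eq_one φ
  have h2 : (((φ ^ (2 * j + 1)) g : alternatingGroup α) : Perm α).cycleType = {3, 3} := by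
    rw [pow_succ', MulAut.mul_apply]
    exact hA _ (hC j g hg)
  rw [h1, MulAut.one_apply] at h2
  have h3 : (g : Perm α).cycleType = {3} := hg
  rw [h3] at h2
  exact absurd h2 (by decide)

end Three

section Surj

open Cfsg.Agent.H41

variable {α : Type*} [Fintype α] [DecidableEq α]

/-- An automorphism of an alternating group mapping three-cycles to three-cycles is conjugation
by a permutation (the argument of `Cfsg.Agent.H41.aut_alt_surj`). -/
theorem aut_alt_surj_of_three (hα4 : 4 ≤ Fintype.card α) (φ : MulAut (alternatingGroup α))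
    (h3c : ∀ g : alternatingGroup α, (g : Perm α).IsThreeCycle →
      ((φ g : alternatingGroup α) : Perm α).IsThreeCycle) :
    ∃ σ : Perm α, MulAut.conjNormal σ = φ := by
  classical
  have hnontriv : Nontrivial α := by
    rw [← Fintype.one_lt_card_iff_nontrivial]; omega
  obtain ⟨o, i, hoi⟩ := exists_pair_ne α
  let Φ : Perm α → Perm α := fun g =>
    if h : g ∈ alternatingGroup α then ((φ ⟨g, h⟩ : alternatingGroup α) : Perm α) else 1
  have hΦ : ∀ (g : Perm α) (h : g ∈ alternatingGroup α),
      Φ g = ((φ ⟨g, h⟩ : alternatingGroup α) : Perm α) := fun g h => dif_pos h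
  have hT : ∀ k, k ≠ o → k ≠ i → tc o i k ∈ alternatingGroup α :=
    fun k h1 h2 => (tc_isThreeCycle hoi h1 h2).mem_alternatingGroup
  obtain ⟨σ, hσ⟩ := assembly hoi hα4 (fun k => Φ (tc o i k))
    (by
      intro k hko hki
      show (Φ (tc o i k)).IsThreeCycle
      rw [hΦ _ (hT k hko hki)]
      exact h3c _ (tc_isThreeCycle hoi hko hki))
    (by
      intro k l hko hki hlo hli hkl
      show Φ (tc o i k) * Φ (tc o i l) ≠ 1
      rw [hΦ _ (hT k hko hki), hΦ _ (hT l hlo hli), ← Subgroup.coe_mul, ← map_mul]
      intro h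
      have h1 : φ (⟨tc o i k, hT k hko hki⟩ * ⟨tc o i l, hT l hlo hli⟩) = 1 := Subtype.ext h
      rw [MulEquiv.map_eq_one_iff] at h1
      have h2 := congrArg (fun g : alternatingGroup α => (g : Perm α) o) h1
      simp only [Subgroup.coe_mul, Perm.mul_apply, tc_apply, Subgroup.coe_one, Perm.one_apply] at h2
      grind)
    (by
      intro k l hko hki hlo hli hkl
      show Φ (tc o i k) * Φ (tc o i l) * (Φ (tc o i k) * Φ (tc o i l)) = 1
      rw [hΦ _ (hT k hko hki), hΦ _ (hT l hlo hli), ← Subgroup.coe_mul, ← Subgroup.coe_mul,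
        ← map_mul, ← map_mul]
      have h1 : (⟨tc o i k, hT k hko hki⟩ * ⟨tc o i l, hT l hlo hli⟩ *
          (⟨tc o i k, hT k hko hki⟩ * ⟨tc o i l, hT l hlo hli⟩) : alternatingGroup α) = 1 := by
        apply Subtype.ext
        simp only [Subgroup.coe_mul, Subgroup.coe_one]
        ext x
        simp only [Perm.mul_apply, tc_apply, Perm.one_apply]
        grind
      rw [h1, map_one, Subgroup.coe_one])
  refine ⟨σ, ?_⟩
  -- generating set inside the alternating group
  let T : Set (alternatingGroup α) := {g | ∃ k, k ≠ o ∧ k ≠ i ∧ (g : Perm α) = tc o i k}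
  have hTtop : Subgroup.closure T = ⊤ := by
    apply Subgroup.map_injective (Subgroup.subtype_injective (alternatingGroup α))
    rw [MonoidHom.map_closure, ← MonoidHom.range_eq_map, Subgroup.range_subtype]
    refine Eq.trans ?_ (closure_tc hoi)
    congr 1
    ext g
    constructor
    · rintro ⟨g', ⟨k, hko, hki, hg'⟩, rfl⟩
      exact ⟨k, hko, hki, hg'⟩
    · rintro ⟨k, hko, hki, rfl⟩
      exact ⟨⟨tc o i k, hT k hko hki⟩, ⟨k, hko, hki, rfl⟩, rfl⟩
  have hhom : (MulAut.conjNormal σ : alternatingGroup α ≃* alternatingGroup α).toMonoidHom =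
      φ.toMonoidHom := by
    apply MonoidHom.eq_of_eqOn_dense hTtop
    rintro g ⟨k, hko, hki, hg⟩
    apply Subtype.ext
    show ((MulAut.conjNormal σ g : alternatingGroup α) : Perm α) = ((φ g : alternatingGroup α) : Perm α)
    rw [MulAut.conjNormal_apply, hg, ← hσ k hko hki]
    show Φ (tc o i k) = _
    rw [hΦ _ (hT k hko hki)]
    congr 2
    exact Subtype.ext hg.symm
  ext g : 1
  exact DFunLike.congr_fun hhom g

end Surj

section Main

/-- The order of an inner automorphism of an alternating group of degree at least four. -/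
theorem orderOf_conj_alt {n : ℕ} (hn : 4 ≤ n) (g : alternatingGroup (Fin n)) :
    orderOf (MulAut.conj g) = orderOf g := by
  have hinj := Cfsg.Agent.H41.conjNormal_injective (α := Fin n)
    (by rw [Fintype.card_fin]; exact hn)
  rw [← MulAut.conjNormal_val, orderOf_injective _ hinj, Subgroup.orderOf_coe]

/-- Let `p < q` be primes and let `G` be a group of automorphisms of the alternating group of
degree `n ≥ 5` containing the inner automorphisms. If `G` has no element of order `p * q` then the
Sylow `q`-subgroups of `G` are commutative. -/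
theorem sylow_comm (n : ℕ) (hn : 5 ≤ n) (G : Subgroup (MulAut (alternatingGroup (Fin n))))
    (hG : (MulAut.conj : alternatingGroup (Fin n) →* MulAut (alternatingGroup (Fin n))).range ≤ G)
    (p q : ℕ) [hp : Fact p.Prime] [hq : Fact q.Prime] (hpq : p < q)
    (h : ∀ g : G, orderOf g ≠ p * q) (Q : Sylow q G) :
    IsMulCommutative (Q : Subgroup G) := by
  classical
  have hp2 : 2 ≤ p := hp.out.two_le
  have hqodd : Odd q := hq.out.odd_of_ne_two (by omega)
  -- the degree is small
  have hlt : n < q ^ 2 := by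
    by_contra hcon
    obtain ⟨g, hg⟩ := exists_orderOf_mul (n := n) hp.out hq.out hpq (by omega)
    have hmem : MulAut.conj g ∈ G := hG ⟨g, rfl⟩
    apply h ⟨MulAut.conj g, hmem⟩
    rw [Subgroup.orderOf_mk, orderOf_conj_alt (by omega), hg]
  have hinj := Cfsg.Agent.H41.conjNormal_injective (α := Fin n)
    (by rw [Fintype.card_fin]; omega)
  -- the corresponding `q`-group of permutations
  let Q' : Subgroup (Perm (Fin n)) :=
    ((Q : Subgroup G).map G.subtype).comap
      (MulAut.conjNormal : Perm (Fin n) →* MulAut (alternatingGroup (Fin n)))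
  have hQ' : IsPGroup q Q' := (Q.isPGroup'.map G.subtype).comap_of_injective _ hinj
  -- every element of `Q` is conjugation by a permutation
  have hrep : ∀ x : G, x ∈ (Q : Subgroup G) →
      ∃ σ : Perm (Fin n), σ ∈ Q' ∧ MulAut.conjNormal σ = (x : MulAut (alternatingGroup (Fin n))) := by
    intro x hx
    obtain ⟨k, hk⟩ := Q.isPGroup' ⟨x, hx⟩
    have hk' : (x : MulAut (alternatingGroup (Fin n))) ^ q ^ k = 1 := by
      have h1 : x ^ q ^ k = 1 := congrArg Subtype.val hk
      have h2 := congrArg (Subtype.val : G → MulAut (alternatingGroup (Fin n))) h1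
      simpa using h2
    obtain ⟨j, -, hj⟩ := (Nat.dvd_prime_pow hq.out).1 (orderOf_dvd_of_pow_eq_one hk')
    have hodd : Odd (orderOf (x : MulAut (alternatingGroup (Fin n)))) := by
      rw [hj]; exact hqodd.pow
    obtain ⟨σ, hσ⟩ := aut_alt_surj_of_three (α := Fin n) (by rw [Fintype.card_fin]; omega)
      (x : MulAut (alternatingGroup (Fin n)))
      (aut_odd_three_cycle (by rw [Fintype.card_fin]; exact hn) _ hodd)
    refine ⟨σ, ?_, hσ⟩
    show MulAut.conjNormal σ ∈ (Q : Subgroup G).map G.subtype
    rw [hσ]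
    exact ⟨x, hx, rfl⟩
  refine ⟨⟨fun a b => ?_⟩⟩
  obtain ⟨σ, hσQ, hσ⟩ := hrep a.1 a.2
  obtain ⟨τ, hτQ, hτ⟩ := hrep b.1 b.2
  have hc : σ * τ = τ * σ :=
    perm_pgroup_commute Q' hQ' (by rw [Fintype.card_fin]; exact hlt) hσQ hτQ
  apply Subtype.ext
  apply Subtype.ext
  show ((a.1 : G) : MulAut (alternatingGroup (Fin n))) * ((b.1 : G) : MulAut _) =
    ((b.1 : G) : MulAut _) * ((a.1 : G) : MulAut _)
  rw [← hσ, ← hτ, ← map_mul, ← map_mul, hc]

end Main

end Cfsg.Agent.H11.AltAut
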