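import Mathlib
import Cfsg.Agent.H74.BTDefs

/-!
# S0997, piece ARITHFIN: `(p - 1)(p + 1) / 2 = q ^ b g₀` with `g₀ < p - 1` forces `p = 2 ^ m ± 1`
-/

set_option autoImplicit false

namespace Cfsg.Agent.H11.BT

theorem arithFin : Cfsg.Agent.H74.BT.StArithFin := by
  intro p q b g₀ hp hp2 hq heq hg
  have hp3 : 3 ≤ p := by
    have := hp.two_le
    omega
  have hpodd : Odd p := hp.odd_of_ne_two hp2
  obtain ⟨A, hA⟩ : ∃ A, p = A + 1 := ⟨p - 1, by omega⟩
  subst hA
  have e1 : A + 1 - 1 = A := by omega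
  have e2 : A + 1 + 1 = A + 2 := rfl
  rw [e1, e2] at heq
  rw [e1] at hg
  have hA2 : 2 ≤ A := by omega
  have hAeven : 2 ∣ A := by
    obtain ⟨k, hk⟩ := hpodd
    exact ⟨k, by omega⟩
  have hBeven : 2 ∣ A + 2 := by
    obtain ⟨k, hk⟩ := hAeven
    exact ⟨k + 1, by omega⟩
  have hAB0 : A * (A + 2) ≠ 0 := by
    apply Nat.mul_ne_zero <;> omega
  have hg0 : g₀ ≠ 0 := by
    rintro rfl
    rw [mul_zero, mul_zero] at heq
    exact hAB0 heq.symm
  rcases hq.eq_two_or_odd' with rfl | hqodd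
  · have h1 : 2 ^ (b + 1) * g₀ = A * (A + 2) := by
      rw [pow_succ, ← heq]; ring
    have hlt : A + 2 < 2 ^ (b + 1) := by
      by_contra hcon
      push Not at hcon
      have h2 : 2 ^ (b + 1) * g₀ ≤ (A + 2) * g₀ := Nat.mul_le_mul_right _ hcon
      have h3 : (A + 2) * g₀ < (A + 2) * A := Nat.mul_lt_mul_of_pos_left hg (by omega)
      have h4 : (A + 2) * A = A * (A + 2) := Nat.mul_comm _ _
      omega
    have hdvd : 2 ^ (b + 1) ∣ A * (A + 2) := ⟨g₀, h1.symm⟩
    haveI : Fact (Nat.Prime 2) := ⟨Nat.prime_two⟩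
    have hle : b + 1 ≤ padicValNat 2 A + padicValNat 2 (A + 2) := by
      rw [← padicValNat.mul (by omega) (by omega)]
      exact (padicValNat_dvd_iff_le hAB0).mp hdvd
    have key : ∀ X : ℕ, X ≠ 0 → X < 2 ^ (padicValNat 2 X + 1) → X = 2 ^ padicValNat 2 X := by
      intro X hX hlt'
      obtain ⟨k, hk⟩ := pow_padicValNat_dvd (p := 2) (n := X)
      have hk1 : k = 1 := by
        have hk0 : k ≠ 0 := by
          rintro rfl
          rw [mul_zero] at hk
          exact hX hk
        have h5 : 2 ^ padicValNat 2 X * k < 2 ^ padicValNat 2 X * 2 := by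
          rw [← hk, ← pow_succ]; exact hlt'
        have h6 := Nat.lt_of_mul_lt_mul_left h5
        omega
      rw [hk1, mul_one] at hk
      exact hk
    by_cases h4 : padicValNat 2 (A + 2) ≤ 1
    · have h5 : A < 2 ^ (padicValNat 2 A + 1) := by
        calc A < A + 2 := by omega
          _ < 2 ^ (b + 1) := hlt
          _ ≤ 2 ^ (padicValNat 2 A + 1) := Nat.pow_le_pow_right (by norm_num) (by omega)
      have h6 := key A (by omega) h5
      exact ⟨padicValNat 2 A, Or.inl (by omega)⟩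
    · have h6 : padicValNat 2 A ≤ 1 := by
        by_contra hcon
        push Not at hcon
        have hA4 : 2 ^ 2 ∣ A := (padicValNat_dvd_iff_le (by omega)).mpr (by omega)
        have hB4 : 2 ^ 2 ∣ A + 2 := (padicValNat_dvd_iff_le (by omega)).mpr (by omega)
        norm_num at hA4 hB4
        omega
      have h5 : A + 2 < 2 ^ (padicValNat 2 (A + 2) + 1) :=
        lt_of_lt_of_le hlt (Nat.pow_le_pow_right (by norm_num) (by omega))
      have h7 := key (A + 2) (by omega) h5
      exact ⟨padicValNat 2 (A + 2), Or.inr (by omega)⟩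
  · exfalso
    have hq2 : q ≠ 2 := by
      rintro rfl
      exact absurd hqodd (by decide)
    have hcop2 : Nat.Coprime 2 (q ^ b) :=
      Nat.Coprime.pow_right b ((Nat.coprime_primes Nat.prime_two hq).mpr (Ne.symm hq2))
    have hdvd : q ^ b ∣ A * (A + 2) := ⟨2 * g₀, by rw [← heq]; ring⟩
    have hnot : ¬ (q ∣ A ∧ q ∣ A + 2) := by
      rintro ⟨h1, h2⟩
      have h3 : q ∣ 2 := (Nat.dvd_add_right h1).mp h2
      have h4 := Nat.le_of_dvd (by norm_num) h3
      have h5 := hq.two_le
      omega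
    have hqpos : 0 < q ^ b := pow_pos hq.pos b
    by_cases hqA : q ∣ A
    · have hqB : ¬ q ∣ A + 2 := fun h => hnot ⟨hqA, h⟩
      have hc : Nat.Coprime (q ^ b) (A + 2) :=
        Nat.Coprime.pow_left b ((Nat.Prime.coprime_iff_not_dvd hq).mpr hqB)
      obtain ⟨k, hk⟩ := hc.dvd_of_dvd_mul_right hdvd
      have hk2 : 2 ∣ k := by
        have h1 : 2 ∣ q ^ b * k := hk ▸ hAeven
        exact hcop2.dvd_of_dvd_mul_left h1
      obtain ⟨k', hk'⟩ := hk2
      have hk0 : k' ≠ 0 := by
        rintro rfl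
        rw [hk', mul_zero, mul_zero] at hk
        omega
      have h7 : q ^ b * (2 * g₀) = q ^ b * (2 * (k' * (A + 2))) := by
        calc q ^ b * (2 * g₀) = 2 * (q ^ b * g₀) := by ring
          _ = A * (A + 2) := heq
          _ = q ^ b * k * (A + 2) := by rw [← hk]
          _ = q ^ b * (2 * (k' * (A + 2))) := by rw [hk']; ring
      have h8 : 2 * g₀ = 2 * (k' * (A + 2)) := Nat.eq_of_mul_eq_mul_left hqpos h7
      have h9 : A + 2 ≤ k' * (A + 2) := Nat.le_mul_of_pos_left _ (by omega)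
      omega
    · have hc : Nat.Coprime (q ^ b) A :=
        Nat.Coprime.pow_left b ((Nat.Prime.coprime_iff_not_dvd hq).mpr hqA)
      obtain ⟨k, hk⟩ := hc.dvd_of_dvd_mul_left hdvd
      have hk2 : 2 ∣ k := by
        have h1 : 2 ∣ q ^ b * k := hk ▸ hBeven
        exact hcop2.dvd_of_dvd_mul_left h1
      obtain ⟨k', hk'⟩ := hk2
      have hk0 : k' ≠ 0 := by
        rintro rfl
        rw [hk', mul_zero, mul_zero] at hk
        omega
      have h7 : q ^ b * (2 * g₀) = q ^ b * (2 * (A * k')) := by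
        calc q ^ b * (2 * g₀) = 2 * (q ^ b * g₀) := by ring
          _ = A * (A + 2) := heq
          _ = A * (q ^ b * k) := by rw [← hk]
          _ = q ^ b * (2 * (A * k')) := by rw [hk']; ring
      have h8 : 2 * g₀ = 2 * (A * k') := Nat.eq_of_mul_eq_mul_left hqpos h7
      have h9 : A ≤ A * k' := Nat.le_mul_of_pos_right _ (by omega)
      omega

example : Cfsg.Agent.H74.BT.StArithFin := arithFin

end Cfsg.Agent.H11.BT

#print axioms Cfsg.Agent.H11.BT.arithFin
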