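import Mathlib
import Cfsg.Agent.H74.BTDefs

/-!
# S0997, piece B1SYL: the Sylow argument of case B1
-/

set_option autoImplicit false

namespace Cfsg.Agent.H11.BT

open scoped Pointwise

universe u

theorem b1Syl : Cfsg.Agent.H74.BT.StB1Syl.{u} := by
  intro G _ _ p b hp hp2 hcard τ₀ hτ hconj hC
  classical
  have hp3 : 3 ≤ p := by
    have := hp.two_le
    omega
  haveI : Fact (Nat.Prime 2) := ⟨Nat.prime_two⟩
  -- a Sylow 2-subgroup and a central involution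
  obtain ⟨Q⟩ : Nonempty (Sylow 2 G) := inferInstance
  have h2G : 2 ∣ Nat.card G := by
    rw [← hτ]; exact orderOf_dvd_natCard τ₀
  have hQne : (Q : Subgroup G) ≠ ⊥ := Q.ne_bot_of_dvd_card h2G
  haveI : Nontrivial ↥(Q : Subgroup G) := (Subgroup.nontrivial_iff_ne_bot _).mpr hQne
  haveI : Nontrivial ↥(Subgroup.center ↥(Q : Subgroup G)) := Q.isPGroup'.center_nontrivial
  have hZ2 : IsPGroup 2 ↥(Subgroup.center ↥(Q : Subgroup G)) :=
    Q.isPGroup'.to_subgroup _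
  have h2Z : 2 ∣ Nat.card ↥(Subgroup.center ↥(Q : Subgroup G)) := by
    obtain ⟨k, hk⟩ := IsPGroup.iff_card.mp hZ2
    rw [hk]
    have hk0 : k ≠ 0 := by
      intro h0
      rw [h0, pow_zero] at hk
      have := Finite.one_lt_card (α := ↥(Subgroup.center ↥(Q : Subgroup G)))
      omega
    exact dvd_pow_self 2 hk0
  obtain ⟨z₀, hz₀⟩ := exists_prime_orderOf_dvd_card' 2 h2Z
  obtain ⟨z, hz⟩ : ∃ z : G, z = ((z₀ : ↥(Q : Subgroup G)) : G) := ⟨_, rfl⟩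
  have hzo : orderOf z = 2 := by
    rw [hz, Subgroup.orderOf_coe, Subgroup.orderOf_coe]; exact hz₀
  have hzc : ∀ x ∈ (Q : Subgroup G), z * x = x * z := by
    intro x hx
    have h1 := Subgroup.mem_center_iff.mp z₀.2 ⟨x, hx⟩
    have h2 := congrArg (fun y : ↥(Q : Subgroup G) => (y : G)) h1
    rw [hz]
    exact h2.symm
  obtain ⟨g, hg⟩ := hconj z hzo
  -- the conjugate Sylow subgroup centralizes `τ₀`
  have hle : ((g⁻¹ • Q : Sylow 2 G) : Subgroup G) ≤ Subgroup.centralizer ({τ₀} : Set G) := by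
    intro y hy
    rw [Sylow.coe_subgroup_smul, Subgroup.mem_pointwise_smul_iff_inv_smul_mem, MulAut.smul_def,
      ← map_inv, MulAut.conj_apply, inv_inv] at hy
    rw [Subgroup.mem_centralizer_singleton_iff]
    have h1 := hzc _ hy
    rw [← hg] at h1
    -- g τ₀ g⁻¹ (g y g⁻¹) = (g y g⁻¹) g τ₀ g⁻¹
    have h2 : g⁻¹ * (g * τ₀ * g⁻¹ * (g * y * g⁻¹)) * g = g⁻¹ * (g * y * g⁻¹ * (g * τ₀ * g⁻¹)) * g := by
      rw [h1]
    have e1 : g⁻¹ * (g * τ₀ * g⁻¹ * (g * y * g⁻¹)) * g = τ₀ * y := by group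
    have e2 : g⁻¹ * (g * y * g⁻¹ * (g * τ₀ * g⁻¹)) * g = y * τ₀ := by group
    rw [e1, e2] at h2
    exact h2.symm
  have h2b : 2 ^ b ∣ Nat.card G := by
    rw [hcard]
    exact Dvd.dvd.mul_right (Dvd.intro_left p rfl) _
  have hdvd : 2 ^ b ∣ Nat.card (Subgroup.centralizer ({τ₀} : Set G)) :=
    ((g⁻¹ • Q : Sylow 2 G).pow_dvd_card_of_pow_dvd_card h2b).trans (Subgroup.card_dvd_of_le hle)
  -- arithmetic
  obtain ⟨c', hc'⟩ := hdvd
  have hcpos : 0 < Nat.card (Subgroup.centralizer ({τ₀} : Set G)) := Nat.card_pos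
  obtain ⟨n, hn⟩ : ∃ n, p = n + 2 := ⟨p - 2, by omega⟩
  subst hn
  have e1 : n + 2 - 2 = n := by omega
  have e2 : n + 2 - 1 = n + 1 := by omega
  rw [e1] at hcard
  rw [hc', hcard, e1, e2] at hC
  have hn1 : 1 ≤ n := by omega
  have hc0 : c' ≠ 0 := by
    rintro rfl
    rw [mul_zero] at hc'
    omega
  have h2pos : 0 < 2 ^ b := pow_pos (by norm_num) b
  -- (n+2) * n * (2^b c')^2 = (n+2) * 2^b * n * (n+1)
  have h3 : ((n + 2) * n * 2 ^ b) * (2 ^ b * c' ^ 2) = ((n + 2) * n * 2 ^ b) * (n + 1) := by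
    calc ((n + 2) * n * 2 ^ b) * (2 ^ b * c' ^ 2) = (n + 2) * n * (2 ^ b * c') ^ 2 := by ring
      _ = (n + 2) * 2 ^ b * n * (n + 1) := hC
      _ = ((n + 2) * n * 2 ^ b) * (n + 1) := by ring
  have h4 : 2 ^ b * c' ^ 2 = n + 1 :=
    Nat.eq_of_mul_eq_mul_left (by positivity) h3
  have h5 : 2 ^ b ≤ n + 1 := by
    have h6 : 1 ≤ c' ^ 2 := Nat.one_le_pow _ _ (Nat.pos_of_ne_zero hc0)
    calc 2 ^ b = 2 ^ b * 1 := (mul_one _).symm
      _ ≤ 2 ^ b * c' ^ 2 := Nat.mul_le_mul_left _ h6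
      _ = n + 1 := h4
  rw [hcard]
  have h7 : (n + 2) * 2 ^ b * n ≤ (n + 2) * (n + 1) * n :=
    Nat.mul_le_mul_right _ (Nat.mul_le_mul_left _ h5)
  have h8 : (n + 2) * (n + 1) * n < (n + 2) ^ 3 := by nlinarith
  omega

example : Cfsg.Agent.H74.BT.StB1Syl.{u} := b1Syl

end Cfsg.Agent.H11.BT

#print axioms Cfsg.Agent.H11.BT.b1Syl
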