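import Mathlib
import Cfsg.Prelude.Def_BaumannBlocks
import Cfsg.Agent.H56.CD
import Cfsg.Agent.H56.CD2
import Cfsg.Agent.H56.CDP
import Cfsg.Agent.H56.CL
import Cfsg.Agent.H56.CL2
import Cfsg.Agent.H56.CL3

/-!
# A replacement theorem for minimal centrally large subgroups (helper11)

General group lemmas (product formula under normalisation, the commutator of a factorised
product of two abelian subgroups is abelian), used for the replacement theorem.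
-/

set_option autoImplicit false

namespace Cfsg.Agent.H11.CLN

open Subgroup
open scoped Pointwise commutatorElement

variable {G : Type*} [Group G]

/-- The product formula when `H` normalises `K`. -/
theorem card_sup_mul_card_inf [Finite G] {H K : Subgroup G} (h : H ≤ normalizer (K : Set G)) :
    Nat.card (H ⊔ K : Subgroup G) * Nat.card (H ⊓ K : Subgroup G) = Nat.card H * Nat.card K := by
  have e1 : K.relIndex (H ⊔ K) = K.relIndex H := by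
    let _ := Subgroup.normal_subgroupOf_of_le_normalizer h
    let _ := Subgroup.normal_subgroupOf_sup_of_le_normalizer h
    exact Nat.card_congr (QuotientGroup.quotientInfEquivProdNormalizerQuotient H K h).toEquiv.symm
  have e2 := Cfsg.Agent.H56.card_mul_relIndex' (le_sup_right : K ≤ H ⊔ K)
  have e3 := Cfsg.Agent.H56.card_mul_relIndex' (inf_le_left : H ⊓ K ≤ H)
  rw [Subgroup.inf_relIndex_left] at e3
  rw [← e2, ← e3, e1]; ring

/-- If every element of `H` conjugates `N` into itself then `H` normalises `N`. -/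
theorem le_normalizer_of_conj_mem {H N : Subgroup G}
    (h : ∀ g ∈ H, ∀ x ∈ N, g * x * g⁻¹ ∈ N) : H ≤ normalizer (N : Set G) := by
  intro g hg
  rw [Subgroup.mem_normalizer_iff]
  intro x
  constructor
  · exact h g hg x
  · intro hx
    have := h g⁻¹ (inv_mem hg) _ hx
    have e : g⁻¹ * (g * x * g⁻¹) * g⁻¹⁻¹ = x := by group
    rwa [e] at this

/-- Conjugation by `g` preserves a join if it preserves both factors. -/
theorem conj_mem_sup {K F : Subgroup G} {g : G}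
    (hK : ∀ x ∈ K, g * x * g⁻¹ ∈ K) (hF : ∀ x ∈ F, g * x * g⁻¹ ∈ F) :
    ∀ x ∈ K ⊔ F, g * x * g⁻¹ ∈ K ⊔ F := by
  have h : K ⊔ F ≤ (K ⊔ F).comap (MulAut.conj g).toMonoidHom := by
    refine sup_le ?_ ?_
    · intro x hx
      rw [Subgroup.mem_comap]
      exact (le_sup_left : K ≤ K ⊔ F) (by simpa using hK x hx)
    · intro x hx
      rw [Subgroup.mem_comap]
      exact (le_sup_right : F ≤ K ⊔ F) (by simpa using hF x hx)
  intro x hx
  simpa using h hx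

/-- The normaliser of `H` normalises the centraliser of `H`. -/
theorem normalizer_le_normalizer_centralizer (H : Subgroup G) :
    normalizer (H : Set G) ≤ normalizer ((centralizer (H : Set G) : Subgroup G) : Set G) := by
  apply le_normalizer_of_conj_mem
  intro g hg x hx
  rw [Subgroup.mem_centralizer_iff] at hx ⊢
  intro z hz
  have hz' : g⁻¹ * z * g ∈ H := by
    have := (Subgroup.mem_normalizer_iff''.1 hg z).1 hz
    exact this
  have := hx _ hz'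
  calc z * (g * x * g⁻¹) = g * ((g⁻¹ * z * g) * x) * g⁻¹ := by group
    _ = g * (x * (g⁻¹ * z * g)) * g⁻¹ := by rw [this]
    _ = g * x * g⁻¹ * z := by group

/-- Itô's lemma: in a factorised product `Z A` of two abelian subgroups, any two commutators
`[z, a]`, `[z₁, a₁]` commute. -/
theorem ito_commute {Z A : Subgroup G}
    (hZ : ∀ x ∈ Z, ∀ y ∈ Z, x * y = y * x) (hA : ∀ x ∈ A, ∀ y ∈ A, x * y = y * x)
    (hZA : ((Z ⊔ A : Subgroup G) : Set G) = (Z : Set G) * (A : Set G))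
    {z a z₁ a₁ : G} (hz : z ∈ Z) (ha : a ∈ A) (hz₁ : z₁ ∈ Z) (ha₁ : a₁ ∈ A) :
    ⁅z, a⁆ * ⁅z₁, a₁⁆ = ⁅z₁, a₁⁆ * ⁅z, a⁆ := by
  have conj_comm : ∀ g x y : G, g * ⁅x, y⁆ * g⁻¹ = ⁅g * x * g⁻¹, g * y * g⁻¹⁆ := by
    intro g x y
    simp only [commutatorElement_def]; group
  -- the key identity
  have key : ∀ u ∈ Z, ∀ b ∈ A,
      (u * b) * ⁅z, a⁆ * (u * b)⁻¹ = (b * u) * ⁅z, a⁆ * (b * u)⁻¹ := by
    intro u hu b hb
    -- b z b⁻¹ = z₂ a₂
    have h1 : b * z * b⁻¹ ∈ ((Z ⊔ A : Subgroup G) : Set G) :=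
      mul_mem (mul_mem ((le_sup_right : A ≤ Z ⊔ A) hb) ((le_sup_left : Z ≤ Z ⊔ A) hz))
        (inv_mem ((le_sup_right : A ≤ Z ⊔ A) hb))
    rw [hZA, Set.mem_mul] at h1
    obtain ⟨z₂, hz₂, a₂, ha₂, h12⟩ := h1
    -- u a u⁻¹ = a₃ z₃
    have h2 : (u * a * u⁻¹)⁻¹ ∈ ((Z ⊔ A : Subgroup G) : Set G) :=
      inv_mem (mul_mem (mul_mem ((le_sup_left : Z ≤ Z ⊔ A) hu) ((le_sup_right : A ≤ Z ⊔ A) ha))
        (inv_mem ((le_sup_left : Z ≤ Z ⊔ A) hu)))
    rw [hZA, Set.mem_mul] at h2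
    obtain ⟨z', hz', a', ha', h22⟩ := h2
    have h23 : u * a * u⁻¹ = a'⁻¹ * z'⁻¹ := by
      rw [← mul_inv_rev, h22, inv_inv]
    have hz2 : z₂ ∈ (Z : Subgroup G) := hz₂
    have ha2 : a₂ ∈ (A : Subgroup G) := ha₂
    have hz3 : z'⁻¹ ∈ Z := inv_mem hz'
    have ha3 : a'⁻¹ ∈ A := inv_mem ha'
    have e1 : b * a * b⁻¹ = a := by rw [hA b hb a ha]; group
    have e2 : u * z₂ * u⁻¹ = z₂ := by rw [hZ u hu z₂ hz2]; group
    have e3 : u * z * u⁻¹ = z := by rw [hZ u hu z hz]; group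
    have e4 : b * a'⁻¹ * b⁻¹ = a'⁻¹ := by rw [hA b hb _ ha3]; group
    have L : (u * b) * ⁅z, a⁆ * (u * b)⁻¹ = ⁅z₂, a'⁻¹⁆ := by
      have s1 : (u * b) * ⁅z, a⁆ * (u * b)⁻¹ = u * (b * ⁅z, a⁆ * b⁻¹) * u⁻¹ := by group
      rw [s1, conj_comm b, e1, ← h12,
        Cfsg.Agent.H56.commutatorElement_mul_left_of_commute (hA a₂ ha2 a ha),
        conj_comm u, e2, h23,
        Cfsg.Agent.H56.commutatorElement_mul_right_of_commute (hZ _ hz3 z₂ hz2)]
    have R : (b * u) * ⁅z, a⁆ * (b * u)⁻¹ = ⁅z₂, a'⁻¹⁆ := by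
      have s1 : (b * u) * ⁅z, a⁆ * (b * u)⁻¹ = b * (u * ⁅z, a⁆ * u⁻¹) * b⁻¹ := by group
      rw [s1, conj_comm u, e3, h23,
        Cfsg.Agent.H56.commutatorElement_mul_right_of_commute (hZ _ hz3 z hz),
        conj_comm b, e4, ← h12,
        Cfsg.Agent.H56.commutatorElement_mul_left_of_commute (hA a₂ ha2 _ ha3)]
    rw [L, R]
  have k := key z₁⁻¹ (inv_mem hz₁) a₁⁻¹ (inv_mem ha₁)
  have e : ⁅z₁, a₁⁆ = (a₁⁻¹ * z₁⁻¹)⁻¹ * (z₁⁻¹ * a₁⁻¹) := by
    rw [commutatorElement_def]; group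
  rw [e]
  calc ⁅z, a⁆ * ((a₁⁻¹ * z₁⁻¹)⁻¹ * (z₁⁻¹ * a₁⁻¹))
      = (a₁⁻¹ * z₁⁻¹)⁻¹ * ((a₁⁻¹ * z₁⁻¹) * ⁅z, a⁆ * (a₁⁻¹ * z₁⁻¹)⁻¹) * (z₁⁻¹ * a₁⁻¹) := by group
    _ = (a₁⁻¹ * z₁⁻¹)⁻¹ * ((z₁⁻¹ * a₁⁻¹) * ⁅z, a⁆ * (z₁⁻¹ * a₁⁻¹)⁻¹) * (z₁⁻¹ * a₁⁻¹) := by rw [k]
    _ = (a₁⁻¹ * z₁⁻¹)⁻¹ * (z₁⁻¹ * a₁⁻¹) * ⁅z, a⁆ := by group

/-- Itô: the commutator subgroup `[Z, A]` of a factorised product of two abelian subgroups is
abelian. -/
theorem ito_le_centralizer {Z A : Subgroup G}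
    (hZ : ∀ x ∈ Z, ∀ y ∈ Z, x * y = y * x) (hA : ∀ x ∈ A, ∀ y ∈ A, x * y = y * x)
    (hZA : ((Z ⊔ A : Subgroup G) : Set G) = (Z : Set G) * (A : Set G)) :
    ⁅Z, A⁆ ≤ centralizer ((⁅Z, A⁆ : Subgroup G) : Set G) := by
  rw [Subgroup.commutator_def]
  set S : Set G := {g | ∃ g₁ ∈ Z, ∃ g₂ ∈ A, ⁅g₁, g₂⁆ = g} with hS
  have h1 : ∀ s ∈ S, closure S ≤ centralizer ({s} : Set G) := by
    intro s hs
    rw [Subgroup.closure_le]
    intro t ht
    obtain ⟨z, hz, a, ha, rfl⟩ := hs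
    obtain ⟨z₁, hz₁, a₁, ha₁, rfl⟩ := ht
    rw [SetLike.mem_coe, Subgroup.mem_centralizer_iff]
    intro x hx
    rw [Set.mem_singleton_iff] at hx
    rw [hx]
    exact ito_commute hZ hA hZA hz ha hz₁ ha₁
  rw [Subgroup.closure_le]
  intro s hs
  rw [SetLike.mem_coe, Subgroup.mem_centralizer_iff]
  intro t ht
  have := h1 s hs ht
  rw [Subgroup.mem_centralizer_iff] at this
  exact (this s rfl).symm

end Cfsg.Agent.H11.CLN
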