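import Mathlib
import Cfsg.Agent.H11.CLBase

/-!
# The replacement theorem for centres of minimal centrally large subgroups (helper11)

`IsZ Z`: `Z` is the centre `C(Q) = Z(Q)` of a minimal centrally large subgroup `Q = C(Z)`.
For such a `Z` and an abelian subgroup `A` of largest order, `M = [Z, A] F` is again such a
centre, where `F = Z(Z [Z, A])` is an `A`-invariant subgroup of `Z`.
-/

set_option autoImplicit false

namespace Cfsg.Agent.H11.CLN

open Subgroup
open scoped Pointwise commutatorElement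

variable {G : Type*} [Group G]

/-- `Z` is the centraliser (= centre) of a minimal centrally large subgroup. -/
def IsZ (Z : Subgroup G) : Prop :=
  Cfsg.IsMinimalCentrallyLarge (centralizer (Z : Set G)) ∧
    centralizer ((centralizer (Z : Set G) : Subgroup G) : Set G) = Z

theorem isZ_centralizer [Finite G] {Q : Subgroup G} (hQ : Cfsg.IsMinimalCentrallyLarge Q) :
    IsZ (centralizer (Q : Set G)) := by
  have hM := Cfsg.Agent.H56.meas_le_maxCentralizerProduct (G := G)
  have h := (Cfsg.Agent.H56.cd_centralizer hM (Cfsg.Agent.H56.cl_meas_eq hQ.1)).2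
  refine ⟨?_, ?_⟩
  · rw [h]; exact hQ
  · rw [h]

theorem exists_isZ [Finite G] : ∃ Z : Subgroup G, IsZ Z := by
  obtain ⟨Q, hQ⟩ := Cfsg.Agent.H56.exists_isMinimalCentrallyLarge (G := G)
  exact ⟨_, isZ_centralizer hQ⟩

section facts

variable [Finite G] {Z : Subgroup G} (hZ : IsZ Z)
include hZ

theorem IsZ.meas_eq : Cfsg.Agent.H56.meas Z = Cfsg.maxCentralizerProduct G := by
  have hM := Cfsg.Agent.H56.meas_le_maxCentralizerProduct (G := G)
  have h := (Cfsg.Agent.H56.cd_centralizer hM (Cfsg.Agent.H56.cl_meas_eq hZ.1.1)).1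
  rwa [hZ.2] at h

theorem IsZ.le_centralizer : Z ≤ centralizer (Z : Set G) := by
  have h := Cfsg.Agent.H56.cl_centralizer_le hZ.1.1
  rwa [hZ.2] at h

theorem IsZ.comm : ∀ x ∈ Z, ∀ y ∈ Z, x * y = y * x := by
  intro x hx y hy
  have := hZ.le_centralizer hy
  rw [Subgroup.mem_centralizer_iff] at this
  exact this x hx

/-- Maximality among abelian subgroups of largest Chermak–Delgado measure. -/
theorem IsZ.eq_of_le {K : Subgroup G} (hK : Cfsg.Agent.H56.meas K = Cfsg.maxCentralizerProduct G)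
    (hKab : K ≤ centralizer (K : Set G)) (hZK : Z ≤ K) : K = Z := by
  have hM := Cfsg.Agent.H56.meas_le_maxCentralizerProduct (G := G)
  obtain ⟨h1, h2⟩ := Cfsg.Agent.H56.cd_centralizer hM hK
  have hcl : Cfsg.IsCentrallyLarge (centralizer (K : Set G)) := by
    rw [Cfsg.Agent.H56.isCentrallyLarge_iff']
    refine ⟨h1, ?_⟩
    rw [h2]; exact hKab
  have hle : centralizer (K : Set G) ≤ centralizer (Z : Set G) :=
    Subgroup.centralizer_le (by exact_mod_cast hZK)
  have h3 := hZ.1.2 _ hle hcl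
  rw [← h2, h3, hZ.2]

end facts

/-- The arithmetic at the heart of the replacement theorem. -/
theorem arith_aux {z q s r f μ c Mx : ℕ} (hz : 0 < z) (hr : 0 < r) (hm : 0 < μ)
    (e1 : z * q = Mx) (e2 : s * r = Mx) (i1 : z * r ≤ q * f) (i2 : s * f ≤ z * μ)
    (i3 : μ * r ≤ c * f) (i4 : μ * c ≤ Mx) : μ = z ∧ c = q := by
  have j1 : z * z ≤ s * f := by
    have : z * z * r ≤ s * f * r := by
      calc z * z * r = z * (z * r) := by ring
        _ ≤ z * (q * f) := Nat.mul_le_mul_left _ i1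
        _ = (z * q) * f := by ring
        _ = (s * r) * f := by rw [e1, e2]
        _ = s * f * r := by ring
    exact Nat.le_of_mul_le_mul_right this hr
  have j2 : z ≤ μ := Nat.le_of_mul_le_mul_left (j1.trans i2) hz
  have j3 : μ * μ ≤ s * f := by
    have : μ * μ * r ≤ s * f * r := by
      calc μ * μ * r = μ * (μ * r) := by ring
        _ ≤ μ * (c * f) := Nat.mul_le_mul_left _ i3
        _ = (μ * c) * f := by ring
        _ ≤ Mx * f := Nat.mul_le_mul_right _ i4
        _ = s * f * r := by rw [← e2]; ring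
    exact Nat.le_of_mul_le_mul_right this hr
  have j4 : μ ≤ z := by
    have : μ * μ ≤ μ * z := by rw [mul_comm μ z]; exact j3.trans i2
    exact Nat.le_of_mul_le_mul_left this hm
  have hμ : μ = z := le_antisymm j4 j2
  subst hμ
  have j5 : s * f = μ * μ := le_antisymm i2 j1
  have j6 : q ≤ c := by
    have : μ * μ * q ≤ μ * μ * c := by
      calc μ * μ * q = μ * (μ * q) := by ring
        _ = μ * (s * r) := by rw [e1, e2]
        _ = s * (μ * r) := by ring
        _ ≤ s * (c * f) := Nat.mul_le_mul_left _ i3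
        _ = (s * f) * c := by ring
        _ = μ * μ * c := by rw [j5]
    exact Nat.le_of_mul_le_mul_left this (Nat.mul_pos hm hm)
  have j7 : c ≤ q := by
    have : μ * c ≤ μ * q := by rw [e1]; exact i4
    exact Nat.le_of_mul_le_mul_left this hm
  exact ⟨rfl, le_antisymm j7 j6⟩

/-- The replacement theorem. -/
theorem repl [Finite G] {Z A : Subgroup G} (hZ : IsZ Z) (hA : A ∈ Cfsg.maxAbelianSubgroups G) :
    ∃ F M : Subgroup G, IsZ M ∧ Nat.card M = Nat.card Z ∧ F ≤ Z ∧ F ≤ M ∧ M ≤ ⁅Z, A⁆ ⊔ F ∧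
      (∀ a ∈ A, ∀ f ∈ F, a * f * a⁻¹ ∈ F) := by
  have hM := Cfsg.Agent.H56.meas_le_maxCentralizerProduct (G := G)
  set Mx := Cfsg.maxCentralizerProduct G with hMx
  set Q := centralizer (Z : Set G) with hQdef
  have hQ : Cfsg.IsMinimalCentrallyLarge Q := hZ.1
  have hCQ : centralizer (Q : Set G) = Z := hZ.2
  have hZl : Cfsg.Agent.H56.meas Z = Mx := hZ.meas_eq
  have hZQ : Z ≤ Q := hZ.le_centralizer
  have hZab := hZ.comm
  have hAc : A ≤ centralizer (A : Set G) := Cfsg.Agent.H56.le_centralizer_of_isMulCommutative hA.1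
  have hAab : ∀ x ∈ A, ∀ y ∈ A, x * y = y * x := by
    intro x hx y hy
    have := hAc hy
    rw [Subgroup.mem_centralizer_iff] at this
    exact this x hx
  have hZA : ((Z ⊔ A : Subgroup G) : Set G) = (Z : Set G) * (A : Set G) := by
    have h := (Cfsg.Agent.H56.cl_maxAbelian_centralizer hQ.1 hA).2
    have e : Q ⊓ centralizer (Q : Set G) = Z := by
      rw [inf_eq_right.2 (Cfsg.Agent.H56.cl_centralizer_le hQ.1), hCQ]
    rwa [e] at h
  set K := ⁅Z, A⁆ with hKdef
  set S := Z ⊔ K with hSdef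
  have hKab : K ≤ centralizer (K : Set G) := ito_le_centralizer hZab hAab hZA
  have hZS : Z ≤ S := le_sup_left
  have hKS : K ≤ S := le_sup_right
  -- A normalises K and S
  have hAK : ∀ a ∈ A, ∀ x ∈ K, a * x * a⁻¹ ∈ K := by
    intro a ha x hx
    have := Subgroup.normalizer_commutator_ge_right Z A ha
    exact (Subgroup.mem_normalizer_iff.1 this x).1 hx
  have hZK : ∀ z ∈ Z, ∀ x ∈ K, z * x * z⁻¹ ∈ K := by
    intro z hz x hx
    have := Subgroup.normalizer_commutator_ge_left Z A hz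
    exact (Subgroup.mem_normalizer_iff.1 this x).1 hx
  have hAS : ∀ a ∈ A, ∀ x ∈ S, a * x * a⁻¹ ∈ S := by
    intro a ha
    have h : S ≤ S.comap (MulAut.conj a).toMonoidHom := by
      refine sup_le ?_ ?_
      · intro z hz
        rw [Subgroup.mem_comap]
        have e : (MulAut.conj a).toMonoidHom z = (⁅z, a⁆)⁻¹ * z := by
          simp only [MulEquiv.toMonoidHom_eq_coe, MonoidHom.coe_coe, MulAut.conj_apply,
            commutatorElement_def]
          group
        rw [e]
        exact mul_mem (hKS (inv_mem (Subgroup.commutator_mem_commutator hz ha))) (hZS hz)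
      · intro x hx
        rw [Subgroup.mem_comap]
        exact hKS (by simpa using hAK a ha x hx)
    intro x hx
    simpa using h hx
  -- S has the largest measure
  have hSl : Cfsg.Agent.H56.meas S = Mx := by
    have hne : Nonempty {T : Subgroup G // Cfsg.Agent.H56.meas T = Mx ∧ Z ≤ T ∧ T ≤ S} :=
      ⟨⟨Z, hZl, le_rfl, hZS⟩⟩
    obtain ⟨⟨T, hT, hZT, hTS⟩, hTmax⟩ := Finite.exists_max
      (fun T : {T : Subgroup G // Cfsg.Agent.H56.meas T = Mx ∧ Z ≤ T ∧ T ≤ S} => Nat.card T.1)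
    have hconj : ∀ a ∈ A, ∀ x ∈ T, a * x * a⁻¹ ∈ T := by
      intro a ha x hx
      set T' := T.map (MulAut.conj a).toMonoidHom with hT'
      have hT'l : Cfsg.Agent.H56.meas T' = Mx := by
        rw [hT', Cfsg.Agent.H56.meas_map_equiv]; exact hT
      have hT'S : T' ≤ S := by
        intro y hy
        obtain ⟨x', hx', rfl⟩ := Subgroup.mem_map.1 hy
        simpa using hAS a ha x' (hTS hx')
      have h1 := (Cfsg.Agent.H56.cd_core hM hT hT'l).1
      have h2 := hTmax ⟨T ⊔ T', h1, hZT.trans le_sup_left, sup_le hTS hT'S⟩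
      have h3 : T ⊔ T' = T := (Subgroup.eq_of_le_of_card_ge le_sup_left h2).symm
      have h4 : T' ≤ T := by rw [← h3]; exact le_sup_right
      apply h4
      rw [hT']
      exact Subgroup.mem_map.2 ⟨x, hx, by simp⟩
    have hST : S ≤ T := by
      refine sup_le hZT ?_
      rw [hKdef, Subgroup.commutator_le]
      intro z hz a ha
      have e : ⁅z, a⁆ = z * (a * z⁻¹ * a⁻¹) := by
        rw [commutatorElement_def]; group
      rw [e]
      exact mul_mem (hZT hz) (hconj a ha _ (hZT (inv_mem hz)))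
    rw [le_antisymm hST hTS]
    exact hT
  set R := centralizer (S : Set G) with hRdef
  obtain ⟨hRl, hCR⟩ := Cfsg.Agent.H56.cd_centralizer hM hSl
  set F := S ⊓ R with hFdef
  have hFl : Cfsg.Agent.H56.meas F = Mx := (Cfsg.Agent.H56.cd_core hM hSl hRl).2.1
  have hFS : F ≤ S := inf_le_left
  have hFR : F ≤ R := inf_le_right
  have hRZ : R ≤ centralizer (Z : Set G) := Subgroup.centralizer_le (by exact_mod_cast hZS)
  have hRK : R ≤ centralizer (K : Set G) := Subgroup.centralizer_le (by exact_mod_cast hKS)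
  have hRF : R ≤ centralizer (F : Set G) := Subgroup.centralizer_le (by exact_mod_cast hFS)
  have hFZc : F ≤ centralizer (Z : Set G) := hFR.trans hRZ
  have hFFc : F ≤ centralizer (F : Set G) := hFR.trans hRF
  have hFKc : F ≤ centralizer (K : Set G) := hFR.trans hRK
  -- F ≤ Z by maximality of Z
  have hFZ : F ≤ Z := by
    have h1 : Cfsg.Agent.H56.meas (Z ⊔ F) = Mx := (Cfsg.Agent.H56.cd_core hM hZl hFl).1
    have h2 : Z ⊔ F ≤ centralizer ((Z ⊔ F : Subgroup G) : Set G) := by
      rw [Cfsg.Agent.H56.centralizer_sup']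
      exact sup_le (le_inf hZQ (Subgroup.le_centralizer_iff.1 hFZc)) (le_inf hFZc hFFc)
    have h3 := hZ.eq_of_le h1 h2 le_sup_left
    rw [← h3]; exact le_sup_right
  set M := K ⊔ F with hMdef
  have hKM : K ≤ M := le_sup_left
  have hFM : F ≤ M := le_sup_right
  have hMS : M ≤ S := sup_le hKS hFS
  have hMab : M ≤ centralizer (M : Set G) := by
    rw [hMdef, Cfsg.Agent.H56.centralizer_sup']
    exact sup_le (le_inf hKab (Subgroup.le_centralizer_iff.1 hFKc)) (le_inf hFKc hFFc)
  have hRM : R ≤ centralizer (M : Set G) := Subgroup.centralizer_le (by exact_mod_cast hMS)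
  have hZMF : Z ⊓ M ≤ F := by
    intro x hx
    rw [Subgroup.mem_inf] at hx
    refine Subgroup.mem_inf.2 ⟨hZS hx.1, ?_⟩
    rw [hRdef, hSdef, Cfsg.Agent.H56.centralizer_sup']
    refine Subgroup.mem_inf.2 ⟨hZQ hx.1, ?_⟩
    exact (Subgroup.centralizer_le (by exact_mod_cast hKM)) (hMab hx.2)
  have hMRF : M ⊓ R ≤ F := inf_le_inf_right R hMS
  have hZRF : Z ⊓ R ≤ F := inf_le_inf_right R hZS
  have hZRQ : Z ⊔ R ≤ Q := sup_le hZQ hRZ
  have hMRC : M ⊔ R ≤ centralizer (M : Set G) := sup_le hMab hRM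
  -- Z normalises M
  have hZM : Z ≤ normalizer (M : Set G) := by
    apply le_normalizer_of_conj_mem
    intro z hz
    apply conj_mem_sup (hZK z hz)
    intro f hf
    have := hFZc hf
    rw [Subgroup.mem_centralizer_iff] at this
    have e : z * f * z⁻¹ = f := by rw [this z hz]; group
    rw [e]; exact hf
  -- the counting
  have e1 : Nat.card Z * Nat.card Q = Mx := hZl
  have e2 : Nat.card S * Nat.card R = Mx := hSl
  have i1 : Nat.card Z * Nat.card R ≤ Nat.card Q * Nat.card F :=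
    (Cfsg.Agent.H56.card_mul_card_le Z R).trans
      (Nat.mul_le_mul (Subgroup.card_le_of_le hZRQ) (Subgroup.card_le_of_le hZRF))
  have i2 : Nat.card S * Nat.card F ≤ Nat.card Z * Nat.card M := by
    rw [← card_sup_mul_card_inf hZM]
    exact Nat.mul_le_mul (Subgroup.card_le_of_le (sup_le le_sup_left (hKM.trans le_sup_right)))
      (Subgroup.card_le_of_le (le_inf hFZ hFM))
  have i3 : Nat.card M * Nat.card R ≤ Nat.card (centralizer (M : Set G)) * Nat.card F :=
    (Cfsg.Agent.H56.card_mul_card_le M R).trans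
      (Nat.mul_le_mul (Subgroup.card_le_of_le hMRC) (Subgroup.card_le_of_le hMRF))
  have i4 : Nat.card M * Nat.card (centralizer (M : Set G)) ≤ Mx := hM M
  obtain ⟨hμ, hcq⟩ := arith_aux (Nat.card_pos (α := Z)) (Nat.card_pos (α := R))
    (Nat.card_pos (α := M)) e1 e2 i1 i2 i3 i4
  have hMl : Cfsg.Agent.H56.meas M = Mx := by
    rw [Cfsg.Agent.H56.meas_def, hμ, hcq]; exact e1
  obtain ⟨hCMl, hCCM⟩ := Cfsg.Agent.H56.cd_centralizer hM hMl
  have hCMcl : Cfsg.IsCentrallyLarge (centralizer (M : Set G)) := by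
    rw [Cfsg.Agent.H56.isCentrallyLarge_iff']
    refine ⟨hCMl, ?_⟩
    rw [hCCM]; exact hMab
  have hMZ : IsZ M := by
    refine ⟨⟨hCMcl, ?_⟩, hCCM⟩
    intro R' hR'le hR'
    obtain ⟨Q'', hQ'', hQ''le⟩ := Cfsg.Agent.H56.exists_isMinimalCentrallyLarge_le hR'
    have h1 := (Cfsg.Agent.H56.mcl_card_eq hQ'' hQ).1
    have h2 : Q'' = centralizer (M : Set G) :=
      Subgroup.eq_of_le_of_card_ge (hQ''le.trans hR'le) (by rw [h1, hcq])
    exact le_antisymm hR'le (h2 ▸ hQ''le)
  refine ⟨F, M, hMZ, hμ, hFZ, hFM, le_rfl, ?_⟩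
  intro a ha x hx
  rw [hFdef, Subgroup.mem_inf] at hx ⊢
  refine ⟨hAS a ha x hx.1, ?_⟩
  rw [hRdef, Subgroup.mem_centralizer_iff]
  intro y hy
  have hy' : a⁻¹ * y * a⁻¹⁻¹ ∈ S := hAS a⁻¹ (inv_mem ha) y hy
  have hxc := hx.2
  rw [hRdef, Subgroup.mem_centralizer_iff] at hxc
  have := hxc _ hy'
  calc y * (a * x * a⁻¹) = a * ((a⁻¹ * y * a⁻¹⁻¹) * x) * a⁻¹ := by group
    _ = a * (x * (a⁻¹ * y * a⁻¹⁻¹)) * a⁻¹ := by rw [this]
    _ = a * x * a⁻¹ * y := by group

end Cfsg.Agent.H11.CLN
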