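import Mathlib
import Cfsg.Agent.H11.CLRepl

/-!
# A minimal centrally large subgroup normalised by `J(P)` and `P_MCL` (helper11)

Among the centres `Z` of minimal centrally large subgroups choose one that is lexicographically
largest for the orders of the intersections with the lower central series; the replacement
theorem then shows that it is normalised by every abelian subgroup of largest order.
-/

set_option autoImplicit false

namespace Cfsg.Agent.H11.CLN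

open Subgroup
open scoped Pointwise commutatorElement

/-- The lower central series of the whole group. -/
abbrev Lc (G : Type*) [Group G] (i : ℕ) : Subgroup G := (⊤ : Subgroup G).lowerCentralSeries i

/-- Successive refinement: the members of `Zs G i` maximise `|Z ∩ L₁|`, then `|Z ∩ L₂|`, …,
then `|Z ∩ Lᵢ|`. -/
def Zs (G : Type*) [Group G] : ℕ → Set (Subgroup G)
  | 0 => {Z | IsZ Z}
  | (i + 1) => {Z | Z ∈ Zs G i ∧
      ∀ Z' ∈ Zs G i, Nat.card ↥(Z' ⊓ Lc G (i + 1)) ≤ Nat.card ↥(Z ⊓ Lc G (i + 1))}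

variable {G : Type*} [Group G]

theorem Zs_zero (Z : Subgroup G) : Z ∈ Zs G 0 ↔ IsZ Z := Iff.rfl

theorem Zs_succ (Z : Subgroup G) (i : ℕ) : Z ∈ Zs G (i + 1) ↔ (Z ∈ Zs G i ∧
    ∀ Z' ∈ Zs G i, Nat.card ↥(Z' ⊓ Lc G (i + 1)) ≤ Nat.card ↥(Z ⊓ Lc G (i + 1))) := Iff.rfl

theorem Zs_isZ {Z : Subgroup G} : ∀ {i : ℕ}, Z ∈ Zs G i → IsZ Z
  | 0, h => h
  | (_ + 1), h => Zs_isZ ((Zs_succ Z _).1 h).1

theorem Zs_nonempty [Finite G] : ∀ i : ℕ, (Zs G i).Nonempty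
  | 0 => exists_isZ
  | (i + 1) => by
    obtain ⟨Z₀, hZ₀⟩ := Zs_nonempty i
    have hne : Nonempty {Z : Subgroup G // Z ∈ Zs G i} := ⟨⟨Z₀, hZ₀⟩⟩
    obtain ⟨⟨Z, hZ⟩, hmax⟩ := Finite.exists_max
      (fun Z : {Z : Subgroup G // Z ∈ Zs G i} => Nat.card ↥(Z.1 ⊓ Lc G (i + 1)))
    exact ⟨Z, (Zs_succ Z i).2 ⟨hZ, fun Z' hZ' => hmax ⟨Z', hZ'⟩⟩⟩

/-- One step of the lexicographic comparison. -/
theorem lex_step [Finite G] {Z A F M : Subgroup G} (i : ℕ)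
    (hcard : Nat.card M = Nat.card Z) (hFZ : F ≤ Z) (hMle : M ≤ ⁅Z, A⁆ ⊔ F)
    (hFA : ∀ a ∈ A, ∀ f ∈ F, a * f * a⁻¹ ∈ F) (hZi : Z ≤ F ⊔ Lc G i) :
    Nat.card ↥(Z ⊓ Lc G (i + 1)) ≤ Nat.card ↥(M ⊓ Lc G (i + 1)) ∧
    (Nat.card ↥(M ⊓ Lc G (i + 1)) ≤ Nat.card ↥(Z ⊓ Lc G (i + 1)) → Z ≤ F ⊔ Lc G (i + 1)) := by
  have hLn : (Lc G i).Normal := inferInstance
  have hL'n : (Lc G (i + 1)).Normal := inferInstance
  have hK : ⁅Z, A⁆ ≤ F ⊔ Lc G (i + 1) := by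
    rw [Subgroup.commutator_le]
    intro z hz a ha
    have hz' := hZi hz
    rw [Subgroup.mem_sup_of_normal_right] at hz'
    obtain ⟨f, hf, l, hl, rfl⟩ := hz'
    have e : ⁅f * l, a⁆ = (f * ⁅l, a⁆ * f⁻¹) * (f * (a * f⁻¹ * a⁻¹)) := by
      simp only [commutatorElement_def]; group
    rw [e]
    have h1 : ⁅l, a⁆ ∈ Lc G (i + 1) :=
      Subgroup.commutator_mem_commutator hl (Subgroup.mem_top a)
    exact mul_mem ((le_sup_right : Lc G (i + 1) ≤ F ⊔ Lc G (i + 1)) (hL'n.conj_mem _ h1 f))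
      ((le_sup_left : F ≤ F ⊔ Lc G (i + 1)) (mul_mem hf (hFA a ha _ (inv_mem hf))))
  have hM' : M ≤ F ⊔ Lc G (i + 1) := hMle.trans (sup_le hK le_sup_left)
  have cZ := card_sup_mul_card_inf (H := Z) (K := Lc G (i + 1)) Subgroup.le_normalizer_of_normal
  have cM := card_sup_mul_card_inf (H := M) (K := Lc G (i + 1)) Subgroup.le_normalizer_of_normal
  rw [hcard, ← cZ] at cM
  have h1 : Nat.card ↥(M ⊔ Lc G (i + 1)) ≤ Nat.card ↥(F ⊔ Lc G (i + 1)) :=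
    Subgroup.card_le_of_le (sup_le hM' le_sup_right)
  have h2le : F ⊔ Lc G (i + 1) ≤ Z ⊔ Lc G (i + 1) := sup_le_sup_right hFZ _
  have h2 : Nat.card ↥(F ⊔ Lc G (i + 1)) ≤ Nat.card ↥(Z ⊔ Lc G (i + 1)) :=
    Subgroup.card_le_of_le h2le
  have hpos1 : 0 < Nat.card ↥(Z ⊔ Lc G (i + 1)) := Nat.card_pos
  have hpos2 : 0 < Nat.card ↥(M ⊓ Lc G (i + 1)) := Nat.card_pos
  constructor
  · have : Nat.card ↥(Z ⊔ Lc G (i + 1)) * Nat.card ↥(Z ⊓ Lc G (i + 1)) ≤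
        Nat.card ↥(Z ⊔ Lc G (i + 1)) * Nat.card ↥(M ⊓ Lc G (i + 1)) := by
      rw [← cM]
      exact Nat.mul_le_mul_right _ (h1.trans h2)
    exact Nat.le_of_mul_le_mul_left this hpos1
  · intro hle
    have h3 : Nat.card ↥(Z ⊔ Lc G (i + 1)) ≤ Nat.card ↥(M ⊔ Lc G (i + 1)) := by
      have : Nat.card ↥(Z ⊔ Lc G (i + 1)) * Nat.card ↥(M ⊓ Lc G (i + 1)) ≤
          Nat.card ↥(M ⊔ Lc G (i + 1)) * Nat.card ↥(M ⊓ Lc G (i + 1)) := by
        rw [cM]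
        exact Nat.mul_le_mul_left _ hle
      exact Nat.le_of_mul_le_mul_right this hpos2
    have h4 : F ⊔ Lc G (i + 1) = Z ⊔ Lc G (i + 1) :=
      Subgroup.eq_of_le_of_card_ge h2le (h3.trans h1)
    rw [h4]; exact le_sup_left

/-- The lexicographic induction. -/
theorem lex_main [Finite G] {Z A F M : Subgroup G}
    (hMZ : IsZ M) (hcard : Nat.card M = Nat.card Z) (hFZ : F ≤ Z) (hMle : M ≤ ⁅Z, A⁆ ⊔ F)
    (hFA : ∀ a ∈ A, ∀ f ∈ F, a * f * a⁻¹ ∈ F) :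
    ∀ i : ℕ, Z ∈ Zs G i → M ∈ Zs G i ∧ Z ≤ F ⊔ Lc G i
  | 0, _ => ⟨hMZ, by
      have : Lc G 0 = ⊤ := rfl
      rw [this, sup_top_eq]; exact le_top⟩
  | (i + 1), h => by
    obtain ⟨hZi, hmax⟩ := (Zs_succ Z i).1 h
    obtain ⟨hMi, hle⟩ := lex_main hMZ hcard hFZ hMle hFA i hZi
    obtain ⟨h1, h2⟩ := lex_step i hcard hFZ hMle hFA hle
    exact ⟨(Zs_succ M i).2 ⟨hMi, fun Z' hZ' => (hmax Z' hZ').trans h1⟩, h2 (hmax M hMi)⟩

/-- In a nilpotent group some centre of a minimal centrally large subgroup is normalised by all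
abelian subgroups of largest order. -/
theorem exists_isZ_normalized [Finite G] [Group.IsNilpotent G] :
    ∃ Z : Subgroup G, IsZ Z ∧
      ∀ A ∈ Cfsg.maxAbelianSubgroups G, A ≤ normalizer (Z : Set G) := by
  obtain ⟨n, hn⟩ := Subgroup.nilpotent_iff_lowerCentralSeries.1 (inferInstance : Group.IsNilpotent G)
  obtain ⟨Z, hZ⟩ := Zs_nonempty (G := G) n
  refine ⟨Z, Zs_isZ hZ, ?_⟩
  intro A hA
  obtain ⟨F, M, hMZ, hcard, hFZ, -, hMle, hFA⟩ := repl (Zs_isZ hZ) hA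
  have h := (lex_main hMZ hcard hFZ hMle hFA n hZ).2
  have hn' : Lc G n = ⊥ := hn
  rw [hn', sup_bot_eq] at h
  apply le_normalizer_of_conj_mem
  intro a ha x hx
  exact hFZ (hFA a ha x (h hx))

/-- Some minimal centrally large subgroup is normalised by `J(P)` and by `P_MCL`. -/
theorem exists_mcl_normalized [Finite G] [Group.IsNilpotent G] :
    ∃ Q : Subgroup G, Cfsg.IsMinimalCentrallyLarge Q ∧
      Cfsg.thompsonSubgroupA G ≤ normalizer (Q : Set G) ∧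
      Cfsg.minimalCentrallyLargeJoin G ≤ normalizer (Q : Set G) := by
  obtain ⟨Z, hZ, hnorm⟩ := exists_isZ_normalized (G := G)
  have hJZ : Cfsg.thompsonSubgroupA G ≤ normalizer (Z : Set G) := sSup_le hnorm
  have hJQ : Cfsg.thompsonSubgroupA G ≤
      normalizer ((centralizer (Z : Set G) : Subgroup G) : Set G) :=
    hJZ.trans (normalizer_le_normalizer_centralizer Z)
  refine ⟨centralizer (Z : Set G), hZ.1, hJQ, ?_⟩
  apply sSup_le
  intro R hR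
  obtain ⟨A, hA⟩ := Cfsg.Agent.H56.exists_maxAbelian (G := G)
  have h1 := (Cfsg.Agent.H56.mcl_eq_inf_sup hR hZ.1.1).1
  have h2 : centralizer (R : Set G) ≤ Cfsg.thompsonSubgroupA G := by
    have h3 := (Cfsg.Agent.H56.cl_maxAbelian hR.1 hA).2.2.2.1
    have h4 : R ⊓ centralizer (R : Set G) = centralizer (R : Set G) :=
      inf_eq_right.2 (Cfsg.Agent.H56.cl_centralizer_le hR.1)
    rw [h4] at h3
    exact le_sup_left.trans (le_sSup h3)
  rw [← h1]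
  exact sup_le (inf_le_right.trans Subgroup.le_normalizer) (h2.trans hJQ)

end Cfsg.Agent.H11.CLN
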