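import Mathlib
import Cfsg.Prelude.Def_Blocks
import Cfsg.Agent.H81.DihBDefs
import Cfsg.Agent.H84.DihGlueA

/-!
helper11: S4481-COLSODD (`StmtColsOdd`): in the principal 2-block, the column of `σ ^ l`
(`0 < l < 2 ^ (n - 1)`) is orthogonal to the column of every element of odd order.
-/

set_option autoImplicit false

universe u

namespace Cfsg.Agent.H11.DihB

open Cfsg Cfsg.Agent.H84.Dih

theorem colsOdd : Cfsg.Agent.H81.DihB.StmtColsOdd.{u} := by
  intro G _ _ n P σ τ X h hX M hM g hg l hl hlm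
  have haux := Cfsg.Agent.H84.DihGlue.orth_aux h hX hM l hl hlm g
  have hKpos : (Nat.card ↥(X ⊓ Subgroup.centralizer ({σ ^ l} : Set G)) : ℂ) ≠ 0 := by
    have hpos : 0 < Nat.card ↥(X ⊓ Subgroup.centralizer ({σ ^ l} : Set G)) := Nat.card_pos
    exact_mod_cast hpos.ne'
  have hempty : IsEmpty {w : G // ∃ ρ ∈ X ⊓ Subgroup.centralizer ({σ ^ l} : Set G),
      w⁻¹ * g * w = σ ^ l * ρ} := by
    constructor
    rintro ⟨w, ρ, hρ, hw⟩
    have hcomm : Commute (σ ^ l) ρ :=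
      Subgroup.mem_centralizer_iff.mp hρ.2 (σ ^ l) (Set.mem_singleton _)
    have h1 : (σ ^ l * ρ) ^ (orderOf g * Nat.card X) = 1 := by
      rw [← hw]
      have e : w⁻¹ * g * w = w⁻¹ * g * w⁻¹⁻¹ := by rw [inv_inv]
      rw [e, conj_pow, pow_mul, pow_orderOf_eq_one, one_pow]
      group
    have hρX : ρ ^ Nat.card X = 1 :=
      orderOf_dvd_iff_pow_eq_one.mp (Subgroup.orderOf_dvd_natCard X hρ.1)
    have hρN : ρ ^ (orderOf g * Nat.card X) = 1 := by
      rw [mul_comm, pow_mul, hρX, one_pow]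
    rw [hcomm.mul_pow, hρN, mul_one] at h1
    have h2 : orderOf (σ ^ l) ∣ orderOf g * Nat.card X := orderOf_dvd_of_pow_eq_one h1
    have h3 : orderOf (σ ^ l) ∣ 2 ^ (n - 1) :=
      orderOf_dvd_of_pow_eq_one (Cfsg.Agent.H84.DihGlue.σ_pow_N h l)
    have hodd : Odd (orderOf (σ ^ l)) := Odd.of_dvd_nat (hg.mul hX.odd) h2
    have h5 : orderOf (σ ^ l) = 1 :=
      Nat.Coprime.eq_one_of_dvd (Nat.Coprime.pow_right _ (Nat.coprime_two_right.mpr hodd)) h3
    have h6 : σ ^ l = 1 := orderOf_eq_one_iff.mp h5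
    exact pow_ne_one_of_lt_orderOf hl.ne' (by rw [h.hσo]; exact hlm) h6
  rw [@Nat.card_of_isEmpty _ hempty, Nat.cast_zero] at haux
  rcases mul_eq_zero.mp haux with h0 | h0
  · exact h0
  · exact absurd h0 hKpos

example : Cfsg.Agent.H81.DihB.StmtColsOdd.{u} := colsOdd

end Cfsg.Agent.H11.DihB

#print axioms Cfsg.Agent.H11.DihB.colsOdd
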