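import Cfsg.Agent.H11.DihRing
import Cfsg.Agent.H74.DihBasic

set_option autoImplicit false
set_option linter.unusedSectionVars false

/-!
# Frobenius step for primitive Schur rings over dihedral groups (helper11, S3572-FROB)
-/

namespace Cfsg.Agent.H11.Dih

open DihedralGroup Cfsg.Agent.H74.Dih

variable {n : ℕ} [NeZero n]

namespace DZ

lemma rotP_class (P : PSR n) {f : DZ n} (hf : Resp P.rel (f : DihedralGroup n → ℤ))
    (g x : DihedralGroup n) : rotP f (g⁻¹ * x * g) = rotP f x := by
  cases x with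
  | r i =>
    cases g with
    | r j =>
      have h1 : (r j : DihedralGroup n)⁻¹ * r i * r j = r i := by
        show r (-j) * r i * r j = r i
        rw [r_mul_r, r_mul_r]
        congr 1
        ring
      rw [h1]
    | sr j =>
      have h1 : (sr j : DihedralGroup n)⁻¹ * r i * sr j = (r i)⁻¹ := by
        show sr j * r i * sr j = r (-i)
        rw [sr_mul_r, sr_mul_sr]
        congr 1
        ring
      rw [h1]
      show f (r i)⁻¹ = f (r i)
      exact (hf _ _ (rel_inv P (r i))).symm
  | sr i =>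
    have h1 : par (g⁻¹ * sr i * g) ≠ false := by
      rw [par_mul, par_mul, par_inv]
      cases par g <;> simp [par]
    rw [Sup_rotP f _ h1]
    rfl

lemma fermat_pow (p M : ℕ) (hp : p.Prime) (c : ℤ) : (p : ℤ) ∣ c ^ p ^ M - c := by
  haveI := Fact.mk hp
  rw [← ZMod.intCast_zmod_eq_zero_iff_dvd]
  push_cast
  rw [ZMod.pow_card_pow, sub_self]

theorem frobZ (P : PSR n) (p : ℕ) (hp : p.Prime) (hp2 : p ≠ 2) (M : ℕ) (f : DZ n)
    (hf : Resp P.rel (f : DihedralGroup n → ℤ)) (k : ZMod n) :
    (p : ℤ) ∣ (f ^ p ^ M) (r k) -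
      ∑ i ∈ Finset.univ.filter (fun i : ZMod n => p ^ M • i = k), f (r i) := by
  classical
  have hfa : f = rotP f + refP f := (rot_add_ref f).symm
  have hcomm : Commute (rotP f) (refP f) := central (rotP_class P hf) (refP f)
  obtain ⟨W1, h1⟩ := hcomm.exists_add_pow_prime_pow_eq hp M
  obtain ⟨W2, h2⟩ := sum_pow_prime_pow p M hp (Finset.univ : Finset (ZMod n))
    (fun i => sg (r i) (f (r i)))
    (fun i _ j _ => by
      show sg (r i) (f (r i)) * sg (r j) (f (r j)) = sg (r j) (f (r j)) * sg (r i) (f (r i))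
      rw [sg_mul, sg_mul, r_mul_r, r_mul_r, add_comm, mul_comm])
  rw [← rotP_eq_sum] at h2
  have hodd : Odd (p ^ M) := (hp.odd_of_ne_two hp2).pow
  obtain ⟨t, ht⟩ := hodd
  have hN0 : (refP f ^ p ^ M) (r k) = 0 := by
    rw [ht]
    exact (Sup_refP f).odd_pow t (r k) (by simp [par])
  have e1 : f ^ p ^ M = rotP f ^ p ^ M + refP f ^ p ^ M + ↑p * rotP f * refP f * W1 := by
    rw [← h1, ← hfa]
  have e2 : (f ^ p ^ M) (r k) =
      ∑ i ∈ Finset.univ.filter (fun i : ZMod n => p ^ M • i = k), f (r i) ^ p ^ M +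
        p * W2 (r k) + p * (rotP f * refP f * W1) (r k) := by
    rw [e1, add_apply, add_apply, hN0, add_zero, h2, add_apply, sum_apply, natCast_mul_apply,
      mul_assoc, mul_assoc, natCast_mul_apply, ← mul_assoc]
    congr 2
    rw [Finset.sum_filter]
    apply Finset.sum_congr rfl
    intro i _
    rw [sg_pow, r_pow']
    unfold sg
    by_cases hik : p ^ M • i = k
    · rw [if_pos hik, if_pos (by rw [hik])]
    · rw [if_neg hik, if_neg]
      intro h3
      exact hik (r.inj h3).symm
  rw [e2]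
  have e3 : ∑ i ∈ Finset.univ.filter (fun i : ZMod n => p ^ M • i = k), f (r i) ^ p ^ M +
        p * W2 (r k) + p * (rotP f * refP f * W1) (r k) -
      ∑ i ∈ Finset.univ.filter (fun i : ZMod n => p ^ M • i = k), f (r i) =
      ∑ i ∈ Finset.univ.filter (fun i : ZMod n => p ^ M • i = k), (f (r i) ^ p ^ M - f (r i)) +
        p * W2 (r k) + p * (rotP f * refP f * W1) (r k) := by
    rw [Finset.sum_sub_distrib]
    ring
  rw [e3]
  apply dvd_add
  · apply dvd_add
    · apply Finset.dvd_sum
      intro i _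
      exact fermat_pow p M hp _
    · exact dvd_mul_right _ _
  · exact dvd_mul_right _ _

end DZ

/-- **S3572-FROB.** -/
theorem frob (P : PSR n) (p : ℕ) (hp : p.Prime) (hp2 : p ≠ 2) (f : DihedralGroup n → ℤ)
    (hf : Resp P.rel f) (k : ZMod n) :
    (p : ℤ) ∣ cpow f p (r k) -
      ∑ i ∈ Finset.univ.filter (fun i : ZMod n => p • i = k), f (r i) := by
  have h := DZ.frobZ P p hp hp2 1 (show DZ n from f) hf k
  rw [pow_one] at h
  rw [DZ.cpow_eq]
  exact h

end Cfsg.Agent.H11.Dih
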