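import Cfsg.Agent.H74.DihDefs

set_option autoImplicit false
set_option linter.unusedSectionVars false

/-!
# The convolution ring of integer functions on a dihedral group (helper11, for S3572)
-/

namespace Cfsg.Agent.H11.Dih

open DihedralGroup Cfsg.Agent.H74.Dih

variable {n : ℕ} [NeZero n]

/-- integer functions on the dihedral group, as a ring under convolution. -/
def DZ (n : ℕ) : Type := DihedralGroup n → ℤ

namespace DZ

instance : AddCommGroup (DZ n) := inferInstanceAs (AddCommGroup (DihedralGroup n → ℤ))

lemma ext {f g : DZ n} (h : ∀ x, f x = g x) : f = g := funext h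

instance : Mul (DZ n) := ⟨fun f g => conv f g⟩
instance : One (DZ n) := ⟨fun h => if h = 1 then 1 else 0⟩

lemma mul_apply (f g : DZ n) (h : DihedralGroup n) :
    (f * g) h = ∑ x : DihedralGroup n, f x * g (x⁻¹ * h) := rfl
lemma mul_eq_conv (f g : DZ n) : f * g = conv f g := rfl
lemma one_apply (h : DihedralGroup n) : (1 : DZ n) h = if h = 1 then 1 else 0 := rfl
@[simp] lemma add_apply (f g : DZ n) (h : DihedralGroup n) : (f + g) h = f h + g h := rfl
@[simp] lemma sub_apply (f g : DZ n) (h : DihedralGroup n) : (f - g) h = f h - g h := rfl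
@[simp] lemma neg_apply (f : DZ n) (h : DihedralGroup n) : (-f) h = -f h := rfl
@[simp] lemma zero_apply (h : DihedralGroup n) : (0 : DZ n) h = 0 := rfl
lemma nsmul_apply (k : ℕ) (f : DZ n) (h : DihedralGroup n) : (k • f) h = k * f h := by
  show k • f h = _
  rw [nsmul_eq_mul]

lemma sum_apply {ι : Type*} (s : Finset ι) (F : ι → DZ n) (h : DihedralGroup n) :
    (∑ i ∈ s, F i) h = ∑ i ∈ s, F i h := by
  classical
  induction s using Finset.induction_on with
  | empty => simp
  | insert a s ha ih => rw [Finset.sum_insert ha, Finset.sum_insert ha, add_apply, ih]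

lemma mul_assoc' (f g k : DZ n) : f * g * k = f * (g * k) := by
  apply ext
  intro h
  simp only [mul_apply, Finset.sum_mul, Finset.mul_sum]
  rw [Finset.sum_comm]
  apply Finset.sum_congr rfl
  intro y _
  rw [← Equiv.sum_comp (Equiv.mulLeft y)]
  apply Finset.sum_congr rfl
  intro z _
  simp only [Equiv.coe_mulLeft]
  have h1 : y⁻¹ * (y * z) = z := by group
  have h2 : (y * z)⁻¹ * h = z⁻¹ * (y⁻¹ * h) := by group
  rw [h1, h2, mul_assoc]

instance : Ring (DZ n) :=
  { (inferInstance : AddCommGroup (DZ n)) with
    mul := (· * ·)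
    one := 1
    mul_assoc := mul_assoc'
    one_mul := by
      intro f
      apply ext
      intro h
      rw [mul_apply]
      rw [Finset.sum_eq_single (1 : DihedralGroup n)]
      · simp [one_apply]
      · intro b _ hb
        simp [one_apply, hb]
      · intro h1
        exact absurd (Finset.mem_univ _) h1
    mul_one := by
      intro f
      apply ext
      intro h
      rw [mul_apply]
      rw [Finset.sum_eq_single h]
      · simp [one_apply]
      · intro b _ hb
        have : b⁻¹ * h ≠ 1 := by
          intro h2
          apply hb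
          rw [inv_mul_eq_one] at h2
          exact h2
        simp [one_apply, this]
      · intro h1
        exact absurd (Finset.mem_univ _) h1
    left_distrib := by
      intro f g k
      apply ext
      intro h
      simp only [mul_apply, add_apply, mul_add, Finset.sum_add_distrib]
    right_distrib := by
      intro f g k
      apply ext
      intro h
      simp only [mul_apply, add_apply, add_mul, Finset.sum_add_distrib]
    zero_mul := by
      intro f
      apply ext
      intro h
      simp [mul_apply]
    mul_zero := by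
      intro f
      apply ext
      intro h
      simp [mul_apply] }

lemma natCast_mul_apply (k : ℕ) (f : DZ n) (h : DihedralGroup n) :
    ((k : DZ n) * f) h = k * f h := by
  rw [← nsmul_eq_mul, nsmul_apply]

lemma cpow_eq (f : DihedralGroup n → ℤ) (k : ℕ) : cpow f k = (show DZ n from f) ^ k := by
  induction k with
  | zero => rw [pow_zero]; rfl
  | succ k ih =>
    rw [pow_succ]
    show conv (cpow f k) f = _
    rw [ih]
    rfl

/-! ### parity -/

/-- parity of an element of the dihedral group: `false` on rotations, `true` on reflections. -/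
def par : DihedralGroup n → Bool
  | r _ => false
  | sr _ => true

lemma par_mul (x y : DihedralGroup n) : par (x * y) = xor (par x) (par y) := by
  cases x <;> cases y <;> rfl

lemma par_inv (x : DihedralGroup n) : par x⁻¹ = par x := by
  cases x <;> rfl

lemma par_one : par (1 : DihedralGroup n) = false := rfl

/-- `f` is supported on the elements of parity `b`. -/
def Sup (b : Bool) (f : DZ n) : Prop := ∀ h, par h ≠ b → f h = 0

lemma Sup.mul {b b' : Bool} {f g : DZ n} (hf : Sup b f) (hg : Sup b' g) :
    Sup (xor b b') (f * g) := by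
  intro h hh
  rw [mul_apply]
  apply Finset.sum_eq_zero
  intro x _
  by_cases hx : par x = b
  · have h3 : par (x⁻¹ * h) ≠ b' := by
      rw [par_mul, par_inv, hx]
      intro h2
      apply hh
      rw [← h2]
      cases b <;> cases (par h) <;> rfl
    rw [hg _ h3, mul_zero]
  · rw [hf _ hx, zero_mul]

lemma Sup.one : Sup false (1 : DZ n) := by
  intro h hh
  rw [one_apply, if_neg]
  rintro rfl
  exact hh par_one

lemma Sup.pow {f : DZ n} (hf : Sup false f) (k : ℕ) : Sup false (f ^ k) := by
  induction k with
  | zero => rw [pow_zero]; exact Sup.one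
  | succ k ih => rw [pow_succ]; exact ih.mul hf

lemma Sup.add {b : Bool} {f g : DZ n} (hf : Sup b f) (hg : Sup b g) : Sup b (f + g) := by
  intro h hh
  rw [add_apply, hf h hh, hg h hh, add_zero]

lemma Sup.sub {b : Bool} {f g : DZ n} (hf : Sup b f) (hg : Sup b g) : Sup b (f - g) := by
  intro h hh
  rw [sub_apply, hf h hh, hg h hh, sub_zero]

lemma Sup.odd_pow {f : DZ n} (hf : Sup true f) (t : ℕ) : Sup true (f ^ (2 * t + 1)) := by
  rw [pow_succ, pow_mul]
  have h2 : Sup false (f ^ 2) := by
    rw [pow_two]
    exact hf.mul hf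
  exact (h2.pow t).mul hf

lemma Sup.even_pow {f : DZ n} (hf : Sup true f) (t : ℕ) : Sup false (f ^ (2 * t)) := by
  rw [pow_mul]
  have h2 : Sup false (f ^ 2) := by
    rw [pow_two]
    exact hf.mul hf
  exact h2.pow t

/-- rotation part. -/
def rotP (f : DZ n) : DZ n := fun h => if par h = false then f h else 0
/-- reflection part. -/
def refP (f : DZ n) : DZ n := fun h => if par h = false then 0 else f h

lemma rot_add_ref (f : DZ n) : rotP f + refP f = f := by
  apply ext
  intro h
  rw [add_apply]
  unfold rotP refP
  split_ifs <;> simp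

lemma Sup_rotP (f : DZ n) : Sup false (rotP f) := by
  intro h hh
  unfold rotP
  rw [if_neg hh]

lemma Sup_refP (f : DZ n) : Sup true (refP f) := by
  intro h hh
  unfold refP
  rw [if_pos]
  cases hp : par h
  · rfl
  · exact absurd hp hh

lemma rotP_r (f : DZ n) (i : ZMod n) : rotP f (r i) = f (r i) := rfl
lemma rotP_sr (f : DZ n) (i : ZMod n) : rotP f (sr i) = 0 := rfl
lemma refP_r (f : DZ n) (i : ZMod n) : refP f (r i) = 0 := rfl

lemma central {a : DZ n} (ha : ∀ g x, a (g⁻¹ * x * g) = a x) (f : DZ n) : a * f = f * a := by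
  apply ext
  intro h
  rw [mul_apply, mul_apply]
  rw [← Equiv.sum_comp ((Equiv.inv (DihedralGroup n)).trans (Equiv.mulRight h))
    (fun y => f y * a (y⁻¹ * h))]
  apply Finset.sum_congr rfl
  intro x _
  simp only [Equiv.trans_apply, Equiv.inv_apply, Equiv.coe_mulRight]
  have h1 : (x⁻¹ * h)⁻¹ * h = h⁻¹ * x * h := by group
  rw [h1, ha, mul_comm]

/-- a function supported at one element. -/
def sg (h : DihedralGroup n) (c : ℤ) : DZ n := fun x => if x = h then c else 0

lemma sg_mul (h h' : DihedralGroup n) (c c' : ℤ) : sg h c * sg h' c' = sg (h * h') (c * c') := by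
  apply ext
  intro x
  rw [mul_apply]
  rw [Finset.sum_eq_single h]
  · unfold sg
    rw [if_pos rfl]
    by_cases hx : x = h * h'
    · rw [if_pos hx, if_pos]
      rw [hx]; group
    · rw [if_neg hx, if_neg, mul_zero]
      intro h2
      apply hx
      rw [← h2]; group
  · intro b _ hb
    unfold sg
    rw [if_neg hb, zero_mul]
  · intro h1
    exact absurd (Finset.mem_univ _) h1

lemma sg_one : sg (1 : DihedralGroup n) 1 = 1 := rfl

lemma sg_pow (h : DihedralGroup n) (c : ℤ) (k : ℕ) : sg h c ^ k = sg (h ^ k) (c ^ k) := by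
  induction k with
  | zero => rw [pow_zero, pow_zero, pow_zero, sg_one]
  | succ k ih => rw [pow_succ, ih, sg_mul, pow_succ, pow_succ]

lemma r_pow' (i : ZMod n) (k : ℕ) : (r i : DihedralGroup n) ^ k = r (k • i) := by
  induction k with
  | zero => rw [pow_zero, zero_smul]; rfl
  | succ k ih => rw [pow_succ, ih, r_mul_r, succ_nsmul]

lemma rotP_eq_sum (f : DZ n) : rotP f = ∑ i : ZMod n, sg (r i) (f (r i)) := by
  apply ext
  intro h
  rw [sum_apply]
  cases h with
  | r j =>
    rw [rotP_r]
    unfold sg
    rw [Finset.sum_eq_single j]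
    · rw [if_pos rfl]
    · intro b _ hb
      rw [if_neg]
      intro h2
      apply hb
      exact (r.inj h2).symm
    · intro h1
      exact absurd (Finset.mem_univ _) h1
  | sr j =>
    rw [rotP_sr]
    symm
    apply Finset.sum_eq_zero
    intro i _
    unfold sg
    rw [if_neg]
    intro h2
    cases h2

lemma sum_pow_prime_pow {R : Type*} [Ring R] (p M : ℕ) (hp : p.Prime) {ι : Type*}
    (s : Finset ι) (x : ι → R) (hc : ∀ i ∈ s, ∀ j ∈ s, Commute (x i) (x j)) :
    ∃ W : R, (∑ i ∈ s, x i) ^ p ^ M = ∑ i ∈ s, x i ^ p ^ M + p * W := by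
  classical
  induction s using Finset.induction_on with
  | empty =>
    refine ⟨0, ?_⟩
    simp [zero_pow (pow_ne_zero M hp.ne_zero)]
  | insert a s ha ih =>
    obtain ⟨W, hW⟩ := ih (fun i hi j hj =>
      hc i (Finset.mem_insert_of_mem hi) j (Finset.mem_insert_of_mem hj))
    have hcomm : Commute (x a) (∑ i ∈ s, x i) :=
      Commute.sum_right _ _ _ fun i hi =>
        hc a (Finset.mem_insert_self a s) i (Finset.mem_insert_of_mem hi)
    obtain ⟨W', hW'⟩ := hcomm.exists_add_pow_prime_pow_eq hp M
    refine ⟨W + x a * (∑ i ∈ s, x i) * W', ?_⟩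
    rw [Finset.sum_insert ha, Finset.sum_insert ha, hW', hW]
    simp only [mul_add, mul_assoc]
    abel

end DZ

end Cfsg.Agent.H11.Dih
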