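import Cfsg.Agent.H11.DihFrob

set_option autoImplicit false
set_option linter.unusedSectionVars false

/-!
# "Theorem A" for primitive Schur rings over dihedral groups (helper11, S3572-TA)
-/

namespace Cfsg.Agent.H11.Dih

open DihedralGroup Cfsg.Agent.H74.Dih

variable {n : ℕ} [NeZero n]

namespace DZ

/-- the function is constant on the basic sets. -/
def RZ (P : PSR n) (f : DZ n) : Prop := Resp P.rel (f : DihedralGroup n → ℤ)

lemma RZ.mul {P : PSR n} {f g : DZ n} (hf : RZ P f) (hg : RZ P g) : RZ P (f * g) :=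
  P.conv_closed f g hf hg

lemma RZ.add {P : PSR n} {f g : DZ n} (hf : RZ P f) (hg : RZ P g) : RZ P (f + g) := by
  intro h h' hr
  show f h + g h = f h' + g h'
  rw [hf h h' hr, hg h h' hr]

lemma RZ.sub {P : PSR n} {f g : DZ n} (hf : RZ P f) (hg : RZ P g) : RZ P (f - g) := by
  intro h h' hr
  show f h - g h = f h' - g h'
  rw [hf h h' hr, hg h h' hr]

lemma RZ.neg {P : PSR n} {f : DZ n} (hf : RZ P f) : RZ P (-f) := by
  intro h h' hr
  show -f h = -f h'
  rw [hf h h' hr]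

lemma RZ.zero (P : PSR n) : RZ P (0 : DZ n) := fun _ _ _ => rfl

lemma RZ.one (P : PSR n) : RZ P (1 : DZ n) := by
  intro h h' hr
  show (1 : DZ n) h = (1 : DZ n) h'
  rw [one_apply, one_apply]
  by_cases h1 : h = 1
  · subst h1
    have h2 : h' = 1 := P.one_class h' (P.equiv.symm hr)
    rw [if_pos rfl, if_pos h2]
  · have h2 : h' ≠ 1 := by
      rintro rfl
      exact h1 (P.one_class h hr)
    rw [if_neg h1, if_neg h2]

lemma RZ.pow {P : PSR n} {f : DZ n} (hf : RZ P f) (k : ℕ) : RZ P (f ^ k) := by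
  induction k with
  | zero => rw [pow_zero]; exact RZ.one P
  | succ k ih => rw [pow_succ]; exact ih.mul hf

lemma RZ.comm {P : PSR n} {f g : DZ n} (hf : RZ P f) (hg : RZ P g) : f * g = g * f :=
  conv_comm P f g hf hg

/-- all values divisible by `k`. -/
def Dv (k : ℤ) (f : DZ n) : Prop := ∀ h, k ∣ f h

lemma Dv.mul {k k' : ℤ} {f g : DZ n} (hf : Dv k f) (hg : Dv k' g) : Dv (k * k') (f * g) := by
  intro h
  rw [mul_apply]
  apply Finset.dvd_sum
  intro x _
  exact mul_dvd_mul (hf x) (hg _)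

lemma Dv.one_any (f : DZ n) : Dv 1 f := fun _ => one_dvd _

lemma Dv.pow {k : ℤ} {f : DZ n} (hf : Dv k f) (j : ℕ) : Dv (k ^ j) (f ^ j) := by
  induction j with
  | zero => rw [pow_zero]; exact Dv.one_any _
  | succ j ih => rw [pow_succ, pow_succ]; exact ih.mul hf

/-- `x` is a `p^m`-th multiple. -/
def InR (p m : ℕ) (x : ZMod n) : Prop := ∃ z : ZMod n, x = p ^ m • z

lemma InR.add {p m : ℕ} {x y : ZMod n} (hx : InR p m x) (hy : InR p m y) : InR p m (x + y) := by
  obtain ⟨z, rfl⟩ := hx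
  obtain ⟨z', rfl⟩ := hy
  exact ⟨z + z', by rw [smul_add]⟩

lemma InR.zero (p m : ℕ) : InR p m (0 : ZMod n) := ⟨0, by rw [smul_zero]⟩

/-- rotation-supported, with values divisible by `d` off the `p^m`-th multiples. -/
def LD (p m : ℕ) (d : ℤ) (f : DZ n) : Prop :=
  Sup false f ∧ ∀ x : ZMod n, ¬ InR p m x → d ∣ f (r x)

lemma LD.mul {p m : ℕ} {d : ℤ} {f g : DZ n} (hf : LD p m d f) (hg : LD p m d g) :
    LD p m d (f * g) := by
  refine ⟨hf.1.mul hg.1, ?_⟩
  intro x hx
  rw [mul_apply]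
  apply Finset.dvd_sum
  intro y _
  cases y with
  | r i =>
    have h1 : (r i : DihedralGroup n)⁻¹ * r x = r (x - i) := by
      show r (-i) * r x = r (x - i)
      rw [r_mul_r]
      congr 1
      ring
    rw [h1]
    by_cases hi : InR p m i
    · have h2 : ¬ InR p m (x - i) := by
        intro h3
        apply hx
        have h4 := h3.add hi
        rwa [sub_add_cancel] at h4
      exact Dvd.dvd.mul_left (hg.2 _ h2) _
    · exact Dvd.dvd.mul_right (hf.2 _ hi) _
  | sr i =>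
    rw [hf.1 (sr i) (by simp [par]), zero_mul]
    exact dvd_zero _

lemma LD.one (p m : ℕ) (d : ℤ) : LD p m d (1 : DZ n) := by
  refine ⟨Sup.one, ?_⟩
  intro x hx
  rw [one_apply, if_neg]
  · exact dvd_zero _
  · intro h1
    apply hx
    have h2 : x = 0 := r.inj h1
    rw [h2]
    exact InR.zero p m

lemma LD.pow {p m : ℕ} {d : ℤ} {f : DZ n} (hf : LD p m d f) (k : ℕ) : LD p m d (f ^ k) := by
  induction k with
  | zero => rw [pow_zero]; exact LD.one p m d
  | succ k ih => rw [pow_succ]; exact ih.mul hf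

lemma LD.sub {p m : ℕ} {d : ℤ} {f g : DZ n} (hf : LD p m d f) (hg : LD p m d g) :
    LD p m d (f - g) :=
  ⟨hf.1.sub hg.1, fun x hx => by rw [sub_apply]; exact dvd_sub (hf.2 x hx) (hg.2 x hx)⟩

lemma commute_rot {f g : DZ n} (hf : Sup false f) (hg : Sup false g) : f * g = g * f := by
  apply ext
  intro h
  cases h with
  | r k =>
    rw [mul_apply, mul_apply]
    rw [← Equiv.sum_comp ((Equiv.inv (DihedralGroup n)).trans (Equiv.mulRight (r k)))
      (fun y => g y * f (y⁻¹ * r k))]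
    apply Finset.sum_congr rfl
    intro x _
    simp only [Equiv.trans_apply, Equiv.inv_apply, Equiv.coe_mulRight]
    cases x with
    | r i =>
      have h1 : ((r i : DihedralGroup n)⁻¹ * r k)⁻¹ * r k = r i := by
        show (r (-i) * r k)⁻¹ * r k = r i
        rw [r_mul_r]
        show r (-(-i + k)) * r k = r i
        rw [r_mul_r]
        congr 1
        ring
      rw [h1, mul_comm]
    | sr i =>
      rw [hf (sr i) (by simp [par]), zero_mul]
      have h1 : par (((sr i : DihedralGroup n)⁻¹ * r k)⁻¹ * r k) ≠ false := by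
        rw [par_mul, par_inv, par_mul, par_inv]
        simp [par]
      rw [hf _ h1, mul_zero]
  | sr k =>
    rw [(hf.mul hg) (sr k) (by simp [par]), (hg.mul hf) (sr k) (by simp [par])]

lemma LD.pow_prime {p : ℕ} (hp : p.Prime) {m c : ℕ} (hc : 1 ≤ c) {a : DZ n}
    (ha : LD p m ((p : ℤ) ^ c) a) : LD p m ((p : ℤ) ^ (c + 1)) (a ^ p) := by
  classical
  refine ⟨ha.1.pow p, ?_⟩
  let g : DZ n := fun h => match h with
    | r x => if InR p m x then a (r x) else 0
    | sr _ => 0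
  have hg : LD p m 0 g := by
    refine ⟨?_, ?_⟩
    · intro h hh
      cases h with
      | r x => exact absurd rfl hh
      | sr x => rfl
    · intro x hx
      show (0 : ℤ) ∣ if InR p m x then a (r x) else 0
      rw [if_neg hx]
  have hvS : Sup false (a - g) := ha.1.sub hg.1
  have hvD : Dv ((p : ℤ) ^ c) (a - g) := by
    intro h
    rw [sub_apply]
    cases h with
    | r x =>
      show (p : ℤ) ^ c ∣ a (r x) - if InR p m x then a (r x) else 0
      by_cases hx : InR p m x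
      · rw [if_pos hx, sub_self]; exact dvd_zero _
      · rw [if_neg hx, sub_zero]; exact ha.2 x hx
    | sr x =>
      show (p : ℤ) ^ c ∣ a (sr x) - 0
      rw [ha.1 (sr x) (by simp [par]), sub_zero]
      exact dvd_zero _
  have hcomm : Commute g (a - g) := commute_rot hg.1 hvS
  obtain ⟨W, hW⟩ := hcomm.exists_add_pow_prime_eq hp
  have hag : g + (a - g) = a := by abel
  rw [hag] at hW
  intro x hx
  rw [hW, add_apply, add_apply]
  apply dvd_add
  · apply dvd_add
    · have h0 := (hg.pow p).2 x hx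
      rw [zero_dvd_iff] at h0
      rw [h0]
      exact dvd_zero _
    · have h1 := (hvD.pow p) (r x)
      refine dvd_trans ?_ h1
      rw [← pow_mul]
      apply pow_dvd_pow
      have : 2 ≤ p := hp.two_le
      nlinarith
  · rw [mul_assoc, mul_assoc, natCast_mul_apply]
    have h3 : Dv (1 * ((p : ℤ) ^ c * 1)) (g * ((a - g) * W)) :=
      (Dv.one_any g).mul (hvD.mul (Dv.one_any W))
    have h4 := h3 (r x)
    rw [one_mul, mul_one] at h4
    rw [pow_succ, mul_comm]
    exact mul_dvd_mul_left _ h4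

lemma rotP_add (f g : DZ n) : rotP (f + g) = rotP f + rotP g := by
  apply ext
  intro h
  rw [add_apply]
  unfold rotP
  split_ifs
  · rfl
  · simp

lemma rotP_of_Sup_false {f : DZ n} (hf : Sup false f) : rotP f = f := by
  apply ext
  intro h
  unfold rotP
  split_ifs with hp
  · rfl
  · exact (hf h hp).symm

lemma rotP_of_Sup_true {f : DZ n} (hf : Sup true f) : rotP f = 0 := by
  apply ext
  intro h
  unfold rotP
  split_ifs with hp
  · exact hf h (by rw [hp]; simp)
  · rfl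

lemma mul_natCast_apply (f : DZ n) (k : ℕ) (h : DihedralGroup n) :
    (f * (k : DZ n)) h = f h * k := by
  rw [← nsmul_eq_mul', nsmul_apply, mul_comm]

lemma step (P : PSR n) {p : ℕ} (hp : p.Prime) (hp2 : p ≠ 2) {m c : ℕ} (hc : 1 ≤ c) {η : DZ n}
    (hη : RZ P η) (h1 : LD p m ((p : ℤ) ^ c) (rotP η))
    (h2 : LD p m ((p : ℤ) ^ c) (rotP (η ^ 2))) :
    ∀ x : ZMod n, ¬ InR p m x → (p : ℤ) ^ (c + 1) ∣ (η ^ p) (r x) := by
  have hηa : η = rotP η + refP η := (rot_add_ref η).symm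
  have hcomm : Commute (rotP η) (refP η) := central (rotP_class P hη) (refP η)
  have hSa := Sup_rotP η
  have hSN := Sup_refP η
  have hθ : LD p m ((p : ℤ) ^ c) (refP η * refP η) := by
    have e1 : rotP (η ^ 2) = rotP η * rotP η + refP η * refP η := by
      have e2 : η ^ 2 = rotP η * rotP η + rotP η * refP η + refP η * rotP η + refP η * refP η := by
        conv_lhs => rw [hηa]
        rw [pow_two, add_mul, mul_add, mul_add]
        abel
      rw [e2, rotP_add, rotP_add, rotP_add, rotP_of_Sup_false (hSa.mul hSa),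
        rotP_of_Sup_true (hSa.mul hSN), rotP_of_Sup_true (hSN.mul hSa),
        rotP_of_Sup_false (hSN.mul hSN)]
      abel
    have e3 : refP η * refP η = rotP (η ^ 2) - rotP η * rotP η := by
      rw [e1]; abel
    rw [e3]
    exact h2.sub (h1.mul h1)
  intro x hx
  have e4 : η ^ p = (rotP η + refP η) ^ p := by rw [← hηa]
  rw [e4, hcomm.add_pow, sum_apply]
  apply Finset.dvd_sum
  intro j hj
  rw [mul_natCast_apply]
  have hjle : j ≤ p := by
    have := Finset.mem_range.mp hj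
    omega
  have hpodd : Odd p := hp.odd_of_ne_two hp2
  rcases Nat.even_or_odd (p - j) with he | ho
  · obtain ⟨t, ht⟩ := he
    by_cases hj0 : p - j = 0
    · have hjp : j = p := by omega
      rw [hjp, Nat.sub_self, pow_zero, mul_one, Nat.choose_self, Nat.cast_one, mul_one]
      exact (h1.pow_prime hp hc).2 x hx
    · have hjlt : j < p := by omega
      have hj1 : j ≠ 0 := by
        intro h0
        rw [h0, Nat.sub_zero] at ht
        obtain ⟨u, hu⟩ := hpodd
        omega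
      have hdvd : (p : ℤ) ∣ (p.choose j : ℤ) := by
        exact_mod_cast hp.dvd_choose_self hj1 hjlt
      have hN : refP η ^ (p - j) = (refP η * refP η) ^ t := by
        rw [ht, ← two_mul, pow_mul, pow_two]
      have hL : LD p m ((p : ℤ) ^ c) (rotP η ^ j * refP η ^ (p - j)) := by
        rw [hN]
        exact (h1.pow j).mul (hθ.pow t)
      rw [pow_succ]
      exact mul_dvd_mul (hL.2 x hx) hdvd
  · obtain ⟨t, ht⟩ := ho
    have hS : Sup true (rotP η ^ j * refP η ^ (p - j)) := by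
      rw [ht]
      exact (hSa.pow j).mul (hSN.odd_pow t)
    rw [hS (r x) (by simp [par]), zero_mul]
    exact dvd_zero _

lemma base (P : PSR n) {p : ℕ} (hp : p.Prime) (hp2 : p ≠ 2) (m : ℕ) :
    ∀ ξ : DZ n, RZ P ξ → ∀ x : ZMod n, ¬ InR p m x → (p : ℤ) ∣ (ξ ^ p ^ m) (r x) := by
  classical
  induction m with
  | zero =>
    intro ξ _ x hx
    exact absurd ⟨x, by rw [pow_zero, one_smul]⟩ hx
  | succ m ih =>
    intro ξ hξ x hx
    have hη : RZ P (ξ ^ p ^ m) := hξ.pow _
    have hF := frobZ P p hp hp2 1 (ξ ^ p ^ m) hη x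
    rw [pow_one, ← pow_mul, ← pow_succ] at hF
    have hS : (p : ℤ) ∣ ∑ i ∈ Finset.univ.filter (fun i : ZMod n => p • i = x),
        (ξ ^ p ^ m) (r i) := by
      apply Finset.dvd_sum
      intro i hi
      apply ih ξ hξ i
      rintro ⟨z, rfl⟩
      apply hx
      refine ⟨z, ?_⟩
      rw [← (Finset.mem_filter.mp hi).2, pow_succ', mul_smul]
    have h3 := dvd_add hF hS
    rwa [sub_add_cancel] at h3

lemma lemma1 (P : PSR n) {p : ℕ} (hp : p.Prime) (hp2 : p ≠ 2) (m : ℕ) :
    ∀ c : ℕ, ∀ ξ : DZ n, RZ P ξ → ∀ x : ZMod n, ¬ InR p m x →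
      (p : ℤ) ^ (c + 1) ∣ (ξ ^ p ^ (m + c)) (r x) := by
  intro c
  induction c with
  | zero =>
    intro ξ hξ x hx
    rw [zero_add, pow_one, add_zero]
    exact base P hp hp2 m ξ hξ x hx
  | succ c ih =>
    intro ξ hξ x hx
    have hη : RZ P (ξ ^ p ^ (m + c)) := hξ.pow _
    have h1 : LD p m ((p : ℤ) ^ (c + 1)) (rotP (ξ ^ p ^ (m + c))) :=
      ⟨Sup_rotP _, fun y hy => by rw [rotP_r]; exact ih ξ hξ y hy⟩
    have h2 : LD p m ((p : ℤ) ^ (c + 1)) (rotP ((ξ ^ p ^ (m + c)) ^ 2)) :=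
      ⟨Sup_rotP _, fun y hy => by
        rw [rotP_r]
        have e : (ξ ^ p ^ (m + c)) ^ 2 = (ξ ^ 2) ^ p ^ (m + c) := by
          rw [← pow_mul, ← pow_mul, mul_comm]
        rw [e]
        exact ih (ξ ^ 2) (hξ.pow 2) y hy⟩
    have h3 := step P hp hp2 (Nat.succ_le_succ (Nat.zero_le c)) hη h1 h2 x hx
    rw [← pow_mul, ← pow_succ] at h3
    exact h3

/-- values at rotations of order divisible by `p` are divisible by `p^k`. -/
def KK (p k : ℕ) (f : DZ n) : Prop :=
  ∀ x : ZMod n, p ∣ addOrderOf x → (p : ℤ) ^ k ∣ f (r x)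

lemma notInR {p e n' : ℕ} (hn : n = p ^ e * n') (hpn' : ¬ p ∣ n') {x : ZMod n}
    (hx : p ∣ addOrderOf x) : ¬ InR p e x := by
  rintro ⟨z, rfl⟩
  have h0 : n' • (p ^ e • z) = 0 := by
    rw [← mul_smul, mul_comm, ← hn]
    simp
  exact hpn' (dvd_trans hx (addOrderOf_dvd_of_nsmul_eq_zero h0))

lemma Q_smul {p e n' : ℕ} (hn : n = p ^ e * n') (hp : p.Prime) {M : ℕ}
    (hM : n' ∣ p ^ M - 1) {y : ZMod n} (hy : ¬ p ∣ addOrderOf y) : p ^ M • y = y := by
  have h1 : addOrderOf y ∣ p ^ e * n' := by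
    rw [← hn]
    apply addOrderOf_dvd_of_nsmul_eq_zero
    simp
  have h2 : (addOrderOf y).Coprime (p ^ e) :=
    Nat.Coprime.pow_right e ((Nat.Prime.coprime_iff_not_dvd hp).mpr hy).symm
  have h3 : addOrderOf y ∣ n' := h2.dvd_of_dvd_mul_left h1
  have h4 : (p ^ M - 1) • y = 0 := addOrderOf_dvd_iff_nsmul_eq_zero.mp (dvd_trans h3 hM)
  have h5 : p ^ M - 1 + 1 = p ^ M := Nat.sub_add_cancel (Nat.one_le_pow _ _ hp.pos)
  calc p ^ M • y = (p ^ M - 1 + 1) • y := by rw [h5]
    _ = y := by rw [add_smul, h4, zero_add, one_smul]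

lemma stepB (P : PSR n) {p : ℕ} (hp : p.Prime) (hp2 : p ≠ 2) (hn2 : 2 ≤ n) {M : ℕ}
    (hQ : ∀ y : ZMod n, ¬ p ∣ addOrderOf y → p ^ M • y = y)
    {ξ : DZ n} (hξ : RZ P ξ) (hK : KK p 1 ξ) : Dv (p : ℤ) (ξ ^ p ^ M - ξ) := by
  classical
  have hR : RZ P (ξ ^ p ^ M - ξ) := (hξ.pow _).sub hξ
  have hrot : ∀ x : ZMod n, (p : ℤ) ∣ (ξ ^ p ^ M - ξ) (r x) := by
    intro x
    have hF := frobZ P p hp hp2 M ξ hξ x
    have h2 : (p : ℤ) ∣ ∑ i ∈ Finset.univ.filter (fun i : ZMod n => p ^ M • i = x), ξ (r i)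
        - ξ (r x) := by
      rw [Finset.sum_filter]
      have e : ξ (r x) = ∑ i : ZMod n, if i = x then ξ (r i) else 0 := by
        rw [Finset.sum_ite_eq' Finset.univ x (fun i => ξ (r i)), if_pos (Finset.mem_univ _)]
      rw [e, ← Finset.sum_sub_distrib]
      apply Finset.dvd_sum
      intro y _
      by_cases hy : p ∣ addOrderOf y
      · have hd : (p : ℤ) ∣ ξ (r y) := by
          have := hK y hy
          rwa [pow_one] at this
        split_ifs
        · rw [sub_self]; exact dvd_zero _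
        · rw [sub_zero]; exact hd
        · rw [zero_sub]; exact (dvd_neg).mpr hd
        · rw [sub_self]; exact dvd_zero _
      · rw [hQ y hy, sub_self]
        exact dvd_zero _
    have h3 := dvd_add hF h2
    rw [sub_add_sub_cancel] at h3
    rw [sub_apply]
    exact h3
  intro h
  by_cases h1 : h = 1
  · subst h1
    exact hrot 0
  · obtain ⟨i, -, hi⟩ := exists_r P hn2 h h1
    rw [hR h (r i) hi]
    exact hrot i

/-- the additive span of the `q`-th powers. -/
def QQ (P : PSR n) (q : ℕ) : AddSubgroup (DZ n) :=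
  AddSubgroup.closure {ζ | ∃ ξ : DZ n, RZ P ξ ∧ ζ = ξ ^ q}

lemma QQ_RZ {P : PSR n} {q : ℕ} {ζ : DZ n} (h : ζ ∈ QQ P q) : RZ P ζ := by
  unfold QQ at h
  induction h using AddSubgroup.closure_induction with
  | mem x hx =>
    obtain ⟨ξ, hξ, rfl⟩ := hx
    exact hξ.pow q
  | zero => exact RZ.zero P
  | add x y _ _ hx hy => exact hx.add hy
  | neg x _ hx => exact hx.neg

lemma QQ_KK {P : PSR n} {p c q : ℕ} (hK : ∀ ξ : DZ n, RZ P ξ → KK p c (ξ ^ q)) {ζ : DZ n}
    (h : ζ ∈ QQ P q) : KK p c ζ := by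
  unfold QQ at h
  induction h using AddSubgroup.closure_induction with
  | mem x hx =>
    obtain ⟨ξ, hξ, rfl⟩ := hx
    exact hK ξ hξ
  | zero => intro x _; exact dvd_zero _
  | add x y _ _ hx hy => intro z hz; rw [add_apply]; exact dvd_add (hx z hz) (hy z hz)
  | neg x _ hx => intro z hz; rw [neg_apply]; exact (dvd_neg).mpr (hx z hz)

lemma QQ_mul {P : PSR n} {q : ℕ} {ζ ζ' : DZ n} (h : ζ ∈ QQ P q) (h' : ζ' ∈ QQ P q) :
    ζ * ζ' ∈ QQ P q := by
  unfold QQ at h
  induction h using AddSubgroup.closure_induction with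
  | mem x hx =>
    obtain ⟨ξ, hξ, rfl⟩ := hx
    unfold QQ at h'
    induction h' using AddSubgroup.closure_induction with
    | mem y hy =>
      obtain ⟨ξ', hξ', rfl⟩ := hy
      apply AddSubgroup.subset_closure
      exact ⟨ξ * ξ', hξ.mul hξ', ((show Commute ξ ξ' from hξ.comm hξ').mul_pow q).symm⟩
    | zero => rw [mul_zero]; exact zero_mem _
    | add y z _ _ hy hz => rw [mul_add]; exact add_mem hy hz
    | neg y _ hy => rw [mul_neg]; exact neg_mem hy
  | zero => rw [zero_mul]; exact zero_mem _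
  | add x y _ _ hx hy => rw [add_mul]; exact add_mem hx hy
  | neg x _ hx => rw [neg_mul]; exact neg_mem hx

lemma stepD (P : PSR n) {p : ℕ} (hp : p.Prime) (hp2 : p ≠ 2) (hn2 : 2 ≤ n) {M c : ℕ}
    (hQ : ∀ y : ZMod n, ¬ p ∣ addOrderOf y → p ^ M • y = y)
    (hKQ : ∀ ξ : DZ n, RZ P ξ → KK p c (ξ ^ p ^ M)) :
    ∀ k : ℕ, k ≤ c → ∀ ξ : DZ n, RZ P ξ → KK p k ξ →
      ∃ s y : DZ n, s ∈ QQ P (p ^ M) ∧ RZ P y ∧ ξ = s + p ^ k • y := by
  intro k
  induction k with
  | zero =>
    intro _ ξ hξ _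
    exact ⟨0, ξ, zero_mem _, hξ, by rw [pow_zero, one_smul, zero_add]⟩
  | succ k ih =>
    intro hk ξ hξ hK
    have hK1 : KK p 1 ξ := fun x hx => dvd_trans (pow_dvd_pow _ (by omega)) (hK x hx)
    have hB := stepB P hp hp2 hn2 hQ hξ hK1
    let y0 : DZ n := fun h => (ξ ^ p ^ M - ξ) h / p
    have hy0 : ξ ^ p ^ M - ξ = p • y0 := by
      apply ext
      intro h
      rw [nsmul_apply]
      exact (Int.mul_ediv_cancel' (hB h)).symm
    have hRy0 : RZ P y0 := by
      intro h h' hr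
      show (ξ ^ p ^ M - ξ) h / p = (ξ ^ p ^ M - ξ) h' / p
      rw [((hξ.pow _).sub hξ) h h' hr]
    have hKy0 : KK p k y0 := by
      intro x hx
      have h1 : (p : ℤ) ^ (k + 1) ∣ (ξ ^ p ^ M - ξ) (r x) := by
        rw [sub_apply]
        exact dvd_sub (dvd_trans (pow_dvd_pow _ hk) (hKQ ξ hξ x hx)) (hK x hx)
      rw [hy0, nsmul_apply, pow_succ, mul_comm] at h1
      exact (mul_dvd_mul_iff_left (by exact_mod_cast hp.ne_zero)).mp h1
    obtain ⟨s', y', hs', hy', hEq⟩ := ih (by omega) y0 hRy0 hKy0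
    refine ⟨ξ ^ p ^ M - p • s', -y', ?_, hy'.neg, ?_⟩
    · exact sub_mem (AddSubgroup.subset_closure ⟨ξ, hξ, rfl⟩) (nsmul_mem hs' p)
    · have e1 : ξ = ξ ^ p ^ M - p • y0 := by rw [← hy0]; abel
      calc ξ = ξ ^ p ^ M - p • y0 := e1
        _ = ξ ^ p ^ M - p • (s' + p ^ k • y') := by rw [← hEq]
        _ = ξ ^ p ^ M - p • s' + p ^ (k + 1) • -y' := by
          rw [smul_add, smul_smul, ← pow_succ', smul_neg]; abel

lemma stepE (P : PSR n) {p : ℕ} (hp : p.Prime) (hp2 : p ≠ 2) (hn2 : 2 ≤ n) {M c : ℕ}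
    (hQ : ∀ y : ZMod n, ¬ p ∣ addOrderOf y → p ^ M • y = y)
    (hKQ : ∀ ξ : DZ n, RZ P ξ → KK p c (ξ ^ p ^ M))
    {f g : DZ n} (hf : RZ P f) (hg : RZ P g)
    (hf0 : ∀ x : ZMod n, p ∣ addOrderOf x → f (r x) = 0)
    (hg0 : ∀ x : ZMod n, p ∣ addOrderOf x → g (r x) = 0) :
    ∀ x : ZMod n, p ∣ addOrderOf x → (p : ℤ) ^ c ∣ (f * g) (r x) := by
  obtain ⟨s, y, hs, hy, hfe⟩ := stepD P hp hp2 hn2 hQ hKQ c le_rfl f hf
    (fun x hx => by rw [hf0 x hx]; exact dvd_zero _)
  obtain ⟨s', y', hs', hy', hge⟩ := stepD P hp hp2 hn2 hQ hKQ c le_rfl g hg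
    (fun x hx => by rw [hg0 x hx]; exact dvd_zero _)
  intro x hx
  have hss : KK p c (s * s') := QQ_KK hKQ (QQ_mul hs hs')
  have e : f * g = s * s' + p ^ c • (s * y' + y * s' + p ^ c • (y * y')) := by
    rw [hfe, hge]
    simp only [add_mul, mul_add, smul_mul_assoc, mul_smul_comm, smul_add]
    abel
  rw [e, add_apply, nsmul_apply]
  refine dvd_add (hss x hx) ?_
  push_cast
  exact dvd_mul_right _ _

end DZ

/-- **S3572-TA.** -/
theorem thmA (P : PSR n) (p : ℕ) (hp : p.Prime) (hp2 : p ≠ 2) (hpn : p ∣ n)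
    (h : DihedralGroup n) (hh : h ≠ 1) : ∃ i : ZMod n, P.rel h (r i) ∧ p ∣ addOrderOf i := by
  classical
  by_contra hcon
  push_neg at hcon
  have hn0 : n ≠ 0 := NeZero.ne n
  have hn2 : 2 ≤ n := by
    have h1 := Nat.le_of_dvd (Nat.pos_of_ne_zero hn0) hpn
    have h2 := hp.two_le
    omega
  obtain ⟨e, n', hpn', hn⟩ := Nat.exists_eq_pow_mul_and_not_dvd hn0 p hp.ne_one
  have hcb : 2 * n < p ^ (2 * n) :=
    lt_of_lt_of_le (Nat.lt_pow_self (by norm_num : 1 < 2))
      (Nat.pow_le_pow_left hp.two_le _)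
  have hn'pos : 0 < n' := by
    rcases Nat.eq_zero_or_pos n' with h0 | h0
    · rw [h0, mul_zero] at hn
      exact absurd hn hn0
    · exact h0
  have hMge : e + 2 * n ≤ Nat.totient n' * (e + 2 * n) :=
    Nat.le_mul_of_pos_left _ (Nat.totient_pos.mpr hn'pos)
  have hdvd : n' ∣ p ^ (Nat.totient n' * (e + 2 * n)) - 1 := by
    have hcop : Nat.Coprime p n' := (Nat.Prime.coprime_iff_not_dvd hp).mpr hpn'
    have h1 : p ^ Nat.totient n' ≡ 1 [MOD n'] := Nat.ModEq.pow_totient hcop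
    have h2 : p ^ (Nat.totient n' * (e + 2 * n)) ≡ 1 [MOD n'] := by
      rw [pow_mul]
      have h3 := h1.pow (e + 2 * n)
      rwa [one_pow] at h3
    exact (Nat.modEq_iff_dvd' (Nat.one_le_pow _ _ hp.pos)).mp h2.symm
  have hQ : ∀ y : ZMod n, ¬ p ∣ addOrderOf y →
      p ^ (Nat.totient n' * (e + 2 * n)) • y = y :=
    fun y hy => DZ.Q_smul hn hp hdvd hy
  have hKQ : ∀ ξ : DZ n, DZ.RZ P ξ →
      DZ.KK p (2 * n) (ξ ^ p ^ (Nat.totient n' * (e + 2 * n))) := by
    intro ξ hξ x hx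
    have hx' : ¬ DZ.InR p e x := DZ.notInR hn hpn' hx
    have h1 := DZ.lemma1 P hp hp2 e (Nat.totient n' * (e + 2 * n) - e) ξ hξ x hx'
    rw [Nat.add_sub_cancel' (by omega : e ≤ Nat.totient n' * (e + 2 * n))] at h1
    exact dvd_trans (pow_dvd_pow _ (by omega)) h1
  let U : Set (DihedralGroup n) := {g | ∀ i : ZMod n, P.rel g (r i) → ¬ p ∣ addOrderOf i}
  have hUrel : ∀ g g', P.rel g g' → g ∈ U → g' ∈ U :=
    fun g g' hr hg i hi => hg i (P.equiv.trans hr hi)
  have hU1 : (1 : DihedralGroup n) ∈ U := by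
    intro i hi
    have h1 : r i = (1 : DihedralGroup n) := P.one_class _ (P.equiv.symm hi)
    have hi0 : i = 0 := r.inj h1
    rw [hi0, addOrderOf_zero]
    exact hp.one_lt.ne' ∘ Nat.dvd_one.mp
  have hUmul : ∀ g g', g ∈ U → g' ∈ U → g * g' ∈ U := by
    intro g g' hg hg'
    by_contra hgg
    have hex : ∃ x : ZMod n, P.rel (g * g') (r x) ∧ p ∣ addOrderOf x := by
      by_contra h3
      push_neg at h3
      exact hgg h3
    obtain ⟨x, hx1, hx2⟩ := hex
    let f : DZ n := fun y => if P.rel g y then 1 else 0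
    let f' : DZ n := fun y => if P.rel g' y then 1 else 0
    have hf : DZ.RZ P f := by
      intro y y' hr
      show (if P.rel g y then (1 : ℤ) else 0) = if P.rel g y' then 1 else 0
      have hiff : P.rel g y ↔ P.rel g y' :=
        ⟨fun h => P.equiv.trans h hr, fun h => P.equiv.trans h (P.equiv.symm hr)⟩
      simp only [hiff]
    have hf' : DZ.RZ P f' := by
      intro y y' hr
      show (if P.rel g' y then (1 : ℤ) else 0) = if P.rel g' y' then 1 else 0
      have hiff : P.rel g' y ↔ P.rel g' y' :=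
        ⟨fun h => P.equiv.trans h hr, fun h => P.equiv.trans h (P.equiv.symm hr)⟩
      simp only [hiff]
    have hf0 : ∀ z : ZMod n, p ∣ addOrderOf z → f (r z) = 0 := by
      intro z hz
      show (if P.rel g (r z) then (1 : ℤ) else 0) = 0
      rw [if_neg]
      intro h3
      exact hg z h3 hz
    have hf0' : ∀ z : ZMod n, p ∣ addOrderOf z → f' (r z) = 0 := by
      intro z hz
      show (if P.rel g' (r z) then (1 : ℤ) else 0) = 0
      rw [if_neg]
      intro h3
      exact hg' z h3 hz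
    have hE := DZ.stepE P hp hp2 hn2 hQ hKQ hf hf' hf0 hf0' x hx2
    have hval : (f * f') (r x) = (f * f') (g * g') := ((hf.mul hf') _ _ hx1).symm
    rw [hval] at hE
    have hnn : ∀ y : DihedralGroup n, 0 ≤ f y * f' (y⁻¹ * (g * g')) ∧
        f y * f' (y⁻¹ * (g * g')) ≤ 1 := by
      intro y
      show 0 ≤ (if P.rel g y then (1 : ℤ) else 0) *
          (if P.rel g' (y⁻¹ * (g * g')) then (1 : ℤ) else 0) ∧
        (if P.rel g y then (1 : ℤ) else 0) *
          (if P.rel g' (y⁻¹ * (g * g')) then (1 : ℤ) else 0) ≤ 1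
      split_ifs <;> norm_num
    have hpos : 1 ≤ (f * f') (g * g') := by
      rw [DZ.mul_apply]
      have hterm : f g * f' (g⁻¹ * (g * g')) = 1 := by
        show (if P.rel g g then (1 : ℤ) else 0) *
          (if P.rel g' (g⁻¹ * (g * g')) then (1 : ℤ) else 0) = 1
        rw [if_pos (P.equiv.refl g), inv_mul_cancel_left, if_pos (P.equiv.refl g'), mul_one]
      calc (1 : ℤ) = f g * f' (g⁻¹ * (g * g')) := hterm.symm
        _ ≤ ∑ y : DihedralGroup n, f y * f' (y⁻¹ * (g * g')) :=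
          Finset.single_le_sum (f := fun y => f y * f' (y⁻¹ * (g * g')))
            (fun y _ => (hnn y).1) (Finset.mem_univ g)
    have hle : (f * f') (g * g') ≤ 2 * n := by
      rw [DZ.mul_apply]
      calc ∑ y : DihedralGroup n, f y * f' (y⁻¹ * (g * g'))
          ≤ ∑ _y : DihedralGroup n, (1 : ℤ) := Finset.sum_le_sum (fun y _ => (hnn y).2)
        _ = 2 * n := by
          rw [Finset.sum_const, Finset.card_univ, DihedralGroup.card]
          simp
    have h5 := Int.le_of_dvd (by omega) hE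
    have h6 : ((2 * n : ℕ) : ℤ) < ((p ^ (2 * n) : ℕ) : ℤ) := by exact_mod_cast hcb
    push_cast at h6
    omega
  have hUinv : ∀ g, g ∈ U → g⁻¹ ∈ U := fun g hg => hUrel g g⁻¹ (rel_inv P g) hg
  have hUtop : Subgroup.closure U = ⊤ := P.gen U hUrel ⟨h, hcon, hh⟩
  have hall : ∀ g ∈ Subgroup.closure U, g ∈ U := by
    intro g hg
    induction hg using Subgroup.closure_induction with
    | mem x hx => exact hx
    | one => exact hU1
    | mul x y _ _ hx hy => exact hUmul x y hx hy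
    | inv x _ hx => exact hUinv x hx
  have hr1 : r (1 : ZMod n) ∈ U := hall _ (by rw [hUtop]; trivial)
  have h7 := hr1 1 (P.equiv.refl _)
  rw [ZMod.addOrderOf_one] at h7
  exact h7 hpn

end Cfsg.Agent.H11.Dih
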