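import Cfsg.Agent.H11.DihedralSub
import Cfsg.Prelude.Def_TwoFusion

set_option autoImplicit false

namespace Cfsg.Agent.H11

open Pointwise

variable {X : Type*} [Group X]

/-- A nontrivial `2`-subgroup contains an involution central in it. -/
theorem exists_central_involution_of_two_group [Finite X] (T : Subgroup X) (hT : IsPGroup 2 T)
    (hT1 : T ≠ ⊥) : ∃ t ∈ T, orderOf t = 2 ∧ ∀ x ∈ T, x * t = t * x := by
  have : Fact (Nat.Prime 2) := ⟨Nat.prime_two⟩
  have hnt : Nontrivial T := (Subgroup.nontrivial_iff_ne_bot T).mpr hT1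
  have hcn : Nontrivial (Subgroup.center T) := hT.center_nontrivial
  have hcp : IsPGroup 2 (Subgroup.center T) := hT.to_subgroup _
  have h2 : 2 ∣ Nat.card (Subgroup.center T) := by
    obtain ⟨k, hk⟩ := hcp.exists_card_eq
    rcases Nat.eq_zero_or_pos k with rfl | hk0
    · rw [pow_zero] at hk
      have := (Subgroup.nontrivial_iff_ne_bot _).mp hcn
      exact absurd (Subgroup.card_eq_one.mp hk) this
    · rw [hk]; exact dvd_pow_self 2 hk0.ne'
  obtain ⟨z, hz⟩ := exists_prime_orderOf_dvd_card' 2 h2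
  refine ⟨((z : T) : X), (z : T).2, ?_, ?_⟩
  · rw [Subgroup.orderOf_coe, Subgroup.orderOf_coe]; exact hz
  · intro x hx
    have := Subgroup.mem_center_iff.mp z.2 ⟨x, hx⟩
    exact congrArg Subtype.val this

/-- The element of `S` mapping to the reflection `sr i`. -/
theorem symm_sr_not_mem_rot {m : ℕ} (S : Subgroup X) (e : S ≃* DihedralGroup m) (i : ZMod m) :
    ((e.symm (DihedralGroup.sr i) : S) : X) ∉ rot S e := by
  intro h
  obtain ⟨hx, j, hj⟩ := mem_rot.mp h
  have : e (e.symm (DihedralGroup.sr i)) = DihedralGroup.r j := hj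
  rw [MulEquiv.apply_symm_apply] at this
  exact absurd this (by simp)

theorem rot_relIndex {m : ℕ} (S : Subgroup X) (e : S ≃* DihedralGroup m) :
    (rot S e).relIndex S = 2 := by
  set R : Subgroup (DihedralGroup m) := Subgroup.zpowers (DihedralGroup.r (1 : ZMod m)) with hR
  set M₀ : Subgroup S := R.comap e.toMonoidHom with hM₀
  have hM₀mem : ∀ x : S, x ∈ M₀ ↔ e x ∈ R := fun x => Iff.rfl
  have hrR : ∀ i : ZMod m, DihedralGroup.r i ∈ R := r_mem_zpowers_r_one
  have hsrR : ∀ i : ZMod m, DihedralGroup.sr i ∉ R := by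
    intro i h
    obtain ⟨j, hj⟩ := (mem_zpowers_r_one_iff _).mp h
    exact absurd hj (by simp)
  have hM2 : M₀.index = 2 := by
    rw [Subgroup.index_eq_two_iff]
    refine ⟨e.symm (DihedralGroup.sr 0), fun b => ?_⟩
    rw [hM₀mem, hM₀mem, map_mul, MulEquiv.apply_symm_apply]
    cases hfb : e b with
    | r j =>
      rw [DihedralGroup.r_mul_sr]
      exact Or.inr ⟨hrR j, hsrR _⟩
    | sr j =>
      rw [DihedralGroup.sr_mul_sr]
      exact Or.inl ⟨hrR _, hsrR j⟩
  have : (rot S e).subgroupOf S = M₀ :=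
    Subgroup.comap_map_eq_self_of_injective (Subgroup.subtype_injective _) M₀
  rw [Subgroup.relIndex, this, hM2]

/-- Every involution is conjugate into a given Sylow `2`-subgroup. -/
theorem exists_conj_mem_sylow_of_involution [Finite X] (S : Sylow 2 X) (a : X) (ha : orderOf a = 2) :
    ∃ c : X, c * a * c⁻¹ ∈ (S : Subgroup X) := by
  have : Fact (Nat.Prime 2) := ⟨Nat.prime_two⟩
  have hzp : IsPGroup 2 (Subgroup.zpowers a) := by
    apply IsPGroup.of_card (n := 1)
    rw [Nat.card_zpowers, ha, pow_one]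
  obtain ⟨h, -, hh⟩ := exists_conj_le_of_le_of_sylow S (H := ⊤) le_top le_top hzp
  have h1 := mem_cj.mp (hh (Subgroup.mem_zpowers a))
  refine ⟨h⁻¹, ?_⟩
  rw [inv_inv]
  exact h1

/-- With a dihedral Sylow `2`-subgroup and no subgroup of index `2`, all involutions are conjugate
(Thompson transfer). -/
theorem all_involutions_conj_of_no_index_two [Finite X] (S : Sylow 2 X) {m : ℕ}
    (e : (S : Subgroup X) ≃* DihedralGroup m) (hA : ∀ H : Subgroup X, H.index ≠ 2) :
    ∀ a b : X, orderOf a = 2 → orderOf b = 2 → IsConj a b := by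
  set Q : Subgroup X := rot (S : Subgroup X) e with hQ
  have hQS : Q ≤ (S : Subgroup X) := rot_le _ e
  have hrel : Q.relIndex (S : Subgroup X) = 2 := rot_relIndex _ e
  have hQc : IsCyclic Q := rot_isCyclic _ e
  have key : ∀ a : X, orderOf a = 2 → ∃ c : X, c * a * c⁻¹ ∈ Q := by
    intro a ha
    obtain ⟨c, hc⟩ := exists_conj_mem_sylow_of_involution S a ha
    by_cases hcQ : c * a * c⁻¹ ∈ Q
    · exact ⟨c, hcQ⟩
    · have ho : orderOf (c * a * c⁻¹) = 2 := by rw [orderOf_conj_eq]; exact ha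
      rcases Cfsg.Agent.S0111.result S Q hQS hrel (c * a * c⁻¹) ho hc hcQ with
        ⟨M, -, hMi, -⟩ | ⟨g, hg⟩
      · exact absurd hMi (hA M)
      · refine ⟨g * c, ?_⟩
        have e1 : g * c * a * (g * c)⁻¹ = g * (c * a * c⁻¹) * g⁻¹ := by group
        rw [e1]; exact hg
  intro a b ha hb
  obtain ⟨c, hc⟩ := key a ha
  obtain ⟨d, hd⟩ := key b hb
  have heq : c * a * c⁻¹ = d * b * d⁻¹ := by
    have := involution_unique_of_isCyclic (C := Q) (a := ⟨c * a * c⁻¹, hc⟩) (b := ⟨d * b * d⁻¹, hd⟩)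
      (by rw [Subgroup.orderOf_mk, orderOf_conj_eq]; exact ha)
      (by rw [Subgroup.orderOf_mk, orderOf_conj_eq]; exact hb)
    exact congrArg Subtype.val this
  rw [isConj_iff]
  refine ⟨d⁻¹ * c, ?_⟩
  have e1 : d⁻¹ * c * a * (d⁻¹ * c)⁻¹ = d⁻¹ * (c * a * c⁻¹) * d := by group
  rw [e1, heq]; group

/-- With a dihedral Sylow `2`-subgroup of order at least `4`, if all involutions are conjugate then
there is no subgroup of index `2`. -/
theorem no_index_two_of_all_involutions_conj [Finite X] (S : Sylow 2 X) {m : ℕ} (hm : 2 ≤ m)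
    (e : (S : Subgroup X) ≃* DihedralGroup m)
    (hC : ∀ a b : X, orderOf a = 2 → orderOf b = 2 → IsConj a b) :
    ∀ H : Subgroup X, H.index ≠ 2 := by
  intro H hH
  have : Fact (Nat.Prime 2) := ⟨Nat.prime_two⟩
  have hHn : H.Normal := Subgroup.normal_of_index_eq_two hH
  have hScard : Nat.card (S : Subgroup X) = 2 * m := by
    rw [Nat.card_congr e.toEquiv, DihedralGroup.nat_card]
  -- `H` has even order
  have h4 : 4 ∣ Nat.card X := by
    have h1 : Nat.card (S : Subgroup X) ∣ Nat.card X := Subgroup.card_subgroup_dvd_card _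
    obtain ⟨k, hk⟩ := S.2.exists_card_eq
    have hk2 : 2 ≤ k := by
      by_contra hcon
      have : k ≤ 1 := by omega
      have h2 : 2 ^ k ≤ 2 ^ 1 := Nat.pow_le_pow_right (by norm_num) this
      omega
    rw [hk] at h1
    exact (pow_dvd_pow 2 hk2).trans h1
  have hHeven : 2 ∣ Nat.card H := by
    have := H.card_mul_index
    rw [hH] at this
    omega
  obtain ⟨t₀, ht₀⟩ := exists_prime_orderOf_dvd_card' 2 hHeven
  have ht₀2 : orderOf (t₀ : X) = 2 := by rw [Subgroup.orderOf_coe]; exact ht₀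
  have hinvH : ∀ t : X, orderOf t = 2 → t ∈ H := by
    intro t ht
    obtain ⟨c, hc⟩ := isConj_iff.mp (hC (t₀ : X) t ht₀2 ht)
    rw [← hc]
    exact hHn.conj_mem _ t₀.2 c
  set Q : Subgroup X := rot (S : Subgroup X) e with hQ
  set u₀ : X := ((e.symm (DihedralGroup.sr 0) : (S : Subgroup X)) : X) with hu₀
  have hu₀S : u₀ ∈ (S : Subgroup X) := (e.symm (DihedralGroup.sr 0)).2
  have hu₀Q : u₀ ∉ Q := symm_sr_not_mem_rot _ e 0
  have hSH : (S : Subgroup X) ≤ H := by
    intro x hx
    by_cases hxQ : x ∈ Q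
    · have h1 : u₀ * x ∉ Q := by
        intro h
        have : u₀ = (u₀ * x) * x⁻¹ := by group
        exact hu₀Q (this ▸ Q.mul_mem h (Q.inv_mem hxQ))
      have h2 : u₀ * x ∈ H :=
        hinvH _ (orderOf_eq_two_of_not_mem_rot (Subgroup.mul_mem _ hu₀S hx) h1)
      have h3 : u₀ ∈ H := hinvH _ (orderOf_eq_two_of_not_mem_rot hu₀S hu₀Q)
      have : x = u₀⁻¹ * (u₀ * x) := by group
      rw [this]
      exact H.mul_mem (H.inv_mem h3) h2
    · exact hinvH _ (orderOf_eq_two_of_not_mem_rot hx hxQ)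
  have h5 := Subgroup.relIndex_mul_index hSH
  rw [hH] at h5
  exact S.not_dvd_index (Dvd.intro_left _ h5)

/-- With a dihedral Sylow `2`-subgroup of order at least `4`, if all involutions are conjugate then
there is no isolated involution. -/
theorem no_isolated_of_all_involutions_conj [Finite X] (S : Sylow 2 X) {m : ℕ} (hm : 2 ≤ m)
    (e : (S : Subgroup X) ≃* DihedralGroup m)
    (hC : ∀ a b : X, orderOf a = 2 → orderOf b = 2 → IsConj a b) :
    ∀ z : X, ¬ Cfsg.IsIsolatedInvolution z := by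
  rintro z ⟨hz2, hz⟩
  have : Fact (Nat.Prime 2) := ⟨Nat.prime_two⟩
  have hm1 : Fact (1 < m) := ⟨by omega⟩
  have hSne : (S : Subgroup X) ≠ ⊥ := by
    intro h
    have h1 : Nat.card (S : Subgroup X) = 2 * m := by
      rw [Nat.card_congr e.toEquiv, DihedralGroup.nat_card]
    rw [h, Subgroup.card_bot] at h1
    omega
  obtain ⟨z₀, hz₀S, hz₀2, hz₀c⟩ := exists_central_involution_of_two_group (S : Subgroup X) S.2 hSne
  -- a second involution of `S`
  obtain ⟨t, htS, ht2, htne⟩ : ∃ t ∈ (S : Subgroup X), orderOf t = 2 ∧ t ≠ z₀ := by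
    set u₀ : X := ((e.symm (DihedralGroup.sr 0) : (S : Subgroup X)) : X) with hu₀
    set u₁ : X := ((e.symm (DihedralGroup.sr 1) : (S : Subgroup X)) : X) with hu₁
    have h0 : orderOf u₀ = 2 :=
      orderOf_eq_two_of_not_mem_rot (e.symm (DihedralGroup.sr 0)).2 (symm_sr_not_mem_rot _ e 0)
    have h1 : orderOf u₁ = 2 :=
      orderOf_eq_two_of_not_mem_rot (e.symm (DihedralGroup.sr 1)).2 (symm_sr_not_mem_rot _ e 1)
    have hne : u₀ ≠ u₁ := by
      intro h
      have h2 : e.symm (DihedralGroup.sr (0 : ZMod m)) = e.symm (DihedralGroup.sr (1 : ZMod m)) :=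
        Subtype.ext h
      have h3 := e.symm.injective h2
      have h4 : (0 : ZMod m) = 1 := by injection h3
      exact zero_ne_one h4
    by_cases h : u₀ = z₀
    · exact ⟨u₁, (e.symm (DihedralGroup.sr 1)).2, h1, fun h' => hne (h.trans h'.symm)⟩
    · exact ⟨u₀, (e.symm (DihedralGroup.sr 0)).2, h0, h⟩
  obtain ⟨c, hc⟩ := isConj_iff.mp (hC z z₀ hz2 hz₀2)
  obtain ⟨d, hd⟩ := isConj_iff.mp (hC z t hz2 ht2)
  have hcomm : Commute z ((c⁻¹ * d) * z * (c⁻¹ * d)⁻¹) := by
    have e1 : (c⁻¹ * d) * z * (c⁻¹ * d)⁻¹ = c⁻¹ * (d * z * d⁻¹) * c := by group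
    have e2 : z = c⁻¹ * (c * z * c⁻¹) * c := by group
    rw [e1, hd]
    show z * (c⁻¹ * t * c) = (c⁻¹ * t * c) * z
    have h1 : z * (c⁻¹ * t * c) = c⁻¹ * (z₀ * t) * c := by
      rw [← hc]; group
    have h2 : (c⁻¹ * t * c) * z = c⁻¹ * (t * z₀) * c := by
      rw [← hc]; group
    rw [h1, h2, hz₀c t htS]
  have h3 := hz _ hcomm
  have e1 : (c⁻¹ * d) * z * (c⁻¹ * d)⁻¹ = c⁻¹ * (d * z * d⁻¹) * c := by group
  rw [e1, hd] at h3
  have h4 : t = z₀ := by
    rw [← hc, ← h3]; group
  exact htne h4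

/-- In a Klein four-subgroup `U` with `3 ∣ |N(U) : C(U)|`, any two non-identity elements are
conjugate. -/
theorem kleinFour_conj_of_three_dvd [Finite X] (U : Subgroup X) (hU : IsKleinFour U)
    (h3 : 3 ∣ (Subgroup.centralizer (U : Set X)).relIndex (Subgroup.normalizer (U : Set X)))
    (a b : X) (ha : a ∈ U) (hb : b ∈ U) (ha1 : a ≠ 1) (hb1 : b ≠ 1) :
    ∃ g : X, g * a * g⁻¹ = b := by
  classical
  by_cases hab : a = b
  · exact ⟨1, by simp [hab]⟩
  have : Fact (Nat.Prime 3) := ⟨Nat.prime_three⟩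
  have hidx : (Subgroup.centralizer (U : Set X)).relIndex (Subgroup.normalizer (U : Set X)) =
      Nat.card U.normalizerMonoidHom.range := by
    rw [Subgroup.relIndex, ← Subgroup.normalizerMonoidHom_ker, Subgroup.index_ker]
  rw [hidx] at h3
  obtain ⟨φ', hφ'⟩ := exists_prime_orderOf_dvd_card' 3 h3
  obtain ⟨g', hg'⟩ := φ'.2
  set φ : MulAut U := U.normalizerMonoidHom g' with hφ
  have hφ3 : orderOf φ = 3 := by
    rw [hg', Subgroup.orderOf_coe]; exact hφ'
  have hconj : ∀ u : U, ((φ u : U) : X) = (g' : X) * u * (g' : X)⁻¹ := fun u => rfl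
  have : Fintype U := Fintype.ofFinite U
  set a' : U := ⟨a, ha⟩ with ha'def
  set b' : U := ⟨b, hb⟩ with hb'def
  have ha' : a' ≠ 1 := fun h => ha1 (congrArg Subtype.val h)
  have hb' : b' ≠ 1 := fun h => hb1 (congrArg Subtype.val h)
  have hab' : a' ≠ b' := fun h => hab (congrArg Subtype.val h)
  have huniv := IsKleinFour.eq_finset_univ ha' hb' hab'
  have hall : ∀ x : U, x = a' * b' ∨ x = a' ∨ x = b' ∨ x = 1 := by
    intro x
    have := Finset.mem_univ x
    rw [← huniv] at this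
    simpa using this
  have haa : a' * a' = 1 := IsKleinFour.mul_self a'
  have hbb : b' * b' = 1 := IsKleinFour.mul_self b'
  have hcomm : a' * b' = b' * a' :=
    (IsKleinFour.isMulCommutative (G := U)).is_comm.comm a' b'
  have hsq : φ (φ a') = a' → φ (φ b') = b' → False := by
    intro h5 h6
    have h7 : φ ^ 2 = 1 := by
      ext x
      rw [pow_two, MulAut.mul_apply, MulAut.one_apply]
      rcases hall x with rfl | rfl | rfl | rfl
      · rw [map_mul, map_mul, h5, h6]
      · rw [h5]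
      · rw [h6]
      · rw [map_one, map_one]
    have h8 : orderOf φ ∣ 2 := orderOf_dvd_of_pow_eq_one h7
    rw [hφ3] at h8
    omega
  have key : φ a' = b' ∨ φ b' = a' := by
    by_contra hcon
    rw [not_or] at hcon
    obtain ⟨h1, h2⟩ := hcon
    have hφa1 : φ a' ≠ 1 := fun h => ha' ((MulEquiv.map_eq_one_iff φ).mp h)
    have hφb1 : φ b' ≠ 1 := fun h => hb' ((MulEquiv.map_eq_one_iff φ).mp h)
    rcases hall (φ a') with h | h | h | h
    · rcases hall (φ b') with h' | h' | h' | h'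
      · exact hab' (φ.injective (h.trans h'.symm))
      · exact h2 h'
      · apply hsq
        · rw [h, map_mul, h, h', mul_assoc, hbb, mul_one]
        · rw [h', h']
      · exact hφb1 h'
    · rcases hall (φ b') with h' | h' | h' | h'
      · apply hsq
        · rw [h, h]
        · rw [h', map_mul, h, h', ← mul_assoc, haa, one_mul]
      · exact h2 h'
      · apply hsq
        · rw [h, h]
        · rw [h', h']
      · exact hφb1 h'
    · exact h1 h
    · exact hφa1 h
  rcases key with h | h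
  · refine ⟨(g' : X), ?_⟩
    have h1 := congrArg Subtype.val h
    rw [hconj] at h1
    exact h1
  · refine ⟨(g' : X)⁻¹, ?_⟩
    have h1 := congrArg Subtype.val h
    rw [hconj] at h1
    have h2 : (g' : X) * b * (g' : X)⁻¹ = a := h1
    rw [← h2]; group

/-- With a dihedral Sylow `2`-subgroup of order at least `4`: if `3 ∣ |N(U) : C(U)|` for all
four-subgroups `U ≤ S` then all involutions are conjugate. -/
theorem all_involutions_conj_of_three_dvd [Finite X] (S : Sylow 2 X) {m : ℕ} (hm : 2 ≤ m)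
    (e : (S : Subgroup X) ≃* DihedralGroup m)
    (hD : ∀ U : Subgroup X, U ≤ S → IsKleinFour U →
      3 ∣ (Subgroup.centralizer (U : Set X)).relIndex (Subgroup.normalizer (U : Set X))) :
    ∀ a b : X, orderOf a = 2 → orderOf b = 2 → IsConj a b := by
  have hSne : (S : Subgroup X) ≠ ⊥ := by
    intro h
    have h1 : Nat.card (S : Subgroup X) = 2 * m := by
      rw [Nat.card_congr e.toEquiv, DihedralGroup.nat_card]
    rw [h, Subgroup.card_bot] at h1
    omega
  obtain ⟨z₀, hz₀S, hz₀2, hz₀c⟩ := exists_central_involution_of_two_group (S : Subgroup X) S.2 hSne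
  have hz₀sq : z₀ * z₀ = 1 := by rw [← pow_two, ← hz₀2]; exact pow_orderOf_eq_one _
  have hz₀1 : z₀ ≠ 1 := by
    intro h; rw [h, orderOf_one] at hz₀2; omega
  have key : ∀ a : X, orderOf a = 2 → ∃ c : X, c * a * c⁻¹ = z₀ := by
    intro a ha
    obtain ⟨c, hc⟩ := exists_conj_mem_sylow_of_involution S a ha
    have ht2 : orderOf (c * a * c⁻¹) = 2 := by rw [orderOf_conj_eq]; exact ha
    by_cases ht : c * a * c⁻¹ = z₀
    · exact ⟨c, ht⟩
    · have htsq : (c * a * c⁻¹) * (c * a * c⁻¹) = 1 := by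
        rw [← pow_two, ← ht2]; exact pow_orderOf_eq_one _
      have ht1 : c * a * c⁻¹ ≠ 1 := by
        intro h; rw [h, orderOf_one] at ht2; omega
      have hcomm : z₀ * (c * a * c⁻¹) = (c * a * c⁻¹) * z₀ := (hz₀c _ hc).symm
      have hU : IsKleinFour (fourSub z₀ (c * a * c⁻¹) hz₀sq htsq hcomm) :=
        fourSub_isKleinFour _ _ _ _ _ hz₀1 ht1 (Ne.symm ht)
      have hUS : fourSub z₀ (c * a * c⁻¹) hz₀sq htsq hcomm ≤ (S : Subgroup X) := by
        intro x hx
        rcases hx with rfl | rfl | rfl | rfl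
        · exact Subgroup.one_mem _
        · exact hz₀S
        · exact hc
        · exact Subgroup.mul_mem _ hz₀S hc
      obtain ⟨g, hg⟩ := kleinFour_conj_of_three_dvd _ hU (hD _ hUS hU) (c * a * c⁻¹) z₀
        (Or.inr (Or.inr (Or.inl rfl))) (Or.inr (Or.inl rfl)) ht1 hz₀1
      refine ⟨g * c, ?_⟩
      have e1 : g * c * a * (g * c)⁻¹ = g * (c * a * c⁻¹) * g⁻¹ := by group
      rw [e1, hg]
  intro a b ha hb
  obtain ⟨c, hc⟩ := key a ha
  obtain ⟨d, hd⟩ := key b hb
  rw [isConj_iff]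
  refine ⟨d⁻¹ * c, ?_⟩
  have e1 : d⁻¹ * c * a * (d⁻¹ * c)⁻¹ = d⁻¹ * (c * a * c⁻¹) * d := by group
  rw [e1, hc, ← hd]; group

end Cfsg.Agent.H11
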