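import Mathlib

namespace Cfsg.Agent.H11.EqOrd

open QuaternionGroup in
theorem quat_two_subgroups (n : ℕ) (hn : 2 ≤ n) :
    ∃ H K : Subgroup (QuaternionGroup (2 ^ n)), Nat.card H = Nat.card K ∧
      (∀ a ∈ H, ∀ b ∈ H, a * b = b * a) ∧ ¬ (∀ a ∈ K, ∀ b ∈ K, a * b = b * a) := by
  classical
  obtain ⟨N, hN⟩ : ∃ N : ℕ, N = 2 ^ n := ⟨_, rfl⟩
  rw [← hN]
  have hN4 : 4 ≤ N := by
    rw [hN]
    calc 4 = 2 ^ 2 := by norm_num
      _ ≤ 2 ^ n := Nat.pow_le_pow_right (by norm_num) hn
  have h2N : 2 ∣ N := by rw [hN]; exact dvd_pow_self 2 (by omega)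
  haveI : NeZero N := ⟨by omega⟩
  let c : ZMod (2 * N) →+* ZMod 2 := ZMod.castHom (dvd_mul_right 2 N) (ZMod 2)
  have hcN : c (N : ZMod (2 * N)) = 0 := by
    rw [map_natCast]
    exact (ZMod.natCast_eq_zero_iff N 2).mpr h2N
  let φf : QuaternionGroup N → Multiplicative (ZMod 2) := fun g =>
    match g with
    | a i => Multiplicative.ofAdd (c i)
    | xa i => Multiplicative.ofAdd (c i)
  have hneg : ∀ x : ZMod 2, -x = x := by decide
  let φ : QuaternionGroup N →* Multiplicative (ZMod 2) := MonoidHom.mk' φf (by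
    rintro (i | i) (j | j)
    · show Multiplicative.ofAdd (c (i + j)) = Multiplicative.ofAdd (c i) * Multiplicative.ofAdd (c j)
      rw [map_add]; rfl
    · show Multiplicative.ofAdd (c (j - i)) = Multiplicative.ofAdd (c i) * Multiplicative.ofAdd (c j)
      rw [map_sub, sub_eq_add_neg, hneg, add_comm]; rfl
    · show Multiplicative.ofAdd (c (i + j)) = Multiplicative.ofAdd (c i) * Multiplicative.ofAdd (c j)
      rw [map_add]; rfl
    · show Multiplicative.ofAdd (c (N + j - i)) = Multiplicative.ofAdd (c i) * Multiplicative.ofAdd (c j)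
      rw [map_sub, map_add, hcN, zero_add, sub_eq_add_neg, hneg, add_comm]; rfl)
  have hφa : ∀ i, φ (a i) = Multiplicative.ofAdd (c i) := fun i => rfl
  have hφxa : ∀ i, φ (xa i) = Multiplicative.ofAdd (c i) := fun i => rfl
  have hsurj : Function.Surjective φ := by
    intro y
    have h01 : ∀ z : ZMod 2, z = 0 ∨ z = 1 := by decide
    rcases h01 (Multiplicative.toAdd y) with h | h
    · exact ⟨a 0, by rw [hφa, map_zero]; exact (congrArg Multiplicative.ofAdd h.symm)⟩
    · exact ⟨a 1, by rw [hφa, map_one]; exact (congrArg Multiplicative.ofAdd h.symm)⟩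
  have hidx : φ.ker.index = 2 := by
    rw [Subgroup.index_ker, MonoidHom.range_eq_top.mpr hsurj, Subgroup.card_top]
    simp
  have hcardG : Nat.card (QuaternionGroup N) = 4 * N := by
    rw [Nat.card_eq_fintype_card, QuaternionGroup.card]
  have hcardK : Nat.card φ.ker = 2 * N := by
    have h := Subgroup.card_mul_index φ.ker
    rw [hidx, hcardG] at h
    omega
  refine ⟨Subgroup.zpowers (a 1), φ.ker, ?_, ?_, ?_⟩
  · rw [Nat.card_zpowers, orderOf_a_one, hcardK]
  · intro x hx y hy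
    obtain ⟨k, rfl⟩ := Subgroup.mem_zpowers_iff.mp hx
    obtain ⟨l, rfl⟩ := Subgroup.mem_zpowers_iff.mp hy
    exact ((Commute.refl (a 1 : QuaternionGroup N)).zpow_zpow k l).eq
  · intro h
    have h1 : (a 2 : QuaternionGroup N) ∈ φ.ker := by
      rw [MonoidHom.mem_ker, hφa]
      have : c 2 = 0 := by
        have : (2 : ZMod (2 * N)) = ((2 : ℕ) : ZMod (2 * N)) := by norm_num
        rw [this, map_natCast]; decide
      rw [this]; rfl
    have h2 : (xa 0 : QuaternionGroup N) ∈ φ.ker := by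
      rw [MonoidHom.mem_ker, hφxa, map_zero]; rfl
    have h3 := h _ h1 _ h2
    rw [a_mul_xa, xa_mul_a] at h3
    have h4 : (0 : ZMod (2 * N)) - 2 = 0 + 2 := by
      injection h3
    have h5 : ((4 : ℕ) : ZMod (2 * N)) = 0 := by
      have : ((4 : ℕ) : ZMod (2 * N)) = (0 + 2) - (0 - 2) := by push_cast; ring
      rw [this, ← h4]; ring
    rw [ZMod.natCast_eq_zero_iff] at h5
    have := Nat.le_of_dvd (by norm_num) h5
    omega

end Cfsg.Agent.H11.EqOrd
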