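import Mathlib

namespace Cfsg.Agent.H11.EqOrd

theorem card_closure_heis_le {G : Type*} [Group G] [Finite G] (p : ℕ) (hp : 0 < p) (u v c : G)
    (hu : u ^ p = 1) (hv : v ^ p = 1) (hc : c ^ p = 1)
    (huc : u * c = c * u) (hvc : v * c = c * v) (huv : u * v = c * v * u) :
    Nat.card (Subgroup.closure ({u, v} : Set G)) ≤ p ^ 3 := by
  classical
  have hcu : Commute c u := huc.symm
  have hcv : Commute c v := hvc.symm
  have inv_eq : ∀ x : G, x ^ p = 1 → x⁻¹ = x ^ (p - 1) := by
    intro x hx
    have h1 : x ^ (p - 1) * x = 1 := by rw [← pow_succ, Nat.sub_add_cancel hp, hx]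
    exact (eq_inv_of_mul_eq_one_left h1).symm
  have hvu : v * u = c ^ (p - 1) * u * v := by
    rw [← inv_eq c hc, mul_assoc, huv]; group
  have hvui : ∀ i : ℕ, v * u ^ i = c ^ ((p - 1) * i) * u ^ i * v := by
    intro i
    induction i with
    | zero => simp
    | succ i ih =>
      calc v * u ^ (i + 1) = (v * u ^ i) * u := by rw [pow_succ, mul_assoc]
        _ = c ^ ((p - 1) * i) * u ^ i * (v * u) := by rw [ih]; simp only [mul_assoc]
        _ = c ^ ((p - 1) * i) * u ^ i * (c ^ (p - 1) * u * v) := by rw [hvu]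
        _ = c ^ ((p - 1) * i) * (u ^ i * c ^ (p - 1)) * (u * v) := by simp only [mul_assoc]
        _ = c ^ ((p - 1) * i) * (c ^ (p - 1) * u ^ i) * (u * v) := by
            rw [((hcu.pow_left (p - 1)).pow_right i).eq]
        _ = c ^ ((p - 1) * (i + 1)) * u ^ (i + 1) * v := by
            rw [Nat.mul_succ, pow_add, pow_succ]; simp only [mul_assoc]
  let P : G → Prop := fun x => ∃ i j k : ℕ, x = u ^ i * v ^ j * c ^ k
  have hP1 : P 1 := ⟨0, 0, 0, by simp⟩
  have hPu : ∀ x, P x → P (u * x) := by
    rintro x ⟨i, j, k, rfl⟩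
    exact ⟨i + 1, j, k, by rw [pow_succ']; simp only [mul_assoc]⟩
  have hPv : ∀ x, P x → P (v * x) := by
    rintro x ⟨i, j, k, rfl⟩
    refine ⟨i, j + 1, k + (p - 1) * i, ?_⟩
    calc v * (u ^ i * v ^ j * c ^ k) = (v * u ^ i) * v ^ j * c ^ k := by simp only [mul_assoc]
      _ = c ^ ((p - 1) * i) * u ^ i * v * v ^ j * c ^ k := by rw [hvui]
      _ = c ^ ((p - 1) * i) * (u ^ i * v ^ (j + 1) * c ^ k) := by
          rw [pow_succ']; simp only [mul_assoc]
      _ = (u ^ i * v ^ (j + 1) * c ^ k) * c ^ ((p - 1) * i) := by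
          have h1 : Commute (c ^ ((p - 1) * i)) (u ^ i * v ^ (j + 1) * c ^ k) := by
            apply Commute.mul_right
            · apply Commute.mul_right
              · exact (hcu.pow_left _).pow_right _
              · exact (hcv.pow_left _).pow_right _
            · exact ((Commute.refl c).pow_left _).pow_right _
          exact h1.eq
      _ = u ^ i * v ^ (j + 1) * c ^ (k + (p - 1) * i) := by
          rw [pow_add c k]; simp only [mul_assoc]
  have hPun : ∀ n : ℕ, ∀ x, P x → P (u ^ n * x) := by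
    intro n
    induction n with
    | zero => intro x hx; simpa using hx
    | succ n ih => intro x hx; rw [pow_succ', mul_assoc]; exact hPu _ (ih x hx)
  have hPvn : ∀ n : ℕ, ∀ x, P x → P (v ^ n * x) := by
    intro n
    induction n with
    | zero => intro x hx; simpa using hx
    | succ n ih => intro x hx; rw [pow_succ', mul_assoc]; exact hPv _ (ih x hx)
  have hall : ∀ x ∈ Subgroup.closure ({u, v} : Set G), P x := by
    intro x hx
    induction hx using Subgroup.closure_induction_left with
    | one => exact hP1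
    | mul_left a ha y hy ih =>
      rcases ha with rfl | rfl
      · exact hPu _ ih
      · exact hPv _ ih
    | inv_mul_cancel a ha y hy ih =>
      rcases ha with rfl | rfl
      · rw [inv_eq a hu]; exact hPun _ _ ih
      · rw [inv_eq a hv]; exact hPvn _ _ ih
  let f : Fin p × Fin p × Fin p → G := fun x => u ^ (x.1 : ℕ) * v ^ (x.2.1 : ℕ) * c ^ (x.2.2 : ℕ)
  have hsub : ((Subgroup.closure ({u, v} : Set G) : Subgroup G) : Set G) ⊆ Set.range f := by
    intro x hx
    obtain ⟨i, j, k, rfl⟩ := hall x hx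
    refine ⟨(⟨i % p, Nat.mod_lt _ hp⟩, ⟨j % p, Nat.mod_lt _ hp⟩, ⟨k % p, Nat.mod_lt _ hp⟩), ?_⟩
    simp only [f]
    rw [← pow_eq_pow_mod i hu, ← pow_eq_pow_mod j hv, ← pow_eq_pow_mod k hc]
  calc Nat.card (Subgroup.closure ({u, v} : Set G))
      = Set.ncard ((Subgroup.closure ({u, v} : Set G) : Subgroup G) : Set G) := rfl
    _ ≤ Set.ncard (Set.range f) := Set.ncard_le_ncard hsub (Set.toFinite _)
    _ ≤ Nat.card (Fin p × Fin p × Fin p) := by
        rw [← Nat.card_coe_set_eq]
        exact Nat.card_le_card_of_surjective (Set.rangeFactorization f) Set.rangeFactorization_surjective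
    _ = p ^ 3 := by simp; ring

end Cfsg.Agent.H11.EqOrd
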