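import Mathlib
import Cfsg.Agent.H3.Dihedral
import Cfsg.Agent.H11.Dihedral2
import Cfsg.Agent.H21.Counting

/-!
# General lemmas used for simple groups of order 168
(groups of order 8, counting lemmas)
-/

set_option autoImplicit false

namespace Cfsg.Agent.H11.G168

theorem dvd_eight {n : ℕ} (h : n ∣ 8) : n = 1 ∨ n = 2 ∨ n = 4 ∨ n = 8 := by
  have hle : n ≤ 8 := Nat.le_of_dvd (by norm_num) h
  interval_cases n <;> omega

theorem orderOf_conj' {Q : Type*} [Group Q] (g y : Q) : orderOf (g * y * g⁻¹) = orderOf y := by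
  have := orderOf_injective (MulAut.conj g).toMonoidHom (MulAut.conj g).injective y
  simpa using this

theorem exists_pow_of_mem_zpowers {Q : Type*} [Group Q] {x y : Q} {n : ℕ} (hn : 0 < n)
    (hx : x ^ n = 1) (hy : y ∈ Subgroup.zpowers x) : ∃ r : ℕ, r < n ∧ y = x ^ r := by
  obtain ⟨i, rfl⟩ := Subgroup.mem_zpowers_iff.mp hy
  have hN' : (0 : ℤ) < n := by exact_mod_cast hn
  have h0 := Int.emod_nonneg i hN'.ne'
  refine ⟨(i % n).toNat, ?_, ?_⟩
  · have := Int.emod_lt_of_pos i hN'
    omega
  · rw [← zpow_natCast, Int.toNat_of_nonneg h0]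
    exact zpow_eq_zpow_emod' i hx

section Order8

variable {Q : Type*} [Group Q] [Finite Q]

theorem order8_exists_order4 (hQ : Nat.card Q = 8) (hnc : ¬ ∀ a b : Q, a * b = b * a) :
    ∃ x : Q, orderOf x = 4 := by
  by_contra hcon
  have hord : ∀ x : Q, orderOf x = 1 ∨ orderOf x = 2 ∨ orderOf x = 8 := by
    intro x
    have hd : orderOf x ∣ 8 := hQ ▸ orderOf_dvd_natCard x
    rcases dvd_eight hd with h1 | h1 | h1 | h1
    · exact Or.inl h1
    · exact Or.inr (Or.inl h1)
    · exact absurd ⟨x, h1⟩ hcon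
    · exact Or.inr (Or.inr h1)
  apply hnc
  by_cases h8 : ∃ x : Q, orderOf x = 8
  · obtain ⟨x, hx⟩ := h8
    have hcyc : IsCyclic Q := isCyclic_of_orderOf_eq_card x (by rw [hx, hQ])
    obtain ⟨g, hg⟩ := hcyc.exists_generator
    intro a b
    obtain ⟨i, rfl⟩ := Subgroup.mem_zpowers_iff.mp (hg a)
    obtain ⟨j, rfl⟩ := Subgroup.mem_zpowers_iff.mp (hg b)
    exact ((Commute.refl g).zpow_zpow i j).eq
  · have hsq : ∀ x : Q, x * x = 1 := by
      intro x
      rcases hord x with h1 | h1 | h1
      · rw [orderOf_eq_one_iff] at h1; rw [h1, one_mul]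
      · rw [← pow_two, ← h1]; exact pow_orderOf_eq_one x
      · exact absurd ⟨x, h1⟩ h8
    intro a b
    have h1 := hsq (a * b)
    have ha : a⁻¹ = a := inv_eq_of_mul_eq_one_right (hsq a)
    have hb : b⁻¹ = b := inv_eq_of_mul_eq_one_right (hsq b)
    calc a * b = (a * b)⁻¹ := (inv_eq_of_mul_eq_one_right h1).symm
      _ = b⁻¹ * a⁻¹ := mul_inv_rev a b
      _ = b * a := by rw [ha, hb]

theorem order4_mem_zpowers {x y : Q} (hx : orderOf x = 4) (hy : y ∈ Subgroup.zpowers x)
    (hy4 : orderOf y = 4) : y = x ∨ y = x⁻¹ := by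
  have hx4 : x ^ 4 = 1 := by rw [← hx]; exact pow_orderOf_eq_one x
  obtain ⟨r, hr, rfl⟩ := exists_pow_of_mem_zpowers (by norm_num) hx4 hy
  interval_cases r
  · simp at hy4
  · left; exact pow_one x
  · exfalso
    have h2 : (x ^ 2) ^ 2 = 1 := by rw [← pow_mul]; exact hx4
    have h3 := orderOf_dvd_of_pow_eq_one h2
    rw [hy4] at h3
    omega
  · right
    apply eq_inv_of_mul_eq_one_left
    rw [← pow_succ]; exact hx4

theorem order8_struct (hQ : Nat.card Q = 8) (hnc : ¬ ∀ a b : Q, a * b = b * a) {x : Q}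
    (hx : orderOf x = 4) :
    (∀ t : Q, t ∉ Subgroup.zpowers x → t * x * t⁻¹ = x⁻¹) ∧
      (∀ t : Q, t * (x * x) = (x * x) * t) := by
  have hH : Nat.card (Subgroup.zpowers x) = 4 := by rw [Nat.card_zpowers, hx]
  have hidx : (Subgroup.zpowers x).index = 2 := by
    have := Subgroup.card_mul_index (Subgroup.zpowers x)
    rw [hH, hQ] at this
    omega
  haveI : (Subgroup.zpowers x).Normal := Subgroup.normal_of_index_eq_two hidx
  have hx4 : x ^ 4 = 1 := by rw [← hx]; exact pow_orderOf_eq_one x
  have hxx : (x * x) * (x * x) = 1 := by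
    rw [← hx4, show (4 : ℕ) = 2 * 2 from rfl, pow_mul, pow_two, pow_two]
  have part1 : ∀ t : Q, t ∉ Subgroup.zpowers x → t * x * t⁻¹ = x⁻¹ := by
    intro t ht
    have h1 : t * x * t⁻¹ ∈ Subgroup.zpowers x :=
      Subgroup.Normal.conj_mem inferInstance x (Subgroup.mem_zpowers x) t
    have h2 : orderOf (t * x * t⁻¹) = 4 := by rw [orderOf_conj', hx]
    rcases order4_mem_zpowers hx h1 h2 with h3 | h3
    · exfalso
      -- t commutes with x: then x is central
      have htx : t * x = x * t := by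
        calc t * x = (t * x * t⁻¹) * t := by group
          _ = x * t := by rw [h3]
      have hC : Subgroup.centralizer ({x} : Set Q) = ⊤ := by
        have hle : Subgroup.zpowers x ≤ Subgroup.centralizer ({x} : Set Q) := by
          rw [Subgroup.zpowers_le, Subgroup.mem_centralizer_iff]
          intro y hy
          rw [Set.mem_singleton_iff] at hy
          rw [hy]
        have htC : t ∈ Subgroup.centralizer ({x} : Set Q) := by
          rw [Subgroup.mem_centralizer_iff]
          intro y hy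
          rw [Set.mem_singleton_iff] at hy
          rw [hy]; exact htx.symm
        have hd : Nat.card (Subgroup.centralizer ({x} : Set Q)) ∣ 8 :=
          hQ ▸ Subgroup.card_subgroup_dvd_card _
        have h4 : 4 ∣ Nat.card (Subgroup.centralizer ({x} : Set Q)) := by
          rw [← hH]; exact Subgroup.card_dvd_of_le hle
        have hne : Nat.card (Subgroup.centralizer ({x} : Set Q)) ≠ 4 := by
          intro h4'
          have : Subgroup.zpowers x = Subgroup.centralizer ({x} : Set Q) :=
            Subgroup.eq_of_le_of_card_ge hle (by rw [hH, h4'])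
          exact ht (this ▸ htC)
        have h8 : Nat.card (Subgroup.centralizer ({x} : Set Q)) = 8 := by
          rcases dvd_eight hd with h' | h' | h' | h'
          · rw [h'] at h4; omega
          · rw [h'] at h4; omega
          · exact absurd h' hne
          · exact h'
        exact Subgroup.eq_top_of_card_eq _ (by rw [h8, hQ])
      have hxc : x ∈ Subgroup.center Q := by
        rw [Subgroup.mem_center_iff]
        intro g
        have hg : g ∈ Subgroup.centralizer ({x} : Set Q) := by rw [hC]; exact Subgroup.mem_top g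
        rw [Subgroup.mem_centralizer_iff] at hg
        exact (hg x rfl).symm
      have hle : Subgroup.zpowers x ≤ Subgroup.center Q := by
        rw [Subgroup.zpowers_le]; exact hxc
      have hcard : Nat.card (Q ⧸ Subgroup.center Q) ∣ 2 := by
        have h1 : (Subgroup.center Q).index ∣ (Subgroup.zpowers x).index :=
          Subgroup.index_dvd_of_le hle
        rw [hidx] at h1
        exact h1
      have hcyc : IsCyclic (Q ⧸ Subgroup.center Q) := by
        have hpos : 0 < Nat.card (Q ⧸ Subgroup.center Q) := Nat.card_pos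
        have hle2 : Nat.card (Q ⧸ Subgroup.center Q) ≤ 2 := Nat.le_of_dvd (by norm_num) hcard
        interval_cases hc : Nat.card (Q ⧸ Subgroup.center Q)
        · haveI : Subsingleton (Q ⧸ Subgroup.center Q) :=
            (Nat.card_eq_one_iff_unique.mp hc).1
          infer_instance
        · haveI : Fact (Nat.Prime 2) := ⟨Nat.prime_two⟩
          exact isCyclic_of_prime_card hc
      apply hnc
      exact commutative_of_cyclic_center_quotient (QuotientGroup.mk' (Subgroup.center Q))
        (by rw [QuotientGroup.ker_mk'])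
    · exact h3
  refine ⟨part1, ?_⟩
  intro t
  by_cases ht : t ∈ Subgroup.zpowers x
  · obtain ⟨k, rfl⟩ := Subgroup.mem_zpowers_iff.mp ht
    have : Commute (x ^ k) (x * x) := ((Commute.refl x).mul_right (Commute.refl x)).zpow_left k
    exact this.eq
  · have h1 := part1 t ht
    have h2 : t * (x * x) * t⁻¹ = x * x := by
      calc t * (x * x) * t⁻¹ = (t * x * t⁻¹) * (t * x * t⁻¹) := by group
        _ = x⁻¹ * x⁻¹ := by rw [h1]
        _ = (x * x)⁻¹ := by group
        _ = x * x := inv_eq_of_mul_eq_one_right hxx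
    calc t * (x * x) = (t * (x * x) * t⁻¹) * t := by group
      _ = (x * x) * t := by rw [h2]

theorem order8_dihedral (hQ : Nat.card Q = 8) (hnc : ¬ ∀ a b : Q, a * b = b * a) {x b : Q}
    (hx : orderOf x = 4) (hb : orderOf b = 2) (hbx : b ∉ Subgroup.zpowers x) :
    Nonempty (Q ≃* DihedralGroup 4) := by
  have hb2 : b * b = 1 := by rw [← pow_two, ← hb]; exact pow_orderOf_eq_one b
  exact Cfsg.Agent.H3.dihedral_of_gens 4 (by rw [hQ]) x b hx hbx hb2
    ((order8_struct hQ hnc hx).1 b hbx)

end Order8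

/-- Three mutually exclusive predicates on a finite type. -/
theorem card_add_three_le {α : Type*} [Finite α] (p q r : α → Prop)
    (hpq : ∀ a, p a → ¬ q a) (hpr : ∀ a, p a → ¬ r a) (hqr : ∀ a, q a → ¬ r a) :
    Nat.card {a // p a} + Nat.card {a // q a} + Nat.card {a // r a} ≤ Nat.card α := by
  let f : ({a // p a} ⊕ {a // q a}) ⊕ {a // r a} → α :=
    Sum.elim (Sum.elim (fun a => a.1) (fun a => a.1)) (fun a => a.1)
  have hf : Function.Injective f := by
    rintro ((⟨a, ha⟩ | ⟨a, ha⟩) | ⟨a, ha⟩) ((⟨b, hb⟩ | ⟨b, hb⟩) | ⟨b, hb⟩) hab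
    all_goals
      have hab' : a = b := hab
      subst hab'
      first
        | rfl
        | exact absurd hb (hpq a ha)
        | exact absurd ha (hpq a hb)
        | exact absurd hb (hpr a ha)
        | exact absurd ha (hpr a hb)
        | exact absurd hb (hqr a ha)
        | exact absurd ha (hqr a hb)
  have := Nat.card_le_card_of_injective f hf
  rwa [Nat.card_sum, Nat.card_sum] at this

/-- Lower bound for the number of non-identity `p`-elements when the Sylow `p`-subgroups
intersect trivially. -/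
theorem card_TI_le {G : Type*} [Group G] [Finite G] (p : ℕ) [Fact p.Prime] (P : Sylow p G)
    (hTI : ∀ (g : G) (Q Q' : Sylow p G), g ≠ 1 → g ∈ (Q : Subgroup G) →
      g ∈ (Q' : Subgroup G) → Q = Q') :
    Nat.card (Sylow p G) * (Nat.card (P : Subgroup G) - 1) ≤
      Nat.card {g : G // g ≠ 1 ∧ ∃ k : ℕ, orderOf g = p ^ k} := by
  classical
  have := Fintype.ofFinite (Sylow p G)
  have hcard : ∀ Q : Sylow p G, Nat.card (Q : Subgroup G) = Nat.card (P : Subgroup G) := by
    intro Q
    rw [Sylow.card_eq_multiplicity, Sylow.card_eq_multiplicity]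
  have aux : ∀ (Q Q' : Sylow p G) (g : G) (h1 : g ∈ (Q' : Subgroup G) ∧ g ≠ 1)
      (h2 : g ∈ (Q : Subgroup G) ∧ g ≠ 1), Q' = Q →
      (⟨Q', ⟨g, h1⟩⟩ : Σ Q : Sylow p G, {g : G // g ∈ (Q : Subgroup G) ∧ g ≠ 1}) =
        ⟨Q, ⟨g, h2⟩⟩ := by
    intro Q Q' g h1 h2 h
    subst h
    rfl
  let f : (Σ Q : Sylow p G, {g : G // g ∈ (Q : Subgroup G) ∧ g ≠ 1}) →
      {g : G // g ≠ 1 ∧ ∃ k : ℕ, orderOf g = p ^ k} :=
    fun q => ⟨q.2.1, q.2.2.2, by
      obtain ⟨k, hk⟩ := (IsPGroup.iff_orderOf.1 q.1.2) ⟨q.2.1, q.2.2.1⟩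
      exact ⟨k, by rw [← hk, Subgroup.orderOf_mk]⟩⟩
  have hf : Function.Injective f := by
    rintro ⟨Q, g, hgQ, hg1⟩ ⟨Q', g', hgQ', hg1'⟩ h
    have hgg : g = g' := congrArg Subtype.val h
    subst hgg
    exact aux _ _ _ _ _ (hTI g Q Q' hg1 hgQ hgQ')
  have h1 := Nat.card_le_card_of_injective f hf
  rw [Nat.card_sigma] at h1
  simp only [Cfsg.Agent.H21.card_mem_ne_one, hcard] at h1
  rw [Finset.sum_const, Finset.card_univ, smul_eq_mul, ← Nat.card_eq_fintype_card] at h1
  exact h1

end Cfsg.Agent.H11.G168
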