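import Mathlib
import Cfsg.Prelude.Def_TwoFusion
import Cfsg.Agent.H92.QuatDirect
import Cfsg.Agent.H47.J2A5

set_option autoImplicit false

/-!
# Piece D of S3313 (helper11): the class count `a(t) = 195`
-/

namespace Cfsg.Agent.H11.J2

open Cfsg.Agent.H47.J2A5 Cfsg.Agent.H92.QuatDirect

variable {G : Type*} [Group G]

theorem isConj_orderOf {a b : G} (h : IsConj a b) : orderOf a = orderOf b := by
  obtain ⟨c, hc⟩ := h
  exact SemiconjBy.orderOf_eq _ hc

/-- an involution in the cyclic group generated by a product of two involutions commutes with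
both. -/
theorem comm_of_mem_zpowers {x y u : G} (hx : x * x = 1) (hy : y * y = 1)
    (hu : u ∈ Subgroup.zpowers (x * y)) (hu2 : u * u = 1) : x * u = u * x ∧ y * u = u * y := by
  obtain ⟨k, rfl⟩ := Subgroup.mem_zpowers_iff.1 hu
  have hxi : x⁻¹ = x := inv_eq_of_mul_eq_one_right hx
  have hyi : y⁻¹ = y := inv_eq_of_mul_eq_one_right hy
  have hui : ((x * y) ^ k)⁻¹ = (x * y) ^ k := inv_eq_of_mul_eq_one_right hu2
  have hinv : (x * y)⁻¹ = y * x := by rw [mul_inv_rev, hxi, hyi]
  have h1 : x * (x * y) ^ k * x⁻¹ = (x * y) ^ k := by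
    rw [← conj_zpow]
    have : x * (x * y) * x⁻¹ = (x * y)⁻¹ := by
      rw [hinv, hxi, ← mul_assoc, hx, one_mul]
    rw [this, inv_zpow, hui]
  have h2 : y * (x * y) ^ k * y⁻¹ = (x * y) ^ k := by
    rw [← conj_zpow]
    have : y * (x * y) * y⁻¹ = (x * y)⁻¹ := by
      rw [hinv, hyi, mul_assoc, mul_assoc, hy, mul_one]
    rw [this, inv_zpow, hui]
  constructor
  · exact (mul_inv_eq_iff_eq_mul.1 h1)
  · exact (mul_inv_eq_iff_eq_mul.1 h2)

theorem zpow_of_sq_one {v : G} (hv : v * v = 1) (k : ℤ) : v ^ k = 1 ∨ (Odd k ∧ v ^ k = v) := by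
  rcases Int.even_or_odd k with ⟨j, hj⟩ | ⟨j, hj⟩
  · left
    rw [hj, zpow_add, ← (Commute.refl v).mul_zpow, hv, one_zpow]
  · right
    refine ⟨⟨j, hj⟩, ?_⟩
    rw [hj, zpow_add, zpow_mul, zpow_two, hv, one_zpow, one_mul, zpow_one]

theorem at_count [Finite G] (z t : G) (hz : orderOf z = 2)
    (ht : orderOf t = 2) (hzt : ¬ IsConj z t) (V B : Subgroup G)
    (hVB : Cfsg.IsInternalDirectProduct V B (Subgroup.centralizer ({t} : Set G)))
    (hV2 : ∀ v ∈ V, v ^ 2 = 1) (htV : t ∈ V)
    (hB : Nonempty (↥B ≃* alternatingGroup (Fin 5)))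
    (hBz : ∀ x ∈ B, orderOf x = 2 → IsConj x z)
    (hCt : ∀ x ∈ Subgroup.centralizer ({t} : Set G), orderOf x = 2 → x ∉ B → IsConj x t) :
    Nat.card {p : G × G // IsConj z p.1 ∧ IsConj t p.2 ∧ t ∈ Subgroup.zpowers (p.1 * p.2)}
      = 195 := by
  classical
  obtain ⟨e⟩ := hB
  have hVle := hVB.1
  have hBle := hVB.2.1
  have hcomm := hVB.2.2.1
  have hdisj := hVB.2.2.2.1
  have ht1 : t ≠ 1 ∧ t * t = 1 := (orderOf_two_iff t).1 ht
  have hbot : ∀ g, g ∈ V → g ∈ B → g = 1 := by
    intro g h1 h2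
    have : g ∈ V ⊓ B := ⟨h1, h2⟩
    rw [hdisj] at this
    exact Subgroup.mem_bot.1 this
  have htB : t ∉ B := fun h => ht1.1 (hbot t htV h)
  -- the parametrization
  have hwd : ∀ (x : {x : ↥B // orderOf x = 2})
      (b : {b : ↥B // b * b = 1 ∧ Odd (orderOf (x.1 * b))}),
      IsConj z (x.1 : G) ∧ IsConj t (t * (b.1 : G)) ∧
        t ∈ Subgroup.zpowers ((x.1 : G) * (t * (b.1 : G))) := by
    rintro ⟨x, hx⟩ ⟨b, hbb, hodd⟩
    have hxt : (x : G) * t = t * x := (hcomm t htV x x.2).symm
    have hbt : (b : G) * t = t * b := (hcomm t htV b b.2).symm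
    have hbb' : (b : G) * b = 1 := by
      have := congrArg Subtype.val hbb
      simpa using this
    refine ⟨(hBz x x.2 (by rw [Subgroup.orderOf_coe]; exact hx)).symm, ?_, ?_⟩
    · have hyC : t * (b : G) ∈ Subgroup.centralizer ({t} : Set G) := by
        rw [Subgroup.mem_centralizer_singleton_iff, mul_assoc, hbt]
      have hy2 : orderOf (t * (b : G)) = 2 := by
        rw [orderOf_two_iff]
        constructor
        · intro h
          have : (b : G) = t⁻¹ := by rw [eq_inv_iff_mul_eq_one]; rw [← hbt] at h; exact h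
          apply htB
          have h2 := B.inv_mem b.2
          rw [this, inv_inv] at h2
          exact h2
        · calc t * (b : G) * (t * b) = t * ((b : G) * t) * b := by group
            _ = t * (t * b) * b := by rw [hbt]
            _ = (t * t) * ((b : G) * b) := by group
            _ = 1 := by rw [ht1.2, hbb', one_mul]
      have hyB : t * (b : G) ∉ B := by
        intro h
        apply htB
        have := B.mul_mem h (B.inv_mem b.2)
        simpa using this
      exact (hCt _ hyC hy2 hyB).symm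
    · have e1 : (x : G) * (t * b) = t * ((x : G) * b) := by
        rw [← mul_assoc, hxt, mul_assoc]
      have hc : Commute t ((x : G) * b) := by
        show t * ((x : G) * b) = (x : G) * b * t
        calc t * ((x : G) * b) = (t * x) * b := by group
          _ = ((x : G) * t) * b := by rw [hxt]
          _ = (x : G) * (t * b) := by group
          _ = (x : G) * (b * t) := by rw [hbt]
          _ = (x : G) * b * t := by group
      have hm : ((x : G) * b) ^ orderOf (x * b) = 1 := by
        have : ((x * b : ↥B) : G) = (x : G) * b := rfl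
        rw [← this, ← Subgroup.orderOf_coe, pow_orderOf_eq_one]
      obtain ⟨j, hj⟩ := hodd
      have : ((x : G) * (t * b)) ^ orderOf (x * b) = t := by
        rw [e1, hc.mul_pow, hm, mul_one, hj, pow_add, pow_mul, pow_two, ht1.2, one_pow, one_mul,
          pow_one]
      have h6 := Subgroup.npow_mem_zpowers ((x : G) * (t * b)) (orderOf (x * b))
      rw [this] at h6
      exact h6
  let f : (Σ x : {x : ↥B // orderOf x = 2}, {b : ↥B // b * b = 1 ∧ Odd (orderOf (x.1 * b))}) →
      {p : G × G // IsConj z p.1 ∧ IsConj t p.2 ∧ t ∈ Subgroup.zpowers (p.1 * p.2)} :=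
    fun s => ⟨((s.1.1 : G), t * (s.2.1 : G)), hwd s.1 s.2⟩
  have hinj : Function.Injective f := by
    rintro ⟨x, b⟩ ⟨x', b'⟩ h
    have h' := congrArg Subtype.val h
    simp only [f, Prod.mk.injEq] at h'
    obtain ⟨h1, h2⟩ := h'
    have hx : x = x' := Subtype.ext (Subtype.ext h1)
    subst hx
    have hb : b = b' := Subtype.ext (Subtype.ext (mul_left_cancel h2))
    rw [hb]
  have hsurj : Function.Surjective f := by
    rintro ⟨⟨x, y⟩, h1, h2, h3⟩
    simp only at h1 h2 h3
    have hx2 : orderOf x = 2 := by rw [← isConj_orderOf h1]; exact hz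
    have hy2 : orderOf y = 2 := by rw [← isConj_orderOf h2]; exact ht
    have hx := (orderOf_two_iff x).1 hx2
    have hy := (orderOf_two_iff y).1 hy2
    obtain ⟨cx, cy⟩ := comm_of_mem_zpowers hx.2 hy.2 h3 ht1.2
    have hxC : x ∈ Subgroup.centralizer ({t} : Set G) :=
      Subgroup.mem_centralizer_singleton_iff.2 cx
    have hyC : y ∈ Subgroup.centralizer ({t} : Set G) :=
      Subgroup.mem_centralizer_singleton_iff.2 cy
    have hxB : x ∈ B := by
      by_contra h
      exact hzt (h1.trans (hCt x hxC hx2 h))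
    obtain ⟨v, hv, b, hb, hyvb⟩ := exists_decomp hVB hyC
    have hvv : v * v = 1 := by rw [← pow_two]; exact hV2 v hv
    have hvb : v * b = b * v := hcomm v hv b hb
    have hvx : v * x = x * v := hcomm v hv x hxB
    have hbb : b * b = 1 := by
      have h4 : v * b * (v * b) = 1 := by rw [← hyvb]; exact hy.2
      calc b * b = (v * v) * (b * b) := by rw [hvv, one_mul]
        _ = v * (v * b) * b := by group
        _ = v * (b * v) * b := by rw [hvb]
        _ = v * b * (v * b) := by group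
        _ = 1 := h4
    obtain ⟨k, hk⟩ := Subgroup.mem_zpowers_iff.1 h3
    have e1 : x * y = v * (x * b) := by
      rw [hyvb, ← mul_assoc, ← hvx, mul_assoc]
    have hc : Commute v (x * b) := by
      show v * (x * b) = x * b * v
      rw [← mul_assoc, hvx, mul_assoc, hvb, mul_assoc]
    rw [e1, hc.mul_zpow] at hk
    have hu := decomp_unique hVB (V.zpow_mem hv k) htV (B.zpow_mem (B.mul_mem hxB hb) k)
      B.one_mem (by rw [hk, mul_one])
    obtain ⟨hu1, hu2⟩ := hu
    have hkodd : Odd k ∧ v = t := by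
      rcases zpow_of_sq_one hvv k with h | ⟨h, h'⟩
      · exact absurd (h.symm.trans hu1).symm ht1.1
      · exact ⟨h, h'.symm.trans hu1⟩
    obtain ⟨hkodd, hvt⟩ := hkodd
    have hodd : Odd (orderOf (x * b)) := by
      have hdvd : (orderOf (x * b) : ℤ) ∣ k := orderOf_dvd_iff_zpow_eq_one.2 hu2
      by_contra hne
      rw [Nat.not_odd_iff_even] at hne
      have h2 : (2 : ℤ) ∣ k := dvd_trans (by exact_mod_cast hne.two_dvd) hdvd
      exact (Int.not_even_iff_odd.2 hkodd) (even_iff_two_dvd.2 h2)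
    refine ⟨⟨⟨⟨x, hxB⟩, by rw [Subgroup.orderOf_mk]; exact hx2⟩, ⟨⟨b, hb⟩, ?_, ?_⟩⟩, ?_⟩
    · exact Subtype.ext hbb
    · have : ((⟨x, hxB⟩ * ⟨b, hb⟩ : ↥B) : G) = x * b := rfl
      rw [← Subgroup.orderOf_coe, this]
      exact hodd
    · apply Subtype.ext
      simp only [f]
      rw [hyvb, hvt]
  rw [← Nat.card_congr (Equiv.ofBijective f ⟨hinj, hsurj⟩)]
  letI : Fintype {x : ↥B // orderOf x = 2} := Fintype.ofFinite _
  rw [Nat.card_sigma]
  have h13 : ∀ x : {x : ↥B // orderOf x = 2},
      Nat.card {b : ↥B // b * b = 1 ∧ Odd (orderOf (x.1 * b))} = 13 :=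
    fun x => a5_odd e x.1 x.2
  simp only [h13, Finset.sum_const, Finset.card_univ, smul_eq_mul]
  rw [← Nat.card_eq_fintype_card, a5_inv_card e]

end Cfsg.Agent.H11.J2
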