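import Mathlib
import Cfsg.Prelude.Def_TwoFusion
import Cfsg.Agent.H92.QuatDirect
import Cfsg.Agent.H47.J2A5
import Cfsg.Agent.H11.J2D

set_option autoImplicit false

/-!
# Piece E of S3313 (helper11): `C_Q(y)` is a four-group of exponent 2
-/

namespace Cfsg.Agent.H11.J2

open Cfsg.Agent.H47.J2A5 Cfsg.Agent.H92.QuatDirect

variable {G : Type*} [Group G]

theorem card_centralizer_inv [Finite G] (z t : G) (hz : orderOf z = 2)
    (ht : orderOf t = 2) (hzt : ¬ IsConj z t) (Q : Subgroup G)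
    (hQz : ∀ x ∈ Q, orderOf x = 2 → IsConj x z)
    (hCz : ∀ x ∈ Subgroup.centralizer ({z} : Set G), orderOf x = 2 → x ∉ Q → IsConj x t)
    (hzQ : ∀ q ∈ Q, q * z = z * q)
    (V B : Subgroup G)
    (hVB : Cfsg.IsInternalDirectProduct V B (Subgroup.centralizer ({t} : Set G)))
    (hV2 : ∀ v ∈ V, v ^ 2 = 1)
    (hB : Nonempty (↥B ≃* alternatingGroup (Fin 5)))
    (hBz : ∀ x ∈ B, orderOf x = 2 → IsConj x z)
    (hCt : ∀ x ∈ Subgroup.centralizer ({t} : Set G), orderOf x = 2 → x ∉ B → IsConj x t)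
    (y : G) (hy : IsConj t y) (hyz : y * z = z * y) :
    Nat.card {q : G // q ∈ Q ∧ q * y = y * q} = 4 ∧ ∀ q ∈ Q, q * y = y * q → q * q = 1 := by
  classical
  obtain ⟨e⟩ := hB
  have hBle := hVB.2.1
  have hcomm := hVB.2.2.1
  obtain ⟨h, hh⟩ := isConj_iff.1 hy
  subst hh
  obtain ⟨z', hz'def⟩ : ∃ z' : G, z' = h⁻¹ * z * h := ⟨_, rfl⟩
  have hz'z : IsConj z' z := isConj_iff.2 ⟨h, by rw [hz'def]; group⟩
  have hz'2 : orderOf z' = 2 := by rw [isConj_orderOf hz'z]; exact hz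
  have hz't : z' * t = t * z' := by
    have h1 : h⁻¹ * (h * t * h⁻¹ * z) * h = h⁻¹ * (z * (h * t * h⁻¹)) * h := by rw [hyz]
    calc z' * t = h⁻¹ * (z * (h * t * h⁻¹)) * h := by rw [hz'def]; group
      _ = h⁻¹ * (h * t * h⁻¹ * z) * h := h1.symm
      _ = t * z' := by rw [hz'def]; group
  have hz'C : z' ∈ Subgroup.centralizer ({t} : Set G) :=
    Subgroup.mem_centralizer_singleton_iff.2 hz't
  have hz'B : z' ∈ B := by
    by_contra hn
    exact hzt (hz'z.symm.trans (hCt z' hz'C hz'2 hn))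
  have hz''2 : orderOf (⟨z', hz'B⟩ : ↥B) = 2 := by rw [Subgroup.orderOf_mk]; exact hz'2
  obtain ⟨hc4, hcsq⟩ := a5_cent e ⟨z', hz'B⟩ hz''2
  have hsq : ∀ w ∈ B, w * z' = z' * w → w * w = 1 := by
    intro w hw hwz
    have h1 := hcsq ⟨w, hw⟩ (Subtype.ext hwz)
    exact congrArg Subtype.val h1
  have hconjz : ∀ w : G, (h * w * h⁻¹) * z = z * (h * w * h⁻¹) ↔ w * z' = z' * w := by
    intro w
    constructor
    · intro hq
      calc w * z' = h⁻¹ * ((h * w * h⁻¹) * z) * h := by rw [hz'def]; group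
        _ = h⁻¹ * (z * (h * w * h⁻¹)) * h := by rw [hq]
        _ = z' * w := by rw [hz'def]; group
    · intro hw
      calc (h * w * h⁻¹) * z = h * (w * z') * h⁻¹ := by rw [hz'def]; group
        _ = h * (z' * w) * h⁻¹ := by rw [hw]
        _ = z * (h * w * h⁻¹) := by rw [hz'def]; group
  have hconjy : ∀ w : G, (h * w * h⁻¹) * (h * t * h⁻¹) = (h * t * h⁻¹) * (h * w * h⁻¹) ↔
      w * t = t * w := by
    intro w
    constructor
    · intro hq
      calc w * t = h⁻¹ * ((h * w * h⁻¹) * (h * t * h⁻¹)) * h := by group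
        _ = h⁻¹ * ((h * t * h⁻¹) * (h * w * h⁻¹)) * h := by rw [hq]
        _ = t * w := by group
    · intro hw
      calc (h * w * h⁻¹) * (h * t * h⁻¹) = h * (w * t) * h⁻¹ := by group
        _ = h * (t * w) * h⁻¹ := by rw [hw]
        _ = (h * t * h⁻¹) * (h * w * h⁻¹) := by group
  have hconj_ord : ∀ w : G, orderOf (h * w * h⁻¹) = orderOf w := fun w => by
    have h1 : IsConj w (h * w * h⁻¹) := isConj_iff.2 ⟨h, rfl⟩
    exact (isConj_orderOf h1).symm
  have hbwd : ∀ w, w ∈ B → w * z' = z' * w → h * w * h⁻¹ ∈ Q ∧ w * t = t * w := by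
    intro w hw hwz
    have hwt : w * t = t * w := Subgroup.mem_centralizer_singleton_iff.1 (hBle hw)
    refine ⟨?_, hwt⟩
    by_cases hw1 : w = 1
    · rw [hw1, mul_one, mul_inv_cancel]
      exact Q.one_mem
    have hw2 : orderOf w = 2 := (orderOf_two_iff w).2 ⟨hw1, hsq w hw hwz⟩
    have hq2 : orderOf (h * w * h⁻¹) = 2 := by rw [hconj_ord]; exact hw2
    have hqC : h * w * h⁻¹ ∈ Subgroup.centralizer ({z} : Set G) :=
      Subgroup.mem_centralizer_singleton_iff.2 ((hconjz w).2 hwz)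
    by_contra hn
    have h1 : IsConj (h * w * h⁻¹) t := hCz _ hqC hq2 hn
    have h2 : IsConj w (h * w * h⁻¹) := isConj_iff.2 ⟨h, rfl⟩
    have h3 : IsConj w z := hBz w hw hw2
    exact hzt (h3.symm.trans (h2.trans h1))
  have hfwd : ∀ w, h * w * h⁻¹ ∈ Q → w * t = t * w → w ∈ B ∧ w * z' = z' * w := by
    intro w hq hwt
    have hwz : w * z' = z' * w := (hconjz w).1 (hzQ _ hq)
    refine ⟨?_, hwz⟩
    have hwC : w ∈ Subgroup.centralizer ({t} : Set G) :=
      Subgroup.mem_centralizer_singleton_iff.2 hwt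
    obtain ⟨v, hv, b, hb, hwvb⟩ := exists_decomp hVB hwC
    have hvv : v * v = 1 := by rw [← pow_two]; exact hV2 v hv
    have hvb : v * b = b * v := hcomm v hv b hb
    have hvz : v * z' = z' * v := hcomm v hv z' hz'B
    have hbz : b * z' = z' * b := by
      have h1 : v * (b * z') = v * (z' * b) := by
        calc v * (b * z') = w * z' := by rw [hwvb]; group
          _ = z' * w := hwz
          _ = (z' * v) * b := by rw [hwvb]; group
          _ = (v * z') * b := by rw [hvz]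
          _ = v * (z' * b) := by group
      exact mul_left_cancel h1
    have hbb : b * b = 1 := hsq b hb hbz
    have hww : w * w = 1 := by
      calc w * w = v * (b * v) * b := by rw [hwvb]; group
        _ = v * (v * b) * b := by rw [hvb]
        _ = (v * v) * (b * b) := by group
        _ = 1 := by rw [hvv, hbb, one_mul]
    by_cases hw1 : w = 1
    · rw [hw1]
      exact B.one_mem
    have hw2 : orderOf w = 2 := (orderOf_two_iff w).2 ⟨hw1, hww⟩
    have hq2 : orderOf (h * w * h⁻¹) = 2 := by rw [hconj_ord]; exact hw2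
    have h1 : IsConj (h * w * h⁻¹) z := hQz _ hq hq2
    have h2 : IsConj w (h * w * h⁻¹) := isConj_iff.2 ⟨h, rfl⟩
    by_contra hn
    exact hzt ((h2.trans h1).symm.trans (hCt w hwC hw2 hn))
  have hq_w : ∀ q : G, h * (h⁻¹ * q * h) * h⁻¹ = q := fun q => by group
  have hfwd' : ∀ q : G, q ∈ Q → q * (h * t * h⁻¹) = (h * t * h⁻¹) * q →
      h⁻¹ * q * h ∈ B ∧ (h⁻¹ * q * h) * z' = z' * (h⁻¹ * q * h) := by
    intro q hq hqy
    apply hfwd
    · rw [hq_w]
      exact hq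
    · apply (hconjy _).1
      rw [hq_w]
      exact hqy
  have hbwd' : ∀ w, w ∈ B → w * z' = z' * w → h * w * h⁻¹ ∈ Q ∧
      (h * w * h⁻¹) * (h * t * h⁻¹) = (h * t * h⁻¹) * (h * w * h⁻¹) := by
    intro w hw hwz
    obtain ⟨h1, h2⟩ := hbwd w hw hwz
    exact ⟨h1, (hconjy w).2 h2⟩
  have e1 : {q : G // q ∈ Q ∧ q * (h * t * h⁻¹) = (h * t * h⁻¹) * q} ≃
      {c : ↥B // c * ⟨z', hz'B⟩ = ⟨z', hz'B⟩ * c} :=
    { toFun := fun q => ⟨⟨h⁻¹ * q.1 * h, (hfwd' q.1 q.2.1 q.2.2).1⟩,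
        Subtype.ext (hfwd' q.1 q.2.1 q.2.2).2⟩
      invFun := fun c => ⟨h * c.1.1 * h⁻¹, hbwd' c.1.1 c.1.2 (congrArg Subtype.val c.2)⟩
      left_inv := fun q => Subtype.ext (hq_w q.1)
      right_inv := fun c => Subtype.ext (Subtype.ext (by
        show h⁻¹ * (h * c.1.1 * h⁻¹) * h = c.1.1
        group)) }
  constructor
  · rw [Nat.card_congr e1]
    exact hc4
  · intro q hq hqy
    obtain ⟨h1, h2⟩ := hfwd' q hq hqy
    have h3 := hsq _ h1 h2
    calc q * q = h * ((h⁻¹ * q * h) * (h⁻¹ * q * h)) * h⁻¹ := by group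
      _ = 1 := by rw [h3]; group

end Cfsg.Agent.H11.J2
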