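import Mathlib

/-!
# S2436-Q (helper11, for helper18): the commutator subgroup of a generalized quaternion group
has index 4.
-/

set_option autoImplicit false

namespace Cfsg.Agent.H11.McKay

open QuaternionGroup
open scoped commutatorElement

theorem a_two_mul_mem (m : ℕ) [NeZero m] (i : ZMod (2 * m)) :
    (a (2 * i) : QuaternionGroup m) ∈ Subgroup.zpowers (a 2 : QuaternionGroup m) := by
  have ha2 : (a 2 : QuaternionGroup m) = (a 1) ^ 2 := by
    rw [a_one_pow]
    norm_num
  refine ⟨(i.val : ℤ), ?_⟩
  show (a 2 : QuaternionGroup m) ^ (i.val : ℤ) = a (2 * i)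
  rw [zpow_natCast, ha2, ← pow_mul, a_one_pow]
  congr 1
  push_cast
  rw [ZMod.natCast_zmod_val]

theorem a_inv' (m : ℕ) (i : ZMod (2 * m)) : (a i : QuaternionGroup m)⁻¹ = a (-i) := by
  apply inv_eq_of_mul_eq_one_right
  rw [a_mul_a, add_neg_cancel, a_zero]

theorem xa_inv' (m : ℕ) (i : ZMod (2 * m)) :
    (xa i : QuaternionGroup m)⁻¹ = xa ((m : ZMod (2 * m)) + i) := by
  apply inv_eq_of_mul_eq_one_right
  rw [xa_mul_xa]
  have : (m : ZMod (2 * m)) + ((m : ZMod (2 * m)) + i) - i = 0 := by
    have h2 : ((2 * m : ℕ) : ZMod (2 * m)) = 0 := ZMod.natCast_self _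
    push_cast at h2
    linear_combination h2
  rw [this, a_zero]

theorem two_m_zero (m : ℕ) : (2 : ZMod (2 * m)) * (m : ZMod (2 * m)) = 0 := by
  have h2 : ((2 * m : ℕ) : ZMod (2 * m)) = 0 := ZMod.natCast_self _
  push_cast at h2
  exact h2

theorem commutator_quaternion_eq (m : ℕ) (hm : 1 ≤ m) :
    commutator (QuaternionGroup m) = Subgroup.zpowers (a 2 : QuaternionGroup m) := by
  have : NeZero m := ⟨by omega⟩
  have h2m := two_m_zero m
  apply le_antisymm
  · rw [commutator_def, Subgroup.commutator_le]
    intro g _ h _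
    rcases g with i | i <;> rcases h with j | j
    · have : ⁅(a i : QuaternionGroup m), a j⁆ = a (2 * 0) := by
        rw [commutatorElement_def, a_inv', a_inv', a_mul_a, a_mul_a, a_mul_a]
        congr 1
        ring
      rw [this]
      exact a_two_mul_mem m 0
    · have : ⁅(a i : QuaternionGroup m), xa j⁆ = a (2 * i) := by
        rw [commutatorElement_def, a_inv', xa_inv', a_mul_xa, xa_mul_a, xa_mul_xa]
        congr 1
        linear_combination h2m
      rw [this]
      exact a_two_mul_mem m i
    · have : ⁅(xa i : QuaternionGroup m), a j⁆ = a (2 * (-j)) := by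
        rw [commutatorElement_def, a_inv', xa_inv', xa_mul_a, xa_mul_xa, a_mul_a]
        congr 1
        linear_combination h2m
      rw [this]
      exact a_two_mul_mem m (-j)
    · have : ⁅(xa i : QuaternionGroup m), xa j⁆ = a (2 * (j - i)) := by
        rw [commutatorElement_def, xa_inv', xa_inv', xa_mul_xa, a_mul_xa, xa_mul_xa]
        congr 1
        linear_combination h2m
      rw [this]
      exact a_two_mul_mem m (j - i)
  · rw [Subgroup.zpowers_le]
    have : (a 2 : QuaternionGroup m) = ⁅(a 1 : QuaternionGroup m), xa 0⁆ := by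
      rw [commutatorElement_def, a_inv', xa_inv', a_mul_xa, xa_mul_a, xa_mul_xa]
      congr 1
      linear_combination -h2m
    rw [this, commutator_def]
    exact Subgroup.commutator_mem_commutator (Subgroup.mem_top _) (Subgroup.mem_top _)

theorem orderOf_a_two (m : ℕ) (_hm : 1 ≤ m) : orderOf (a 2 : QuaternionGroup m) = m := by
  have ha2 : (a 2 : QuaternionGroup m) = (a 1) ^ 2 := by
    rw [a_one_pow]
    norm_num
  rw [ha2, orderOf_pow' _ (by norm_num : (2 : ℕ) ≠ 0), orderOf_a_one]
  have : Nat.gcd (2 * m) 2 = 2 := Nat.gcd_eq_right (Dvd.intro m rfl)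
  rw [this]
  omega

/-- S2436-Q. -/
theorem index_commutator_quaternion (m : ℕ) (hm : 1 ≤ m) :
    (commutator (QuaternionGroup m)).index = 4 := by
  have : NeZero m := ⟨by omega⟩
  have h1 := Subgroup.card_mul_index (commutator (QuaternionGroup m))
  rw [commutator_quaternion_eq m hm, Nat.card_zpowers, orderOf_a_two m hm,
    Nat.card_eq_fintype_card, QuaternionGroup.card] at h1
  rw [commutator_quaternion_eq m hm]
  have hpos : 0 < m := hm
  nlinarith [h1]

end Cfsg.Agent.H11.McKay

example (m : ℕ) (hm : 1 ≤ m) :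
    (commutator (QuaternionGroup m)).index = 4 :=
  Cfsg.Agent.H11.McKay.index_commutator_quaternion m hm

#print axioms Cfsg.Agent.H11.McKay.index_commutator_quaternion
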