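import Mathlib
import Cfsg.Agent.H85.McLDefs

/-!
# S5075-GENSP (helper11, for helper85): a group containing all symplectic transvections contains
the whole isometry group of a non-degenerate alternating form.
-/

set_option autoImplicit false

namespace Cfsg.Agent.H11.McL

open Module Cfsg.Agent.H85.McL

section gen

variable {K : Type*} [Field K] {V : Type*} [AddCommGroup V] [Module K V]

theorem alt_skew (B : LinearMap.BilinForm K V) (hB : B.IsAlt) (x y : V) : B x y = -B y x :=
  (hB.neg_eq y x).symm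

theorem tv_isom (B : LinearMap.BilinForm K V) (hB : B.IsAlt) (t : V ≃ₗ[K] V) (a : V) (k : K)
    (ht : ∀ x, t x = x + (k * B a x) • a) (u v : V) : B (t u) (t v) = B u v := by
  rw [ht u, ht v]
  simp only [map_add, map_smul, LinearMap.add_apply, LinearMap.smul_apply, smul_eq_mul, hB a]
  rw [alt_skew B hB u a]
  ring

/-- The fixed space of a linear automorphism. -/
def fixSub (f : V ≃ₗ[K] V) : Submodule K V :=
  LinearMap.eqLocus (f : V →ₗ[K] V) LinearMap.id

theorem mem_fixSub (f : V ≃ₗ[K] V) (x : V) : x ∈ fixSub f ↔ f x = x := by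
  unfold fixSub
  rw [LinearMap.mem_eqLocus]
  rfl

/-- Dieudonné-style induction: every isometry of a non-degenerate alternating form is a product
of transvections. -/
theorem sp_gen [FiniteDimensional K V] (B : LinearMap.BilinForm K V) (hB : B.IsAlt)
    (hnd : ∀ x : V, (∀ y, B x y = 0) → x = 0)
    (S : Subgroup (V ≃ₗ[K] V))
    (hS : ∀ a : V, a ≠ 0 → ∀ k : K, k ≠ 0 → ∃ t ∈ S, ∀ x, t x = x + (k * B a x) • a) :
    ∀ (d : ℕ) (f : V ≃ₗ[K] V), (∀ x y, B (f x) (f y) = B x y) →
      finrank K V - finrank K (fixSub f) = d → f ∈ S := by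
  intro d
  induction d using Nat.strong_induction_on with
  | _ d ih =>
  intro f hf hd
  by_cases hfix : ∀ x, f x = x
  · have : f = 1 := LinearEquiv.ext hfix
    rw [this]
    exact S.one_mem
  have key : ∀ g ∈ S, (∀ u v, B (g u) (g v) = B u v) → (∀ u, f u = u → g u = u) →
      (∃ x, f x ≠ x ∧ g x = f x) → f ∈ S := by
    rintro g hg hgi hgf ⟨x, hx, hgx⟩
    have hginv : ∀ u, g u = u → g⁻¹ u = u := by
      intro u hu
      have : g⁻¹ (g u) = u := by
        show g.symm (g u) = u
        exact g.symm_apply_apply u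
      rw [hu] at this
      exact this
    have hle : fixSub f ≤ fixSub (g⁻¹ * f) := by
      intro u hu
      rw [mem_fixSub] at hu ⊢
      show g⁻¹ (f u) = u
      rw [hu]
      exact hginv u (hgf u hu)
    have hlt : fixSub f < fixSub (g⁻¹ * f) := by
      refine lt_of_le_of_ne hle ?_
      intro he
      have hx' : x ∈ fixSub (g⁻¹ * f) := by
        rw [mem_fixSub]
        show g⁻¹ (f x) = x
        rw [← hgx]
        show g.symm (g x) = x
        exact g.symm_apply_apply x
      rw [← he, mem_fixSub] at hx'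
      exact hx hx'
    have h1 := Submodule.finrank_lt_finrank_of_lt hlt
    have h2 := Submodule.finrank_le (fixSub (g⁻¹ * f))
    have h3 : g⁻¹ * f ∈ S := by
      refine ih (finrank K V - finrank K (fixSub (g⁻¹ * f))) (by omega) (g⁻¹ * f) ?_ rfl
      intro u v
      show B (g⁻¹ (f u)) (g⁻¹ (f v)) = B u v
      have h4 := hgi (g⁻¹ (f u)) (g⁻¹ (f v))
      have h5 : ∀ w, g (g⁻¹ w) = w := fun w => g.apply_symm_apply w
      rw [h5, h5, hf] at h4
      exact h4.symm
    have : f = g * (g⁻¹ * f) := by group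
    rw [this]
    exact S.mul_mem hg h3
  by_cases hc : ∃ x, B x (f x) ≠ 0
  · obtain ⟨x, hx⟩ := hc
    have hBa : B (f x - x) x = -B x (f x) := by
      rw [map_sub, LinearMap.sub_apply, hB x, sub_zero, alt_skew B hB]
    have hBa0 : B (f x - x) x ≠ 0 := by
      rw [hBa]
      exact neg_ne_zero.mpr hx
    have ha : f x - x ≠ 0 := by
      intro h0
      rw [h0] at hBa0
      simp at hBa0
    obtain ⟨t, htS, ht⟩ := hS (f x - x) ha (B (f x - x) x)⁻¹ (inv_ne_zero hBa0)
    refine key t htS (tv_isom B hB t _ _ ht) ?_ ⟨x, ?_, ?_⟩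
    · intro u hu
      rw [ht u]
      have : B (f x - x) u = 0 := by
        rw [map_sub, LinearMap.sub_apply]
        nth_rewrite 1 [← hu]
        rw [hf, sub_self]
      rw [this, mul_zero, zero_smul, add_zero]
    · intro h0
      rw [h0, hB x] at hx
      exact hx rfl
    · rw [ht x, inv_mul_cancel₀ hBa0, one_smul]
      abel
  · push Not at hc
    have hpol : ∀ x y, B x (f y) = B (f x) y := by
      intro x y
      have h1 := hc (x + y)
      simp only [map_add, LinearMap.add_apply, hc x, hc y] at h1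
      rw [alt_skew B hB (f x) y]
      linear_combination h1
    push Not at hfix
    obtain ⟨x, hx⟩ := hfix
    have hxx : f x - x ≠ 0 := sub_ne_zero.mpr hx
    obtain ⟨y, hy⟩ : ∃ y, B (f x - x) y ≠ 0 := by
      by_contra hcon
      push Not at hcon
      exact hxx (hnd _ hcon)
    have hz1 : B x (f y - y) = B (f x - x) y := by
      simp only [map_sub, LinearMap.sub_apply]
      rw [hpol x y]
    have hz2 : B (f x) (f y - y) = -B (f x - x) y := by
      simp only [map_sub, LinearMap.sub_apply]
      rw [hf]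
      ring
    have hz1' : B (f y - y) x ≠ 0 := by
      rw [alt_skew B hB, hz1]
      exact neg_ne_zero.mpr hy
    have hz0 : f y - y ≠ 0 := by
      intro h0
      rw [h0] at hz1'
      simp at hz1'
    obtain ⟨t₁, ht₁S, ht₁⟩ := hS (f y - y) hz0 (B (f y - y) x)⁻¹ (inv_ne_zero hz1')
    have hw : B (f x - (x + (f y - y))) (x + (f y - y)) = -B (f x - x) y := by
      have e1 : B (f x) x = 0 := by rw [alt_skew B hB, hc x, neg_zero]
      have e2 : B (f y - y) x = -B (f x - x) y := by rw [alt_skew B hB, hz1]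
      have e3 : B x (f y - y) = B (f x - x) y := hz1
      have e4 : B (f y - y) (f y - y) = 0 := hB _
      simp only [map_sub, map_add, LinearMap.sub_apply, LinearMap.add_apply] at e2 e3 e4 hz2 ⊢
      rw [hB x, e1]
      linear_combination hz2 - e2 - e4 - hpol x y
    have hw0 : B (f x - (x + (f y - y))) (x + (f y - y)) ≠ 0 := by
      rw [hw]
      exact neg_ne_zero.mpr hy
    have ha2 : f x - (x + (f y - y)) ≠ 0 := by
      intro h0
      rw [h0] at hw0
      simp at hw0
    obtain ⟨t₂, ht₂S, ht₂⟩ := hS _ ha2 (B (f x - (x + (f y - y))) (x + (f y - y)))⁻¹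
      (inv_ne_zero hw0)
    have hzu : ∀ u, f u = u → B (f y - y) u = 0 := by
      intro u hu
      rw [map_sub, LinearMap.sub_apply]
      nth_rewrite 1 [← hu]
      rw [hf, sub_self]
    have hxu : ∀ u, f u = u → B (f x - x) u = 0 := by
      intro u hu
      rw [map_sub, LinearMap.sub_apply]
      nth_rewrite 1 [← hu]
      rw [hf, sub_self]
    refine key (t₂ * t₁) (S.mul_mem ht₂S ht₁S) ?_ ?_ ⟨x, hx, ?_⟩
    · intro u v
      show B (t₂ (t₁ u)) (t₂ (t₁ v)) = B u v
      rw [tv_isom B hB t₂ _ _ ht₂, tv_isom B hB t₁ _ _ ht₁]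
    · intro u hu
      show t₂ (t₁ u) = u
      have h1 : t₁ u = u := by
        rw [ht₁ u, hzu u hu, mul_zero, zero_smul, add_zero]
      rw [h1, ht₂ u]
      have : B (f x - (x + (f y - y))) u = 0 := by
        have e1 := hzu u hu
        have e2 := hxu u hu
        simp only [map_sub, map_add, LinearMap.sub_apply, LinearMap.add_apply] at e1 e2 ⊢
        linear_combination e2 - e1
      rw [this, mul_zero, zero_smul, add_zero]
    · show t₂ (t₁ x) = f x
      have h1 : t₁ x = x + (f y - y) := by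
        rw [ht₁ x, inv_mul_cancel₀ hz1', one_smul]
      rw [h1, ht₂, inv_mul_cancel₀ hw0, one_smul]
      abel

end gen

variable {p : ℕ} [Fact p.Prime] {V : Type*} [AddCommGroup V] [Module (ZMod p) V]

/-- S5075-GENSP. -/
theorem sp_le [Finite V] (G : Subgroup (V ≃ₗ[ZMod p] V))
    (B : LinearMap.BilinForm (ZMod p) V) (hB : B.IsAlt) (hnd : B.Nondegenerate)
    (h : ∀ a : V, a ≠ 0 → Root G a (B a)) (f : V ≃ₗ[ZMod p] V)
    (hf : ∀ x y, B (f x) (f y) = B x y) : f ∈ G := by
  have : Module.Finite (ZMod p) V := Module.Finite.of_finite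
  refine sp_gen B hB (fun x hx => hnd.1 x hx) G ?_ _ f hf rfl
  intro a ha k hk
  obtain ⟨-, -, -, g, hg, hgx⟩ := (h a ha).smul_right hk
  refine ⟨g, hg, fun x => ?_⟩
  rw [hgx x, LinearMap.smul_apply, smul_eq_mul]

end Cfsg.Agent.H11.McL

section check
open Module Cfsg.Agent.H85.McL
variable {p : ℕ} [Fact p.Prime] {V : Type*} [AddCommGroup V] [Module (ZMod p) V]

example [Finite V] (G : Subgroup (V ≃ₗ[ZMod p] V))
    (B : LinearMap.BilinForm (ZMod p) V) (hB : B.IsAlt) (hnd : B.Nondegenerate)
    (h : ∀ a : V, a ≠ 0 → Root G a (B a)) (f : V ≃ₗ[ZMod p] V)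
    (hf : ∀ x y, B (f x) (f y) = B x y) : f ∈ G :=
  Cfsg.Agent.H11.McL.sp_le G B hB hnd h f hf
end check

#print axioms Cfsg.Agent.H11.McL.sp_le
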