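import Mathlib
import Cfsg.Agent.H85.McLDefs

/-!
# S5075-SPB (helper11, for helper85): growth step in the symplectic case of McLaughlin's theorem.
-/

set_option autoImplicit false

namespace Cfsg.Agent.H11.McL

open Module Cfsg.Agent.H85.McL

variable {p : ℕ} [Fact p.Prime] {V : Type*} [AddCommGroup V] [Module (ZMod p) V]

/-- Skew-symmetry of `J` on `X`. -/
theorem SpFull_skew {G : Subgroup (V ≃ₗ[ZMod p] V)} {X : Submodule (ZMod p) V}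
    {J : V →ₗ[ZMod p] Dual (ZMod p) V} (h : SpFull G X J) (x y : V) (hx : x ∈ X) (hy : y ∈ X) :
    J x y = -J y x := by
  have h1 := h.alt (x + y) (X.add_mem hx hy)
  simp only [map_add, LinearMap.add_apply, h.alt x hx, h.alt y hy] at h1
  linear_combination h1

/-- The general fact (*): splitting off the `X`-part of a mixed root. -/
theorem SpFull_star (hp2 : p ≠ 2) {G : Subgroup (V ≃ₗ[ZMod p] V)} {X : Submodule (ZMod p) V}
    {J : V →ₗ[ZMod p] Dual (ZMod p) V} (h : SpFull G X J)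
    (e₁ e₀ : V) (η₀ : Dual (ZMod p) V) (he₁ : e₁ ∈ X) (he₁0 : e₁ ≠ 0) (he₀ : e₀ ≠ 0)
    (hη₀ : η₀ ≠ 0) (he₀X : ∀ y ∈ X, J y e₀ = 0) (hη₀X : ∀ x ∈ X, η₀ x = 0)
    (hroot : Root G (e₁ + e₀) (J e₁ + η₀)) : Root G e₀ η₀ := by
  obtain ⟨b, hb, hJb⟩ := h.nondeg e₁ he₁ he₁0
  have hb0 : b ≠ 0 := by
    rintro rfl
    simp at hJb
  have hJb' : J b e₁ ≠ 0 := by
    rw [SpFull_skew h b e₁ hb he₁]
    exact neg_ne_zero.mpr hJb
  have e1 : e₁ + e₀ - (J b (e₁ + e₀) / J b e₁) • e₁ = e₀ := by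
    rw [map_add, he₀X b hb, add_zero, div_self hJb', one_smul]
    abel
  have e2 : J e₁ + η₀ - ((J e₁ + η₀) b / J e₁ b) • J e₁ = η₀ := by
    rw [LinearMap.add_apply, hη₀X b hb, add_zero, div_self hJb, one_smul]
    abel
  have hc1 : J e₁ (e₁ + e₀) = 0 := by
    rw [map_add, h.alt e₁ he₁, he₀X e₁ he₁, add_zero]
  have hc2 : (J e₁ + η₀) e₁ = 0 := by
    rw [LinearMap.add_apply, h.alt e₁ he₁, hη₀X e₁ he₁, add_zero]
  have hpr := Root.proj hp2 (h.root e₁ he₁ he₁0) (h.root b hb hb0) hJb hJb' hroot hc1 hc2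
    (by rw [e1]; exact he₀) (by rw [e2]; exact hη₀)
  rwa [e1, e2] at hpr

/-- (b): all `(x + α c₀, J x + α χ₀)` are roots. -/
theorem SpFull_mixed {G : Subgroup (V ≃ₗ[ZMod p] V)} {X : Submodule (ZMod p) V}
    {J : V →ₗ[ZMod p] Dual (ZMod p) V} (h : SpFull G X J)
    {c₁ c₀ : V} {χ₀ : Dual (ZMod p) V} (hc₁ : c₁ ∈ X) (hc₁0 : c₁ ≠ 0)
    (hc₀X : ∀ y ∈ X, J y c₀ = 0) (hχ₀X : ∀ x ∈ X, χ₀ x = 0)
    (hcχ : Root G c₀ χ₀)
    (hr : Root G (c₁ + c₀) (J c₁ + χ₀)) :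
    ∀ x ∈ X, ∀ α : ZMod p, (x ≠ 0 ∨ α ≠ 0) → Root G (x + α • c₀) (J x + α • χ₀) := by
  have step : ∀ x₁ ∈ X, Root G (x₁ + c₀) (J x₁ + χ₀) → ∀ y ∈ X, y ≠ 0 → ∀ k : ZMod p, k ≠ 0 →
      Root G ((x₁ + (k * J y x₁) • y) + c₀) (J (x₁ + (k * J y x₁) • y) + χ₀) := by
    intro x₁ hx₁ hroot y hy hy0 k hk
    have hcj : Root G (x₁ + c₀ + (k • J y) (x₁ + c₀) • y)
        (J x₁ + χ₀ - (J x₁ + χ₀) y • (k • J y)) :=
      hroot.conj ((h.root y hy hy0).smul_right hk)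
    have e1 : x₁ + c₀ + (k • J y) (x₁ + c₀) • y = (x₁ + (k * J y x₁) • y) + c₀ := by
      rw [LinearMap.smul_apply, map_add, hc₀X y hy, add_zero, smul_eq_mul]
      abel
    have e2 : J x₁ + χ₀ - (J x₁ + χ₀) y • (k • J y) = J (x₁ + (k * J y x₁) • y) + χ₀ := by
      rw [LinearMap.add_apply, hχ₀X y hy, add_zero, SpFull_skew h x₁ y hx₁ hy, map_add,
        map_smul]
      module
    rwa [e1, e2] at hcj
  have trans : ∀ x₁ ∈ X, Root G (x₁ + c₀) (J x₁ + χ₀) → ∀ x₂ ∈ X, J x₁ x₂ ≠ 0 →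
      Root G (x₂ + c₀) (J x₂ + χ₀) := by
    intro x₁ hx₁ hroot x₂ hx₂ hJ
    have hy : x₂ - x₁ ∈ X := X.sub_mem hx₂ hx₁
    have hJy : J (x₂ - x₁) x₁ = -J x₁ x₂ := by
      rw [map_sub, LinearMap.sub_apply, h.alt x₁ hx₁, sub_zero, SpFull_skew h x₂ x₁ hx₂ hx₁]
    have hJy0 : J (x₂ - x₁) x₁ ≠ 0 := by
      rw [hJy]
      exact neg_ne_zero.mpr hJ
    have hy0 : x₂ - x₁ ≠ 0 := by
      intro h0
      rw [h0] at hJy0
      simp at hJy0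
    have := step x₁ hx₁ hroot (x₂ - x₁) hy hy0 (J (x₂ - x₁) x₁)⁻¹ (inv_ne_zero hJy0)
    have e : x₁ + ((J (x₂ - x₁) x₁)⁻¹ * J (x₂ - x₁) x₁) • (x₂ - x₁) = x₂ := by
      rw [inv_mul_cancel₀ hJy0, one_smul]
      abel
    rwa [e] at this
  have all : ∀ x ∈ X, x ≠ 0 → Root G (x + c₀) (J x + χ₀) := by
    intro x hx hx0
    by_cases hJ : J c₁ x ≠ 0
    · exact trans c₁ hc₁ hr x hx hJ
    · rw [not_not] at hJ
      obtain ⟨w₁, hw₁, hJw₁⟩ := h.nondeg c₁ hc₁ hc₁0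
      obtain ⟨w₂, hw₂, hJw₂⟩ := h.nondeg x hx hx0
      have hex : ∃ w ∈ X, J c₁ w ≠ 0 ∧ J x w ≠ 0 := by
        by_cases h1 : J x w₁ ≠ 0
        · exact ⟨w₁, hw₁, hJw₁, h1⟩
        · rw [not_not] at h1
          by_cases h2 : J c₁ w₂ ≠ 0
          · exact ⟨w₂, hw₂, h2, hJw₂⟩
          · rw [not_not] at h2
            refine ⟨w₁ + w₂, X.add_mem hw₁ hw₂, ?_, ?_⟩
            · rw [map_add, h2, add_zero]
              exact hJw₁
            · rw [map_add, h1, zero_add]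
              exact hJw₂
      obtain ⟨w, hw, hw1, hw2⟩ := hex
      have hrw := trans c₁ hc₁ hr w hw hw1
      refine trans w hw hrw x hx ?_
      rw [SpFull_skew h w x hw hx]
      exact neg_ne_zero.mpr hw2
  intro x hx α hxα
  by_cases hα : α = 0
  · subst hα
    have hx0 : x ≠ 0 := by
      rcases hxα with h1 | h1
      · exact h1
      · exact absurd rfl h1
    rw [zero_smul, zero_smul, add_zero, add_zero]
    exact h.root x hx hx0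
  by_cases hx0 : x = 0
  · subst hx0
    rw [map_zero, zero_add, zero_add]
    exact hcχ.smul_smul hα hα
  have := (all (α⁻¹ • x) (X.smul_mem _ hx) (smul_ne_zero (inv_ne_zero hα) hx0)).smul_smul hα hα
  have e1 : α • (α⁻¹ • x + c₀) = x + α • c₀ := by
    rw [smul_add, smul_smul, mul_inv_cancel₀ hα, one_smul]
  have e2 : α • (J (α⁻¹ • x) + χ₀) = J x + α • χ₀ := by
    rw [map_smul, smul_add, smul_smul, mul_inv_cancel₀ hα, one_smul]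
  rwa [e1, e2] at this

/-- (c): an opposite root of `(c₀, χ₀)` can be chosen orthogonal to `X`. -/
theorem SpFull_opp (hp2 : p ≠ 2) {G : Subgroup (V ≃ₗ[ZMod p] V)} (hopp : HasOpp G)
    {X : Submodule (ZMod p) V} {J : V →ₗ[ZMod p] Dual (ZMod p) V} (h : SpFull G X J)
    (htypes : ∀ c χ, Root G c χ →
      (c ∈ X ∧ ∃ k : ZMod p, k ≠ 0 ∧ χ = k • J c) ∨
      ((∀ y ∈ X, J y c = 0) ∧ ∀ x ∈ X, χ x = 0) ∨
      (∃ c₁ ∈ X, ∃ k : ZMod p, c₁ ≠ 0 ∧ k ≠ 0 ∧ c - c₁ ≠ 0 ∧ χ - k • J c₁ ≠ 0 ∧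
        (∀ y ∈ X, J y (c - c₁) = 0) ∧ ∀ x ∈ X, (χ - k • J c₁) x = 0))
    {c₀ : V} {χ₀ : Dual (ZMod p) V} (hc₀X : ∀ y ∈ X, J y c₀ = 0) (hχ₀X : ∀ x ∈ X, χ₀ x = 0)
    (hcχ : Root G c₀ χ₀) :
    ∃ (d₀ : V) (θ₀ : Dual (ZMod p) V), Root G d₀ θ₀ ∧ (∀ y ∈ X, J y d₀ = 0) ∧
      (∀ x ∈ X, θ₀ x = 0) ∧ θ₀ c₀ ≠ 0 ∧ χ₀ d₀ ≠ 0 := by
  obtain ⟨d, θ, hdθ, hθc, hχd⟩ := hopp c₀ χ₀ hcχ
  rcases htypes d θ hdθ with ⟨hdX, -⟩ | ⟨h1, h2⟩ | ⟨d₁, hd₁, k, hd₁0, hk, hd0, hθ0, hdX, hθX⟩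
  · exact absurd (hχ₀X d hdX) hχd
  · exact ⟨d, θ, hdθ, h1, h2, hθc, hχd⟩
  · have hr' : Root G (d₁ + (d - d₁)) (J d₁ + k⁻¹ • (θ - k • J d₁)) := by
      have h3 := hdθ.smul_right (inv_ne_zero hk)
      have e1 : d₁ + (d - d₁) = d := by abel
      have e2 : J d₁ + k⁻¹ • (θ - k • J d₁) = k⁻¹ • θ := by
        rw [smul_sub, smul_smul, inv_mul_cancel₀ hk, one_smul]
        abel
      rw [e1, e2]
      exact h3
    have h3 := SpFull_star hp2 h d₁ (d - d₁) (k⁻¹ • (θ - k • J d₁)) hd₁ hd₁0 hd0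
      (smul_ne_zero (inv_ne_zero hk) hθ0) hdX
      (fun x hx => by rw [LinearMap.smul_apply, hθX x hx, smul_zero]) hr'
    have h4 := h3.smul_right hk
    rw [smul_smul, mul_inv_cancel₀ hk, one_smul] at h4
    refine ⟨d - d₁, θ - k • J d₁, h4, hdX, hθX, ?_, ?_⟩
    · rw [LinearMap.sub_apply, LinearMap.smul_apply, hc₀X d₁ hd₁, smul_zero, sub_zero]
      exact hθc
    · rw [map_sub, hχ₀X d₁ hd₁, sub_zero]
      exact hχd

/-- (d): the extended symplectic full structure. -/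
theorem SpFull_ext [Finite V] {G : Subgroup (V ≃ₗ[ZMod p] V)}
    {X : Submodule (ZMod p) V} {J : V →ₗ[ZMod p] Dual (ZMod p) V} (h : SpFull G X J)
    {c₀ d₀ : V} {χ₀ θ₀ : Dual (ZMod p) V} (hc₀ : c₀ ≠ 0)
    (hc₀X : ∀ y ∈ X, J y c₀ = 0) (hχ₀X : ∀ x ∈ X, χ₀ x = 0)
    (hcχ : Root G c₀ χ₀) (hdθ₀ : Root G d₀ θ₀) (hd₀X : ∀ y ∈ X, J y d₀ = 0)
    (hθ₀X : ∀ x ∈ X, θ₀ x = 0) (hθc : θ₀ c₀ ≠ 0) (hχd : χ₀ d₀ ≠ 0)
    (hb : ∀ x ∈ X, ∀ α : ZMod p, (x ≠ 0 ∨ α ≠ 0) → Root G (x + α • c₀) (J x + α • χ₀)) :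
    ∃ (X' : Submodule (ZMod p) V) (J' : V →ₗ[ZMod p] Dual (ZMod p) V), SpFull G X' J' ∧
      Module.finrank (ZMod p) ↥X < Module.finrank (ZMod p) ↥X' := by
  have hχc : χ₀ c₀ = 0 := hcχ.2.2.1
  have hθd : θ₀ d₀ = 0 := hdθ₀.2.2.1
  have hJc₀ : J c₀ = 0 := h.ker c₀ hc₀X
  have hJd₀ : J d₀ = 0 := h.ker d₀ hd₀X
  set κ : ZMod p := χ₀ d₀ / θ₀ c₀ with hκ
  have hκ0 : κ ≠ 0 := div_ne_zero hχd hθc
  let J' : V →ₗ[ZMod p] Dual (ZMod p) V :=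
    J + (θ₀ c₀)⁻¹ • (θ₀.smulRight χ₀ - χ₀.smulRight θ₀)
  have hJ' : ∀ v w, J' v w = J v w + (θ₀ c₀)⁻¹ * (θ₀ v * χ₀ w - χ₀ v * θ₀ w) := by
    intro v w
    simp [J']
  have hJ'u : ∀ x ∈ X, ∀ α β : ZMod p,
      J' (x + α • c₀ + β • d₀) = J x + α • χ₀ - (β * κ) • θ₀ := by
    intro x hx α β
    apply LinearMap.ext
    intro w
    rw [hJ']
    simp only [map_add, map_smul, LinearMap.add_apply, LinearMap.smul_apply, LinearMap.sub_apply,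
      hJc₀, hJd₀, hθ₀X x hx, hχ₀X x hx, hθd, hχc, smul_eq_mul, LinearMap.zero_apply, hκ]
    field_simp
    ring
  have hroot' : ∀ x ∈ X, ∀ α β : ZMod p, (x ≠ 0 ∨ α ≠ 0 ∨ β ≠ 0) →
      Root G (x + α • c₀ + β • d₀) (J x + α • χ₀ - (β * κ) • θ₀) := by
    have hcase : ∀ x ∈ X, ∀ α β : ZMod p, α ≠ 0 → β ≠ 0 →
        Root G (x + α • c₀ + β • d₀) (J x + α • χ₀ - (β * κ) • θ₀) := by
      intro x hx α β hα hβ
      have hcj : Root G (x + α • c₀ + ((β / (α * θ₀ c₀)) • θ₀) (x + α • c₀) • d₀)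
          (J x + α • χ₀ - (J x + α • χ₀) d₀ • ((β / (α * θ₀ c₀)) • θ₀)) :=
        (hb x hx α (Or.inr hα)).conj
          (hdθ₀.smul_right (div_ne_zero hβ (mul_ne_zero hα hθc)))
      have e1 : ((β / (α * θ₀ c₀)) • θ₀) (x + α • c₀) = β := by
        rw [LinearMap.smul_apply, map_add, map_smul, hθ₀X x hx, zero_add, smul_eq_mul,
          smul_eq_mul]
        field_simp
      have e2 : (J x + α • χ₀) d₀ • ((β / (α * θ₀ c₀)) • θ₀) = (β * κ) • θ₀ := by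
        rw [LinearMap.add_apply, hd₀X x hx, zero_add, LinearMap.smul_apply, smul_eq_mul,
          smul_smul, hκ]
        congr 1
        field_simp
      rwa [e1, e2] at hcj
    intro x hx α β hne
    by_cases hβ : β = 0
    · subst hβ
      rw [zero_smul, add_zero, zero_mul, zero_smul, sub_zero]
      apply hb x hx α
      rcases hne with h1 | h1 | h1
      · exact Or.inl h1
      · exact Or.inr h1
      · exact absurd rfl h1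
    by_cases hα : α = 0
    · subst hα
      have h1 := hcase x hx 1 β one_ne_zero hβ
      have hcj : Root G (x + (1 : ZMod p) • c₀ + β • d₀ +
            ((-(β * χ₀ d₀)⁻¹) • χ₀) (x + (1 : ZMod p) • c₀ + β • d₀) • c₀)
          (J x + (1 : ZMod p) • χ₀ - (β * κ) • θ₀ -
            (J x + (1 : ZMod p) • χ₀ - (β * κ) • θ₀) c₀ • ((-(β * χ₀ d₀)⁻¹) • χ₀)) :=
        h1.conj (hcχ.smul_right (neg_ne_zero.mpr (inv_ne_zero (mul_ne_zero hβ hχd))))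
      have e1 : x + (1 : ZMod p) • c₀ + β • d₀ +
            ((-(β * χ₀ d₀)⁻¹) • χ₀) (x + (1 : ZMod p) • c₀ + β • d₀) • c₀ =
          x + (0 : ZMod p) • c₀ + β • d₀ := by
        have e : ((-(β * χ₀ d₀)⁻¹) • χ₀) (x + (1 : ZMod p) • c₀ + β • d₀) = -1 := by
          simp only [LinearMap.smul_apply, map_add, map_smul, hχ₀X x hx, hχc, smul_eq_mul]
          field_simp
          ring
        rw [e]
        module
      have e2 : J x + (1 : ZMod p) • χ₀ - (β * κ) • θ₀ -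
            (J x + (1 : ZMod p) • χ₀ - (β * κ) • θ₀) c₀ • ((-(β * χ₀ d₀)⁻¹) • χ₀) =
          J x + (0 : ZMod p) • χ₀ - (β * κ) • θ₀ := by
        have e : (J x + (1 : ZMod p) • χ₀ - (β * κ) • θ₀) c₀ * (-(β * χ₀ d₀)⁻¹) = 1 := by
          simp only [LinearMap.add_apply, LinearMap.sub_apply, LinearMap.smul_apply,
            hc₀X x hx, hχc, smul_eq_mul, hκ]
          field_simp
          ring
        rw [smul_smul, e]
        module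
      rwa [e1, e2] at hcj
    · exact hcase x hx α β hα hβ
  let X' : Submodule (ZMod p) V := X ⊔ Submodule.span (ZMod p) {c₀, d₀}
  have hXX' : X ≤ X' := le_sup_left
  have hc₀X' : c₀ ∈ X' :=
    (le_sup_right : Submodule.span (ZMod p) {c₀, d₀} ≤ X')
      (Submodule.subset_span (Set.mem_insert _ _))
  have hd₀X' : d₀ ∈ X' :=
    (le_sup_right : Submodule.span (ZMod p) {c₀, d₀} ≤ X')
      (Submodule.subset_span (Set.mem_insert_of_mem _ rfl))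
  have hmem : ∀ u ∈ X', ∃ x ∈ X, ∃ α β : ZMod p, u = x + α • c₀ + β • d₀ := by
    intro u hu
    obtain ⟨x, hx, z, hz, rfl⟩ := Submodule.mem_sup.mp hu
    obtain ⟨α, β, rfl⟩ := Submodule.mem_span_pair.mp hz
    exact ⟨x, hx, α, β, by abel⟩
  have hmem' : ∀ x ∈ X, ∀ α β : ZMod p, x + α • c₀ + β • d₀ ∈ X' := by
    intro x hx α β
    exact X'.add_mem (X'.add_mem (hXX' hx) (X'.smul_mem _ hc₀X')) (X'.smul_mem _ hd₀X')
  have hJ'c : J' c₀ = χ₀ := by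
    have := hJ'u 0 X.zero_mem 1 0
    simpa using this
  have hJ'd : J' d₀ = -(κ • θ₀) := by
    have := hJ'u 0 X.zero_mem 0 1
    simpa using this
  have hJ'x : ∀ x ∈ X, J' x = J x := by
    intro x hx
    have := hJ'u x hx 0 0
    simpa using this
  refine ⟨X', J', ⟨?_, ?_, ?_, ?_, ?_⟩, ?_⟩
  · -- alt
    intro u hu
    obtain ⟨x, hx, α, β, rfl⟩ := hmem u hu
    rw [hJ'u x hx]
    simp only [map_add, map_smul, LinearMap.add_apply, LinearMap.smul_apply, LinearMap.sub_apply,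
      h.alt x hx, hc₀X x hx, hd₀X x hx, hθ₀X x hx, hχ₀X x hx, hθd, hχc, smul_eq_mul, hκ]
    field_simp
    ring
  · -- nondeg
    intro u hu hu0
    obtain ⟨x, hx, α, β, rfl⟩ := hmem u hu
    rw [hJ'u x hx]
    by_cases hα : α = 0
    · by_cases hβ : β = 0
      · subst hα hβ
        have hx0 : x ≠ 0 := by
          intro h0
          apply hu0
          rw [h0]
          simp
        obtain ⟨x', hx', hJx'⟩ := h.nondeg x hx hx0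
        refine ⟨x', hXX' hx', ?_⟩
        simpa using hJx'
      · refine ⟨c₀, hc₀X', ?_⟩
        subst hα
        simp only [LinearMap.add_apply, LinearMap.smul_apply, LinearMap.sub_apply,
          hc₀X x hx, hχc, smul_eq_mul, hκ]
        have : β * (χ₀ d₀ / θ₀ c₀) * θ₀ c₀ ≠ 0 :=
          mul_ne_zero (mul_ne_zero hβ (div_ne_zero hχd hθc)) hθc
        simpa using this
    · refine ⟨d₀, hd₀X', ?_⟩
      simp only [LinearMap.add_apply, LinearMap.smul_apply, LinearMap.sub_apply,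
        hd₀X x hx, hθd, smul_eq_mul]
      have : α * χ₀ d₀ ≠ 0 := mul_ne_zero hα hχd
      simpa using this
  · -- root
    intro u hu hu0
    obtain ⟨x, hx, α, β, rfl⟩ := hmem u hu
    rw [hJ'u x hx]
    apply hroot' x hx α β
    by_contra hcon
    push Not at hcon
    obtain ⟨h1, h2, h3⟩ := hcon
    apply hu0
    rw [h1, h2, h3]
    simp
  · -- compl
    intro v
    obtain ⟨x, hx, hxv⟩ := h.compl v
    refine ⟨x + (θ₀ (v - x) / θ₀ c₀) • c₀ + (χ₀ (v - x) / χ₀ d₀) • d₀, hmem' x hx _ _, ?_⟩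
    intro y hy
    obtain ⟨y₁, hy₁, α, β, rfl⟩ := hmem y hy
    rw [hJ'u y₁ hy₁]
    have e : v - (x + (θ₀ (v - x) / θ₀ c₀) • c₀ + (χ₀ (v - x) / χ₀ d₀) • d₀) =
        (v - x) - (θ₀ (v - x) / θ₀ c₀) • c₀ - (χ₀ (v - x) / χ₀ d₀) • d₀ := by abel
    rw [e]
    generalize v - x = w at hxv ⊢
    simp only [map_sub, map_smul, LinearMap.add_apply, LinearMap.smul_apply, LinearMap.sub_apply,
      hxv y₁ hy₁, hc₀X y₁ hy₁, hd₀X y₁ hy₁, hθd, hχc, smul_eq_mul]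
    field_simp
    ring
  · -- ker
    intro w hw
    have h1 : J w = 0 := by
      apply h.ker
      intro y hy
      have := hw y (hXX' hy)
      rwa [hJ'x y hy] at this
    have h2 : χ₀ w = 0 := by
      have := hw c₀ hc₀X'
      rwa [hJ'c] at this
    have h3 : θ₀ w = 0 := by
      have := hw d₀ hd₀X'
      rw [hJ'd, LinearMap.neg_apply, LinearMap.smul_apply, smul_eq_mul, neg_eq_zero] at this
      rcases mul_eq_zero.mp this with h4 | h4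
      · exact absurd h4 hκ0
      · exact h4
    apply LinearMap.ext
    intro z
    rw [hJ', h1, h2, h3]
    simp
  · -- finrank
    have : Module.Finite (ZMod p) V := Module.Finite.of_finite
    apply Submodule.finrank_lt_finrank_of_lt
    refine lt_of_le_of_ne hXX' ?_
    intro he
    have hcX : c₀ ∈ X := by
      rw [he]
      exact hc₀X'
    obtain ⟨x', -, hx'⟩ := h.nondeg c₀ hcX hc₀
    rw [hJc₀] at hx'
    exact hx' rfl

/-- S5075-SPB. -/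
theorem spFull_step [Finite V] (hp2 : p ≠ 2) {G : Subgroup (V ≃ₗ[ZMod p] V)} (hopp : HasOpp G)
    {X : Submodule (ZMod p) V} {J : V →ₗ[ZMod p] Dual (ZMod p) V} (h : SpFull G X J)
    (htypes : ∀ c χ, Root G c χ →
      (c ∈ X ∧ ∃ k : ZMod p, k ≠ 0 ∧ χ = k • J c) ∨
      ((∀ y ∈ X, J y c = 0) ∧ ∀ x ∈ X, χ x = 0) ∨
      (∃ c₁ ∈ X, ∃ k : ZMod p, c₁ ≠ 0 ∧ k ≠ 0 ∧ c - c₁ ≠ 0 ∧ χ - k • J c₁ ≠ 0 ∧
        (∀ y ∈ X, J y (c - c₁) = 0) ∧ ∀ x ∈ X, (χ - k • J c₁) x = 0))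
    {c₁ c₀ : V} {χ₀ : Dual (ZMod p) V} (hc₁ : c₁ ∈ X) (hc₁0 : c₁ ≠ 0) (hc₀ : c₀ ≠ 0)
    (hχ₀ : χ₀ ≠ 0) (hc₀X : ∀ y ∈ X, J y c₀ = 0) (hχ₀X : ∀ x ∈ X, χ₀ x = 0)
    (hr : Root G (c₁ + c₀) (J c₁ + χ₀)) :
    ∃ (X' : Submodule (ZMod p) V) (J' : V →ₗ[ZMod p] Dual (ZMod p) V), SpFull G X' J' ∧
      Module.finrank (ZMod p) ↥X < Module.finrank (ZMod p) ↥X' := by
  have hcχ : Root G c₀ χ₀ := SpFull_star hp2 h c₁ c₀ χ₀ hc₁ hc₁0 hc₀ hχ₀ hc₀X hχ₀X hr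
  have hb := SpFull_mixed h hc₁ hc₁0 hc₀X hχ₀X hcχ hr
  obtain ⟨d₀, θ₀, hdθ₀, hd₀X, hθ₀X, hθc, hχd⟩ := SpFull_opp hp2 hopp h htypes hc₀X hχ₀X hcχ
  exact SpFull_ext h hc₀ hc₀X hχ₀X hcχ hdθ₀ hd₀X hθ₀X hθc hχd hb

end Cfsg.Agent.H11.McL

section check
open Module Cfsg.Agent.H85.McL
variable {p : ℕ} [Fact p.Prime] {V : Type*} [AddCommGroup V] [Module (ZMod p) V]

example [Finite V] (hp2 : p ≠ 2) {G : Subgroup (V ≃ₗ[ZMod p] V)} (hopp : HasOpp G)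
    {X : Submodule (ZMod p) V} {J : V →ₗ[ZMod p] Dual (ZMod p) V} (h : SpFull G X J)
    (htypes : ∀ c χ, Root G c χ →
      (c ∈ X ∧ ∃ k : ZMod p, k ≠ 0 ∧ χ = k • J c) ∨
      ((∀ y ∈ X, J y c = 0) ∧ ∀ x ∈ X, χ x = 0) ∨
      (∃ c₁ ∈ X, ∃ k : ZMod p, c₁ ≠ 0 ∧ k ≠ 0 ∧ c - c₁ ≠ 0 ∧ χ - k • J c₁ ≠ 0 ∧
        (∀ y ∈ X, J y (c - c₁) = 0) ∧ ∀ x ∈ X, (χ - k • J c₁) x = 0))
    {c₁ c₀ : V} {χ₀ : Dual (ZMod p) V} (hc₁ : c₁ ∈ X) (hc₁0 : c₁ ≠ 0) (hc₀ : c₀ ≠ 0)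
    (hχ₀ : χ₀ ≠ 0) (hc₀X : ∀ y ∈ X, J y c₀ = 0) (hχ₀X : ∀ x ∈ X, χ₀ x = 0)
    (hr : Root G (c₁ + c₀) (J c₁ + χ₀)) :
    ∃ (X' : Submodule (ZMod p) V) (J' : V →ₗ[ZMod p] Dual (ZMod p) V), SpFull G X' J' ∧
      Module.finrank (ZMod p) ↥X < Module.finrank (ZMod p) ↥X' :=
  Cfsg.Agent.H11.McL.spFull_step hp2 hopp h htypes hc₁ hc₁0 hc₀ hχ₀ hc₀X hχ₀X hr
end check

#print axioms Cfsg.Agent.H11.McL.spFull_step
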