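import Mathlib
import Cfsg.Agent.H11.Meta2A
import Cfsg.Agent.H11.Dihedral2

/-!
# The abstract setting for S1896: a 2-group with a fixed-point-free automorphism of order 3
on a quotient of order 4.  Basic consequences, transfer to quotients, the commutative case.
-/

set_option autoImplicit false

namespace Cfsg.Agent.H11.Meta2

universe u

/-- The abstract setting. -/
structure Setup (X : Type u) [Group X] (F : Subgroup X) (α : X ≃* X) : Prop where
  normal : F.Normal
  index : F.index = 4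
  sq : ∀ x : X, x * x ∈ F
  comm : ∀ x y : X, x * y * x⁻¹ * y⁻¹ ∈ F
  cube : ∀ x : X, α (α (α x)) = x
  inv : ∀ x : X, x ∈ F ↔ α x ∈ F
  fpf : ∀ x : X, x ∉ F → α x * x⁻¹ ∉ F
  gen : ∀ x : X, x ∉ F → Subgroup.closure {x, α x} = ⊤

/-- The conclusion. -/
def Concl (X : Type u) [Group X] (F : Subgroup X) : Prop :=
  ((∀ a b : X, a * b = b * a) ∧ ∃ m : ℕ, 1 ≤ m ∧ Nat.card X = 2 ^ (2 * m) ∧
      (∀ g : X, g ^ (2 ^ m) = 1) ∧ (∀ x : X, x ∉ F → x ^ (2 ^ (m - 1)) ≠ 1) ∧
      (∀ f ∈ F, f ^ (2 ^ (m - 1)) = 1)) ∨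
  (Nat.card X = 8 ∧ (¬ ∀ a b : X, a * b = b * a) ∧ ∀ x : X, x ∉ F → x * x ≠ 1)

namespace Setup

variable {X : Type u} [Group X] {F : Subgroup X} {α : X ≃* X}

theorem exists_not_mem (S : Setup X F α) : ∃ x : X, x ∉ F := by
  by_contra h
  have hF : F = ⊤ := by
    rw [eq_top_iff]
    intro x _
    by_contra hx
    exact h ⟨x, hx⟩
  have := S.index
  rw [hF, Subgroup.index_top] at this
  omega

theorem alpha_not_mem (S : Setup X F α) {x : X} (hx : x ∉ F) : α x ∉ F :=
  fun h => hx ((S.inv x).mpr h)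

theorem xyz (S : Setup X F α) (x : X) : x * α x * α (α x) ∈ F := by
  by_contra hu
  apply S.fpf _ hu
  have h := S.comm (α x * α (α x)) x
  have e : α (x * α x * α (α x)) * (x * α x * α (α x))⁻¹
      = α x * α (α x) * x * (α x * α (α x))⁻¹ * x⁻¹ := by
    rw [map_mul, map_mul, S.cube]
    group
  rw [e]
  exact h

/-- Transfer of the setting to a quotient by a subgroup of `F` normalized by `α`. -/
theorem quot (S : Setup X F α) (Z : Subgroup X) [Z.Normal] (hZF : Z ≤ F)
    (hZα : Z.map (α : X →* X) = Z) :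
    Setup (X ⧸ Z) (F.map (QuotientGroup.mk' Z)) (QuotientGroup.congr Z Z α hZα) := by
  have hmem : ∀ g : X, (QuotientGroup.mk g : X ⧸ Z) ∈ F.map (QuotientGroup.mk' Z) ↔ g ∈ F := by
    intro g
    constructor
    · intro hg
      obtain ⟨f, hf, hfg⟩ := Subgroup.mem_map.mp hg
      have : f⁻¹ * g ∈ Z := QuotientGroup.eq.mp hfg
      have h2 : g = f * (f⁻¹ * g) := by group
      rw [h2]
      exact mul_mem hf (hZF this)
    · intro hg
      exact Subgroup.mem_map_of_mem _ hg
  have hα : ∀ g : X, QuotientGroup.congr Z Z α hZα (QuotientGroup.mk g) = QuotientGroup.mk (α g) :=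
    fun g => QuotientGroup.congr_mk Z Z α hZα g
  refine ⟨?_, ?_, ?_, ?_, ?_, ?_, ?_, ?_⟩
  · exact Subgroup.Normal.map S.normal _ (QuotientGroup.mk'_surjective Z)
  · rw [Subgroup.index_map_eq _ (QuotientGroup.mk'_surjective Z)
      (by rw [QuotientGroup.ker_mk']; exact hZF)]
    exact S.index
  · intro q
    obtain ⟨g, rfl⟩ := QuotientGroup.mk_surjective q
    rw [← QuotientGroup.mk_mul, hmem]
    exact S.sq g
  · intro q r
    obtain ⟨g, rfl⟩ := QuotientGroup.mk_surjective q
    obtain ⟨h, rfl⟩ := QuotientGroup.mk_surjective r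
    rw [← QuotientGroup.mk_inv, ← QuotientGroup.mk_inv, ← QuotientGroup.mk_mul,
      ← QuotientGroup.mk_mul, ← QuotientGroup.mk_mul, hmem]
    exact S.comm g h
  · intro q
    obtain ⟨g, rfl⟩ := QuotientGroup.mk_surjective q
    rw [hα, hα, hα, S.cube]
  · intro q
    obtain ⟨g, rfl⟩ := QuotientGroup.mk_surjective q
    rw [hα, hmem, hmem]
    exact S.inv g
  · intro q
    obtain ⟨g, rfl⟩ := QuotientGroup.mk_surjective q
    rw [hα, hmem, ← QuotientGroup.mk_inv, ← QuotientGroup.mk_mul, hmem]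
    exact S.fpf g
  · intro q
    obtain ⟨g, rfl⟩ := QuotientGroup.mk_surjective q
    rw [hα, hmem]
    intro hg
    have h1 := S.gen g hg
    have h2 : (Subgroup.closure {g, α g}).map (QuotientGroup.mk' Z) = ⊤ := by
      rw [h1]
      exact Subgroup.map_top_of_surjective _ (QuotientGroup.mk'_surjective Z)
    rw [MonoidHom.map_closure, Set.image_pair] at h2
    exact h2

end Setup

end Cfsg.Agent.H11.Meta2
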