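import Mathlib
import Cfsg.Agent.H11.Meta2B

/-!
# S1896: the commutative case
-/

set_option autoImplicit false

namespace Cfsg.Agent.H11.Meta2

universe u

variable {X : Type u} [Group X] {F : Subgroup X} {α : X ≃* X}

theorem caseA [Finite X] (hX : IsPGroup 2 X) (S : Setup X F α)
    (hc : ∀ a b : X, a * b = b * a) : Concl X F := by
  obtain ⟨x, hx⟩ := S.exists_not_mem
  have hy : α x ∉ F := S.alpha_not_mem hx
  obtain ⟨m, hm⟩ := (IsPGroup.iff_orderOf.mp hX) x
  have hm1 : 1 ≤ m := by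
    rcases Nat.eq_zero_or_pos m with h0 | h0
    · exfalso
      rw [h0, pow_zero, orderOf_eq_one_iff] at hm
      exact hx (hm ▸ F.one_mem)
    · exact h0
  have hxm : x ^ (2 ^ m) = 1 := by rw [← hm]; exact pow_orderOf_eq_one x
  have hym : (α x) ^ (2 ^ m) = 1 := by rw [← map_pow, hxm, map_one]
  have hmulpow : ∀ (n : ℕ) (a b : X), (a * b) ^ n = a ^ n * b ^ n :=
    fun n a b => (show Commute a b from hc a b).mul_pow n
  have hexp : ∀ g : X, g ^ (2 ^ m) = 1 :=
    pow_one_of_gen (S.gen x hx) (2 ^ m) (hmulpow _) hxm hym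
  have hoff : ∀ x' : X, x' ∉ F → x' ^ (2 ^ (m - 1)) ≠ 1 := by
    intro x' hx' h1
    have h2 : (α x') ^ (2 ^ (m - 1)) = 1 := by rw [← map_pow, h1, map_one]
    have h3 := pow_one_of_gen (S.gen x' hx') (2 ^ (m - 1)) (hmulpow _) h1 h2 x
    have h4 : orderOf x ∣ 2 ^ (m - 1) := orderOf_dvd_of_pow_eq_one h3
    rw [hm, Nat.pow_dvd_pow_iff_le_right (by norm_num)] at h4
    omega
  have hpow2 : 2 * 2 ^ (m - 1) = 2 ^ m := by
    rw [← pow_succ']; congr 1; omega
  have hsqpow : ∀ g : X, (g * g) ^ (2 ^ (m - 1)) = 1 := by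
    intro g
    rw [← pow_two, ← pow_mul, hpow2]; exact hexp g
  have hFpow : ∀ f ∈ F, f ^ (2 ^ (m - 1)) = 1 := by
    intro f hf
    obtain ⟨i, j, rfl⟩ := ab_repr hc (S.gen x hx) f
    have hev : ∀ (t : X) (k : ℤ), t ^ (2 * k) = (t ^ k) * (t ^ k) := by
      intro t k; rw [two_mul, zpow_add]
    have hevF : ∀ (t : X) (k : ℤ), t ^ (2 * k) ∈ F := by
      intro t k
      rw [hev]; exact S.sq _
    obtain ⟨i', hi | hi⟩ := Int.even_or_odd' i <;> obtain ⟨j', hj | hj⟩ := Int.even_or_odd' j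
    · -- both even
      subst hi hj
      have : x ^ (2 * i') * α x ^ (2 * j') = (x ^ i' * α x ^ j') * (x ^ i' * α x ^ j') := by
        rw [hev, hev]
        calc x ^ i' * x ^ i' * (α x ^ j' * α x ^ j')
            = x ^ i' * (x ^ i' * α x ^ j') * α x ^ j' := by group
          _ = x ^ i' * (α x ^ j' * x ^ i') * α x ^ j' := by rw [hc (x ^ i') (α x ^ j')]
          _ = (x ^ i' * α x ^ j') * (x ^ i' * α x ^ j') := by group
      rw [this]; exact hsqpow _
    · -- i even, j odd
      exfalso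
      subst hi hj
      apply hy
      have e : α x = (α x ^ (2 * j'))⁻¹ *
          ((x ^ (2 * i'))⁻¹ * (x ^ (2 * i') * α x ^ (2 * j' + 1))) := by
        rw [zpow_add_one]; group
      rw [e]
      exact mul_mem (inv_mem (hevF _ _)) (mul_mem (inv_mem (hevF _ _)) hf)
    · -- i odd, j even
      exfalso
      subst hi hj
      apply hx
      have e : x = (x ^ (2 * i'))⁻¹ * (x ^ (2 * i' + 1) * α x ^ (2 * j')) *
          (α x ^ (2 * j'))⁻¹ := by
        rw [zpow_add_one]; group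
      rw [e]
      exact mul_mem (mul_mem (inv_mem (hevF _ _)) hf) (inv_mem (hevF _ _))
    · -- both odd
      exfalso
      subst hi hj
      apply S.fpf x hx
      have hxy : x * α x ∈ F := by
        have e : x * α x = (x ^ (2 * i'))⁻¹ * (x ^ (2 * i' + 1) * α x ^ (2 * j' + 1)) *
            (α x ^ (2 * j'))⁻¹ := by
          rw [zpow_add_one, zpow_add_one, hc (α x ^ (2 * j')) (α x)]
          group
        rw [e]
        exact mul_mem (mul_mem (inv_mem (hevF _ _)) hf) (inv_mem (hevF _ _))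
      have e2 : α x * x⁻¹ = (x * α x) * (x * x)⁻¹ := by
        rw [hc x (α x)]; group
      rw [e2]
      exact mul_mem hxy (inv_mem (S.sq x))
  have hoy : orderOf (α x) = 2 ^ m := by rw [MulEquiv.orderOf_eq]; exact hm
  have hinv : ∀ t : X, orderOf t = 2 ^ m → orderOf (t ^ (2 ^ (m - 1))) = 2 := by
    intro t ht
    rw [orderOf_pow_of_dvd (by positivity) (by rw [ht]; exact pow_dvd_pow 2 (by omega)), ht]
    rw [← hpow2]; exact Nat.mul_div_cancel _ (by positivity)
  have hinf : Subgroup.zpowers x ⊓ Subgroup.zpowers (α x) = ⊥ := by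
    by_contra hne
    have hcardH : 2 ∣ Nat.card (Subgroup.zpowers x ⊓ Subgroup.zpowers (α x) : Subgroup X) := by
      obtain ⟨k, hk⟩ := IsPGroup.iff_card.mp (hX.to_subgroup
        (Subgroup.zpowers x ⊓ Subgroup.zpowers (α x)))
      rw [hk]
      have : k ≠ 0 := by
        rintro rfl
        rw [pow_zero] at hk
        exact hne (Subgroup.eq_bot_of_card_eq _ hk)
      exact dvd_pow_self 2 this
    haveI : Fact (Nat.Prime 2) := ⟨Nat.prime_two⟩
    obtain ⟨t, ht⟩ := exists_prime_orderOf_dvd_card' 2 hcardH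
    have ht' : orderOf (t : X) = 2 := by rw [Subgroup.orderOf_coe]; exact ht
    have htx : (t : X) ∈ Subgroup.zpowers x := (Subgroup.mem_inf.mp t.2).1
    have hty : (t : X) ∈ Subgroup.zpowers (α x) := (Subgroup.mem_inf.mp t.2).2
    have e1 : (t : X) = x ^ (2 ^ (m - 1)) := by
      have := Cfsg.Agent.H11.involution_unique_of_isCyclic (C := Subgroup.zpowers x)
        (a := ⟨t, htx⟩) (b := ⟨x ^ (2 ^ (m - 1)), pow_mem (Subgroup.mem_zpowers x) _⟩)
        (by rw [Subgroup.orderOf_mk]; exact ht') (by rw [Subgroup.orderOf_mk]; exact hinv x hm)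
      exact congrArg Subtype.val this
    have e2 : (t : X) = (α x) ^ (2 ^ (m - 1)) := by
      have := Cfsg.Agent.H11.involution_unique_of_isCyclic (C := Subgroup.zpowers (α x))
        (a := ⟨t, hty⟩) (b := ⟨(α x) ^ (2 ^ (m - 1)), pow_mem (Subgroup.mem_zpowers (α x)) _⟩)
        (by rw [Subgroup.orderOf_mk]; exact ht')
        (by rw [Subgroup.orderOf_mk]; exact hinv (α x) hoy)
      exact congrArg Subtype.val this
    apply hoff (α x * x⁻¹) (S.fpf x hx)
    rw [hmulpow, inv_pow, ← e1, ← e2, mul_inv_cancel]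
  have hcard : Nat.card X = 2 ^ (2 * m) := by
    let φ : Subgroup.zpowers x × Subgroup.zpowers (α x) → X := fun p => p.1.1 * p.2.1
    have hinj : Function.Injective φ := by
      rintro ⟨a, b⟩ ⟨a', b'⟩ hab
      have hab' : a.1 * b.1 = a'.1 * b'.1 := hab
      have h1 : a'.1⁻¹ * a.1 = b'.1 * b.1⁻¹ := by
        calc a'.1⁻¹ * a.1 = a'.1⁻¹ * (a.1 * b.1) * b.1⁻¹ := by group
          _ = a'.1⁻¹ * (a'.1 * b'.1) * b.1⁻¹ := by rw [hab']
          _ = b'.1 * b.1⁻¹ := by group
      have h2 : a'.1⁻¹ * a.1 ∈ Subgroup.zpowers x ⊓ Subgroup.zpowers (α x) := by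
        refine Subgroup.mem_inf.mpr ⟨mul_mem (inv_mem a'.2) a.2, ?_⟩
        rw [h1]; exact mul_mem b'.2 (inv_mem b.2)
      rw [hinf, Subgroup.mem_bot] at h2
      have ha : a = a' := by
        apply Subtype.ext
        exact (inv_mul_eq_one.mp h2).symm
      have hb : b = b' := by
        apply Subtype.ext
        rw [h2] at h1
        exact (mul_inv_eq_one.mp h1.symm).symm
      rw [ha, hb]
    have hsurj : Function.Surjective φ := by
      intro g
      obtain ⟨i, j, rfl⟩ := ab_repr hc (S.gen x hx) g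
      exact ⟨(⟨x ^ i, zpow_mem (Subgroup.mem_zpowers x) i⟩,
        ⟨α x ^ j, zpow_mem (Subgroup.mem_zpowers _) j⟩), rfl⟩
    rw [← Nat.card_congr (Equiv.ofBijective φ ⟨hinj, hsurj⟩), Nat.card_prod, Nat.card_zpowers,
      Nat.card_zpowers, hm, hoy, ← pow_add]
    congr 1; omega
  exact Or.inl ⟨hc, m, hm1, hcard, hexp, hoff, hFpow⟩

end Cfsg.Agent.H11.Meta2
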