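import Mathlib
import Cfsg.Agent.H11.Meta2CaseA

/-!
# S1896: the noncommutative case and the main induction
-/

set_option autoImplicit false

namespace Cfsg.Agent.H11.Meta2

universe u

open scoped commutatorElement

variable {X : Type u} [Group X] {F : Subgroup X} {α : X ≃* X}

theorem mk_mem_map_iff (Z : Subgroup X) [Z.Normal] (hZF : Z ≤ F) (g : X) :
    (QuotientGroup.mk g : X ⧸ Z) ∈ F.map (QuotientGroup.mk' Z) ↔ g ∈ F := by
  constructor
  · intro hg
    obtain ⟨f, hf, hfg⟩ := Subgroup.mem_map.mp hg
    have : f⁻¹ * g ∈ Z := QuotientGroup.eq.mp hfg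
    have h2 : g = f * (f⁻¹ * g) := by group
    rw [h2]
    exact mul_mem hf (hZF this)
  · intro hg
    exact Subgroup.mem_map_of_mem _ hg

/-- The involution of the (cyclic) commutator subgroup of a nonabelian metacyclic 2-group. -/
theorem exists_w [Finite X] (hX : IsPGroup 2 X) (hmeta : Cfsg.IsMetacyclic X)
    (hnc : ¬ ∀ a b : X, a * b = b * a) :
    ∃ w : X, orderOf w = 2 ∧ w ∈ commutator X ∧
      ∀ t ∈ commutator X, t * t = 1 → t = 1 ∨ t = w := by
  obtain ⟨N, hN, hNc, hQc⟩ := hmeta
  haveI := hN
  have hle : commutator X ≤ N := by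
    rw [← Subgroup.Normal.quotient_commutative_iff_commutator_le]
    exact ⟨⟨IsCyclic.commGroup.mul_comm⟩⟩
  haveI : IsCyclic (commutator X) := Subgroup.isCyclic_of_le hle
  have hne : commutator X ≠ ⊥ := by
    intro h
    apply hnc
    intro a b
    have : ⁅a, b⁆ ∈ commutator X := by
      rw [commutator_def]
      exact Subgroup.commutator_mem_commutator (Subgroup.mem_top a) (Subgroup.mem_top b)
    rw [h, Subgroup.mem_bot, commutatorElement_eq_one_iff_mul_comm] at this
    exact this
  have h2 : 2 ∣ Nat.card (commutator X) := by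
    obtain ⟨k, hk⟩ := IsPGroup.iff_card.mp (hX.to_subgroup (commutator X))
    rw [hk]
    have : k ≠ 0 := by
      rintro rfl
      rw [pow_zero] at hk
      exact hne (Subgroup.eq_bot_of_card_eq _ hk)
    exact dvd_pow_self 2 this
  haveI : Fact (Nat.Prime 2) := ⟨Nat.prime_two⟩
  obtain ⟨w, hw⟩ := exists_prime_orderOf_dvd_card' 2 h2
  refine ⟨w.1, by rw [Subgroup.orderOf_coe]; exact hw, w.2, ?_⟩
  intro t ht htt
  by_cases h1 : t = 1
  · exact Or.inl h1
  · right
    have hto : orderOf t = 2 := orderOf_eq_prime (by rw [pow_two]; exact htt) h1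
    have := Cfsg.Agent.H11.involution_unique_of_isCyclic (C := commutator X) (a := ⟨t, ht⟩)
      (b := w) (by rw [Subgroup.orderOf_mk]; exact hto) hw
    exact congrArg Subtype.val this

theorem caseB [Finite X] (hmeta : Cfsg.IsMetacyclic X) (S : Setup X F α)
    (hnc : ¬ ∀ a b : X, a * b = b * a) {w : X} (hw : orderOf w = 2)
    (hwX' : w ∈ commutator X)
    (huniq : ∀ t ∈ commutator X, t * t = 1 → t = 1 ∨ t = w)
    (hcent : ∀ g : X, w * g = g * w) (hαw : α w = w) [(Subgroup.zpowers w).Normal]
    (C : Concl (X ⧸ Subgroup.zpowers w) (F.map (QuotientGroup.mk' (Subgroup.zpowers w)))) :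
    Concl X F := by
  have hww : w * w = 1 := by rw [← pow_two, ← hw]; exact pow_orderOf_eq_one w
  have hZ : ∀ z ∈ Subgroup.zpowers w, z = 1 ∨ z = w := by
    intro z hz
    obtain ⟨k, rfl⟩ := Subgroup.mem_zpowers_iff.mp hz
    obtain ⟨k', hk | hk⟩ := Int.even_or_odd' k
    · left; rw [hk, zpow_mul, zpow_two, hww, one_zpow]
    · right; rw [hk, zpow_add_one, zpow_mul, zpow_two, hww, one_zpow, one_mul]
  have hZc : ∀ z ∈ Subgroup.zpowers w, ∀ g : X, z * g = g * z := by
    intro z hz g
    rcases hZ z hz with rfl | rfl
    · simp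
    · exact hcent g
  have hZ2 : ∀ z ∈ Subgroup.zpowers w, z * z = 1 := by
    intro z hz
    rcases hZ z hz with rfl | rfl
    · simp
    · exact hww
  have hZα : ∀ z ∈ Subgroup.zpowers w, α z = z := by
    intro z hz
    rcases hZ z hz with rfl | rfl
    · simp
    · exact hαw
  have hX'F : commutator X ≤ F := by
    rw [commutator_def, Subgroup.commutator_le]
    intro a _ b _
    rw [commutatorElement_def]
    exact S.comm a b
  have hZF : Subgroup.zpowers w ≤ F := by
    rw [Subgroup.zpowers_le]; exact hX'F hwX'
  have hmem := mk_mem_map_iff (Subgroup.zpowers w) hZF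
  have hcardX : Nat.card X = Nat.card (X ⧸ Subgroup.zpowers w) * 2 := by
    rw [Subgroup.card_eq_card_quotient_mul_card_subgroup (Subgroup.zpowers w), Nat.card_zpowers,
      hw]
  have hcomX : ∀ g h : X, g * h * g⁻¹ * h⁻¹ ∈ commutator X := by
    intro g h
    rw [← commutatorElement_def, commutator_def]
    exact Subgroup.commutator_mem_commutator (Subgroup.mem_top g) (Subgroup.mem_top h)
  rcases C with ⟨hcq, m, hm1, hcardq, hexpq, hoffq, hFq⟩ | ⟨hcardq, hncq, hsqq⟩
  · -- the quotient is commutative
    have hcomm : ∀ g h : X, g * h * g⁻¹ * h⁻¹ ∈ Subgroup.zpowers w := by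
      intro g h
      rw [← QuotientGroup.eq_one_iff]
      simp only [QuotientGroup.mk_mul, QuotientGroup.mk_inv]
      rw [hcq (QuotientGroup.mk g) (QuotientGroup.mk h)]
      group
    rcases Nat.lt_or_ge m 2 with hm2 | hm2
    · -- m = 1: quaternion case
      have hm : m = 1 := by omega
      subst hm
      right
      refine ⟨by rw [hcardX, hcardq]; norm_num, hnc, ?_⟩
      have hFZ : F ≤ Subgroup.zpowers w := by
        intro f hf
        have := hFq _ ((hmem f).mpr hf)
        rw [← QuotientGroup.eq_one_iff]
        simpa using this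
      intro x' hx' hsq
      have hy2 : α x' * α x' = 1 := by rw [← map_mul, hsq, map_one]
      have hz2 : α (α x') * α (α x') = 1 := by rw [← map_mul, hy2, map_one]
      have hf := hFZ (S.xyz x')
      have hfc := hZc _ hf
      have hf2 := hZ2 _ hf
      have e1 : x' * α x' = (x' * α x' * α (α x')) * (α (α x'))⁻¹ := by group
      have e2 : (x' * α x') * (x' * α x') = 1 := by
        rw [e1]
        generalize x' * α x' * α (α x') = f at hfc hf2
        calc f * (α (α x'))⁻¹ * (f * (α (α x'))⁻¹)
            = f * ((α (α x'))⁻¹ * f) * (α (α x'))⁻¹ := by group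
          _ = f * (f * (α (α x'))⁻¹) * (α (α x'))⁻¹ := by rw [← hfc (α (α x'))⁻¹]
          _ = (f * f) * (α (α x') * α (α x'))⁻¹ := by group
          _ = 1 := by rw [hf2, hz2]; simp
      have hxi : x'⁻¹ = x' := inv_eq_of_mul_eq_one_right hsq
      have hyi : (α x')⁻¹ = α x' := inv_eq_of_mul_eq_one_right hy2
      have e3 : x' * α x' = α x' * x' := by
        calc x' * α x' = (x' * α x')⁻¹ := (inv_eq_of_mul_eq_one_right e2).symm
          _ = (α x')⁻¹ * x'⁻¹ := mul_inv_rev _ _
          _ = α x' * x' := by rw [hxi, hyi]
      exact hnc (comm_of_gen (S.gen x' hx') e3)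
    · -- m ≥ 2: impossible
      exfalso
      have sqc : ∀ g h : X, g * g * h = h * (g * g) := by
        intro g h
        have hcm := hcomm g h
        have e : g * h = (g * h * g⁻¹ * h⁻¹) * (h * g) := by group
        generalize g * h * g⁻¹ * h⁻¹ = c at hcm e
        have hcc := hZc c hcm
        have hc2 := hZ2 c hcm
        calc g * g * h = g * (g * h) := by group
          _ = g * (c * (h * g)) := by rw [e]
          _ = (g * c) * (h * g) := by group
          _ = (c * g) * (h * g) := by rw [hcc g]
          _ = c * (g * h) * g := by group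
          _ = c * (c * (h * g)) * g := by rw [e]
          _ = (c * c) * (h * (g * g)) := by group
          _ = h * (g * g) := by rw [hc2, one_mul]
      have hcg : ∀ g h : X, Commute (g * g) h := fun g h => sqc g h
      have pow4 : ∀ g h : X, (g * h) ^ 4 = g ^ 4 * h ^ 4 := by
        intro g h
        have hcm := hcomm h g
        have e : h * g = (h * g * h⁻¹ * g⁻¹) * (g * h) := by group
        generalize h * g * h⁻¹ * g⁻¹ = c at hcm e
        have hcc := hZc c hcm
        have hc2 := hZ2 c hcm
        have e2 : (g * h) * (g * h) = c * ((g * g) * (h * h)) := by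
          calc (g * h) * (g * h) = g * (h * g) * h := by group
            _ = g * (c * (g * h)) * h := by rw [e]
            _ = (g * c) * (g * h) * h := by group
            _ = (c * g) * (g * h) * h := by rw [hcc g]
            _ = c * ((g * g) * (h * h)) := by group
        calc (g * h) ^ 4 = ((g * h) * (g * h)) * ((g * h) * (g * h)) := by
              rw [show (4 : ℕ) = 2 * 2 from rfl, pow_mul, pow_two, pow_two]
          _ = (c * ((g * g) * (h * h))) * (c * ((g * g) * (h * h))) := by rw [e2]
          _ = c * (((g * g) * (h * h)) * c) * ((g * g) * (h * h)) := by group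
          _ = c * (c * ((g * g) * (h * h))) * ((g * g) * (h * h)) := by
              rw [hcc ((g * g) * (h * h))]
          _ = (c * c) * ((g * g) * ((h * h) * (g * g)) * (h * h)) := by group
          _ = (g * g) * ((g * g) * (h * h)) * (h * h) := by
            rw [hc2, one_mul, ← sqc g (h * h)]
          _ = g ^ 4 * h ^ 4 := by
            rw [show (4 : ℕ) = 2 * 2 from rfl, pow_mul, pow_mul, pow_two, pow_two, pow_two,
              pow_two]
            group
      have hpow : ∀ g h : X, (g * h) ^ (2 ^ m) = g ^ (2 ^ m) * h ^ (2 ^ m) := by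
        intro g h
        have h4 : 2 ^ m = 4 * 2 ^ (m - 2) := by
          have : m = 2 + (m - 2) := by omega
          conv_lhs => rw [this, pow_add]
          norm_num
        rw [h4, pow_mul, pow_mul, pow_mul, pow4]
        have hcomm4 : Commute (g ^ 4) (h ^ 4) := by
          have : g ^ 4 = (g * g) ^ 2 := by rw [← pow_two, ← pow_mul]
          rw [this]
          exact (hcg g (h ^ 4)).pow_left 2
        exact hcomm4.mul_pow _
      have hpowZ : ∀ g : X, g ^ (2 ^ m) ∈ Subgroup.zpowers w := by
        intro g
        rw [← QuotientGroup.eq_one_iff, QuotientGroup.mk_pow]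
        exact hexpq _
      obtain ⟨x, hx⟩ := S.exists_not_mem
      have hvZ : x ^ (2 ^ m) ∈ Subgroup.zpowers w := hpowZ x
      have hy : (α x) ^ (2 ^ m) = x ^ (2 ^ m) := by rw [← map_pow, hZα _ hvZ]
      have hz : (α (α x)) ^ (2 ^ m) = x ^ (2 ^ m) := by rw [← map_pow, hy, hZα _ hvZ]
      have hu : (x * α x * α (α x)) ^ (2 ^ m) = x ^ (2 ^ m) := by
        rw [hpow, hpow, hy, hz, mul_assoc, hZ2 _ hvZ, mul_one]
      have hu1 : (x * α x * α (α x)) ^ (2 ^ m) = 1 := by
        have h1 := hFq _ ((hmem _).mpr (S.xyz x))
        rw [← QuotientGroup.mk_pow, QuotientGroup.eq_one_iff] at h1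
        have h2 := hZ2 _ h1
        rw [← pow_add] at h2
        have : 2 ^ (m - 1) + 2 ^ (m - 1) = 2 ^ m := by
          rw [← two_mul, ← pow_succ']; congr 1; omega
        rw [this] at h2
        exact h2
      have hv1 : x ^ (2 ^ m) = 1 := by rw [← hu, hu1]
      have hall : ∀ g : X, g ^ (2 ^ m) = 1 :=
        pow_one_of_gen (S.gen x hx) (2 ^ m) hpow hv1 (hy.trans hv1)
      have hdvd := card_dvd_of_exp hmeta hall
      rw [hcardX, hcardq] at hdvd
      have hle : 2 ^ (2 * m) * 2 ≤ 2 ^ m * 2 ^ m := Nat.le_of_dvd (by positivity) hdvd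
      rw [← pow_add, ← two_mul] at hle
      have : 0 < 2 ^ (2 * m) := by positivity
      omega
  · -- the quotient is quaternion-like of order 8: impossible
    exfalso
    have hcard16 : Nat.card X = 16 := by rw [hcardX, hcardq]
    have hcardF : Nat.card F = 4 := by
      have := Subgroup.card_mul_index F
      rw [S.index, hcard16] at this
      omega
    have hexc : ∃ c ∈ commutator X, c ∉ Subgroup.zpowers w := by
      by_contra hcon
      apply hncq
      intro q r
      obtain ⟨g, rfl⟩ := QuotientGroup.mk_surjective q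
      obtain ⟨h, rfl⟩ := QuotientGroup.mk_surjective r
      have hc : g * h * g⁻¹ * h⁻¹ ∈ Subgroup.zpowers w := by
        by_contra hc'
        exact hcon ⟨_, hcomX g h, hc'⟩
      rw [← QuotientGroup.eq_one_iff] at hc
      simp only [QuotientGroup.mk_mul, QuotientGroup.mk_inv] at hc
      calc (QuotientGroup.mk g : X ⧸ Subgroup.zpowers w) * QuotientGroup.mk h
          = ((QuotientGroup.mk g : X ⧸ Subgroup.zpowers w) * QuotientGroup.mk h *
              (QuotientGroup.mk g)⁻¹ * (QuotientGroup.mk h)⁻¹) *
              (QuotientGroup.mk h * QuotientGroup.mk g) := by group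
        _ = QuotientGroup.mk h * QuotientGroup.mk g := by rw [hc, one_mul]
    obtain ⟨c, hcX', hcZ⟩ := hexc
    have hc1 : c ≠ 1 := fun h => hcZ (h ▸ one_mem _)
    have hc2 : c * c ≠ 1 := by
      intro h
      rcases huniq c hcX' h with h1 | h1
      · exact hc1 h1
      · exact hcZ (h1 ▸ Subgroup.mem_zpowers w)
    have hFc : F = Subgroup.zpowers c := eq_zpowers_of_card_four hcardF (hX'F hcX') hc1 hc2
    have hFX' : F ≤ commutator X := by rw [hFc, Subgroup.zpowers_le]; exact hcX'
    have hsqgen : ∀ x : X, x ∉ F → ∀ f ∈ F, f * x = x * f := by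
      intro x hx f hf
      have hs : x * x ∈ F := S.sq x
      have hsZ : x * x ∉ Subgroup.zpowers w := by
        intro h
        apply hsqq (QuotientGroup.mk x) (by rw [hmem]; exact hx)
        rw [← QuotientGroup.mk_mul, QuotientGroup.eq_one_iff]; exact h
      have hs1 : x * x ≠ 1 := fun h => hsZ (h ▸ one_mem _)
      have hs2 : (x * x) * (x * x) ≠ 1 := by
        intro h
        rcases huniq _ (hFX' hs) h with h1 | h1
        · exact hs1 h1
        · exact hsZ (h1 ▸ Subgroup.mem_zpowers w)
      have hFs : F = Subgroup.zpowers (x * x) := eq_zpowers_of_card_four hcardF hs hs1 hs2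
      rw [hFs] at hf
      obtain ⟨k, rfl⟩ := Subgroup.mem_zpowers_iff.mp hf
      have : Commute (x * x) x := by show x * x * x = x * (x * x); group
      exact (this.zpow_left k)
    obtain ⟨x, hx⟩ := S.exists_not_mem
    have hFcent : ∀ f ∈ F, ∀ g : X, f * g = g * f := by
      intro f hf g
      exact central_of_gen (S.gen x hx) (hsqgen x hx f hf)
        (hsqgen (α x) (S.alpha_not_mem hx) f hf) g
    apply hncq
    intro q r
    obtain ⟨g, rfl⟩ := QuotientGroup.mk_surjective q
    obtain ⟨h, rfl⟩ := QuotientGroup.mk_surjective r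
    have hcX := hcomX g h
    have hgg := hFcent (g * g) (S.sq g)
    have e : g * h = (g * h * g⁻¹ * h⁻¹) * (h * g) := by group
    have hmk : (QuotientGroup.mk (g * h * g⁻¹ * h⁻¹) : X ⧸ Subgroup.zpowers w) = 1 := by
      rw [QuotientGroup.eq_one_iff]
      generalize g * h * g⁻¹ * h⁻¹ = c' at hcX e
      have hcc := hFcent c' (hX'F hcX)
      have e3 : g * g * h = (c' * c') * (h * (g * g)) := by
        calc g * g * h = g * (g * h) := by group
          _ = g * (c' * (h * g)) := by rw [e]
          _ = (g * c') * (h * g) := by group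
          _ = (c' * g) * (h * g) := by rw [hcc g]
          _ = c' * (g * h) * g := by group
          _ = c' * (c' * (h * g)) * g := by rw [e]
          _ = (c' * c') * (h * (g * g)) := by group
      have e4 : c' * c' = 1 := by
        rw [hgg h] at e3
        exact mul_eq_right.mp e3.symm
      rcases huniq c' hcX e4 with h1 | h1
      · rw [h1]; exact one_mem _
      · rw [h1]; exact Subgroup.mem_zpowers w
    simp only [QuotientGroup.mk_mul, QuotientGroup.mk_inv] at hmk
    calc (QuotientGroup.mk g : X ⧸ Subgroup.zpowers w) * QuotientGroup.mk h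
        = ((QuotientGroup.mk g : X ⧸ Subgroup.zpowers w) * QuotientGroup.mk h *
            (QuotientGroup.mk g)⁻¹ * (QuotientGroup.mk h)⁻¹) *
            (QuotientGroup.mk h * QuotientGroup.mk g) := by group
      _ = QuotientGroup.mk h * QuotientGroup.mk g := by rw [hmk, one_mul]

/-- The main induction. -/
theorem main : ∀ (n : ℕ) (X : Type u) [Group X] [Finite X], Nat.card X = n → IsPGroup 2 X →
    Cfsg.IsMetacyclic X → ∀ (F : Subgroup X) (α : X ≃* X), Setup X F α → Concl X F := by
  intro n
  induction n using Nat.strong_induction_on with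
  | _ n ih =>
    intro X _ _ hn hX hmeta F α S
    by_cases hc : ∀ a b : X, a * b = b * a
    · exact caseA hX S hc
    · obtain ⟨w, hw, hwX', huniq⟩ := exists_w hX hmeta hc
      have hww : w * w = 1 := by rw [← pow_two, ← hw]; exact pow_orderOf_eq_one w
      have hw1 : w ≠ 1 := by
        intro h; rw [h, orderOf_one] at hw; omega
      have hcent : ∀ g : X, w * g = g * w := by
        intro g
        have h1 : g * w * g⁻¹ ∈ commutator X :=
          (inferInstance : (commutator X).Normal).conj_mem w hwX' g
        have h2 : (g * w * g⁻¹) * (g * w * g⁻¹) = 1 := by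
          calc (g * w * g⁻¹) * (g * w * g⁻¹) = g * (w * w) * g⁻¹ := by group
            _ = 1 := by rw [hww]; group
        rcases huniq _ h1 h2 with h3 | h3
        · exfalso
          apply hw1
          calc w = g⁻¹ * (g * w * g⁻¹) * g := by group
            _ = 1 := by rw [h3]; group
        · calc w * g = (g * w * g⁻¹) * g := by rw [h3]
            _ = g * w := by group
      have hαw : α w = w := by
        have h1 : α w ∈ commutator X := by
          have hch : (commutator X).Characteristic := inferInstance
          have := Subgroup.characteristic_iff_map_le.mp hch α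
          exact this (Subgroup.mem_map_of_mem _ hwX')
        have h2 : α w * α w = 1 := by rw [← map_mul, hww, map_one]
        rcases huniq _ h1 h2 with h3 | h3
        · exfalso
          apply hw1
          have : α w = α 1 := by rw [h3, map_one]
          exact α.injective this
        · exact h3
      haveI hZn : (Subgroup.zpowers w).Normal := by
        refine ⟨fun z hz g => ?_⟩
        obtain ⟨k, rfl⟩ := Subgroup.mem_zpowers_iff.mp hz
        have : g * w ^ k * g⁻¹ = w ^ k := by
          have hc' : Commute w g := hcent g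
          have := (hc'.zpow_left k).eq
          calc g * w ^ k * g⁻¹ = (w ^ k * g) * g⁻¹ := by rw [this]
            _ = w ^ k := by group
        rw [this]
        exact hz
      have hX'F : commutator X ≤ F := by
        rw [commutator_def, Subgroup.commutator_le]
        intro a _ b _
        rw [commutatorElement_def]
        exact S.comm a b
      have hZF : Subgroup.zpowers w ≤ F := by
        rw [Subgroup.zpowers_le]; exact hX'F hwX'
      have hZα : (Subgroup.zpowers w).map (α : X →* X) = Subgroup.zpowers w := by
        rw [MonoidHom.map_zpowers]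
        show Subgroup.zpowers (α w) = _
        rw [hαw]
      have S' := S.quot (Subgroup.zpowers w) hZF hZα
      have hcardX : Nat.card X = Nat.card (X ⧸ Subgroup.zpowers w) * 2 := by
        rw [Subgroup.card_eq_card_quotient_mul_card_subgroup (Subgroup.zpowers w),
          Nat.card_zpowers, hw]
      have hpos : 0 < Nat.card (X ⧸ Subgroup.zpowers w) := Nat.card_pos
      have C := ih (Nat.card (X ⧸ Subgroup.zpowers w)) (by omega) (X ⧸ Subgroup.zpowers w) rfl
        (hX.to_quotient _) (metacyclic_quotient hmeta _) _ _ S'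
      exact caseB hmeta S hc hw hwX' huniq hcent hαw C

end Cfsg.Agent.H11.Meta2
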