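import Mathlib
import Cfsg.Agent.H7.PsDefs

/-!
# S3664 (helper7's project), piece PS-FAM: the split extensions `M^k ⋊ A` have the element-order
data, and unbounded order
-/

set_option autoImplicit false

namespace Cfsg.Agent.H11.Ps

open Cfsg Cfsg.Agent.H7.Ps

theorem sd_pow_right {N G : Type*} [Group N] [Group G] (φ : G →* MulAut N) (y : N ⋊[φ] G)
    (n : ℕ) : (y ^ n).right = y.right ^ n := by
  rw [← SemidirectProduct.rightHom_eq_right, map_pow, SemidirectProduct.rightHom_eq_right]

theorem sd_right_dvd {N G : Type*} [Group N] [Group G] (φ : G →* MulAut N) (y : N ⋊[φ] G) :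
    orderOf y.right ∣ orderOf y := by
  have h := orderOf_map_dvd (SemidirectProduct.rightHom (φ := φ)) y
  rwa [SemidirectProduct.rightHom_eq_right] at h

/-- kernel of exponent two: the order divides twice the order of the image -/
theorem sd_orderOf_dvd {N G : Type*} [Group N] [Group G] (φ : G →* MulAut N)
    (hN : ∀ n : N, n * n = 1) (y : N ⋊[φ] G) : orderOf y ∣ 2 * orderOf y.right := by
  apply orderOf_dvd_of_pow_eq_one
  have h1 : (y ^ orderOf y.right).right = 1 := by rw [sd_pow_right, pow_orderOf_eq_one]
  rw [mul_comm, pow_mul, pow_two]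
  ext
  · rw [SemidirectProduct.mul_left, h1, map_one, MulAut.one_apply, SemidirectProduct.one_left]
    exact hN _
  · rw [SemidirectProduct.mul_right, h1, mul_one, SemidirectProduct.one_right]

/-- an element whose image acts without non-trivial fixed points has the order of its image -/
theorem sd_orderOf_eq {N G : Type*} [CommGroup N] [Group G] (φ : G →* MulAut N)
    (y : N ⋊[φ] G) (hfix : ∀ n : N, φ y.right n = n → n = 1) :
    orderOf y = orderOf y.right := by
  apply Nat.dvd_antisymm
  · apply orderOf_dvd_of_pow_eq_one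
    have h1 : (y ^ orderOf y.right).right = 1 := by rw [sd_pow_right, pow_orderOf_eq_one]
    have hcomm : y * y ^ orderOf y.right = y ^ orderOf y.right * y := by
      rw [← pow_succ', ← pow_succ]
    have h3 := congrArg SemidirectProduct.left hcomm
    rw [SemidirectProduct.mul_left, SemidirectProduct.mul_left, h1, map_one, MulAut.one_apply,
      mul_comm] at h3
    have h4 : φ y.right (y ^ orderOf y.right).left = (y ^ orderOf y.right).left :=
      mul_right_cancel h3
    ext
    · exact hfix _ h4
    · exact h1
  · exact sd_right_dvd φ y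

theorem sd_right_of_odd {N G : Type*} [Group N] [Group G] (φ : G →* MulAut N)
    (hN : ∀ n : N, n * n = 1) (y : N ⋊[φ] G) (hodd : Odd (orderOf y)) :
    orderOf y.right = orderOf y := by
  apply Nat.dvd_antisymm (sd_right_dvd φ y)
  exact (Nat.coprime_two_right.mpr hodd).dvd_of_dvd_mul_left (sd_orderOf_dvd φ hN y)

theorem sd_order_two_mul {N G : Type*} [CommGroup N] [Group G] (φ : G →* MulAut N)
    (hN : ∀ n : N, n * n = 1) (a : G) (n : N) (hn : n ≠ 1) (hfix : φ a n = n)
    (hodd : Odd (orderOf a)) :
    orderOf (SemidirectProduct.inl n * SemidirectProduct.inr a : N ⋊[φ] G) = 2 * orderOf a := by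
  have hc : Commute (SemidirectProduct.inl n : N ⋊[φ] G) (SemidirectProduct.inr a) := by
    show (SemidirectProduct.inl n : N ⋊[φ] G) * SemidirectProduct.inr a =
      SemidirectProduct.inr a * SemidirectProduct.inl n
    ext
    · simp [hfix]
    · simp
  have h2 : orderOf (SemidirectProduct.inl n : N ⋊[φ] G) = 2 := by
    rw [orderOf_injective _ SemidirectProduct.inl_injective]
    exact orderOf_eq_prime (by rw [pow_two]; exact hN n) hn
  have ha : orderOf (SemidirectProduct.inr a : N ⋊[φ] G) = orderOf a :=
    orderOf_injective _ SemidirectProduct.inr_injective a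
  rw [hc.orderOf_mul_eq_mul_orderOf_of_coprime
    (by rw [h2, ha]; exact Nat.coprime_two_left.mpr hodd), h2, ha]

theorem fam : StFam := by
  intro A _ _ M _ _ _ hD N
  let φ : A →* MulAut (Multiplicative (Fin (N + 1) → M)) :=
    (MulAutMultiplicative (Fin (N + 1) → M)).symm.toMonoidHom.comp
      (DistribMulAction.toAddAut A (Fin (N + 1) → M))
  have hφ : ∀ (a : A) (w : Multiplicative (Fin (N + 1) → M)),
      φ a w = Multiplicative.ofAdd (a • Multiplicative.toAdd w) := fun a w => rfl
  have hN2 : ∀ n : Multiplicative (Fin (N + 1) → M), n * n = 1 := by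
    intro n
    apply Multiplicative.toAdd.injective
    funext i
    show Multiplicative.toAdd n i + Multiplicative.toAdd n i = 0
    exact hD.two _
  have hfin : Finite (Multiplicative (Fin (N + 1) → M) ⋊[φ] A) :=
    Finite.of_equiv _ SemidirectProduct.equivProd.symm
  have hcard : Nat.card (Multiplicative (Fin (N + 1) → M) ⋊[φ] A) =
      Nat.card M ^ (N + 1) * Nat.card A := by
    rw [SemidirectProduct.card]
    congr 1
    have h1 : Nat.card (Multiplicative (Fin (N + 1) → M)) = Nat.card (Fin (N + 1) → M) :=
      Nat.card_congr Multiplicative.toAdd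
    rw [h1, Nat.card_fun, Nat.card_fin]
  obtain ⟨x0, hx0⟩ := hD.nz
  have hM1 : 1 < Nat.card M := by
    have : Nontrivial M := ⟨⟨x0, 0, hx0⟩⟩
    exact Finite.one_lt_card
  obtain ⟨e, he⟩ : ∃ e : ℕ, Nat.card M = 2 ^ e := by
    have h2 : IsPGroup 2 (Multiplicative M) := by
      intro g
      refine ⟨1, ?_⟩
      rw [pow_one, pow_two]
      exact congrArg Multiplicative.ofAdd (hD.two (Multiplicative.toAdd g))
    obtain ⟨e, he⟩ := IsPGroup.iff_card.mp h2
    exact ⟨e, by rw [← he]; exact Nat.card_congr Multiplicative.ofAdd⟩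
  -- elements of the form `(const x, a)`
  have hconst : ∀ (a : A) (x : M), x ≠ 0 → a • x = x → Odd (orderOf a) →
      ∃ g : Multiplicative (Fin (N + 1) → M) ⋊[φ] A, orderOf g = 2 * orderOf a := by
    intro a x hx hax hodd
    refine ⟨SemidirectProduct.inl (Multiplicative.ofAdd (fun _ => x)) * SemidirectProduct.inr a,
      sd_order_two_mul φ hN2 a _ ?_ ?_ hodd⟩
    · intro h
      exact hx (congrFun (congrArg Multiplicative.toAdd h) 0)
    · rw [hφ]
      apply congrArg Multiplicative.ofAdd
      funext i
      exact hax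
  have hinr : ∀ a : A, ∃ g : Multiplicative (Fin (N + 1) → M) ⋊[φ] A, orderOf g = orderOf a :=
    fun a => ⟨SemidirectProduct.inr a, orderOf_injective _ SemidirectProduct.inr_injective a⟩
  have hodd : ∀ (g : Multiplicative (Fin (N + 1) → M) ⋊[φ] A), Odd (orderOf g) →
      orderOf g.right = orderOf g := fun g h => sd_right_of_odd φ hN2 g h
  refine ⟨Multiplicative (Fin (N + 1) → M) ⋊[φ] A, inferInstance, hfin, ?_, ?_⟩
  · rw [hcard]
    have h1 : N < 2 ^ (N + 1) :=
      lt_trans Nat.lt_two_pow_self (Nat.pow_lt_pow_right (by norm_num) (Nat.lt_succ_self N))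
    have h2 : 2 ^ (N + 1) ≤ Nat.card M ^ (N + 1) := Nat.pow_le_pow_left hM1 _
    have h3 : 0 < Nat.card A := Nat.card_pos
    calc N < 2 ^ (N + 1) := h1
      _ ≤ Nat.card M ^ (N + 1) := h2
      _ = Nat.card M ^ (N + 1) * 1 := (mul_one _).symm
      _ ≤ Nat.card M ^ (N + 1) * Nat.card A := Nat.mul_le_mul_left _ h3
  · refine
      { primes := ?_
        ex6 := ?_
        ex10 := ?_
        ex15 := ?_
        ex14 := ?_
        ex13 := ?_
        no21 := ?_
        no35 := ?_
        no26 := ?_
        no39 := ?_
        no65 := ?_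
        no91 := ?_ }
    · intro p hp hdvd
      rw [hcard] at hdvd
      rcases (Nat.Prime.dvd_mul hp).mp hdvd with h | h
      · left
        have h1 := hp.dvd_of_dvd_pow h
        rw [he] at h1
        exact (Nat.prime_dvd_prime_iff_eq hp Nat.prime_two).mp (hp.dvd_of_dvd_pow h1)
      · exact hD.primes p hp h
    · obtain ⟨a, ha⟩ := hD.ex6
      obtain ⟨g, hg⟩ := hinr a
      exact ⟨g, hg.trans ha⟩
    · obtain ⟨a, ha, x, hx, hax⟩ := hD.fix5
      obtain ⟨g, hg⟩ := hconst a x hx hax (by rw [ha]; decide)
      exact ⟨g, by rw [hg, ha]⟩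
    · obtain ⟨a, ha⟩ := hD.ex15
      obtain ⟨g, hg⟩ := hinr a
      exact ⟨g, hg.trans ha⟩
    · obtain ⟨a, ha, x, hx, hax⟩ := hD.fix7
      obtain ⟨g, hg⟩ := hconst a x hx hax (by rw [ha]; decide)
      exact ⟨g, by rw [hg, ha]⟩
    · obtain ⟨a, ha⟩ := hD.ex13
      obtain ⟨g, hg⟩ := hinr a
      exact ⟨g, hg.trans ha⟩
    · intro g hg
      exact hD.no21 g.right (by rw [hodd g (by rw [hg]; decide), hg])
    · intro g hg
      exact hD.no35 g.right (by rw [hodd g (by rw [hg]; decide), hg])
    · intro g hg
      have hdiv1 : orderOf g.right ∣ 26 := by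
        have h := sd_right_dvd φ g
        rwa [hg] at h
      have hdiv2 : 26 ∣ 2 * orderOf g.right := by
        have h := sd_orderOf_dvd φ hN2 g
        rwa [hg] at h
      obtain ⟨c, hc⟩ := hdiv2
      have hd : orderOf g.right = 13 * c := by omega
      have hc2 : c ∣ 2 := by
        have h : 13 * c ∣ 13 * 2 := by rw [← hd]; exact hdiv1
        exact (Nat.mul_dvd_mul_iff_left (by norm_num : 0 < 13)).mp h
      rcases (Nat.dvd_prime Nat.prime_two).mp hc2 with h | h
      · -- the image has order 13
        have h13 : orderOf g.right = 13 := by rw [hd, h]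
        have h1 : orderOf g = orderOf g.right := by
          apply sd_orderOf_eq
          intro n hn
          rw [hφ] at hn
          apply Multiplicative.toAdd.injective
          funext i
          have h2 : g.right • Multiplicative.toAdd n i = Multiplicative.toAdd n i :=
            congrFun (congrArg Multiplicative.toAdd hn) i
          exact hD.fpf13 g.right h13 _ h2
        rw [hg, h13] at h1
        omega
      · exact hD.no26 g.right (by rw [hd, h])
    · intro g hg
      exact hD.no39 g.right (by rw [hodd g (by rw [hg]; decide), hg])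
    · intro g hg
      exact hD.no65 g.right (by rw [hodd g (by rw [hg]; decide), hg])
    · intro g hg
      exact hD.no91 g.right (by rw [hodd g (by rw [hg]; decide), hg])

example : Cfsg.Agent.H7.Ps.StFam := fam

end Cfsg.Agent.H11.Ps

#print axioms Cfsg.Agent.H11.Ps.fam
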