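import Mathlib
import Cfsg.Agent.H11.SL2Inv

set_option autoImplicit false

namespace Cfsg.Agent.H11.SL2Inv

open Matrix

variable {F : Type*} [Field F] [Fintype F]

/-- non-scalar elements of `SL₂(F)` -/
def NonScalar (A : SpecialLinearGroup (Fin 2) F) : Prop :=
  A.1 0 1 ≠ 0 ∨ A.1 1 0 ≠ 0 ∨ A.1 0 0 ≠ A.1 1 1

omit [Fintype F] in
theorem nonScalar_of_ne (A : SpecialLinearGroup (Fin 2) F) (h1 : A ≠ 1) (h2 : orderOf A ≠ 2) :
    NonScalar A := by
  by_contra hns
  unfold NonScalar at hns
  simp only [not_or, not_not] at hns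
  obtain ⟨hb, hc, had⟩ := hns
  have hdet : A.1 0 0 * A.1 1 1 - A.1 0 1 * A.1 1 0 = 1 := by
    have := A.2
    rwa [Matrix.det_fin_two] at this
  rw [hb, ← had] at hdet
  have haa : A.1 0 0 * A.1 0 0 = 1 := by linear_combination hdet
  have hsq : A * A = 1 := by
    apply Subtype.ext
    rw [Matrix.SpecialLinearGroup.coe_mul]
    ext i j
    fin_cases i <;> fin_cases j
    · simp [Matrix.mul_apply, Fin.sum_univ_two, hb, haa]
    · simp [Matrix.mul_apply, Fin.sum_univ_two, hb]
    · simp [Matrix.mul_apply, Fin.sum_univ_two, hc]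
    · simp [Matrix.mul_apply, Fin.sum_univ_two, hc, ← had, haa]
  exact h2 (orderOf_eq_prime (by rw [pow_two]; exact hsq) h1)

omit [Fintype F] in
/-- a non-scalar element does not commute with all of its conjugates -/
theorem exists_not_commute (h2 : (2 : F) ≠ 0) (A : SpecialLinearGroup (Fin 2) F)
    (hA : NonScalar A) :
    ∃ u : SpecialLinearGroup (Fin 2) F, A * (u * A * u⁻¹) ≠ (u * A * u⁻¹) * A := by
  obtain ⟨up, hup⟩ : ∃ u : SpecialLinearGroup (Fin 2) F, u.1 = !![1, 1; 0, 1] :=
    ⟨⟨!![1, 1; 0, 1], by simp [Matrix.det_fin_two]⟩, rfl⟩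
  obtain ⟨lo, hlo⟩ : ∃ u : SpecialLinearGroup (Fin 2) F, u.1 = !![1, 0; 1, 1] :=
    ⟨⟨!![1, 0; 1, 1], by simp [Matrix.det_fin_two]⟩, rfl⟩
  -- entries of the conjugates
  have key : ∀ (u B : SpecialLinearGroup (Fin 2) F), B * u = u * A → ∀ i j,
      B.1 i 0 * u.1 0 j + B.1 i 1 * u.1 1 j = u.1 i 0 * A.1 0 j + u.1 i 1 * A.1 1 j := by
    intro u B h i j
    have := congrArg (fun M : SpecialLinearGroup (Fin 2) F => M.1 i j) h
    simpa only [Matrix.SpecialLinearGroup.coe_mul, Matrix.mul_apply, Fin.sum_univ_two] using this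
  have comm : ∀ (B : SpecialLinearGroup (Fin 2) F), A * B = B * A → ∀ i j,
      A.1 i 0 * B.1 0 j + A.1 i 1 * B.1 1 j = B.1 i 0 * A.1 0 j + B.1 i 1 * A.1 1 j := by
    intro B h i j
    have := congrArg (fun M : SpecialLinearGroup (Fin 2) F => M.1 i j) h
    simpa only [Matrix.SpecialLinearGroup.coe_mul, Matrix.mul_apply, Fin.sum_univ_two] using this
  by_cases hc : A.1 1 0 = 0
  · by_cases hb : A.1 0 1 = 0
    · have had : A.1 0 0 ≠ A.1 1 1 := by
        rcases hA with h | h | h
        · exact absurd hb h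
        · exact absurd hc h
        · exact h
      refine ⟨up, fun h => ?_⟩
      obtain ⟨B, hB⟩ : ∃ B, B = up * A * up⁻¹ := ⟨_, rfl⟩
      rw [← hB] at h
      have k := key up B (by rw [hB]; group)
      have c := comm _ h
      have k00 := k 0 0
      have k01 := k 0 1
      have k10 := k 1 0
      have k11 := k 1 1
      have c01 := c 0 1
      simp [hup] at k00 k01 k10 k11
      rw [hb, hc] at *
      apply had
      have : (A.1 0 0 - A.1 1 1) * (A.1 0 0 - A.1 1 1) = 0 := by
        linear_combination -c01 + (A.1 0 0 - A.1 1 1) * k01 - (A.1 0 0 - A.1 1 1) * k00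
      rcases mul_eq_zero.mp this with h | h <;> exact sub_eq_zero.mp h
    · refine ⟨lo, fun h => ?_⟩
      obtain ⟨B, hB⟩ : ∃ B, B = lo * A * lo⁻¹ := ⟨_, rfl⟩
      rw [← hB] at h
      have k := key lo B (by rw [hB]; group)
      have c := comm _ h
      have k00 := k 0 0
      have k01 := k 0 1
      have k10 := k 1 0
      have k11 := k 1 1
      have c01 := c 0 1
      simp [hlo] at k00 k01 k10 k11
      have : (2 : F) * (A.1 0 1 * A.1 0 1) = 0 := by
        linear_combination c01 - (A.1 0 0 + A.1 0 1 - A.1 1 1) * k01 - A.1 0 1 * k11 + A.1 0 1 * k00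
      rcases mul_eq_zero.mp this with h | h
      · exact h2 h
      · rcases mul_eq_zero.mp h with h | h <;> exact hb h
  · refine ⟨up, fun h => ?_⟩
    obtain ⟨B, hB⟩ : ∃ B, B = up * A * up⁻¹ := ⟨_, rfl⟩
    rw [← hB] at h
    have k := key up B (by rw [hB]; group)
    have c := comm _ h
    have k00 := k 0 0
    have k01 := k 0 1
    have k10 := k 1 0
    have k11 := k 1 1
    have c10 := c 1 0
    simp [hup] at k00 k01 k10 k11
    have : (2 : F) * (A.1 1 0 * A.1 1 0) = 0 := by
      linear_combination c10 - A.1 1 0 * k00 + A.1 1 0 * k11 - (A.1 1 1 - A.1 0 0 + A.1 1 0) * k10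
    rcases mul_eq_zero.mp this with h | h
    · exact h2 h
    · rcases mul_eq_zero.mp h with h | h <;> exact hc h

omit [Fintype F] in
/-- the centralizer of a non-scalar element is commutative -/
theorem commute_of_commute (K : SpecialLinearGroup (Fin 2) F) (hK : NonScalar K)
    (X Y : SpecialLinearGroup (Fin 2) F) (hX : X * K = K * X) (hY : Y * K = K * Y) :
    X * Y = Y * X := by
  have ex := fun i j => congrArg (fun M : SpecialLinearGroup (Fin 2) F => M.1 i j) hX
  have ey := fun i j => congrArg (fun M : SpecialLinearGroup (Fin 2) F => M.1 i j) hY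
  simp only [Matrix.SpecialLinearGroup.coe_mul, Matrix.mul_apply, Fin.sum_univ_two] at ex ey
  have x00 := ex 0 0
  have x01 := ex 0 1
  have x10 := ex 1 0
  have x11 := ex 1 1
  have y00 := ey 0 0
  have y01 := ey 0 1
  have y10 := ey 1 0
  have y11 := ey 1 1
  apply Subtype.ext
  rw [Matrix.SpecialLinearGroup.coe_mul, Matrix.SpecialLinearGroup.coe_mul]
  by_cases hb : K.1 0 1 = 0
  · by_cases hc : K.1 1 0 = 0
    · have had : K.1 0 0 - K.1 1 1 ≠ 0 := by
        rcases hK with h | h | h
        · exact absurd hb h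
        · exact absurd hc h
        · exact sub_ne_zero.mpr h
      have hx2 : X.1 0 1 = 0 := by
        have : X.1 0 1 * (K.1 0 0 - K.1 1 1) = 0 := by
          rw [hb] at x01; linear_combination -x01
        rcases mul_eq_zero.mp this with h | h
        · exact h
        · exact absurd h had
      have hx3 : X.1 1 0 = 0 := by
        have : X.1 1 0 * (K.1 0 0 - K.1 1 1) = 0 := by
          rw [hc] at x10; linear_combination x10
        rcases mul_eq_zero.mp this with h | h
        · exact h
        · exact absurd h had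
      have hy2 : Y.1 0 1 = 0 := by
        have : Y.1 0 1 * (K.1 0 0 - K.1 1 1) = 0 := by
          rw [hb] at y01; linear_combination -y01
        rcases mul_eq_zero.mp this with h | h
        · exact h
        · exact absurd h had
      have hy3 : Y.1 1 0 = 0 := by
        have : Y.1 1 0 * (K.1 0 0 - K.1 1 1) = 0 := by
          rw [hc] at y10; linear_combination y10
        rcases mul_eq_zero.mp this with h | h
        · exact h
        · exact absurd h had
      ext i j
      fin_cases i <;> fin_cases j <;>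
        simp [Matrix.mul_apply, Fin.sum_univ_two, hx2, hx3, hy2, hy3, mul_comm]
    · -- c ≠ 0
      have hx2 : X.1 0 1 = X.1 1 0 * K.1 0 1 / K.1 1 0 := by
        field_simp; linear_combination x00
      have hx1 : X.1 0 0 = X.1 1 1 + X.1 1 0 * (K.1 0 0 - K.1 1 1) / K.1 1 0 := by
        field_simp; linear_combination -x10
      have hy2 : Y.1 0 1 = Y.1 1 0 * K.1 0 1 / K.1 1 0 := by
        field_simp; linear_combination y00
      have hy1 : Y.1 0 0 = Y.1 1 1 + Y.1 1 0 * (K.1 0 0 - K.1 1 1) / K.1 1 0 := by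
        field_simp; linear_combination -y10
      ext i j
      fin_cases i <;> fin_cases j <;>
        (simp only [Matrix.mul_apply, Fin.sum_univ_two, Fin.zero_eta, Fin.mk_one, Fin.isValue]
         simp only [hx2, hx1, hy2, hy1]; field_simp; try ring)
  · -- b ≠ 0
    have hx3 : X.1 1 0 = X.1 0 1 * K.1 1 0 / K.1 0 1 := by
      field_simp; linear_combination -x00
    have hx1 : X.1 0 0 = X.1 1 1 + X.1 0 1 * (K.1 0 0 - K.1 1 1) / K.1 0 1 := by
      field_simp; linear_combination x01
    have hy3 : Y.1 1 0 = Y.1 0 1 * K.1 1 0 / K.1 0 1 := by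
      field_simp; linear_combination -y00
    have hy1 : Y.1 0 0 = Y.1 1 1 + Y.1 0 1 * (K.1 0 0 - K.1 1 1) / K.1 0 1 := by
      field_simp; linear_combination y01
    ext i j
    fin_cases i <;> fin_cases j <;>
      (simp only [Matrix.mul_apply, Fin.sum_univ_two, Fin.zero_eta, Fin.mk_one, Fin.isValue]
       simp only [hx3, hx1, hy3, hy1]; field_simp; try ring)

end Cfsg.Agent.H11.SL2Inv
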