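import Mathlib
import Cfsg.Agent.H11.SL2Comm
import Cfsg.Agent.H7.SL2

set_option autoImplicit false

namespace Cfsg.Agent.H11.SL2Pair

open Cfsg.Agent.H11.SL2Inv Matrix

variable {G : Type*} [Group G]

/-- product decomposition of the join of two commuting subgroups -/
theorem exists_mul_of_mem_sup (L₁ L₂ : Subgroup G) (hc : ∀ x ∈ L₁, ∀ y ∈ L₂, x * y = y * x) :
    ∀ y ∈ L₁ ⊔ L₂, ∃ a ∈ L₁, ∃ b ∈ L₂, y = a * b := by
  intro y hy
  rw [Subgroup.sup_eq_closure_mul] at hy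
  induction hy using Subgroup.closure_induction with
  | mem x hx =>
    obtain ⟨a, ha, b, hb, rfl⟩ := Set.mem_mul.mp hx
    exact ⟨a, ha, b, hb, rfl⟩
  | one => exact ⟨1, L₁.one_mem, 1, L₂.one_mem, (mul_one 1).symm⟩
  | mul x y _ _ hx hy =>
    obtain ⟨a, ha, b, hb, rfl⟩ := hx
    obtain ⟨a', ha', b', hb', rfl⟩ := hy
    refine ⟨a * a', L₁.mul_mem ha ha', b * b', L₂.mul_mem hb hb', ?_⟩
    have := hc a' ha' b hb
    calc a * b * (a' * b') = a * (b * a') * b' := by group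
      _ = a * (a' * b) * b' := by rw [this]
      _ = a * a' * (b * b') := by group
  | inv x _ hx =>
    obtain ⟨a, ha, b, hb, rfl⟩ := hx
    refine ⟨a⁻¹, L₁.inv_mem ha, b⁻¹, L₂.inv_mem hb, ?_⟩
    have := hc a⁻¹ (L₁.inv_mem ha) b⁻¹ (L₂.inv_mem hb)
    rw [_root_.mul_inv_rev, this]

theorem conj_mem_left (L₁ L₂ : Subgroup G) (hc : ∀ x ∈ L₁, ∀ y ∈ L₂, x * y = y * x) :
    ∀ l ∈ L₁ ⊔ L₂, ∀ z ∈ L₁, l * z * l⁻¹ ∈ L₁ := by
  intro l hl z hz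
  obtain ⟨a, ha, b, hb, rfl⟩ := exists_mul_of_mem_sup L₁ L₂ hc l hl
  have h1 := hc z hz b hb
  have : a * b * z * (a * b)⁻¹ = a * z * a⁻¹ := by
    calc a * b * z * (a * b)⁻¹ = a * (b * z) * b⁻¹ * a⁻¹ := by group
      _ = a * (z * b) * b⁻¹ * a⁻¹ := by rw [h1]
      _ = a * z * a⁻¹ := by group
  rw [this]
  exact L₁.mul_mem (L₁.mul_mem ha hz) (L₁.inv_mem ha)

theorem conj_mem_right (L₁ L₂ : Subgroup G) (hc : ∀ x ∈ L₁, ∀ y ∈ L₂, x * y = y * x) :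
    ∀ l ∈ L₁ ⊔ L₂, ∀ z ∈ L₂, l * z * l⁻¹ ∈ L₂ := by
  intro l hl z hz
  obtain ⟨a, ha, b, hb, rfl⟩ := exists_mul_of_mem_sup L₁ L₂ hc l hl
  have hz' : b * z * b⁻¹ ∈ L₂ := L₂.mul_mem (L₂.mul_mem hb hz) (L₂.inv_mem hb)
  have h1 := hc a ha _ hz'
  have : a * b * z * (a * b)⁻¹ = b * z * b⁻¹ := by
    calc a * b * z * (a * b)⁻¹ = a * (b * z * b⁻¹) * a⁻¹ := by group
      _ = (b * z * b⁻¹) * a * a⁻¹ := by rw [h1]
      _ = b * z * b⁻¹ := by group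
  rw [this]
  exact hz'

section grp

variable {F : Type*} [Field F] [Fintype F]

omit [Fintype F] in
theorem nonScalar_grp (M : Subgroup G)
    (e : ↥M ≃* SpecialLinearGroup (Fin 2) F) (b : G) (hb : b ∈ M) (h1 : b ≠ 1)
    (h2 : orderOf b ≠ 2) : NonScalar (e ⟨b, hb⟩) := by
  apply nonScalar_of_ne
  · intro h
    apply h1
    have : (⟨b, hb⟩ : M) = 1 := by
      apply e.injective; rw [h, map_one]
    exact congrArg Subtype.val this
  · rw [MulEquiv.orderOf_eq, Subgroup.orderOf_mk]; exact h2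

theorem exists_not_commute_grp (hF : Odd (Fintype.card F)) (M : Subgroup G)
    (e : ↥M ≃* SpecialLinearGroup (Fin 2) F) (b : G) (hb : b ∈ M) (h1 : b ≠ 1)
    (h2 : orderOf b ≠ 2) : ∃ u ∈ M, b * (u * b * u⁻¹) ≠ (u * b * u⁻¹) * b := by
  obtain ⟨U, hU⟩ := exists_not_commute (two_ne_zero_of_odd hF) _ (nonScalar_grp M e b hb h1 h2)
  refine ⟨(e.symm U : G), (e.symm U).2, fun h => hU ?_⟩
  have h' : (⟨b, hb⟩ : M) * (e.symm U * ⟨b, hb⟩ * (e.symm U)⁻¹) =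
      (e.symm U * ⟨b, hb⟩ * (e.symm U)⁻¹) * ⟨b, hb⟩ := Subtype.ext h
  have := congrArg e h'
  simpa only [map_mul, map_inv, MulEquiv.apply_symm_apply] using this

theorem commute_of_commute_grp (M : Subgroup G)
    (e : ↥M ≃* SpecialLinearGroup (Fin 2) F) (k : G) (hk : k ∈ M) (h1 : k ≠ 1)
    (h2 : orderOf k ≠ 2) (x y : G) (hx : x ∈ M) (hy : y ∈ M) (hxk : x * k = k * x)
    (hyk : y * k = k * y) : x * y = y * x := by
  have hK := nonScalar_grp M e k hk h1 h2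
  have hX : e ⟨x, hx⟩ * e ⟨k, hk⟩ = e ⟨k, hk⟩ * e ⟨x, hx⟩ := by
    rw [← map_mul, ← map_mul]; exact congrArg e (Subtype.ext hxk)
  have hY : e ⟨y, hy⟩ * e ⟨k, hk⟩ = e ⟨k, hk⟩ * e ⟨y, hy⟩ := by
    rw [← map_mul, ← map_mul]; exact congrArg e (Subtype.ext hyk)
  have := commute_of_commute _ hK _ _ hX hY
  rw [← map_mul, ← map_mul] at this
  exact congrArg Subtype.val (e.injective this)

end grp

/-- a normal `SL₂`-subgroup of a central product of two `SL₂`'s lies in one of the factors -/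
theorem le_left_or_le_right
    {F₁ : Type*} [Field F₁] [Fintype F₁] {F₂ : Type*} [Field F₂] [Fintype F₂]
    {F : Type*} [Field F] [Fintype F]
    (hF₁ : Odd (Fintype.card F₁)) (hF₂ : Odd (Fintype.card F₂)) (hF : Odd (Fintype.card F))
    (L₁ L₂ M : Subgroup G)
    (e₁ : ↥L₁ ≃* SpecialLinearGroup (Fin 2) F₁) (e₂ : ↥L₂ ≃* SpecialLinearGroup (Fin 2) F₂)
    (e : ↥M ≃* SpecialLinearGroup (Fin 2) F)
    (hc : ∀ x ∈ L₁, ∀ y ∈ L₂, x * y = y * x) (j : G) (hj : orderOf j = 2)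
    (hm : L₁ ⊓ L₂ = Subgroup.zpowers j)
    (hML : M ≤ L₁ ⊔ L₂) (hnorm : ∀ l ∈ L₁ ⊔ L₂, ∀ m ∈ M, l * m * l⁻¹ ∈ M) :
    M ≤ L₁ ∨ M ≤ L₂ := by
  classical
  have hjm : j ∈ L₁ ⊓ L₂ := hm ▸ Subgroup.mem_zpowers j
  have hj1 : j ∈ L₁ := hjm.1
  have hj2 : j ∈ L₂ := hjm.2
  have hinv1 : ∀ g ∈ L₁, orderOf g = 2 → g = j := by
    intro g hg ho
    have h1 : orderOf (e₁ ⟨g, hg⟩) = 2 := by
      rw [MulEquiv.orderOf_eq, ← ho]; exact Subgroup.orderOf_mk g hg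
    have h2 : orderOf (e₁ ⟨j, hj1⟩) = 2 := by
      rw [MulEquiv.orderOf_eq, ← hj]; exact Subgroup.orderOf_mk j hj1
    have := e₁.injective (involution_unique hF₁ _ _ h1 h2)
    exact congrArg Subtype.val this
  have hinv2 : ∀ g ∈ L₂, orderOf g = 2 → g = j := by
    intro g hg ho
    have h1 : orderOf (e₂ ⟨g, hg⟩) = 2 := by
      rw [MulEquiv.orderOf_eq, ← ho]; exact Subgroup.orderOf_mk g hg
    have h2 : orderOf (e₂ ⟨j, hj2⟩) = 2 := by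
      rw [MulEquiv.orderOf_eq, ← hj]; exact Subgroup.orderOf_mk j hj2
    have := e₂.injective (involution_unique hF₂ _ _ h1 h2)
    exact congrArg Subtype.val this
  by_contra hcon
  rw [not_or] at hcon
  obtain ⟨hn1, hn2⟩ := hcon
  obtain ⟨x, hxM, hx1⟩ := SetLike.not_le_iff_exists.mp hn1
  obtain ⟨y, hyM, hy2⟩ := SetLike.not_le_iff_exists.mp hn2
  -- the element c ∈ M ∩ L₂
  obtain ⟨c, hcM, hcL, hc1, hc2⟩ : ∃ c ∈ M, c ∈ L₂ ∧ c ≠ 1 ∧ orderOf c ≠ 2 := by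
    obtain ⟨a, ha, b, hb, rfl⟩ := exists_mul_of_mem_sup L₁ L₂ hc x (hML hxM)
    have hb1 : b ≠ 1 := by
      intro h; apply hx1; rw [h, mul_one]; exact ha
    have hb2 : orderOf b ≠ 2 := by
      intro h; apply hx1; rw [hinv2 b hb h]; exact L₁.mul_mem ha hj1
    obtain ⟨u, hu, hne⟩ := exists_not_commute_grp hF₂ L₂ e₂ b hb hb1 hb2
    have huL : u ∈ L₁ ⊔ L₂ := Subgroup.mem_sup_right hu
    have hcm : u * (a * b) * u⁻¹ * (a * b)⁻¹ ∈ M :=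
      M.mul_mem (hnorm u huL _ hxM) (M.inv_mem hxM)
    have e1 := hc a ha u hu
    have hz' : u * b * u⁻¹ * b⁻¹ ∈ L₂ :=
      L₂.mul_mem (L₂.mul_mem (L₂.mul_mem hu hb) (L₂.inv_mem hu)) (L₂.inv_mem hb)
    have e2 := hc a ha _ hz'
    have heq : u * (a * b) * u⁻¹ * (a * b)⁻¹ = u * b * u⁻¹ * b⁻¹ := by
      calc u * (a * b) * u⁻¹ * (a * b)⁻¹ = (u * a) * (b * u⁻¹ * b⁻¹) * a⁻¹ := by group
        _ = (a * u) * (b * u⁻¹ * b⁻¹) * a⁻¹ := by rw [e1]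
        _ = a * (u * b * u⁻¹ * b⁻¹) * a⁻¹ := by group
        _ = (u * b * u⁻¹ * b⁻¹) * a * a⁻¹ := by rw [e2]
        _ = u * b * u⁻¹ * b⁻¹ := by group
    rw [heq] at hcm
    refine ⟨_, hcm, hz', ?_, ?_⟩
    · intro h
      apply hne
      have : u * b * u⁻¹ = b := by
        calc u * b * u⁻¹ = (u * b * u⁻¹ * b⁻¹) * b := by group
          _ = b := by rw [h, one_mul]
      rw [this]
    · intro h
      apply hne
      have hjb := hc j hj1 b hb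
      have : u * b * u⁻¹ = j * b := by
        calc u * b * u⁻¹ = (u * b * u⁻¹ * b⁻¹) * b := by group
          _ = j * b := by rw [hinv2 _ hz' h]
      rw [this]
      calc b * (j * b) = (b * j) * b := by group
        _ = (j * b) * b := by rw [hjb]
  -- the element k ∈ M ∩ L₁
  obtain ⟨k, hkM, hkL, hk1, hk2⟩ : ∃ k ∈ M, k ∈ L₁ ∧ k ≠ 1 ∧ orderOf k ≠ 2 := by
    obtain ⟨a, ha, b, hb, rfl⟩ := exists_mul_of_mem_sup L₁ L₂ hc y (hML hyM)
    have ha1 : a ≠ 1 := by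
      intro h; apply hy2; rw [h, one_mul]; exact hb
    have ha2 : orderOf a ≠ 2 := by
      intro h; apply hy2; rw [hinv1 a ha h]; exact L₂.mul_mem hj2 hb
    obtain ⟨u, hu, hne⟩ := exists_not_commute_grp hF₁ L₁ e₁ a ha ha1 ha2
    have huL : u ∈ L₁ ⊔ L₂ := Subgroup.mem_sup_left hu
    have hcm : u * (a * b) * u⁻¹ * (a * b)⁻¹ ∈ M :=
      M.mul_mem (hnorm u huL _ hyM) (M.inv_mem hyM)
    have e1 := hc u⁻¹ (L₁.inv_mem hu) b hb
    have heq : u * (a * b) * u⁻¹ * (a * b)⁻¹ = u * a * u⁻¹ * a⁻¹ := by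
      calc u * (a * b) * u⁻¹ * (a * b)⁻¹ = u * a * (b * u⁻¹) * b⁻¹ * a⁻¹ := by group
        _ = u * a * (u⁻¹ * b) * b⁻¹ * a⁻¹ := by rw [e1]
        _ = u * a * u⁻¹ * a⁻¹ := by group
    rw [heq] at hcm
    have hz' : u * a * u⁻¹ * a⁻¹ ∈ L₁ :=
      L₁.mul_mem (L₁.mul_mem (L₁.mul_mem hu ha) (L₁.inv_mem hu)) (L₁.inv_mem ha)
    refine ⟨_, hcm, hz', ?_, ?_⟩
    · intro h
      apply hne
      have : u * a * u⁻¹ = a := by
        calc u * a * u⁻¹ = (u * a * u⁻¹ * a⁻¹) * a := by group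
          _ = a := by rw [h, one_mul]
      rw [this]
    · intro h
      apply hne
      have hja := hc a ha j hj2
      have : u * a * u⁻¹ = j * a := by
        calc u * a * u⁻¹ = (u * a * u⁻¹ * a⁻¹) * a := by group
          _ = j * a := by rw [hinv1 _ hz' h]
      rw [this]
      calc a * (j * a) = (a * j) * a := by group
        _ = (j * a) * a := by rw [hja]
  -- contradiction inside M
  obtain ⟨w, hw, hne⟩ := exists_not_commute_grp hF M e c hcM hc1 hc2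
  have hwL : w ∈ L₁ ⊔ L₂ := hML hw
  have hc' : w * c * w⁻¹ ∈ L₂ := conj_mem_right L₁ L₂ hc w hwL c hcL
  have hc'M : w * c * w⁻¹ ∈ M := M.mul_mem (M.mul_mem hw hcM) (M.inv_mem hw)
  exact hne (commute_of_commute_grp M e k hkM hk1 hk2 c (w * c * w⁻¹) hcM hc'M
    (hc k hkL c hcL).symm (hc k hkL _ hc').symm)

end Cfsg.Agent.H11.SL2Pair
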