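import Mathlib
import Cfsg.Agent.H88.StNDefs
import Cfsg.Agent.H78.StDbl

/-!
helper11: S2549-FACT (cores): the two factorisation statements for unitriangular isometries of
the minus type form, with the ELT / REL pieces as hypotheses.
-/

set_option autoImplicit false
set_option linter.unusedSimpArgs false

open Matrix Cfsg.Agent.H88.StN Cfsg.Agent.H50.AutPSL Cfsg.Agent.H78.StSL

namespace Cfsg.Agent.H11.StN

variable {F : Type*} [Field F]

theorem pE_val (m : ℕ) (i : Fin m) : (pE m i).val = i.val := rfl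
theorem pF_val (m : ℕ) (i : Fin m) : (pF m i).val = 2 * m + 1 - i.val := rfl
theorem pZ_val (m : ℕ) (j : Fin 2) : (pZ m j).val = m + j.val := rfl

/-- The matrix of the inverse, from an `SL` description of the matrix. -/
theorem mat_inv_eq {m : ℕ} {a b : F} (g : OGm m F a b)
    (S : SpecialLinearGroup (Fin (2 * m + 2)) F) (h : mat g = S.1) : mat g⁻¹ = (S⁻¹).1 := by
  have h1 : (S⁻¹).1 * S.1 = 1 := congrArg Subtype.val (inv_mul_cancel S)
  calc mat g⁻¹ = ((S⁻¹).1 * S.1) * mat g⁻¹ := by rw [h1, Matrix.one_mul]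
    _ = (S⁻¹).1 * (mat g * mat g⁻¹) := by rw [Matrix.mul_assoc, h]
    _ = (S⁻¹).1 := by rw [mat_mul_inv, Matrix.mul_one]

theorem short_factor_core [Fintype F] (m : ℕ) (a b : F) (k : Fin m) (hk : k.val + 1 < m)
    (hELT : ∀ t : F, ∃ g : OGm m F a b, mat g =
      transvection (pE m k) (pE m ⟨k.val + 1, hk⟩) t *
        transvection (pF m ⟨k.val + 1, hk⟩) (pF m k) (-t))
    (hREL : ∀ g : OGm m F a b, IsUniM g →
      mat g (pF m ⟨k.val + 1, hk⟩) (pF m k) = - mat g (pE m k) (pE m ⟨k.val + 1, hk⟩))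
    (n : OGm m F a b)
    (hn : ∀ (v : Fin (2 * m + 2) → F) (c : Fin (2 * m + 2)), (mat n *ᵥ v) c =
      if c = pE m k then v (pE m ⟨k.val + 1, hk⟩) else if c = pE m ⟨k.val + 1, hk⟩ then - v (pE m k)
      else if c = pF m ⟨k.val + 1, hk⟩ then - v (pF m k)
      else if c = pF m k then v (pF m ⟨k.val + 1, hk⟩) else v c)
    (u : OGm m F a b) (hu : IsUniM u) :
    ∃ (u' x : OGm m F a b) (t : F), IsUniM u' ∧
      mat x = transvection (pE m k) (pE m ⟨k.val + 1, hk⟩) t *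
        transvection (pF m ⟨k.val + 1, hk⟩) (pF m k) (-t) ∧ u = u' * x ∧
      IsUniM (n * u' * n⁻¹) := by
  have hkm := k.isLt
  have hadj : ((pE m k : Fin (2 * m + 2)) : ℕ) + 1 = (pE m ⟨k.val + 1, hk⟩ : Fin (2 * m + 2)) :=
    rfl
  have hadj' : ((pF m ⟨k.val + 1, hk⟩ : Fin (2 * m + 2)) : ℕ) + 1 =
      (pF m k : Fin (2 * m + 2)) := by
    show 2 * m + 1 - (k.val + 1) + 1 = 2 * m + 1 - k.val
    omega
  have hij : pE m k ≠ pE m ⟨k.val + 1, hk⟩ := by
    intro h; have h' := congrArg Fin.val h; simp only [pE_val] at h'; omega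
  have hij' : pF m ⟨k.val + 1, hk⟩ ≠ pF m k := by
    intro h; have h' := congrArg Fin.val h; simp only [pF_val] at h'; omega
  have hd : Disj4 (pE m k) (pE m ⟨k.val + 1, hk⟩) (pF m ⟨k.val + 1, hk⟩) (pF m k) := by
    refine ⟨?_, ?_, ?_, ?_⟩ <;>
    · intro h; have h' := congrArg Fin.val h; simp only [pE_val, pF_val] at h'; omega
  have hz0i : pZ m 0 ≠ pE m k := by
    intro h; have h' := congrArg Fin.val h
    simp only [pE_val, pZ_val, Fin.val_zero] at h'; omega
  have hz0j : pZ m 0 ≠ pE m ⟨k.val + 1, hk⟩ := by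
    intro h; have h' := congrArg Fin.val h
    simp only [pE_val, pZ_val, Fin.val_zero] at h'; omega
  have hz0i' : pZ m 0 ≠ pF m ⟨k.val + 1, hk⟩ := by
    intro h; have h' := congrArg Fin.val h
    simp only [pF_val, pZ_val, Fin.val_zero] at h'; omega
  have hz0j' : pZ m 0 ≠ pF m k := by
    intro h; have h' := congrArg Fin.val h
    simp only [pF_val, pZ_val, Fin.val_zero] at h'; omega
  have hz1i : pZ m 1 ≠ pE m k := by
    intro h; have h' := congrArg Fin.val h
    simp only [pE_val, pZ_val, Fin.val_one] at h'; omega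
  have hz1j : pZ m 1 ≠ pE m ⟨k.val + 1, hk⟩ := by
    intro h; have h' := congrArg Fin.val h
    simp only [pE_val, pZ_val, Fin.val_one] at h'; omega
  have hz1i' : pZ m 1 ≠ pF m ⟨k.val + 1, hk⟩ := by
    intro h; have h' := congrArg Fin.val h
    simp only [pF_val, pZ_val, Fin.val_one] at h'; omega
  have hz1j' : pZ m 1 ≠ pF m k := by
    intro h; have h' := congrArg Fin.val h
    simp only [pF_val, pZ_val, Fin.val_one] at h'; omega
  obtain ⟨t, ht⟩ : ∃ t : F, t = mat u (pE m k) (pE m ⟨k.val + 1, hk⟩) := ⟨_, rfl⟩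
  obtain ⟨x, hx⟩ := hELT t
  obtain ⟨uS, huSdef⟩ : ∃ uS : SpecialLinearGroup (Fin (2 * m + 2)) F, uS.1 = mat u :=
    ⟨⟨mat u, hu.1.det⟩, rfl⟩
  have huS : uS ∈ Uni (2 * m + 2) F := by
    show IsUT uS.1
    rw [huSdef]; exact hu.1
  have hf := dbl_factor (pE m k) (pE m ⟨k.val + 1, hk⟩) (pF m ⟨k.val + 1, hk⟩) (pF m k)
    hadj hadj' hij hij' hd uS huS
  have hu1 : uS.1 (pE m k) (pE m ⟨k.val + 1, hk⟩) = t := by rw [huSdef, ht]
  have hu2 : uS.1 (pF m ⟨k.val + 1, hk⟩) (pF m k) = -t := by rw [huSdef, ht]; exact hREL u hu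
  rw [hu1, hu2] at hf
  obtain ⟨XS, hXS⟩ : ∃ XS : SpecialLinearGroup (Fin (2 * m + 2)) F,
      XS = xE (pE m k) (pE m ⟨k.val + 1, hk⟩) hij t *
        xE (pF m ⟨k.val + 1, hk⟩) (pF m k) hij' (-t) := ⟨_, rfl⟩
  rw [← hXS] at hf
  have hxXS : mat x = XS.1 := by rw [hx, hXS]; rfl
  have hxinv : mat x⁻¹ = (XS⁻¹).1 := mat_inv_eq x XS hxXS
  have hu' : mat (u * x⁻¹) = (uS * XS⁻¹).1 := by
    rw [mat_mul, hxinv, ← huSdef]; rfl
  obtain ⟨NS, hNS⟩ : ∃ NS : SpecialLinearGroup (Fin (2 * m + 2)) F,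
      NS = nE (pE m k) (pE m ⟨k.val + 1, hk⟩) hij *
        (nE (pF m ⟨k.val + 1, hk⟩) (pF m k) hij')⁻¹ := ⟨_, rfl⟩
  rw [← hNS] at hf
  have hnNS : mat n = NS.1 := by
    apply Matrix.mulVec_injective
    funext v
    funext c
    rw [hn, hNS]
    show _ = (((nE (pE m k) (pE m ⟨k.val + 1, hk⟩) hij).1 *
      ((nE (pF m ⟨k.val + 1, hk⟩) (pF m k) hij')⁻¹).1) *ᵥ v) c
    rw [← mulVec_mulVec, nE_mulVec]
    simp only [nE_inv_mulVec]
    rw [if_neg hd.2.2.1, if_neg hd.2.2.2, if_neg hd.1, if_neg hd.2.1]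
  have hninv : mat n⁻¹ = (NS⁻¹).1 := mat_inv_eq n NS hnNS
  have hconj : mat (n * (u * x⁻¹) * n⁻¹) = (NS * (uS * XS⁻¹) * NS⁻¹).1 := by
    rw [mat_mul, mat_mul, hnNS, hninv, hu']; rfl
  have hmid : (uS * XS⁻¹).1 (pZ m 0) (pZ m 1) = 0 := by
    have hXinv : XS⁻¹ = xE (pF m ⟨k.val + 1, hk⟩) (pF m k) hij' t *
        xE (pE m k) (pE m ⟨k.val + 1, hk⟩) hij (-t) := by
      rw [hXS, _root_.mul_inv_rev, xE_inv, xE_inv, neg_neg]
    rw [hXinv]
    show (uS.1 * (transvection (pF m ⟨k.val + 1, hk⟩) (pF m k) t *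
      transvection (pE m k) (pE m ⟨k.val + 1, hk⟩) (-t))) (pZ m 0) (pZ m 1) = 0
    rw [← Matrix.mul_assoc, Cfsg.Agent.H45.mul_transvection_apply', if_neg hz1j,
      Cfsg.Agent.H45.mul_transvection_apply', if_neg hz1j', huSdef]
    exact hu.2
  refine ⟨u * x⁻¹, x, t, ⟨?_, ?_⟩, hx, by rw [inv_mul_cancel_right], ⟨?_, ?_⟩⟩
  · rw [hu']; exact hf.1
  · rw [hu']; exact hmid
  · rw [hconj]; exact hf.2
  · rw [hconj]
    have e1 : NS * (uS * XS⁻¹) * NS⁻¹ =
        nE (pE m k) (pE m ⟨k.val + 1, hk⟩) hij *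
          (nE (pF m k) (pF m ⟨k.val + 1, hk⟩) hij'.symm * (uS * XS⁻¹) *
            (nE (pF m k) (pF m ⟨k.val + 1, hk⟩) hij'.symm)⁻¹) *
          (nE (pE m k) (pE m ⟨k.val + 1, hk⟩) hij)⁻¹ := by
      rw [hNS, nE_symm (pF m ⟨k.val + 1, hk⟩) (pF m k) hij']
      group
    rw [e1]
    show (((nE (pE m k) (pE m ⟨k.val + 1, hk⟩) hij :
        SpecialLinearGroup (Fin (2 * m + 2)) F).1 *
      ((nE (pF m k) (pF m ⟨k.val + 1, hk⟩) hij'.symm :
          SpecialLinearGroup (Fin (2 * m + 2)) F).1 * (uS * XS⁻¹).1 *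
        ((nE (pF m k) (pF m ⟨k.val + 1, hk⟩) hij'.symm :
          SpecialLinearGroup (Fin (2 * m + 2)) F)⁻¹).1) *
      ((nE (pE m k) (pE m ⟨k.val + 1, hk⟩) hij :
        SpecialLinearGroup (Fin (2 * m + 2)) F)⁻¹).1 :
      Matrix (Fin (2 * m + 2)) (Fin (2 * m + 2)) F)) (pZ m 0) (pZ m 1) = 0
    rw [conj_nE_apply, if_neg hz1j, if_neg hz1i, if_neg hz0i, if_neg hz0j, conj_nE_apply,
      if_neg hz1i', if_neg hz1j', if_neg hz0j', if_neg hz0i']
    exact hmid

theorem tw_factor_core [Fintype F] (m : ℕ) (a b : F) (k : Fin m) (hk : k.val + 1 = m)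
    (hELT : ∀ c1 c2 : F, ∃ g : OGm m F a b, ∀ (v : Fin (2 * m + 2) → F) (c : Fin (2 * m + 2)),
      (mat g *ᵥ v) c = if c = pE m k then v (pE m k) -
          (c1 * (2 * v (pZ m 0) + a * v (pZ m 1)) + c2 * (a * v (pZ m 0) + 2 * b * v (pZ m 1))) -
          (c1 ^ 2 + a * c1 * c2 + b * c2 ^ 2) * v (pF m k)
        else if c = pZ m 0 then v (pZ m 0) + c1 * v (pF m k)
        else if c = pZ m 1 then v (pZ m 1) + c2 * v (pF m k) else v c)
    (hREL : ∀ g : OGm m F a b, IsUniM g → mat g (pZ m 0) (pF m k) = 0 →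
      mat g (pZ m 1) (pF m k) = 0 →
      mat g (pE m k) (pZ m 0) = 0 ∧ mat g (pE m k) (pZ m 1) = 0 ∧ mat g (pE m k) (pF m k) = 0)
    (n : OGm m F a b)
    (hn : ∀ (v : Fin (2 * m + 2) → F) (c : Fin (2 * m + 2)),
      (mat n *ᵥ v) c = v (Equiv.swap (pE m k) (pF m k) c))
    (u : OGm m F a b) (hu : IsUniM u) :
    ∃ (u' x : OGm m F a b) (c1 c2 : F), IsUniM u' ∧
      (∀ (v : Fin (2 * m + 2) → F) (c : Fin (2 * m + 2)),
        (mat x *ᵥ v) c = if c = pE m k then v (pE m k) -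
            (c1 * (2 * v (pZ m 0) + a * v (pZ m 1)) +
              c2 * (a * v (pZ m 0) + 2 * b * v (pZ m 1))) -
            (c1 ^ 2 + a * c1 * c2 + b * c2 ^ 2) * v (pF m k)
          else if c = pZ m 0 then v (pZ m 0) + c1 * v (pF m k)
          else if c = pZ m 1 then v (pZ m 1) + c2 * v (pF m k) else v c) ∧
      u = u' * x ∧ IsUniM (n * u' * n⁻¹) := by
  have hkm := k.isLt
  have ve : (pE m k).val = m - 1 := by rw [pE_val]; omega
  have v0 : (pZ m 0).val = m := by rw [pZ_val]; simp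
  have v1 : (pZ m 1).val = m + 1 := by rw [pZ_val]; simp
  have vf : (pF m k).val = m + 2 := by rw [pF_val]; omega
  have he0 : pE m k < pZ m 0 := by rw [Fin.lt_def]; omega
  have he1 : pE m k < pZ m 1 := by rw [Fin.lt_def]; omega
  have hef : pE m k < pF m k := by rw [Fin.lt_def]; omega
  have h0f : pZ m 0 < pF m k := by rw [Fin.lt_def]; omega
  have h1f : pZ m 1 < pF m k := by rw [Fin.lt_def]; omega
  have h01 : pZ m 0 < pZ m 1 := by rw [Fin.lt_def]; omega
  obtain ⟨c1, hc1⟩ : ∃ c1 : F, c1 = mat u (pZ m 0) (pF m k) := ⟨_, rfl⟩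
  obtain ⟨c2, hc2⟩ : ∃ c2 : F, c2 = mat u (pZ m 1) (pF m k) := ⟨_, rfl⟩
  obtain ⟨x, hx⟩ := hELT c1 c2
  obtain ⟨α, hα⟩ : ∃ α : F, α = -(2 * c1 + a * c2) := ⟨_, rfl⟩
  obtain ⟨β, hβ⟩ : ∃ β : F, β = -(a * c1 + 2 * b * c2) := ⟨_, rfl⟩
  obtain ⟨γ, hγ⟩ : ∃ γ : F, γ = c1 ^ 2 + a * c1 * c2 + b * c2 ^ 2 := ⟨_, rfl⟩
  obtain ⟨XS, hXS⟩ : ∃ XS : SpecialLinearGroup (Fin (2 * m + 2)) F,
      XS = xE (pE m k) (pF m k) hef.ne γ * xE (pE m k) (pZ m 1) he1.ne β *
        xE (pE m k) (pZ m 0) he0.ne α * xE (pZ m 1) (pF m k) h1f.ne c2 *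
        xE (pZ m 0) (pF m k) h0f.ne c1 := ⟨_, rfl⟩
  have hxXS : mat x = XS.1 := by
    apply Matrix.mulVec_injective
    funext v
    funext c
    rw [hx, hXS]
    show _ = ((transvection (pE m k) (pF m k) γ * transvection (pE m k) (pZ m 1) β *
      transvection (pE m k) (pZ m 0) α * transvection (pZ m 1) (pF m k) c2 *
      transvection (pZ m 0) (pF m k) c1) *ᵥ v) c
    simp only [← mulVec_mulVec, tv_mulVec]
    by_cases h1 : c = pE m k
    · subst h1
      simp only [if_true, if_neg he0.ne, if_neg he1.ne, if_neg hef.ne, if_neg he0.ne',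
        if_neg he1.ne', if_neg hef.ne', if_neg h01.ne, if_neg h01.ne', if_neg h0f.ne,
        if_neg h0f.ne', if_neg h1f.ne, if_neg h1f.ne']
      rw [hα, hβ, hγ]; ring
    · by_cases h2 : c = pZ m 0
      · subst h2
        simp only [if_true, if_neg he0.ne, if_neg he1.ne, if_neg hef.ne, if_neg he0.ne',
          if_neg he1.ne', if_neg hef.ne', if_neg h01.ne, if_neg h01.ne', if_neg h0f.ne,
          if_neg h0f.ne', if_neg h1f.ne, if_neg h1f.ne']
      · by_cases h3 : c = pZ m 1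
        · subst h3
          simp only [if_true, if_neg he0.ne, if_neg he1.ne, if_neg hef.ne, if_neg he0.ne',
            if_neg he1.ne', if_neg hef.ne', if_neg h01.ne, if_neg h01.ne', if_neg h0f.ne,
            if_neg h0f.ne', if_neg h1f.ne, if_neg h1f.ne']
        · simp only [if_neg h1, if_neg h2, if_neg h3]
  have hXSuni : XS ∈ Uni (2 * m + 2) F := by
    rw [hXS]
    exact (Uni _ F).mul_mem ((Uni _ F).mul_mem ((Uni _ F).mul_mem ((Uni _ F).mul_mem
      (isUT_transvection _ _ hef _) (isUT_transvection _ _ he1 _))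
      (isUT_transvection _ _ he0 _)) (isUT_transvection _ _ h1f _))
      (isUT_transvection _ _ h0f _)
  obtain ⟨uS, huSdef⟩ : ∃ uS : SpecialLinearGroup (Fin (2 * m + 2)) F, uS.1 = mat u :=
    ⟨⟨mat u, hu.1.det⟩, rfl⟩
  have huS : uS ∈ Uni (2 * m + 2) F := by
    show IsUT uS.1
    rw [huSdef]; exact hu.1
  have hxinv : mat x⁻¹ = (XS⁻¹).1 := mat_inv_eq x XS hxXS
  have hu' : mat (u * x⁻¹) = (uS * XS⁻¹).1 := by
    rw [mat_mul, hxinv, ← huSdef]; rfl
  have hu'UT : IsUT (mat (u * x⁻¹)) := by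
    rw [hu']; exact (Uni _ F).mul_mem huS ((Uni _ F).inv_mem hXSuni)
  have hXinv : XS⁻¹ = xE (pZ m 0) (pF m k) h0f.ne (-c1) * (xE (pZ m 1) (pF m k) h1f.ne (-c2) *
      (xE (pE m k) (pZ m 0) he0.ne (-α) * (xE (pE m k) (pZ m 1) he1.ne (-β) *
        xE (pE m k) (pF m k) hef.ne (-γ)))) := by
    rw [hXS]; simp only [_root_.mul_inv_rev, xE_inv, mul_assoc]
  have hu'' : mat (u * x⁻¹) = mat u * transvection (pZ m 0) (pF m k) (-c1) *
      transvection (pZ m 1) (pF m k) (-c2) * transvection (pE m k) (pZ m 0) (-α) *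
      transvection (pE m k) (pZ m 1) (-β) * transvection (pE m k) (pF m k) (-γ) := by
    rw [hu', hXinv]
    show uS.1 * (transvection (pZ m 0) (pF m k) (-c1) * (transvection (pZ m 1) (pF m k) (-c2) *
      (transvection (pE m k) (pZ m 0) (-α) * (transvection (pE m k) (pZ m 1) (-β) *
        transvection (pE m k) (pF m k) (-γ))))) = _
    rw [huSdef]
    simp only [Matrix.mul_assoc]
  have hUT := hu.1
  have hm01 : mat (u * x⁻¹) (pZ m 0) (pZ m 1) = 0 := by
    rw [hu'']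
    simp only [Cfsg.Agent.H45.mul_transvection_apply']
    simp only [if_true, if_neg he0.ne, if_neg he1.ne, if_neg hef.ne, if_neg he0.ne',
      if_neg he1.ne', if_neg hef.ne', if_neg h01.ne, if_neg h01.ne', if_neg h0f.ne,
      if_neg h0f.ne', if_neg h1f.ne, if_neg h1f.ne']
    rw [hu.2, hUT.1 _ _ he0]
    ring
  have hm0f : mat (u * x⁻¹) (pZ m 0) (pF m k) = 0 := by
    rw [hu'']
    simp only [Cfsg.Agent.H45.mul_transvection_apply']
    simp only [if_true, if_neg he0.ne, if_neg he1.ne, if_neg hef.ne, if_neg he0.ne',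
      if_neg he1.ne', if_neg hef.ne', if_neg h01.ne, if_neg h01.ne', if_neg h0f.ne,
      if_neg h0f.ne', if_neg h1f.ne, if_neg h1f.ne']
    rw [← hc1, hu.2, hUT.1 _ _ he0, hUT.2]
    ring
  have hm1f : mat (u * x⁻¹) (pZ m 1) (pF m k) = 0 := by
    rw [hu'']
    simp only [Cfsg.Agent.H45.mul_transvection_apply']
    simp only [if_true, if_neg he0.ne, if_neg he1.ne, if_neg hef.ne, if_neg he0.ne',
      if_neg he1.ne', if_neg hef.ne', if_neg h01.ne, if_neg h01.ne', if_neg h0f.ne,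
      if_neg h0f.ne', if_neg h1f.ne, if_neg h1f.ne']
    rw [← hc2, hUT.1 _ _ h01, hUT.1 _ _ he1, hUT.2]
    ring
  obtain ⟨r0, r1, rf⟩ := hREL (u * x⁻¹) ⟨hu'UT, hm01⟩ hm0f hm1f
  have hnn : mat n * mat n = 1 := by
    apply Matrix.mulVec_injective
    funext v
    funext c
    rw [← mulVec_mulVec, hn, hn, Equiv.swap_apply_self, one_mulVec]
  have hninv : mat n⁻¹ = mat n := by
    calc mat n⁻¹ = mat n⁻¹ * (mat n * mat n) := by rw [hnn, Matrix.mul_one]
      _ = (mat n⁻¹ * mat n) * mat n := by rw [Matrix.mul_assoc]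
      _ = mat n := by rw [mat_inv_mul, Matrix.one_mul]
  have hnent : ∀ r c, mat n r c = if Equiv.swap (pE m k) (pF m k) r = c then 1 else 0 := by
    intro r c
    have e1 : mat n r c = (mat n *ᵥ Pi.single c 1) r := by rw [mulVec_single_one]; rfl
    rw [e1, hn, Pi.single_apply]
  have hconj : ∀ r c, mat (n * (u * x⁻¹) * n⁻¹) r c =
      mat (u * x⁻¹) (Equiv.swap (pE m k) (pF m k) r) (Equiv.swap (pE m k) (pF m k) c) := by
    intro r c
    rw [mat_mul, mat_mul, hninv, Matrix.mul_apply]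
    rw [Finset.sum_eq_single (Equiv.swap (pE m k) (pF m k) c)]
    · rw [hnent, if_pos (Equiv.swap_apply_self _ _ _), mul_one]
      have e2 : (mat n * mat (u * x⁻¹)) r (Equiv.swap (pE m k) (pF m k) c) =
          (mat n *ᵥ (fun d => mat (u * x⁻¹) d (Equiv.swap (pE m k) (pF m k) c))) r := rfl
      rw [e2, hn]
    · intro d _ hd
      rw [hnent, if_neg, mul_zero]
      intro h
      apply hd
      rw [← h, Equiv.swap_apply_self]
    · intro h; exact absurd (Finset.mem_univ _) h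
  refine ⟨u * x⁻¹, x, c1, c2, ⟨hu'UT, hm01⟩, hx, by rw [inv_mul_cancel_right],
    ⟨⟨?_, ?_⟩, ?_⟩⟩
  · intro r c hcr
    rw [hconj]
    by_cases hr : r = pE m k
    · have hce : c ≠ pE m k := by
        intro h; rw [h, hr] at hcr; exact lt_irrefl _ hcr
      have hcf : c ≠ pF m k := by
        intro h; rw [h, hr] at hcr; exact absurd hcr (not_lt.mpr hef.le)
      rw [hr, Equiv.swap_apply_left, Equiv.swap_apply_of_ne_of_ne hce hcf]
      apply hu'UT.1
      rw [hr] at hcr; exact lt_trans hcr hef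
    · by_cases hr' : r = pF m k
      · rw [hr', Equiv.swap_apply_right]
        by_cases hc : c = pE m k
        · rw [hc, Equiv.swap_apply_left]; exact rf
        · have hcf : c ≠ pF m k := by
            intro h; rw [h, hr'] at hcr; exact lt_irrefl _ hcr
          rw [Equiv.swap_apply_of_ne_of_ne hc hcf]
          by_cases hlt : c < pE m k
          · exact hu'UT.1 _ _ hlt
          · have hcv : c.val = m ∨ c.val = m + 1 := by
              rw [hr'] at hcr
              rw [Fin.lt_def] at hcr hlt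
              have hne : c.val ≠ (pE m k).val := fun h => hc (Fin.ext h)
              omega
            rcases hcv with h | h
            · have hcz : c = pZ m 0 := Fin.ext (by rw [h, v0])
              rw [hcz]; exact r0
            · have hcz : c = pZ m 1 := Fin.ext (by rw [h, v1])
              rw [hcz]; exact r1
      · by_cases hc : c = pE m k
        · rw [hc, Equiv.swap_apply_left, Equiv.swap_apply_of_ne_of_ne hr hr']
          by_cases hlt : pF m k < r
          · exact hu'UT.1 _ _ hlt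
          · have hrv : r.val = m ∨ r.val = m + 1 := by
              rw [hc] at hcr
              rw [Fin.lt_def] at hcr hlt
              have hne : r.val ≠ (pF m k).val := fun h => hr' (Fin.ext h)
              omega
            rcases hrv with h | h
            · have hrz : r = pZ m 0 := Fin.ext (by rw [h, v0])
              rw [hrz]; exact hm0f
            · have hrz : r = pZ m 1 := Fin.ext (by rw [h, v1])
              rw [hrz]; exact hm1f
        · by_cases hc' : c = pF m k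
          · rw [hc', Equiv.swap_apply_right, Equiv.swap_apply_of_ne_of_ne hr hr']
            apply hu'UT.1
            rw [hc'] at hcr; exact lt_trans hef hcr
          · rw [Equiv.swap_apply_of_ne_of_ne hr hr', Equiv.swap_apply_of_ne_of_ne hc hc']
            exact hu'UT.1 _ _ hcr
  · intro r
    rw [hconj]; exact hu'UT.2 _
  · rw [hconj, Equiv.swap_apply_of_ne_of_ne he0.ne' h0f.ne,
      Equiv.swap_apply_of_ne_of_ne he1.ne' h1f.ne]
    exact hm01

end Cfsg.Agent.H11.StN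

#print axioms Cfsg.Agent.H11.StN.short_factor_core
#print axioms Cfsg.Agent.H11.StN.tw_factor_core
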