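import Mathlib
import Cfsg.Agent.H88.StNDefs
import Cfsg.Agent.H15.StNElt
import Cfsg.Agent.H83.OMinusRel
import Cfsg.Agent.H11.StNFactCore

/-!
helper11: S2549-FACT (`short_factor`, `tw_factor`), assembled from the cores and the landed pieces
ELT (helper15) and REL (helper83).
-/

set_option autoImplicit false

open Matrix Cfsg.Agent.H88.StN

namespace Cfsg.Agent.H11.StN

variable {F : Type*} [Field F]

theorem short_factor [Fintype F] (m : ℕ) (a b : F) (k : Fin m) (hk : k.val + 1 < m) (n : OGm m F a b) (hn : ∀ (v : Fin (2 * m + 2) → F) (c : Fin (2 * m + 2)), (mat n *ᵥ v) c = if c = pE m k then v (pE m ⟨k.val + 1, hk⟩) else if c = pE m ⟨k.val + 1, hk⟩ then - v (pE m k) else if c = pF m ⟨k.val + 1, hk⟩ then - v (pF m k) else if c = pF m k then v (pF m ⟨k.val + 1, hk⟩) else v c) (u : OGm m F a b) (hu : IsUniM u) : ∃ (u' x : OGm m F a b) (t : F), IsUniM u' ∧ mat x = transvection (pE m k) (pE m ⟨k.val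 + 1, hk⟩) t * transvection (pF m ⟨k.val + 1, hk⟩) (pF m k) (-t) ∧ u = u' * x ∧ IsUniM (n * u' * n⁻¹) :=
  short_factor_core m a b k hk (fun t => Cfsg.Agent.H15.StN.exists_xshort m a b k hk t)
    (fun g hg => (Cfsg.Agent.H83.OMinusRel.ominus_rel m a b g hg).1 k hk) n hn u hu

theorem tw_factor [Fintype F] (m : ℕ) (a b : F) (k : Fin m) (hk : k.val + 1 = m) (n : OGm m F a b) (hn : ∀ (v : Fin (2 * m + 2) → F) (c : Fin (2 * m + 2)), (mat n *ᵥ v) c = v (Equiv.swap (pE m k) (pF m k) c)) (u : OGm m F a b) (hu : IsUniM u) : ∃ (u' x : OGm m F a b) (c1 c2 : F), IsUniM u' ∧ (∀ (v : Fin (2 * m + 2) → F) (c : Fin (2 * m + 2)), (mat x *ᵥ v) c = if c = pE m k then v (pE m k) - (c1 * (2 * v (pZ m 0) + a * v (pZ m 1)) + c2 * (a * v (pZ m 0) + 2 * b * v (pZ m 1))) - (c1 ^ 2 + a * c1 * c2 + b * c2 ^ 2) * v (pF m k) else if c = pZ m 0 then v (pZ m 0) + c1 * v (pF m k) else if c = pZ m 1 then v (pZ m 1) + c2 * v (pF m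 k) else v c) ∧ u = u' * x ∧ IsUniM (n * u' * n⁻¹) :=
  tw_factor_core m a b k hk (fun c1 c2 => Cfsg.Agent.H15.StN.exists_xtw m a b k c1 c2)
    (fun g hg => (Cfsg.Agent.H83.OMinusRel.ominus_rel m a b g hg).2 k hk) n hn u hu

example [Fintype F] (m : ℕ) (a b : F) (k : Fin m) (hk : k.val + 1 < m) (n : OGm m F a b) (hn : ∀ (v : Fin (2 * m + 2) → F) (c : Fin (2 * m + 2)), (mat n *ᵥ v) c = if c = pE m k then v (pE m ⟨k.val + 1, hk⟩) else if c = pE m ⟨k.val + 1, hk⟩ then - v (pE m k) else if c = pF m ⟨k.val + 1, hk⟩ then - v (pF m k) else if c = pF m k then v (pF m ⟨k.val + 1, hk⟩) else v c) (u : OGm m F a b) (hu : IsUniM u) : ∃ (u' x : OGm m F a b) (t : F), IsUniM u' ∧ mat x = transvection (pE m k) (pE m ⟨k.val + 1, hk⟩) t * transvection (pF m ⟨k.val + 1, hk⟩) (pF m k) (-t) ∧ u = u' * x ∧ IsUniM (n * u' * n⁻¹) := short_factor m a b k hk n hn u hu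

example [Fintype F] (m : ℕ) (a b : F) (k : Fin m) (hk : k.val + 1 = m) (n : OGm m F a b) (hn : ∀ (v : Fin (2 * m + 2) → F) (c : Fin (2 * m + 2)), (mat n *ᵥ v) c = v (Equiv.swap (pE m k) (pF m k) c)) (u : OGm m F a b) (hu : IsUniM u) : ∃ (u' x : OGm m F a b) (c1 c2 : F), IsUniM u' ∧ (∀ (v : Fin (2 * m + 2) → F) (c : Fin (2 * m + 2)), (mat x *ᵥ v) c = if c = pE m k then v (pE m k) - (c1 * (2 * v (pZ m 0) + a * v (pZ m 1)) + c2 * (a * v (pZ m 0) + 2 * b * v (pZ m 1))) - (c1 ^ 2 + a * c1 * c2 + b * c2 ^ 2) * v (pF m k) else if c = pZ m 0 then v (pZ m 0) + c1 * v (pF m k) else if c = pZ m 1 then v (pZ m 1) + c2 * v (pF m k) else v c) ∧ u = u' * x ∧ IsUniM (n * u' * n⁻¹) := tw_factor m a b k hk n hn u hu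

end Cfsg.Agent.H11.StN

#print axioms Cfsg.Agent.H11.StN.short_factor
#print axioms Cfsg.Agent.H11.StN.tw_factor
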