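import Mathlib
import Cfsg.Agent.H97.SuLDefs

/-!
# SuL-VEC (helper97's S2334/S2335 project): a hyperbolic pair in the last two coordinates
-/

set_option autoImplicit false

namespace Cfsg.Agent.H11.SuL

open Module Cfsg.Agent.H17 Cfsg.Agent.H97.SuL

universe u

theorem inPl_of_supp {F : Type u} [Field F] (m : ℕ) (x : Fin (m + 2) → F)
    (hx : ∀ k, k ≠ Fin.natAdd m (0 : Fin 2) → k ≠ Fin.natAdd m (1 : Fin 2) → x k = 0) :
    InPl m x := by
  refine ⟨fun l => x (Fin.natAdd m l), ?_⟩
  funext k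
  refine Fin.addCases (fun a => ?_) (fun l => ?_) k
  · rw [Fin.append_left]
    have h0 : Fin.castAdd 2 a ≠ Fin.natAdd m (0 : Fin 2) := by
      intro h
      have h' := congrArg Fin.val h
      simp only [Fin.val_castAdd, Fin.val_natAdd] at h'
      have := a.isLt
      omega
    have h1 : Fin.castAdd 2 a ≠ Fin.natAdd m (1 : Fin 2) := by
      intro h
      have h' := congrArg Fin.val h
      simp only [Fin.val_castAdd, Fin.val_natAdd] at h'
      have := a.isLt
      omega
    rw [hx _ h0 h1]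
    rfl
  · rw [Fin.append_right]

theorem vec : StVec.{u} := by
  intro F _ _ q hF m
  have hij : Fin.natAdd m (0 : Fin 2) ≠ Fin.natAdd m (1 : Fin 2) := by
    intro h
    have h' := congrArg Fin.val h
    simp only [Fin.val_natAdd] at h'
    have h2 : ((0 : Fin 2) : ℕ) = ((1 : Fin 2) : ℕ) := by omega
    exact absurd h2 (by decide)
  obtain ⟨x, y, hxx, hyy, hxy, hx, hy, -⟩ :=
    exists_std_pair hF (Fin.natAdd m (0 : Fin 2)) (Fin.natAdd m (1 : Fin 2)) hij
  exact ⟨x, y, inPl_of_supp m x hx, inPl_of_supp m y hy, hxx, hyy, hxy⟩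

example : StVec.{u} := vec

end Cfsg.Agent.H11.SuL

#print axioms Cfsg.Agent.H11.SuL.vec
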