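import Mathlib
import Cfsg.Agent.Lib.Lead.SylAlt.Defs

/-!
# helper11: piece ARITH2 of S2221 (lead's project)

Two big orbits of a Sylow 2-subgroup `T` of `Perm α` exist iff `4 * (n / 4)` is not a power of 2.
-/

set_option autoImplicit false
set_option linter.unusedSectionVars false
set_option linter.unusedVariables false
set_option linter.style.haveILetI false

namespace Cfsg.Agent.H11.SylAlt

open Equiv Cfsg.Agent.Lib.Lead.SylAlt
open scoped Pointwise

variable {α : Type*} [Fintype α] [DecidableEq α]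

theorem orb_eq_orbit (T : Subgroup (Perm α)) (x : α) : orb T x = MulAction.orbit T x := by
  ext y
  constructor
  · rintro ⟨g, hg, rfl⟩; exact ⟨⟨g, hg⟩, rfl⟩
  · rintro ⟨g, rfl⟩; exact ⟨g.1, g.2, rfl⟩

theorem orb_card_pow (T : Subgroup (Perm α)) (h2 : IsPGroup 2 T) (x : α) :
    ∃ j : ℕ, (orb T x).ncard = 2 ^ j := by
  haveI : Fact (Nat.Prime 2) := ⟨Nat.prime_two⟩
  obtain ⟨j, hj⟩ := h2.card_orbit (α := α) x
  refine ⟨j, ?_⟩
  rw [orb_eq_orbit, ← hj, Nat.card_coe_set_eq]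

theorem orb_eq_of_mem (T : Subgroup (Perm α)) {x y : α} (hy : y ∈ orb T x) :
    orb T y = orb T x := by
  obtain ⟨h, hh, rfl⟩ := hy
  ext z
  constructor
  · rintro ⟨g, hg, rfl⟩; exact ⟨g * h, T.mul_mem hg hh, rfl⟩
  · rintro ⟨g, hg, rfl⟩; exact ⟨g * h⁻¹, T.mul_mem hg (T.inv_mem hh), by simp⟩

theorem bigp_iff (T : Subgroup (Perm α)) (x : α) :
    Bigp T x ↔ ∀ y, ∃ z ∈ orb T x, z ≠ x ∧ z ≠ y := by
  constructor
  · intro h y; obtain ⟨g, hg, h1, h2⟩ := h y; exact ⟨g x, ⟨g, hg, rfl⟩, h1, h2⟩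
  · intro h y; obtain ⟨z, ⟨g, hg, rfl⟩, h1, h2⟩ := h y; exact ⟨g, hg, h1, h2⟩

theorem bigp_of_mem (T : Subgroup (Perm α)) {x x' : α} (hx : Bigp T x) (hx' : x' ∈ orb T x) :
    Bigp T x' := by
  rw [bigp_iff] at hx ⊢
  rw [orb_eq_of_mem T hx']
  intro y
  by_cases hxx : x' = x
  · subst hxx; exact hx y
  · obtain ⟨z₁, hz₁, h1, h2⟩ := hx x'
    by_cases hy : y = x
    · subst hy; exact ⟨z₁, hz₁, h2, h1⟩
    · exact ⟨x, mem_orb_self T x, fun h => hxx h.symm, fun h => hy h.symm⟩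

theorem bigp_of_three (T : Subgroup (Perm α)) (x : α) (h3 : 3 ≤ (orb T x).ncard) : Bigp T x := by
  rw [bigp_iff]
  intro y
  have hlt : ({x, y} : Set α).ncard < (orb T x).ncard := by
    have h1 := Set.ncard_insert_le x ({y} : Set α)
    rw [Set.ncard_singleton] at h1
    omega
  obtain ⟨z, hz, hz'⟩ := Set.exists_mem_notMem_of_ncard_lt_ncard hlt
  exact ⟨z, hz, fun h => hz' (by simp [h]), fun h => hz' (by simp [h])⟩

theorem addRight_pow_apply (m : ℕ) (k : ℕ) (a : ZMod m) :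
    ((Equiv.addRight (1 : ZMod m)) ^ k) a = a + (k : ZMod m) := by
  induction k with
  | zero => simp
  | succ k ih =>
    rw [pow_succ', Perm.mul_apply, ih, Equiv.coe_addRight]
    push_cast; ring

/-- A Sylow 2-subgroup of `Perm α` has an orbit with at least `2 ^ r` points if `2 ^ r ≤ |α|`. -/
theorem exists_big_orbit (T : Subgroup (Perm α)) (hT : IsSyl2 T) (r : ℕ)
    (hr : 2 ^ r ≤ Fintype.card α) : ∃ x₀ : α, 2 ^ r ≤ (orb T x₀).ncard := by
  classical
  haveI : Fact (Nat.Prime 2) := ⟨Nat.prime_two⟩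
  haveI : NeZero (2 ^ r) := ⟨by positivity⟩
  have hcard : Fintype.card (ZMod (2 ^ r)) ≤ Fintype.card α := by rw [ZMod.card]; exact hr
  obtain ⟨e⟩ := Function.Embedding.nonempty_of_card_le hcard
  set c : Perm α := Perm.viaEmbeddingHom e (Equiv.addRight (1 : ZMod (2 ^ r))) with hcdef
  have hcapp : ∀ a : ZMod (2 ^ r), c (e a) = e (a + 1) := by
    intro a
    rw [hcdef, Perm.viaEmbeddingHom_apply, Perm.viaEmbedding_apply, Equiv.coe_addRight]
  have hcpowapp : ∀ k : ℕ, (c ^ k) (e 0) = e (k : ZMod (2 ^ r)) := by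
    intro k
    induction k with
    | zero => simp
    | succ k ih => rw [pow_succ', Perm.mul_apply, ih, hcapp]; push_cast; rfl
  have hcpow : c ^ 2 ^ r = 1 := by
    rw [hcdef, ← map_pow]
    have h1 : (Equiv.addRight (1 : ZMod (2 ^ r))) ^ 2 ^ r = 1 := by
      ext a
      rw [addRight_pow_apply]
      simp
    rw [h1, map_one]
  have hQ : IsPGroup 2 (Subgroup.zpowers c) := by
    rintro ⟨g, hg⟩
    obtain ⟨z, rfl⟩ := Subgroup.mem_zpowers_iff.mp hg
    refine ⟨r, Subtype.ext ?_⟩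
    show (c ^ z) ^ 2 ^ r = 1
    rw [← zpow_natCast, ← zpow_mul, mul_comm, zpow_mul, zpow_natCast, hcpow, one_zpow]
  obtain ⟨P, hP⟩ := hQ.exists_le_sylow
  let PT : Sylow 2 (Perm α) := ⟨T, hT.1, fun {Q} hQ hle => hT.2 Q hQ hle⟩
  obtain ⟨g, hg⟩ := MulAction.exists_smul_eq (Perm α) P PT
  have hcP : c ∈ (P : Subgroup (Perm α)) := hP (Subgroup.mem_zpowers c)
  have hc'T : g * c * g⁻¹ ∈ T := by
    have h1 : MulAut.conj g • c ∈ MulAut.conj g • (P : Subgroup (Perm α)) :=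
      Subgroup.smul_mem_pointwise_smul _ _ _ hcP
    have h2 : MulAut.conj g • (P : Subgroup (Perm α)) = T := congrArg Sylow.toSubgroup hg
    rw [h2] at h1
    exact h1
  refine ⟨g (e 0), ?_⟩
  have hsub : Set.range (fun a : ZMod (2 ^ r) => g (e a)) ⊆ orb T (g (e 0)) := by
    rintro _ ⟨a, rfl⟩
    refine ⟨(g * c * g⁻¹) ^ a.val, T.pow_mem hc'T _, ?_⟩
    have h1 : ((g * c * g⁻¹) ^ a.val) (g (e 0)) = g ((c ^ a.val) (e 0)) := by
      rw [conj_pow]; simp
    rw [h1, hcpowapp, ZMod.natCast_zmod_val]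
  have hinj : Function.Injective (fun a : ZMod (2 ^ r) => g (e a)) :=
    fun a b h => e.injective (g.injective h)
  have hcardr : (Set.range (fun a : ZMod (2 ^ r) => g (e a))).ncard = 2 ^ r := by
    rw [← Set.image_univ, Set.ncard_image_of_injective _ hinj, Set.ncard_univ,
      Nat.card_eq_fintype_card, ZMod.card]
  exact le_of_eq_of_le hcardr.symm (Set.ncard_le_ncard hsub (Set.toFinite _))

/-- Piece ARITH2 of S2221. -/
theorem arith2 (T : Subgroup (Perm α)) (hT : IsSyl2 T) (hn : 4 ≤ Fintype.card α)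
    (hbig : {x : α | Bigp T x}.ncard = 4 * (Fintype.card α / 4)) :
    (∃ x, Bigp T x) ∧
    ((∃ x₁ x₂, Bigp T x₁ ∧ Bigp T x₂ ∧ ¬ ∃ g ∈ T, g x₁ = x₂) ↔
      ∀ r : ℕ, 4 * (Fintype.card α / 4) ≠ 2 ^ r) ∧
    (8 ≤ Fintype.card α → ∀ x, Bigp T x → (∀ x', Bigp T x' → ∃ g ∈ T, g x = x') →
      8 ≤ (orb T x).ncard) := by
  have hpos : 0 < {x : α | Bigp T x}.ncard := by rw [hbig]; omega
  have hne : ∃ x, Bigp T x := by
    obtain ⟨x, hx⟩ := (Set.ncard_pos (Set.toFinite _)).mp hpos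
    exact ⟨x, hx⟩
  refine ⟨hne, ⟨?_, ?_⟩, ?_⟩
  · rintro ⟨x₁, x₂, h₁, h₂, h12⟩ r hr
    have h2r : 2 ^ r ≤ Fintype.card α := by rw [← hr]; omega
    obtain ⟨x₀, hx₀⟩ := exists_big_orbit T hT r h2r
    obtain ⟨j, hj⟩ := orb_card_pow T hT.1 x₀
    have hle : (orb T x₀).ncard ≤ Fintype.card α := by
      have := Set.ncard_le_card (orb T x₀)
      rwa [Nat.card_eq_fintype_card] at this
    have hjr : j = r := by
      have h1 : 2 ^ r ≤ 2 ^ j := hj ▸ hx₀
      have h2 : 2 ^ j < 2 ^ (r + 1) := by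
        rw [pow_succ, ← hj]
        generalize 2 ^ r = A at hr h2r
        omega
      have h3 := (Nat.pow_le_pow_iff_right (by norm_num : 1 < 2)).mp h1
      have h4 := (Nat.pow_lt_pow_iff_right (by norm_num : 1 < 2)).mp h2
      omega
    subst hjr
    have hx₀big : Bigp T x₀ := by
      apply bigp_of_three
      rw [hj]
      generalize 2 ^ j = A at hr
      omega
    have hsub : orb T x₀ ⊆ {x | Bigp T x} := fun y hy => bigp_of_mem T hx₀big hy
    have heq : orb T x₀ = {x | Bigp T x} :=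
      Set.eq_of_subset_of_ncard_le hsub (by rw [hbig, hr, hj]) (Set.toFinite _)
    have m1 : x₁ ∈ orb T x₀ := by rw [heq]; exact h₁
    have m2 : x₂ ∈ orb T x₀ := by rw [heq]; exact h₂
    exact h12 (orb_trans T x₀ x₁ m1 x₂ m2)
  · intro hr
    obtain ⟨x₁, h₁⟩ := hne
    obtain ⟨j, hj⟩ := orb_card_pow T hT.1 x₁
    by_contra hcon
    push Not at hcon
    have hsub : orb T x₁ ⊆ {x | Bigp T x} := fun y hy => bigp_of_mem T h₁ hy
    have hsup : {x | Bigp T x} ⊆ orb T x₁ := fun y hy => hcon x₁ y h₁ hy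
    have heq := Set.Subset.antisymm hsub hsup
    exact hr j (by rw [← hbig, ← heq, hj])
  · intro h8 x hx hall
    have hsup : {x | Bigp T x} ⊆ orb T x := fun y hy => hall y hy
    have := Set.ncard_le_ncard hsup (Set.toFinite _)
    rw [hbig] at this
    omega

example (T : Subgroup (Perm α)) (hT : IsSyl2 T) (hn : 4 ≤ Fintype.card α)
    (hbig : {x : α | Bigp T x}.ncard = 4 * (Fintype.card α / 4)) :
    (∃ x, Bigp T x) ∧
    ((∃ x₁ x₂, Bigp T x₁ ∧ Bigp T x₂ ∧ ¬ ∃ g ∈ T, g x₁ = x₂) ↔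
      ∀ r : ℕ, 4 * (Fintype.card α / 4) ≠ 2 ^ r) ∧
    (8 ≤ Fintype.card α → ∀ x, Bigp T x → (∀ x', Bigp T x' → ∃ g ∈ T, g x = x') →
      8 ≤ (orb T x).ncard) := arith2 T hT hn hbig

end Cfsg.Agent.H11.SylAlt

#print axioms Cfsg.Agent.H11.SylAlt.arith2
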