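import Mathlib
import Cfsg.Agent.Lib.Lead.SylAlt.Defs

/-!
# helper11: piece ZONEB of S2221 (lead's project)

`res T (orb T x) ⊓ Alt` has at most one nontrivial central element when the orbit has at least
8 points (`T` a Sylow 2-subgroup of `Perm α`).
-/

set_option autoImplicit false
set_option linter.unusedSectionVars false
set_option linter.unusedVariables false

namespace Cfsg.Agent.H11.SylAlt

open Equiv Cfsg.Agent.Lib.Lead.SylAlt

variable {α : Type*} [Fintype α] [DecidableEq α]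

theorem zb_swap_unique (T : Subgroup (Perm α)) (h2 : IsPGroup 2 T) {u v v' : α}
    (hv : v ≠ u) (hv' : v' ≠ u) (h : swap u v ∈ T) (h' : swap u v' ∈ T) : v = v' := by
  by_contra hne
  have h3 : Perm.IsThreeCycle (swap u v * swap u v') :=
    Perm.isThreeCycle_swap_mul_swap_same (Ne.symm hv) (Ne.symm hv') hne
  have hmem : swap u v * swap u v' ∈ T := T.mul_mem h h'
  obtain ⟨k, hk⟩ := h2 ⟨_, hmem⟩
  have hk' : (swap u v * swap u v') ^ 2 ^ k = 1 := by
    have := congrArg Subtype.val hk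
    simpa using this
  have hdvd : 3 ∣ 2 ^ k := by rw [← h3.orderOf]; exact orderOf_dvd_of_pow_eq_one hk'
  have : 3 ∣ 2 := Nat.Prime.dvd_of_dvd_pow Nat.prime_three hdvd
  omega

theorem zb_pair_disj (T : Subgroup (Perm α)) (h2 : IsPGroup 2 T) {u v u' v' : α}
    (huv : v ≠ u) (hu'v' : v' ≠ u') (h : swap u v ∈ T) (h' : swap u' v' ∈ T)
    (h1 : u' ≠ u) (h2' : u' ≠ v) : v' ≠ u ∧ v' ≠ v := by
  constructor
  · intro hv'
    rw [hv', swap_comm] at h'
    exact h2' (zb_swap_unique T h2 h1 huv h' h)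
  · intro hv'
    rw [hv', swap_comm] at h'
    rw [swap_comm] at h
    exact h1 (zb_swap_unique T h2 h2' (Ne.symm huv) h' h)

theorem zb_pair_exists (T : Subgroup (Perm α)) (htr : HTr T) (x : α)
    (h2 : 2 ≤ (orb T x).ncard) {u : α} (hu : u ∈ orb T x) :
    ∃ v, v ≠ u ∧ v ∈ orb T x ∧ swap u v ∈ T := by
  have hlt : ({u} : Set α).ncard < (orb T x).ncard := by rw [Set.ncard_singleton]; omega
  obtain ⟨z, hz, hz'⟩ := Set.exists_mem_notMem_of_ncard_lt_ncard hlt
  obtain ⟨g, hg, hgu⟩ := orb_trans T x u hu z hz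
  obtain ⟨v, hv, hsw⟩ := htr u ⟨g, hg, by rw [hgu]; exact fun h => hz' (by simp [h])⟩
  refine ⟨v, hv, ?_, hsw⟩
  have := orb_inv T x (swap u v) hsw u hu
  rwa [swap_apply_left] at this

theorem zb_swap_mem_res (T : Subgroup (Perm α)) (O : Set α) {u v : α} (hu : u ∈ O) (hv : v ∈ O)
    (h : swap u v ∈ T) : swap u v ∈ res T O :=
  ⟨h, fun y hy => swap_apply_of_ne_of_ne (fun e => hy (e ▸ hu)) (fun e => hy (e ▸ hv))⟩

theorem zb_exists_notMem (O : Set α) (A : Finset α) (h : A.card < O.ncard) :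
    ∃ z ∈ O, z ∉ A := by
  have hlt : (A : Set α).ncard < O.ncard := by rwa [Set.ncard_coe_finset]
  obtain ⟨z, hz, hz'⟩ := Set.exists_mem_notMem_of_ncard_lt_ncard hlt
  exact ⟨z, hz, by simpa using hz'⟩

theorem zb_comm_mem {c : Perm α} {u v u' v' : α} (huv : u ≠ v) (h1 : u ≠ u') (h2 : u ≠ v')
    (hc : (swap u v * swap u' v') * c = c * (swap u v * swap u' v')) :
    c u = u ∨ c u = v ∨ c u = u' ∨ c u = v' := by
  by_contra hcon
  push Not at hcon
  obtain ⟨n1, n2, n3, n4⟩ := hcon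
  have e := congrArg (fun f : Perm α => f u) hc
  simp only [Perm.mul_apply] at e
  rw [swap_apply_of_ne_of_ne n3 n4, swap_apply_of_ne_of_ne n1 n2,
    swap_apply_of_ne_of_ne h1 h2, swap_apply_left] at e
  exact huv (c.injective e)

theorem zb_double_mem (T : Subgroup (Perm α)) (O : Set α) {u v u' v' : α}
    (hu : u ∈ O) (hv : v ∈ O) (hu' : u' ∈ O) (hv' : v' ∈ O)
    (ht : swap u v ∈ T) (ht' : swap u' v' ∈ T) (d1 : u ≠ v) (d2 : u' ≠ v') :
    swap u v * swap u' v' ∈ res T O ⊓ alternatingGroup α := by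
  refine Subgroup.mem_inf.mpr
    ⟨(res T O).mul_mem (zb_swap_mem_res T O hu hv ht) (zb_swap_mem_res T O hu' hv' ht'), ?_⟩
  rw [Perm.mem_alternatingGroup, Perm.sign_mul, Perm.sign_swap d1, Perm.sign_swap d2]; rfl

theorem zb_preserve (T : Subgroup (Perm α)) (O : Set α) {c : Perm α}
    (hcen : ∀ g ∈ res T O ⊓ alternatingGroup α, g * c = c * g)
    {u v u' v' u'' v'' : α} (hu : u ∈ O) (hv : v ∈ O) (hu' : u' ∈ O) (hv' : v' ∈ O)
    (hu'' : u'' ∈ O) (hv'' : v'' ∈ O)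
    (ht : swap u v ∈ T) (ht' : swap u' v' ∈ T) (ht'' : swap u'' v'' ∈ T)
    (d1 : u ≠ v) (d2 : u' ≠ v') (d3 : u'' ≠ v'')
    (e1 : u ≠ u') (e2 : u ≠ v') (f1 : u ≠ u'') (f2 : u ≠ v'')
    (g1 : u' ≠ u'') (g2 : u' ≠ v'') (g3 : v' ≠ u'') (g4 : v' ≠ v'') :
    c u = u ∨ c u = v := by
  have m1 := zb_double_mem T O hu hv hu' hv' ht ht' d1 d2
  have m2 := zb_double_mem T O hu hv hu'' hv'' ht ht'' d1 d3
  have c1 := zb_comm_mem d1 e1 e2 (hcen _ m1)
  have c2 := zb_comm_mem d1 f1 f2 (hcen _ m2)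
  rcases c1 with h | h | h | h
  · exact Or.inl h
  · exact Or.inr h
  · rcases c2 with h' | h' | h' | h'
    · exact Or.inl h'
    · exact Or.inr h'
    · exact absurd (h.symm.trans h') g1
    · exact absurd (h.symm.trans h') g2
  · rcases c2 with h' | h' | h' | h'
    · exact Or.inl h'
    · exact Or.inr h'
    · exact absurd (h.symm.trans h') g3
    · exact absurd (h.symm.trans h') g4

theorem zb_trans (T : Subgroup (Perm α)) (hT : IsSyl2 T) (hs : HSplit T) (htr : HTr T) (x : α)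
    (h8 : 8 ≤ (orb T x).ncard) {w u : α} (hw : w ∈ orb T x) (hu : u ∈ orb T x) :
    ∃ h ∈ res T (orb T x) ⊓ alternatingGroup α, h w = u := by
  obtain ⟨g, hg, hgw⟩ := orb_trans T x w hw u hu
  obtain ⟨a, ha, b, hb, hab⟩ := hs (orb T x) (orb_inv T x) g hg
  have haw : a w = u := by
    rw [← hgw, hab, Perm.mul_apply, hb.2 w (fun h => h hw)]
  rcases Int.units_eq_one_or (Perm.sign a) with hsg | hsg
  · exact ⟨a, Subgroup.mem_inf.mpr ⟨ha, Perm.mem_alternatingGroup.mpr hsg⟩, haw⟩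
  · obtain ⟨ws, hws, hwsO, hwsT⟩ := zb_pair_exists T htr x (by omega) hw
    obtain ⟨p, hpO, hp⟩ := zb_exists_notMem (orb T x) {w, ws}
      (lt_of_le_of_lt Finset.card_le_two (by omega))
    have hpw : p ≠ w := fun h => hp (by simp [h])
    have hpws : p ≠ ws := fun h => hp (by simp [h])
    obtain ⟨q, hq, hqO, hqT⟩ := zb_pair_exists T htr x (by omega) hpO
    obtain ⟨hqw, hqws⟩ := zb_pair_disj T hT.1 hws hq hwsT hqT hpw hpws
    refine ⟨a * swap p q, Subgroup.mem_inf.mpr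
      ⟨(res T _).mul_mem ha (zb_swap_mem_res T _ hpO hqO hqT), ?_⟩, ?_⟩
    · rw [Perm.mem_alternatingGroup, Perm.sign_mul, hsg, Perm.sign_swap hq.symm]; rfl
    · rw [Perm.mul_apply, swap_apply_of_ne_of_ne hpw.symm hqw.symm, haw]

theorem zb_moves (T : Subgroup (Perm α)) (hT : IsSyl2 T) (hs : HSplit T) (htr : HTr T) (x : α)
    (h8 : 8 ≤ (orb T x).ncard) {c : Perm α} (hc : c ∈ res T (orb T x) ⊓ alternatingGroup α)
    (hc1 : c ≠ 1) (hcen : ∀ g ∈ res T (orb T x) ⊓ alternatingGroup α, g * c = c * g)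
    {u : α} (hu : u ∈ orb T x) : c u ≠ u := by
  have hex : ∃ w, c w ≠ w := by
    by_contra hcon
    push Not at hcon
    exact hc1 (Perm.ext hcon)
  obtain ⟨w, hw⟩ := hex
  have hwO : w ∈ orb T x := by
    by_contra hwO
    exact hw ((Subgroup.mem_inf.mp hc).1.2 w hwO)
  obtain ⟨h, hh, hhw⟩ := zb_trans T hT hs htr x h8 hwO hu
  have e := congrArg (fun f : Perm α => f w) (hcen h hh)
  simp only [Perm.mul_apply] at e
  rw [hhw] at e
  intro hcu
  rw [hcu, ← hhw] at e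
  exact hw (h.injective e)

/-- Piece ZONEB of S2221. -/
theorem zoneB (T : Subgroup (Perm α)) (hT : IsSyl2 T) (hs : HSplit T) (htr : HTr T)
    (x : α) (h8 : 8 ≤ (orb T x).ncard) (c c' : Perm α)
    (hc : c ∈ res T (orb T x) ⊓ alternatingGroup α) (hc' : c' ∈ res T (orb T x) ⊓ alternatingGroup α)
    (hc1 : c ≠ 1) (hc1' : c' ≠ 1)
    (hcen : ∀ g ∈ res T (orb T x) ⊓ alternatingGroup α, g * c = c * g)
    (hcen' : ∀ g ∈ res T (orb T x) ⊓ alternatingGroup α, g * c' = c' * g) : c = c' := by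
  ext u
  by_cases hu : u ∈ orb T x
  · obtain ⟨v, hv, hvO, hvT⟩ := zb_pair_exists T htr x (by omega) hu
    obtain ⟨u', hu'O, hu'⟩ := zb_exists_notMem (orb T x) {u, v}
      (lt_of_le_of_lt Finset.card_le_two (by omega))
    have hu'u : u' ≠ u := fun h => hu' (by simp [h])
    have hu'v : u' ≠ v := fun h => hu' (by simp [h])
    obtain ⟨v', hv', hv'O, hv'T⟩ := zb_pair_exists T htr x (by omega) hu'O
    obtain ⟨hv'u, hv'v⟩ := zb_pair_disj T hT.1 hv hv' hvT hv'T hu'u hu'v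
    obtain ⟨u'', hu''O, hu''⟩ := zb_exists_notMem (orb T x) {u, v, u', v'}
      (lt_of_le_of_lt Finset.card_le_four (by omega))
    have a1 : u'' ≠ u := fun h => hu'' (by simp [h])
    have a2 : u'' ≠ v := fun h => hu'' (by simp [h])
    have a3 : u'' ≠ u' := fun h => hu'' (by simp [h])
    have a4 : u'' ≠ v' := fun h => hu'' (by simp [h])
    obtain ⟨v'', hv'', hv''O, hv''T⟩ := zb_pair_exists T htr x (by omega) hu''O
    obtain ⟨b1, b2⟩ := zb_pair_disj T hT.1 hv hv'' hvT hv''T a1 a2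
    obtain ⟨b3, b4⟩ := zb_pair_disj T hT.1 hv' hv'' hv'T hv''T a3 a4
    have k := zb_preserve T (orb T x) hcen hu hvO hu'O hv'O hu''O hv''O hvT hv'T hv''T
      hv.symm hv'.symm hv''.symm hu'u.symm hv'u.symm a1.symm b1.symm a3.symm b3.symm
      a4.symm b4.symm
    have k' := zb_preserve T (orb T x) hcen' hu hvO hu'O hv'O hu''O hv''O hvT hv'T hv''T
      hv.symm hv'.symm hv''.symm hu'u.symm hv'u.symm a1.symm b1.symm a3.symm b3.symm
      a4.symm b4.symm
    have m := zb_moves T hT hs htr x h8 hc hc1 hcen hu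
    have m' := zb_moves T hT hs htr x h8 hc' hc1' hcen' hu
    rcases k with k | k
    · exact absurd k m
    · rcases k' with k' | k'
      · exact absurd k' m'
      · rw [k, k']
  · rw [(Subgroup.mem_inf.mp hc).1.2 u hu, (Subgroup.mem_inf.mp hc').1.2 u hu]

example (T : Subgroup (Perm α)) (hT : IsSyl2 T) (hs : HSplit T) (htr : HTr T)
    (x : α) (h8 : 8 ≤ (orb T x).ncard) (c c' : Perm α)
    (hc : c ∈ res T (orb T x) ⊓ alternatingGroup α) (hc' : c' ∈ res T (orb T x) ⊓ alternatingGroup α)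
    (hc1 : c ≠ 1) (hc1' : c' ≠ 1)
    (hcen : ∀ g ∈ res T (orb T x) ⊓ alternatingGroup α, g * c = c * g)
    (hcen' : ∀ g ∈ res T (orb T x) ⊓ alternatingGroup α, g * c' = c' * g) : c = c' :=
  zoneB T hT hs htr x h8 c c' hc hc' hc1 hc1' hcen hcen'

end Cfsg.Agent.H11.SylAlt

#print axioms Cfsg.Agent.H11.SylAlt.zoneB
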