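import Mathlib
import Cfsg.Agent.H17.TgDefs

/-!
# S1904 (helper17's project), piece TG-C1: if `Ω_i(B)` is central and `Ω_{i+1}(B)` is not, then
`B ∩ Z(X) = Ω_i(B)`
-/

set_option autoImplicit false

universe u

namespace Cfsg.Agent.H11.Tg

open Cfsg Cfsg.Agent.H17.Tg

theorem c1 (hVB : StVB.{u}) : StC1.{u} := by
  intro X _ _ A hyp B hB hBZ i hi hex z hzB hzZ
  obtain ⟨b, hbB, hb1, hbZ⟩ := hex
  by_contra hz
  obtain ⟨hV1, hV4, hV3, hVm, hVt, hVW⟩ := hVB X A hyp B hB hBZ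
  obtain ⟨hBn, hBA, hBab⟩ := hB
  -- reduce to an element of `Ω_{i+1}(B) ∩ Z ∖ Ω_i(B)`
  obtain ⟨z', hz'B, hz'Z, hz'1, hz'2⟩ : ∃ z' ∈ B, z' ∈ Subgroup.center X ∧
      z' ^ 2 ^ (i + 1) = 1 ∧ z' ^ 2 ^ i ≠ 1 := by
    have hexk : ∃ k, z ^ 2 ^ k = 1 := hyp.pgrp z
    classical
    have hk : z ^ 2 ^ (Nat.find hexk) = 1 := Nat.find_spec hexk
    have hki : i < Nat.find hexk := by
      by_contra hle
      push Not at hle
      apply hz
      have h2 : 2 ^ i = 2 ^ (Nat.find hexk) * 2 ^ (i - Nat.find hexk) := by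
        rw [← pow_add]
        congr 1
        omega
      rw [h2, pow_mul, hk, one_pow]
    refine ⟨z ^ 2 ^ (Nat.find hexk - i - 1), B.pow_mem hzB _, Subgroup.pow_mem _ hzZ _, ?_, ?_⟩
    · rw [← pow_mul, ← pow_add]
      have h2 : Nat.find hexk - i - 1 + (i + 1) = Nat.find hexk := by omega
      rw [h2]
      exact hk
    · rw [← pow_mul, ← pow_add]
      exact Nat.find_min hexk (by omega : Nat.find hexk - i - 1 + i < Nat.find hexk)
  -- the subgroup of `2^i`-th powers of `Ω_{i+1}(B) ∩ Z`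
  let W' : Subgroup X :=
    { carrier := {w | ∃ y ∈ B, y ∈ Subgroup.center X ∧ y ^ 2 ^ (i + 1) = 1 ∧ y ^ 2 ^ i = w}
      mul_mem' := by
        rintro _ _ ⟨y1, h1B, h1Z, h11, rfl⟩ ⟨y2, h2B, h2Z, h21, rfl⟩
        have hc : Commute y1 y2 := (Subgroup.mem_center_iff.mp h1Z y2).symm
        exact ⟨y1 * y2, B.mul_mem h1B h2B, Subgroup.mul_mem _ h1Z h2Z,
          by rw [hc.mul_pow, h11, h21, one_mul], hc.mul_pow _⟩
      one_mem' := ⟨1, B.one_mem, Subgroup.one_mem _, one_pow _, one_pow _⟩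
      inv_mem' := by
        rintro _ ⟨y, hyB, hyZ, hy1, rfl⟩
        exact ⟨y⁻¹, B.inv_mem hyB, Subgroup.inv_mem _ hyZ, by rw [inv_pow, hy1, inv_one],
          inv_pow _ _⟩ }
  have hW'A : AInv A W' := by
    rintro φ hφ _ ⟨y, hyB, hyZ, hy1, rfl⟩
    refine ⟨φ y, hBA φ hφ y hyB, ?_, ?_, ?_⟩
    · rw [Subgroup.mem_center_iff]
      intro g
      have h1 := Subgroup.mem_center_iff.mp hyZ (φ.symm g)
      have h2 := congrArg φ h1
      rw [map_mul, map_mul, MulEquiv.apply_symm_apply] at h2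
      exact h2
    · rw [← map_pow, hy1, map_one]
    · rw [map_pow]
  have hW'V : ∀ w ∈ W', w ∈ B ∧ w ^ 2 = 1 := by
    rintro _ ⟨y, hyB, hyZ, hy1, rfl⟩
    refine ⟨B.pow_mem hyB _, ?_⟩
    rw [← pow_mul, ← pow_succ]
    exact hy1
  rcases hVW W' hW'A hW'V with hbot | hall
  · apply hz'2
    have hmem : z' ^ 2 ^ i ∈ W' := ⟨z', hz'B, hz'Z, hz'1, rfl⟩
    rw [hbot, Subgroup.mem_bot] at hmem
    exact hmem
  · have hv : b ^ 2 ^ i ∈ W' := hall _ (B.pow_mem hbB _) (by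
      rw [← pow_mul, ← pow_succ]
      exact hb1)
    obtain ⟨y, hyB, hyZ, hy1, hy2⟩ := hv
    apply hbZ
    have hc : Commute b y⁻¹ := hBab b hbB y⁻¹ (B.inv_mem hyB)
    have h1 : (b * y⁻¹) ^ 2 ^ i = 1 := by
      rw [hc.mul_pow, inv_pow, hy2, mul_inv_cancel]
    have h2 : b * y⁻¹ ∈ Subgroup.center X := hi _ (B.mul_mem hbB (B.inv_mem hyB)) h1
    have h3 : b = (b * y⁻¹) * y := by group
    rw [h3]
    exact Subgroup.mul_mem _ h2 hyZ

example : StVB.{u} → Cfsg.Agent.H17.Tg.StC1.{u} := c1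

end Cfsg.Agent.H11.Tg

#print axioms Cfsg.Agent.H11.Tg.c1
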