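import Mathlib
import Cfsg.Agent.H17.TgDefs

/-!
# S1904 (helper17's project), piece TG-C2: if `Ω_i(B)` is central, an element commuting with one
element of `Ω_{i+1}(B) ∖ Ω_i(B)` centralizes `Ω_{i+1}(B)`
-/

set_option autoImplicit false

universe u

namespace Cfsg.Agent.H11.Tg

open Cfsg Cfsg.Agent.H17.Tg

/-- the commutator map `x ↦ [b, x]` for an element `b` all of whose commutators are central -/
def commHom {X : Type u} [Group X] (b : X)
    (hb : ∀ x : X, b * x * b⁻¹ * x⁻¹ ∈ Subgroup.center X) : X →* X where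
  toFun x := b * x * b⁻¹ * x⁻¹
  map_one' := by
    show b * 1 * b⁻¹ * 1⁻¹ = 1
    group
  map_mul' x y := by
    show b * (x * y) * b⁻¹ * (x * y)⁻¹ = b * x * b⁻¹ * x⁻¹ * (b * y * b⁻¹ * y⁻¹)
    have h1 : x⁻¹ * (b * y * b⁻¹ * y⁻¹) = (b * y * b⁻¹ * y⁻¹) * x⁻¹ :=
      Subgroup.mem_center_iff.mp (hb y) x⁻¹
    rw [mul_assoc (b * x * b⁻¹) x⁻¹, h1]
    group

theorem commHom_apply {X : Type u} [Group X] (b : X)
    (hb : ∀ x : X, b * x * b⁻¹ * x⁻¹ ∈ Subgroup.center X) (x : X) :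
    commHom b hb x = b * x * b⁻¹ * x⁻¹ := rfl

theorem commHom_eq_one_iff {X : Type u} [Group X] (b : X)
    (hb : ∀ x : X, b * x * b⁻¹ * x⁻¹ ∈ Subgroup.center X) (x : X) :
    commHom b hb x = 1 ↔ x * b = b * x := by
  rw [commHom_apply]
  constructor
  · intro h
    have h1 : b * x = (b * x * b⁻¹ * x⁻¹) * (x * b) := by group
    rw [h, one_mul] at h1
    exact h1.symm
  · intro h
    rw [← h]
    group

theorem commutator_le_ker_commHom {X : Type u} [Group X] (b : X)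
    (hb : ∀ x : X, b * x * b⁻¹ * x⁻¹ ∈ Subgroup.center X) :
    commutator X ≤ (commHom b hb).ker := by
  rw [commutator_eq_closure, Subgroup.closure_le]
  rintro _ ⟨p, q, rfl⟩
  rw [SetLike.mem_coe, MonoidHom.mem_ker, map_commutatorElement,
    commutatorElement_eq_one_iff_commute]
  exact (Subgroup.mem_center_iff.mp (hb p) _).symm

/-- the commutator with `x` is multiplicative in the first argument when the values are central -/
theorem comm_mul_left {X : Type u} [Group X] (b b' x : X)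
    (h : b' * x * b'⁻¹ * x⁻¹ ∈ Subgroup.center X) :
    (b * b') * x * (b * b')⁻¹ * x⁻¹ = (b * x * b⁻¹ * x⁻¹) * (b' * x * b'⁻¹ * x⁻¹) := by
  have h1 : b * (b' * x * b'⁻¹ * x⁻¹) = (b' * x * b'⁻¹ * x⁻¹) * b :=
    Subgroup.mem_center_iff.mp h b
  have e : (b * b') * x * (b * b')⁻¹ * x⁻¹ = b * (b' * x * b'⁻¹ * x⁻¹) * x * b⁻¹ * x⁻¹ := by
    group
  rw [e, h1]
  have h2 : (b * x * b⁻¹ * x⁻¹) * (b' * x * b'⁻¹ * x⁻¹)
      = (b' * x * b'⁻¹ * x⁻¹) * (b * x * b⁻¹ * x⁻¹) := Subgroup.mem_center_iff.mp h _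
  rw [h2]
  group

/-- four distinct elements of a type with four elements exhaust it -/
theorem four_cover {T : Type u} [Finite T] (h4 : Nat.card T = 4) (t0 t1 t2 t3 : T)
    (h01 : t0 ≠ t1) (h02 : t0 ≠ t2) (h03 : t0 ≠ t3) (h12 : t1 ≠ t2) (h13 : t1 ≠ t3)
    (h23 : t2 ≠ t3) (t : T) : t = t0 ∨ t = t1 ∨ t = t2 ∨ t = t3 := by
  classical
  have := Fintype.ofFinite T
  have hcard : Fintype.card T = 4 := by
    rw [← Nat.card_eq_fintype_card]
    exact h4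
  have hs : ({t0, t1, t2, t3} : Finset T).card = 4 := by
    rw [Finset.card_insert_of_notMem, Finset.card_insert_of_notMem,
      Finset.card_insert_of_notMem, Finset.card_singleton]
    · simpa using h23
    · simp [h12, h13]
    · simp [h01, h02, h03]
  have huniv : ({t0, t1, t2, t3} : Finset T) = Finset.univ :=
    Finset.eq_univ_of_card _ (by rw [hs, hcard])
  have ht : t ∈ ({t0, t1, t2, t3} : Finset T) := by
    rw [huniv]
    exact Finset.mem_univ t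
  simpa using ht

theorem c2 (hVB : StVB.{u}) (hFix : StFix.{u}) : StC2.{u} := by
  intro X _ _ A hyp B hB hBZ i hi x b1 hb1B hb1 hb1i hxb1
  obtain ⟨hV1, hV4, hV3, hVm, -, -⟩ := hVB X A hyp B hB hBZ
  have hFix' := hFix X A hyp
  obtain ⟨hBn, hBA, hBab⟩ := hB
  -- closure properties of `V_B`
  have hVmul : ∀ v ∈ B, v ^ 2 = 1 → ∀ w ∈ B, w ^ 2 = 1 → (v * w) ∈ B ∧ (v * w) ^ 2 = 1 := by
    intro v hv hv2 w hw hw2
    refine ⟨B.mul_mem hv hw, ?_⟩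
    have hc : Commute v w := hBab v hv w hw
    rw [hc.mul_pow, hv2, hw2, one_mul]
  have hVφ : ∀ ψ ∈ A, ∀ v ∈ B, v ^ 2 = 1 → ψ v ∈ B ∧ (ψ v) ^ 2 = 1 := by
    intro ψ hψ v hv hv2
    exact ⟨hBA ψ hψ v hv, by rw [← map_pow, hv2, map_one]⟩
  -- commutators `[b, x]` for `b ∈ Ω_{i+1}(B)` are central involutions of `B`
  have hcomm : ∀ b ∈ B, b ^ 2 ^ (i + 1) = 1 → ∀ x : X,
      b * x * b⁻¹ * x⁻¹ ∈ B ∧ (b * x * b⁻¹ * x⁻¹) ^ 2 = 1 := by
    intro b hbB hb x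
    have h1 : x * b⁻¹ * x⁻¹ ∈ B := hBn.conj_mem _ (B.inv_mem hbB) x
    have h2 : b * x * b⁻¹ * x⁻¹ = b * (x * b⁻¹ * x⁻¹) := by group
    have hb2 : b ^ 2 ∈ Subgroup.center X := by
      apply hi _ (B.pow_mem hbB _)
      rw [← pow_mul, ← pow_succ']
      exact hb
    refine ⟨by rw [h2]; exact B.mul_mem hbB h1, ?_⟩
    rw [h2]
    have hc : Commute b (x * b⁻¹ * x⁻¹) := hBab b hbB _ h1
    rw [hc.mul_pow]
    have h3 : (x * b⁻¹ * x⁻¹) ^ 2 = x * (b ^ 2)⁻¹ * x⁻¹ := by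
      rw [pow_two, pow_two]
      group
    rw [h3]
    have h4 : x * (b ^ 2)⁻¹ = (b ^ 2)⁻¹ * x :=
      Subgroup.mem_center_iff.mp (Subgroup.inv_mem _ hb2) x
    rw [h4]
    group
  have hcen : ∀ b ∈ B, b ^ 2 ^ (i + 1) = 1 → ∀ x : X,
      b * x * b⁻¹ * x⁻¹ ∈ Subgroup.center X :=
    fun b hbB hb x => hV1 _ (hcomm b hbB hb x).1 (hcomm b hbB hb x).2
  -- the subgroup `N = C_X(Ω_{i+1}(B))` as an intersection of kernels
  obtain ⟨N, hNdef⟩ : ∃ N : Subgroup X,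
      N = ⨅ b : {b : X // b ∈ B ∧ b ^ 2 ^ (i + 1) = 1},
        (commHom b.1 (hcen b.1 b.2.1 b.2.2)).ker := ⟨_, rfl⟩
  have hNF : ∀ n : X, n ∈ N ↔ ∀ (b : X) (hbB : b ∈ B) (hb : b ^ 2 ^ (i + 1) = 1),
      commHom b (hcen b hbB hb) n = 1 := by
    intro n
    rw [hNdef, Subgroup.mem_iInf]
    constructor
    · intro h b hbB hb
      exact MonoidHom.mem_ker.mp (h ⟨b, hbB, hb⟩)
    · intro h b
      exact MonoidHom.mem_ker.mpr (h b.1 b.2.1 b.2.2)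
  have hNmem : ∀ n : X, n ∈ N ↔ ∀ b ∈ B, b ^ 2 ^ (i + 1) = 1 → n * b = b * n := by
    intro n
    rw [hNF]
    constructor
    · intro h b hbB hb
      exact (commHom_eq_one_iff _ _ n).mp (h b hbB hb)
    · intro h b hbB hb
      exact (commHom_eq_one_iff _ _ n).mpr (h b hbB hb)
  have hNnormal : N.Normal := by
    rw [hNdef]
    refine Subgroup.normal_iInf_normal ?_
    intro b
    exact MonoidHom.normal_ker (commHom b.1 (hcen b.1 b.2.1 b.2.2))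
  have hNcomm : commutator X ≤ N := by
    rw [hNdef]
    refine le_iInf ?_
    intro b
    exact commutator_le_ker_commHom b.1 (hcen b.1 b.2.1 b.2.2)
  have hNA : ∀ ψ ∈ A, ∀ n ∈ N, ψ n ∈ N := by
    intro ψ hψ n hn
    rw [hNmem] at hn ⊢
    intro b hbB hb
    have h1 : ψ⁻¹ b ∈ B := hBA ψ⁻¹ (A.inv_mem hψ) b hbB
    have h2 : (ψ⁻¹ b) ^ 2 ^ (i + 1) = 1 := by rw [← map_pow, hb, map_one]
    have h3 := hn (ψ⁻¹ b) h1 h2
    have h4 := congrArg ψ h3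
    have h5 : ψ (ψ⁻¹ b) = b := MulEquiv.apply_symm_apply ψ b
    rw [map_mul, map_mul, h5] at h4
    exact h4
  -- (S): an automorphism trivial on `V_B` is trivial modulo `N`
  have hS : ∀ θ ∈ A, (∀ v ∈ B, v ^ 2 = 1 → θ v = v) → ∀ x' : X, x'⁻¹ * θ x' ∈ N := by
    intro θ hθ hθV x'
    rw [hNmem]
    intro b hbB hb
    have hθb : θ b ∈ B := hBA θ hθ b hbB
    have hω : b⁻¹ * θ b ∈ Subgroup.center X := by
      apply hi _ (B.mul_mem (B.inv_mem hbB) hθb)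
      have hc : Commute b⁻¹ (θ b) := hBab _ (B.inv_mem hbB) _ hθb
      rw [hc.mul_pow, inv_pow, ← map_pow]
      have h1 : θ (b ^ 2 ^ i) = b ^ 2 ^ i := hθV _ (B.pow_mem hbB _) (by
        rw [← pow_mul, ← pow_succ]
        exact hb)
      rw [h1, inv_mul_cancel]
    obtain ⟨hcB, hc2⟩ := hcomm b hbB hb x'
    have h2 : θ (b * x' * b⁻¹ * x'⁻¹) = b * x' * b⁻¹ * x'⁻¹ := hθV _ hcB hc2
    rw [map_mul, map_mul, map_mul, map_inv, map_inv] at h2
    have hωt : (b⁻¹ * θ b) * θ x' = θ x' * (b⁻¹ * θ b) :=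
      (Subgroup.mem_center_iff.mp hω (θ x')).symm
    have h3 : θ b * θ x' * (θ b)⁻¹ * (θ x')⁻¹ = b * θ x' * b⁻¹ * (θ x')⁻¹ := by
      have e1 : θ b * θ x' * (θ b)⁻¹ * (θ x')⁻¹
          = b * ((b⁻¹ * θ b) * θ x') * (θ b)⁻¹ * (θ x')⁻¹ := by group
      rw [e1, hωt]
      group
    rw [h3] at h2
    generalize θ x' = t at h2 ⊢
    have h4 : t * b⁻¹ * t⁻¹ = x' * b⁻¹ * x'⁻¹ := by
      have e : b⁻¹ * (b * t * b⁻¹ * t⁻¹) = b⁻¹ * (b * x' * b⁻¹ * x'⁻¹) := by rw [h2]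
      have e1 : b⁻¹ * (b * t * b⁻¹ * t⁻¹) = t * b⁻¹ * t⁻¹ := by group
      have e2 : b⁻¹ * (b * x' * b⁻¹ * x'⁻¹) = x' * b⁻¹ * x'⁻¹ := by group
      rw [e1, e2] at e
      exact e
    have h5 : x'⁻¹ * t * b⁻¹ = b⁻¹ * (x'⁻¹ * t) := by
      have e1 : x'⁻¹ * t * b⁻¹ = x'⁻¹ * (t * b⁻¹ * t⁻¹) * t := by group
      rw [e1, h4]
      group
    have e3 : x'⁻¹ * t * b = b * (b⁻¹ * (x'⁻¹ * t)) * b := by group
    rw [e3, ← h5]
    group
  -- the involution `v1` and the automorphism `φ` moving it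
  obtain ⟨v1, hv1def⟩ : ∃ v1 : X, v1 = b1 ^ 2 ^ i := ⟨_, rfl⟩
  rw [← hv1def] at hb1i
  have hv1B : v1 ∈ B := by
    rw [hv1def]
    exact B.pow_mem hb1B _
  have hv12 : v1 ^ 2 = 1 := by
    rw [hv1def, ← pow_mul, ← pow_succ]
    exact hb1
  obtain ⟨φ, hφ, hφv1⟩ := hVm _ hv1B hv12 hb1i
  have hφfree : ∀ v ∈ B, v ^ 2 = 1 → v ≠ 1 → φ v ≠ v := by
    rcases hV3 φ hφ with h | h
    · exact absurd (h _ hv1B hv12) hφv1
    · exact h
  have hφv1B := hVφ φ hφ v1 hv1B hv12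
  have hφφv1B := hVφ φ hφ (φ v1) hφv1B.1 hφv1B.2
  have huB := hVmul v1 hv1B hv12 (φ v1) hφv1B.1 hφv1B.2
  have hφv1ne : φ v1 ≠ 1 := by
    intro h
    apply hb1i
    exact φ.injective (h.trans (map_one φ).symm)
  have hune1 : v1 * φ v1 ≠ 1 := by
    intro h
    apply hφv1
    have h1 : v1 * v1 = 1 := by
      rw [← pow_two]
      exact hv12
    exact mul_left_cancel (h.trans h1.symm)
  have hunev1 : v1 * φ v1 ≠ v1 := by
    intro h
    apply hφv1ne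
    exact mul_left_cancel (h.trans (mul_one v1).symm)
  have huneφ : v1 * φ v1 ≠ φ v1 := by
    intro h
    apply hb1i
    exact mul_right_cancel (h.trans (one_mul _).symm)
  have hcover : ∀ v ∈ B, v ^ 2 = 1 → v = 1 ∨ v = v1 ∨ v = φ v1 ∨ v = v1 * φ v1 := by
    intro v hv hv2
    have h := four_cover hV4 ⟨1, B.one_mem, one_pow 2⟩ ⟨v1, hv1B, hv12⟩
      ⟨φ v1, hφv1B.1, hφv1B.2⟩ ⟨v1 * φ v1, huB.1, huB.2⟩
      (fun h => hb1i (Subtype.ext_iff.mp h).symm)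
      (fun h => hφv1ne (Subtype.ext_iff.mp h).symm)
      (fun h => hune1 (Subtype.ext_iff.mp h).symm)
      (fun h => hφv1 (Subtype.ext_iff.mp h).symm)
      (fun h => hunev1 (Subtype.ext_iff.mp h).symm)
      (fun h => huneφ (Subtype.ext_iff.mp h).symm)
      ⟨v, hv, hv2⟩
    rcases h with h | h | h | h
    · exact Or.inl (Subtype.ext_iff.mp h)
    · exact Or.inr (Or.inl (Subtype.ext_iff.mp h))
    · exact Or.inr (Or.inr (Or.inl (Subtype.ext_iff.mp h)))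
    · exact Or.inr (Or.inr (Or.inr (Subtype.ext_iff.mp h)))
  have hφ2 : φ (φ v1) = v1 * φ v1 := by
    rcases hcover _ hφφv1B.1 hφφv1B.2 with h | h | h | h
    · exfalso
      apply hφv1ne
      exact φ.injective (h.trans (map_one φ).symm)
    · exfalso
      apply hφfree _ huB.1 huB.2 hune1
      rw [map_mul, h]
      exact hBab _ hφv1B.1 _ hv1B
    · exfalso
      exact hφv1 (φ.injective h)
    · exact h
  have hφ3 : φ (φ (φ v1)) = v1 := by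
    rw [hφ2, map_mul, hφ2]
    have hc : φ v1 * v1 = v1 * φ v1 := hBab _ hφv1B.1 _ hv1B
    rw [← mul_assoc, hc, mul_assoc, ← pow_two, hφv1B.2, mul_one]
  have hφ3A : φ * φ * φ ∈ A := A.mul_mem (A.mul_mem hφ hφ) hφ
  have hφ3V : ∀ v ∈ B, v ^ 2 = 1 → (φ * φ * φ) v = v := by
    rcases hV3 _ hφ3A with h | h
    · exact h
    · exact absurd hφ3 (h v1 hv1B hv12 hb1i)
  -- the norm element `y`
  obtain ⟨y, hy⟩ : ∃ y : X, y = x * φ x * φ (φ x) := ⟨_, rfl⟩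
  have hstep1 : ∀ x' : X, x'⁻¹ * φ (φ (φ x')) ∈ N := fun x' => hS _ hφ3A hφ3V x'
  have hstep2 : y⁻¹ * φ y ∈ N := by
    rw [hNF]
    intro b hbB hb
    have h1 := (hNF _).mp (hstep1 x) b hbB hb
    rw [map_mul, map_inv, inv_mul_eq_one] at h1
    rw [hy]
    simp only [map_mul, map_inv]
    rw [← h1, inv_mul_eq_one, mul_assoc]
    exact (Subgroup.mem_center_iff.mp (hcen b hbB hb x) _).symm
  have hstep3 : y⁻¹ * φ (φ y) ∈ N := by
    have h1 : y⁻¹ * φ (φ y) = (y⁻¹ * φ y) * φ (y⁻¹ * φ y) := by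
      rw [map_mul, map_inv]
      group
    rw [h1]
    exact N.mul_mem hstep2 (hNA φ hφ _ hstep2)
  have hyN : y ∈ N := by
    apply hFix' N hNnormal hNcomm
    intro ψ hψ
    have hstep : ∀ χ ∈ A, y⁻¹ * χ y ∈ N → χ v1 = ψ v1 → y⁻¹ * ψ y ∈ N := by
      intro χ hχ hχy hχv
      have hθA : χ⁻¹ * ψ ∈ A := A.mul_mem (A.inv_mem hχ) hψ
      have hθv1 : (χ⁻¹ * ψ) v1 = v1 := by
        show χ⁻¹ (ψ v1) = v1
        rw [← hχv]
        exact MulEquiv.symm_apply_apply χ v1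
      have hθV : ∀ v ∈ B, v ^ 2 = 1 → (χ⁻¹ * ψ) v = v := by
        rcases hV3 _ hθA with h | h
        · exact h
        · exact absurd hθv1 (h v1 hv1B hv12 hb1i)
      have h1 := hS _ hθA hθV y
      have h2 : y⁻¹ * ψ y = (y⁻¹ * χ y) * χ (y⁻¹ * (χ⁻¹ * ψ) y) := by
        have e : χ ((χ⁻¹ * ψ) y) = ψ y := by
          show χ (χ⁻¹ (ψ y)) = ψ y
          exact MulEquiv.apply_symm_apply χ (ψ y)
        rw [map_mul, map_inv, e]
        group
      rw [h2]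
      exact N.mul_mem hχy (hNA χ hχ _ h1)
    have hψv := hVφ ψ hψ v1 hv1B hv12
    rcases hcover _ hψv.1 hψv.2 with h | h | h | h
    · exfalso
      apply hb1i
      exact ψ.injective (h.trans (map_one ψ).symm)
    · apply hstep 1 A.one_mem
      · show y⁻¹ * y ∈ N
        rw [inv_mul_cancel]
        exact N.one_mem
      · exact h.symm
    · exact hstep φ hφ hstep2 h.symm
    · apply hstep (φ * φ) (A.mul_mem hφ hφ) hstep3
      show φ (φ v1) = ψ v1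
      rw [hφ2, h]
  -- the three directions `b1`, `φ b1`, `φ (φ b1)`
  have hb2B : φ b1 ∈ B := hBA φ hφ b1 hb1B
  have hb2 : (φ b1) ^ 2 ^ (i + 1) = 1 := by rw [← map_pow, hb1, map_one]
  have hb3B : φ (φ b1) ∈ B := hBA φ hφ _ hb2B
  have hb3 : (φ (φ b1)) ^ 2 ^ (i + 1) = 1 := by rw [← map_pow, hb2, map_one]
  have hp2 : (φ b1) ^ 2 ^ i = φ v1 := by rw [hv1def, map_pow]
  have hp3 : (φ (φ b1)) ^ 2 ^ i = φ (φ v1) := by rw [hv1def, map_pow, map_pow]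
  have hβ1 : b1 * x * b1⁻¹ * x⁻¹ = 1 := by
    rw [← hxb1]
    group
  have hy3 := (hNF y).mp hyN (φ (φ b1)) hb3B hb3
  rw [hy, map_mul, map_mul] at hy3
  have hy3' := hy3
  simp only [commHom_apply] at hy3'
  have e3 : φ (φ b1) * φ (φ x) * (φ (φ b1))⁻¹ * (φ (φ x))⁻¹ = 1 := by
    have h : φ (φ (b1 * x * b1⁻¹ * x⁻¹)) = 1 := by rw [hβ1, map_one, map_one]
    simp only [map_mul, map_inv] at h
    exact h
  have e2 : φ (φ b1) * φ x * (φ (φ b1))⁻¹ * (φ x)⁻¹ = φ (φ b1 * x * (φ b1)⁻¹ * x⁻¹) := by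
    simp only [map_mul, map_inv]
  rw [e3, mul_one, e2] at hy3'
  have hcB : b1 * φ b1 * φ (φ b1) ∈ B := B.mul_mem (B.mul_mem hb1B hb2B) hb3B
  have hcpow : (b1 * φ b1 * φ (φ b1)) ^ 2 ^ i = 1 := by
    have hc1 : Commute b1 (φ b1) := hBab _ hb1B _ hb2B
    have hc2 : Commute (b1 * φ b1) (φ (φ b1)) := hBab _ (B.mul_mem hb1B hb2B) _ hb3B
    rw [hc2.mul_pow, hc1.mul_pow, hp2, hp3, ← hv1def, hφ2, ← pow_two]
    exact huB.2
  have hcZ : b1 * φ b1 * φ (φ b1) ∈ Subgroup.center X := hi _ hcB hcpow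
  have hβc : (b1 * φ b1 * φ (φ b1)) * x * (b1 * φ b1 * φ (φ b1))⁻¹ * x⁻¹ = 1 := by
    have h1 : x * (b1 * φ b1 * φ (φ b1)) = (b1 * φ b1 * φ (φ b1)) * x :=
      Subgroup.mem_center_iff.mp hcZ x
    rw [← h1]
    group
  rw [comm_mul_left _ _ _ (hcen _ hb3B hb3 x), comm_mul_left _ _ _ (hcen _ hb2B hb2 x), hβ1,
    one_mul] at hβc
  obtain ⟨haB, ha2⟩ := hcomm _ hb2B hb2 x
  generalize hadef : φ b1 * x * (φ b1)⁻¹ * x⁻¹ = a at hβc hy3' haB ha2
  generalize ha3def : φ (φ b1) * x * (φ (φ b1))⁻¹ * x⁻¹ = a3 at hβc hy3'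
  have ha3 : a3 = a := by
    have h1 : a * a3 = a * a := by rw [hβc, ← pow_two, ha2]
    exact mul_left_cancel h1
  rw [ha3] at hy3'
  have hφa : φ a = a := by
    have h1 : a * φ a = a * a := by rw [hy3', ← pow_two, ha2]
    exact mul_left_cancel h1
  have ha1 : a = 1 := by
    by_contra hne
    exact hφfree a haB ha2 hne hφa
  have hx2 : x * φ b1 = φ b1 * x := by
    have h1 : φ b1 * x = (φ b1 * x * (φ b1)⁻¹ * x⁻¹) * (x * φ b1) := by group
    rw [hadef, ha1, one_mul] at h1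
    exact h1.symm
  have hx3 : x * φ (φ b1) = φ (φ b1) * x := by
    have h1 : φ (φ b1) * x = (φ (φ b1) * x * (φ (φ b1))⁻¹ * x⁻¹) * (x * φ (φ b1)) := by group
    rw [ha3def, ha3, ha1, one_mul] at h1
    exact h1.symm
  -- conclusion
  intro b' hb'B hb'
  have hfin : ∀ c ∈ B, x * c = c * x → c ^ 2 ^ i = b' ^ 2 ^ i → x * b' = b' * x := by
    intro c hcB' hxc hcp
    have hω : b' * c⁻¹ ∈ Subgroup.center X := by
      apply hi _ (B.mul_mem hb'B (B.inv_mem hcB'))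
      have hc : Commute b' c⁻¹ := hBab _ hb'B _ (B.inv_mem hcB')
      rw [hc.mul_pow, inv_pow, hcp, mul_inv_cancel]
    have h1 : x * (b' * c⁻¹) = (b' * c⁻¹) * x := Subgroup.mem_center_iff.mp hω x
    have e1 : x * b' = x * (b' * c⁻¹) * c := by group
    rw [e1, h1, mul_assoc, hxc]
    group
  rcases hcover _ (B.pow_mem hb'B _) (by
    rw [← pow_mul, ← pow_succ]
    exact hb') with h | h | h | h
  · exact hfin 1 B.one_mem (by rw [mul_one, one_mul]) (by rw [one_pow, h])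
  · exact hfin b1 hb1B hxb1 (by rw [h, hv1def])
  · exact hfin (φ b1) hb2B hx2 (by rw [h, hp2])
  · exact hfin (φ (φ b1)) hb3B hx3 (by rw [h, hp3, hφ2])

example : StVB.{u} → StFix.{u} → Cfsg.Agent.H17.Tg.StC2.{u} := c2

end Cfsg.Agent.H11.Tg

#print axioms Cfsg.Agent.H11.Tg.c2
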