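import Mathlib
import Cfsg.Agent.H17.TgDefs

/-!
# S1904 (helper17's project), piece TG-C3: if `Ω_i(B)` is central then `C_X(Ω_{i+1}(B))` has
index at most 4 and contains all squares
-/

set_option autoImplicit false

universe u

namespace Cfsg.Agent.H11.Tg

open Cfsg Cfsg.Agent.H17.Tg

theorem c3 (hVB : StVB.{u}) (hC2 : StC2.{u}) : StC3.{u} := by
  intro X _ _ A hyp B hB hBZ i hi
  obtain ⟨hV1, hV4, -, -, -, -⟩ := hVB X A hyp B hB hBZ
  have hC2' := hC2 X A hyp B hB hBZ i hi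
  obtain ⟨hBn, hBA, hBab⟩ := hB
  -- commutators `[b, x]` for `b ∈ Ω_{i+1}(B)` are involutions of `B`
  have hcomm : ∀ b ∈ B, b ^ 2 ^ (i + 1) = 1 → ∀ x : X,
      b * x * b⁻¹ * x⁻¹ ∈ B ∧ (b * x * b⁻¹ * x⁻¹) ^ 2 = 1 := by
    intro b hbB hb x
    have h1 : x * b⁻¹ * x⁻¹ ∈ B := hBn.conj_mem _ (B.inv_mem hbB) x
    have h2 : b * x * b⁻¹ * x⁻¹ = b * (x * b⁻¹ * x⁻¹) := by group
    have hb2 : b ^ 2 ∈ Subgroup.center X := by
      apply hi _ (B.pow_mem hbB _)
      rw [← pow_mul, ← pow_succ']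
      exact hb
    refine ⟨by rw [h2]; exact B.mul_mem hbB h1, ?_⟩
    rw [h2]
    have hc : Commute b (x * b⁻¹ * x⁻¹) := hBab b hbB _ h1
    rw [hc.mul_pow]
    have h3 : (x * b⁻¹ * x⁻¹) ^ 2 = x * (b ^ 2)⁻¹ * x⁻¹ := by
      rw [pow_two, pow_two]
      group
    rw [h3]
    have h4 : x * (b ^ 2)⁻¹ = (b ^ 2)⁻¹ * x :=
      Subgroup.mem_center_iff.mp (Subgroup.inv_mem _ hb2) x
    rw [h4]
    group
  have hsq : ∀ x : X, ∀ b ∈ B, b ^ 2 ^ (i + 1) = 1 → x ^ 2 * b = b * x ^ 2 := by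
    intro x b hbB hb
    obtain ⟨hcB, hc2⟩ := hcomm b hbB hb x
    have hcZ : b * x * b⁻¹ * x⁻¹ ∈ Subgroup.center X := hV1 _ hcB hc2
    have h1 : b * x = (b * x * b⁻¹ * x⁻¹) * (x * b) := by group
    have hcx : x * (b * x * b⁻¹ * x⁻¹) = (b * x * b⁻¹ * x⁻¹) * x :=
      Subgroup.mem_center_iff.mp hcZ x
    generalize b * x * b⁻¹ * x⁻¹ = c at h1 hcx hc2
    have e1 : b * x ^ 2 = (b * x) * x := by rw [pow_two, mul_assoc]
    rw [e1, h1]
    have e2 : c * (x * b) * x = c * x * (b * x) := by group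
    rw [e2, h1]
    have e3 : c * x * (c * (x * b)) = c * (x * c) * (x * b) := by group
    rw [e3, hcx]
    have e4 : c * (c * x) * (x * b) = c ^ 2 * (x ^ 2 * b) := by
      rw [pow_two, pow_two]
      group
    rw [e4, hc2, one_mul]
  refine ⟨?_, hsq⟩
  by_cases hall : ∀ b ∈ B, b ^ 2 ^ (i + 1) = 1 → b ∈ Subgroup.center X
  · have htop : Subgroup.centralizer {b : X | b ∈ B ∧ b ^ 2 ^ (i + 1) = 1} = ⊤ := by
      rw [eq_top_iff]
      intro x _
      rw [Subgroup.mem_centralizer_iff]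
      rintro b ⟨hbB, hb⟩
      exact (Subgroup.mem_center_iff.mp (hall b hbB hb) x).symm
    rw [htop, Subgroup.index_top]
    norm_num
  · push Not at hall
    obtain ⟨b1, hb1B, hb1, hb1Z⟩ := hall
    have hb1i : b1 ^ 2 ^ i ≠ 1 := fun h => hb1Z (hi b1 hb1B h)
    let f : X →* X :=
      { toFun := fun x => b1 * x * b1⁻¹ * x⁻¹
        map_one' := by group
        map_mul' := by
          intro x y
          have hcZ : b1 * y * b1⁻¹ * y⁻¹ ∈ Subgroup.center X :=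
            hV1 _ (hcomm b1 hb1B hb1 y).1 (hcomm b1 hb1B hb1 y).2
          have h1 : x⁻¹ * (b1 * y * b1⁻¹ * y⁻¹) = (b1 * y * b1⁻¹ * y⁻¹) * x⁻¹ :=
            Subgroup.mem_center_iff.mp hcZ x⁻¹
          show b1 * (x * y) * b1⁻¹ * (x * y)⁻¹ = b1 * x * b1⁻¹ * x⁻¹ * (b1 * y * b1⁻¹ * y⁻¹)
          rw [mul_assoc (b1 * x * b1⁻¹) x⁻¹, h1]
          group }
    have hf : ∀ x : X, f x = b1 * x * b1⁻¹ * x⁻¹ := fun x => rfl
    have hker : f.ker = Subgroup.centralizer {b : X | b ∈ B ∧ b ^ 2 ^ (i + 1) = 1} := by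
      ext x
      rw [MonoidHom.mem_ker, Subgroup.mem_centralizer_iff, hf]
      constructor
      · intro hx
        have hxb : x * b1 = b1 * x := by
          have h1 : b1 * x = (b1 * x * b1⁻¹ * x⁻¹) * (x * b1) := by group
          rw [hx, one_mul] at h1
          exact h1.symm
        rintro b ⟨hbB, hb⟩
        exact (hC2' x b1 hb1B hb1 hb1i hxb b hbB hb).symm
      · intro hx
        have h1 : b1 * x = x * b1 := hx b1 ⟨hb1B, hb1⟩
        rw [h1]
        group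
    have hrange : ∀ y ∈ f.range, y ∈ B ∧ y ^ 2 = 1 := by
      rintro _ ⟨x, rfl⟩
      exact hcomm b1 hb1B hb1 x
    have hle : Nat.card f.range ≤ Nat.card {v : X // v ∈ B ∧ v ^ 2 = 1} :=
      Nat.card_le_card_of_injective
        (fun y : f.range => (⟨y.1, hrange y.1 y.2⟩ : {v : X // v ∈ B ∧ v ^ 2 = 1}))
        (by
          intro y1 y2 h
          have h' : (y1 : X) = (y2 : X) :=
            congrArg (fun v : {v : X // v ∈ B ∧ v ^ 2 = 1} => v.1) h
          exact Subtype.ext h')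
    rw [hV4] at hle
    rw [← hker, Subgroup.index_ker]
    exact hle

example : StVB.{u} → StC2.{u} → Cfsg.Agent.H17.Tg.StC3.{u} := c3

end Cfsg.Agent.H11.Tg

#print axioms Cfsg.Agent.H11.Tg.c3
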