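import Mathlib
import Cfsg.Agent.H64.TmDefs
import Cfsg.Agent.H82.Irr

/-!
# S3701 (helper64's TM project), assembly TM-END: the configuration forces `H = G`
-/

set_option autoImplicit false

namespace Cfsg.Agent.H11.Tm

open Cfsg Subgroup Cfsg.Agent.H64.Tm

universe u

theorem endp (hK : StKey.{u}) (hS : StSwap.{u}) (hF : StFin.{u}) : StEnd.{u} := by
  intro G _ _ H T a b c x y cfg
  obtain ⟨χ, hχ1, hχT, hχx, hχy, hχxy⟩ := hK G H T a b c x y cfg
  have cfg' := hS G H T a b c x y cfg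
  obtain ⟨θ, hθ1, hθT, hθy, hθx, hθyx⟩ := hK G H T a c b y x cfg'
  have hKn : (Cfsg.Agent.H82.irrKer χ ⊓ Cfsg.Agent.H82.irrKer θ).Normal := inferInstance
  refine hF G H T a b c x y cfg (Cfsg.Agent.H82.irrKer χ ⊓ Cfsg.Agent.H82.irrKer θ) hKn ?_ ?_ ?_ ?_
  · intro t ht
    refine ⟨?_, ?_⟩
    · exact (Cfsg.Agent.H82.mem_irrKer χ t).mpr (by rw [hχT t ht, hχ1])
    · exact (Cfsg.Agent.H82.mem_irrKer θ t).mpr (by rw [hθT t ht, hθ1])
  · intro h
    have h1 := (Cfsg.Agent.H82.mem_irrKer θ x).mp h.2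
    rw [hθ1] at h1
    exact hθx h1
  · intro h
    have h1 := (Cfsg.Agent.H82.mem_irrKer χ y).mp h.1
    rw [hχ1] at h1
    exact hχy h1
  · intro h
    have h1 := (Cfsg.Agent.H82.mem_irrKer χ (x * y)).mp h.1
    rw [hχ1] at h1
    exact hχxy h1

example (hK : StKey.{u}) (hS : StSwap.{u}) (hF : StFin.{u}) : Cfsg.Agent.H64.Tm.StEnd.{u} :=
  endp hK hS hF

end Cfsg.Agent.H11.Tm

#print axioms Cfsg.Agent.H11.Tm.endp
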