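import Mathlib
import Cfsg.Agent.H64.TmDefs

/-!
# S3701 (helper64's TM project), assembly TM-KEY: a linear character, trivial on `T` and at `x`,
nontrivial at `y` and at `x * y`
-/

set_option autoImplicit false

namespace Cfsg.Agent.H11.Tm

open Cfsg Subgroup Cfsg.Agent.H64.Tm

universe u

theorem key (hD : StDecomp.{u}) (hI : StInv.{u}) (hV : StVals.{u}) (hX : StXPairs.{u})
    (hY : StYPairs.{u}) (hL : StLin.{u}) : StKey.{u} := by
  intro G _ _ H T a b c x y cfg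
  obtain ⟨χ₁, χ₂, hdec⟩ := hD G H T a b c x y cfg
  obtain ⟨hcS, hinvol⟩ := hV G H T a b c x y cfg
  have h1S : (1 : G) ∉ S1G a b c x := hinvol 1 (one_mul 1)
  have hxS : x ∉ S1G a b c x := hinvol x cfg.x2
  have hyS : y ∉ S1G a b c x := hinvol y cfg.y2
  have hxy2 : (x * y) * (x * y) = 1 := by
    have e : (x * y) * (x * y) = x * (y * x) * y := by group
    rw [e, ← cfg.xy]
    have e2 : x * (x * y) * y = (x * x) * (y * y) := by group
    rw [e2, cfg.x2, cfg.y2, one_mul]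
  have hxyS : x * y ∉ S1G a b c x := hinvol (x * y) hxy2
  have hdec' : ∀ g : G, 1 + χ₁.1 g - χ₂.1 g = (S1G a b c x).indicator (fun _ => (3 : ℂ)) g := hdec
  -- the pair formula at `x`
  have hx := hI G (S1G a b c x) χ₁ χ₂ hdec' h1S x hxS
  have hempty : Nat.card {p : G × G // IsConj x p.1 ∧ IsConj x p.2 ∧ p.1 * p.2 ∈ S1G a b c x}
      = 0 := by
    rw [Nat.card_eq_zero]
    left
    exact ⟨fun p => hX G H T a b c x y cfg p.1.1 p.1.2 p.2.1 p.2.2.1 p.2.2.2⟩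
  have hkpos : ∀ z : G, (Nat.card {w : G // IsConj z w} : ℂ) ≠ 0 := by
    intro z
    have : Nonempty {w : G // IsConj z w} := ⟨⟨z, IsConj.refl z⟩⟩
    exact Nat.cast_ne_zero.mpr Nat.card_pos.ne'
  have hχx : χ₁.1 x = χ₁.1 1 := by
    rw [hempty, Nat.cast_zero, mul_zero] at hx
    rcases mul_eq_zero.mp hx with h | h
    · exact absurd ((pow_eq_zero_iff (two_ne_zero)).mp h) (hkpos x)
    · have h2 := (pow_eq_zero_iff (two_ne_zero)).mp h
      exact (sub_eq_zero.mp h2).symm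
  obtain ⟨hf1, hχT⟩ := hL G H T a b c x y cfg χ₁ χ₂ hdec hχx
  obtain ⟨⟨u, v, hu, hv, huv⟩, ⟨u', v', hu', hv', huv'⟩⟩ := hY G H T a b c x y cfg
  refine ⟨χ₁, hf1, hχT, by rw [hχx, hf1], ?_, ?_⟩
  · intro hy1
    have hy := hI G (S1G a b c x) χ₁ χ₂ hdec' h1S y hyS
    rw [hf1, hy1, sub_self] at hy
    have hpos : (Nat.card {p : G × G // IsConj y p.1 ∧ IsConj y p.2 ∧ p.1 * p.2 ∈ S1G a b c x}
        : ℂ) ≠ 0 := by
      have : Nonempty {p : G × G // IsConj y p.1 ∧ IsConj y p.2 ∧ p.1 * p.2 ∈ S1G a b c x} :=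
        ⟨⟨(u, v), hu, hv, huv⟩⟩
      exact Nat.cast_ne_zero.mpr Nat.card_pos.ne'
    have h6 : (3 : ℂ) * 1 * (1 + 1) ≠ 0 := by norm_num
    have h0 : (Nat.card {w : G // IsConj y w} : ℂ) ^ 2 * (0 : ℂ) ^ 2 = 0 := by ring
    rw [h0] at hy
    exact mul_ne_zero h6 hpos hy.symm
  · intro hy1
    have hy := hI G (S1G a b c x) χ₁ χ₂ hdec' h1S (x * y) hxyS
    rw [hf1, hy1, sub_self] at hy
    have hpos : (Nat.card {p : G × G // IsConj (x * y) p.1 ∧ IsConj (x * y) p.2 ∧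
        p.1 * p.2 ∈ S1G a b c x} : ℂ) ≠ 0 := by
      have : Nonempty {p : G × G // IsConj (x * y) p.1 ∧ IsConj (x * y) p.2 ∧
          p.1 * p.2 ∈ S1G a b c x} := ⟨⟨(u', v'), hu', hv', huv'⟩⟩
      exact Nat.cast_ne_zero.mpr Nat.card_pos.ne'
    have h6 : (3 : ℂ) * 1 * (1 + 1) ≠ 0 := by norm_num
    have h0 : (Nat.card {w : G // IsConj (x * y) w} : ℂ) ^ 2 * (0 : ℂ) ^ 2 = 0 := by ring
    rw [h0] at hy
    exact mul_ne_zero h6 hpos hy.symm

example (hD : StDecomp.{u}) (hI : StInv.{u}) (hV : StVals.{u}) (hX : StXPairs.{u})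
    (hY : StYPairs.{u}) (hL : StLin.{u}) : Cfsg.Agent.H64.Tm.StKey.{u} :=
  key hD hI hV hX hY hL

end Cfsg.Agent.H11.Tm

#print axioms Cfsg.Agent.H11.Tm.key
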