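import Mathlib
import Cfsg.Agent.H45.UDefs
import Cfsg.Agent.H17.SUGen
import Cfsg.Agent.H98.UIso

set_option autoImplicit false
set_option linter.unusedSectionVars false

/-!
# `Q ∪ Q⁻` generates the unitary group in hyperbolic block coordinates (helper11, for S2412)
-/

namespace Cfsg.Agent.H11.U

open Matrix Cfsg.Agent.H45.U

variable {F : Type*} [Field F] {m d : Type*} [Fintype m] [DecidableEq m] [Fintype d]
  [DecidableEq d]

theorem blk3_mulVec_tri (A₁₁ A₁₂ : Matrix m m F) (A₁₃ : Matrix m d F) (A₂₁ A₂₂ : Matrix m m F)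
    (A₂₃ : Matrix m d F) (A₃₁ A₃₂ : Matrix d m F) (A₃₃ : Matrix d d F) (a b : m → F)
    (e : d → F) :
    blk3 A₁₁ A₁₂ A₁₃ A₂₁ A₂₂ A₂₃ A₃₁ A₃₂ A₃₃ *ᵥ tri a b e =
      tri (A₁₁ *ᵥ a + A₁₂ *ᵥ b + A₁₃ *ᵥ e) (A₂₁ *ᵥ a + A₂₂ *ᵥ b + A₂₃ *ᵥ e)
        (A₃₁ *ᵥ a + A₃₂ *ᵥ b + A₃₃ *ᵥ e) := by
  ext i
  rcases i with i | i | i <;>
  simp [blk3, tri, Matrix.mulVec, dotProduct, Fintype.sum_sum_type, add_assoc]

theorem eU_mulVec_tri (σ : F →+* F) (c : Matrix m d F) (S : Matrix m m F) (a b : m → F)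
    (e : d → F) :
    eU σ c S *ᵥ tri a b e = tri (a + S *ᵥ b + c *ᵥ e) b (e - ct σ c *ᵥ b) := by
  unfold eU
  rw [blk3_mulVec_tri]
  congr 1
  · simp
  · simp
  · simp [Matrix.neg_mulVec, sub_eq_add_neg, add_comm]

theorem eL_mulVec_tri (σ : F →+* F) (c : Matrix m d F) (S : Matrix m m F) (a b : m → F)
    (e : d → F) :
    eL σ c S *ᵥ tri a b e = tri a (b + S *ᵥ a + c *ᵥ e) (e - ct σ c *ᵥ a) := by
  unfold eL
  rw [blk3_mulVec_tri]
  congr 1
  · simp
  · simp [add_comm]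
  · simp [Matrix.neg_mulVec, sub_eq_add_neg, add_comm]

theorem tri_eta (w : m ⊕ (m ⊕ d) → F) :
    ∃ (a b : m → F) (e : d → F), w = tri a b e := by
  refine ⟨fun i => w (Sum.inl i), fun i => w (Sum.inr (Sum.inl i)),
    fun l => w (Sum.inr (Sum.inr l)), ?_⟩
  ext i
  rcases i with i | i | i <;> rfl

/-- sesquilinear pairing of coordinate vectors. -/
def sp {ι : Type*} [Fintype ι] (σ : F →+* F) (p q : ι → F) : F := ∑ i, p i * σ (q i)

theorem hH_tri_sp (σ : F →+* F) (a b a' b' : m → F) (e e' : d → F) :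
    hH σ (tri a b e) (tri a' b' e') = sp σ a b' + sp σ b a' + sp σ e e' := by
  simp [hH, tri, sp]

section sp

variable {ι κ : Type*} [Fintype ι] [Fintype κ] (σ : F →+* F)

theorem sp_add_left (p p' q : ι → F) : sp σ (p + p') q = sp σ p q + sp σ p' q := by
  simp [sp, add_mul, Finset.sum_add_distrib]

theorem sp_sub_left (p p' q : ι → F) : sp σ (p - p') q = sp σ p q - sp σ p' q := by
  simp [sp, sub_mul, Finset.sum_sub_distrib]

theorem sp_add_right (p q q' : ι → F) : sp σ p (q + q') = sp σ p q + sp σ p q' := by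
  simp [sp, mul_add, Finset.sum_add_distrib]

theorem sp_sub_right (p q q' : ι → F) : sp σ p (q - q') = sp σ p q - sp σ p q' := by
  simp [sp, mul_sub, Finset.sum_sub_distrib]

theorem sp_zero_right (p : ι → F) : sp σ p 0 = 0 := by
  simp [sp]

theorem sp_mulVec_left (hσ : ∀ a, σ (σ a) = a) (M : Matrix ι κ F) (p : κ → F) (q : ι → F) :
    sp σ (M *ᵥ p) q = sp σ p (ct σ M *ᵥ q) := by
  simp only [sp, Matrix.mulVec, dotProduct, ct_apply, map_sum, map_mul, hσ, Finset.sum_mul,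
    Finset.mul_sum]
  rw [Finset.sum_comm]
  refine Finset.sum_congr rfl (fun j _ => Finset.sum_congr rfl (fun i _ => ?_))
  ring

end sp

theorem pres_aux (σ : F →+* F) (hσ : ∀ a, σ (σ a) = a) (c : Matrix m d F) (S : Matrix m m F)
    (h : S + ct σ S + c * ct σ c = 0) (a b a' b' : m → F) (e e' : d → F) :
    sp σ (a + S *ᵥ b + c *ᵥ e) b' + sp σ b (a' + S *ᵥ b' + c *ᵥ e') +
      sp σ (e - ct σ c *ᵥ b) (e' - ct σ c *ᵥ b') = sp σ a b' + sp σ b a' + sp σ e e' := by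
  have key : S *ᵥ b' + ct σ S *ᵥ b' + c *ᵥ (ct σ c *ᵥ b') = 0 := by
    rw [Matrix.mulVec_mulVec, ← Matrix.add_mulVec, ← Matrix.add_mulVec, h, Matrix.zero_mulVec]
  have h1 : sp σ (S *ᵥ b) b' = sp σ b (ct σ S *ᵥ b') := sp_mulVec_left σ hσ S b b'
  have h2 : sp σ (c *ᵥ e) b' = sp σ e (ct σ c *ᵥ b') := sp_mulVec_left σ hσ c e b'
  have h3 : sp σ (ct σ c *ᵥ b) e' = sp σ b (c *ᵥ e') := by
    rw [sp_mulVec_left σ hσ, ct_ct σ hσ]
  have h4 : sp σ (ct σ c *ᵥ b) (ct σ c *ᵥ b') = sp σ b (c *ᵥ (ct σ c *ᵥ b')) := by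
    rw [sp_mulVec_left σ hσ, ct_ct σ hσ]
  have h5 : sp σ b (S *ᵥ b' + ct σ S *ᵥ b' + c *ᵥ (ct σ c *ᵥ b')) = 0 := by
    rw [key, sp_zero_right]
  rw [sp_add_right, sp_add_right] at h5
  simp only [sp_add_left, sp_add_right, sp_sub_left, sp_sub_right, h1, h2, h3, h4]
  linear_combination h5

theorem exists_eU (σ : F →+* F) (hσ : ∀ a, σ (σ a) = a) (c : Matrix m d F) (S : Matrix m m F)
    (h : S + ct σ S + c * ct σ c = 0) : ∃ g : UH σ m d, g.1.1 = eU σ c S := by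
  have hdet : (eU σ c S).det = 1 := by
    unfold eU blk3
    rw [Matrix.fromRows_zero, Matrix.det_fromBlocks_zero₂₁, Matrix.det_fromBlocks_zero₁₂]
    simp
  refine ⟨⟨⟨eU σ c S, hdet⟩, ?_⟩, rfl⟩
  intro u v
  show hH σ (eU σ c S *ᵥ u) (eU σ c S *ᵥ v) = hH σ u v
  obtain ⟨a, b, e, rfl⟩ := tri_eta u
  obtain ⟨a', b', e', rfl⟩ := tri_eta v
  rw [eU_mulVec_tri, eU_mulVec_tri, hH_tri_sp, hH_tri_sp]
  exact pres_aux σ hσ c S h a b a' b' e e'

theorem exists_eL (σ : F →+* F) (hσ : ∀ a, σ (σ a) = a) (c : Matrix m d F) (S : Matrix m m F)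
    (h : S + ct σ S + c * ct σ c = 0) : ∃ g : UH σ m d, g.1.1 = eL σ c S := by
  have hdet : (eL σ c S).det = 1 := by
    unfold eL blk3
    rw [Matrix.fromCols_zero, Matrix.det_fromBlocks_zero₁₂, Matrix.det_fromBlocks_zero₂₁]
    simp
  refine ⟨⟨⟨eL σ c S, hdet⟩, ?_⟩, rfl⟩
  intro u v
  show hH σ (eL σ c S *ᵥ u) (eL σ c S *ᵥ v) = hH σ u v
  obtain ⟨a, b, e, rfl⟩ := tri_eta u
  obtain ⟨a', b', e', rfl⟩ := tri_eta v
  rw [eL_mulVec_tri, eL_mulVec_tri, hH_tri_sp, hH_tri_sp]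
  have := pres_aux σ hσ c S h b a b' a' e e'
  linear_combination this

/-- the transvection-like elements attached to the vector `w` lie in `K`. -/
def Good (σ : F →+* F) (K : Subgroup (UH σ m d)) (β : F) (w : m ⊕ (m ⊕ d) → F) : Prop :=
  ∀ g : UH σ m d, (∀ u, g.1.1 *ᵥ u = u + (β * hH σ u w) • w) → g ∈ K

theorem mat_ext_mulVec {ι : Type*} [Fintype ι] [DecidableEq ι]
    {A B : Matrix ι ι F} (h : ∀ x, A *ᵥ x = B *ᵥ x) : A = B := by
  ext i j
  have := congrFun (h (Pi.single j 1)) i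
  simpa [Matrix.mulVec_single_one] using this

theorem good_upper (σ : F →+* F) (hσ : ∀ a, σ (σ a) = a) (K : Subgroup (UH σ m d))
    (hU : Qin σ K) (β : F) (hβ : σ β = -β) (x : m → F) :
    Good σ K β (tri x 0 0) := by
  intro g hg
  refine hU g 0 (Matrix.of fun i j => β * x i * σ (x j)) ?_ ?_
  · rw [Matrix.zero_mul, add_zero]
    ext i j
    simp only [Matrix.add_apply, Matrix.of_apply, ct_apply, map_mul, hσ, hβ, Matrix.zero_apply]
    ring
  apply mat_ext_mulVec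
  intro u
  obtain ⟨a, b, e, rfl⟩ := tri_eta u
  rw [hg, eU_mulVec_tri, hH_tri_sp]
  ext i
  rcases i with i | i | i
  · simp only [tri, sp, Pi.add_apply, Pi.smul_apply, Sum.elim_inl, smul_eq_mul, Matrix.mulVec,
      dotProduct, Matrix.of_apply, Matrix.zero_apply, zero_mul, Finset.sum_const_zero, add_zero,
      Pi.zero_apply, map_zero, mul_zero, zero_add]
    rw [Finset.mul_sum, Finset.sum_mul]
    congr 1
    refine Finset.sum_congr rfl (fun j _ => ?_)
    ring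
  · simp [tri]
  · simp [tri, ct_zero]

theorem good_lower (σ : F →+* F) (hσ : ∀ a, σ (σ a) = a) (K : Subgroup (UH σ m d))
    (hL : Qlow σ K) (β : F) (hβ : σ β = -β) (y : m → F) :
    Good σ K β (tri 0 y 0) := by
  intro g hg
  refine hL g 0 (Matrix.of fun i j => β * y i * σ (y j)) ?_ ?_
  · rw [Matrix.zero_mul, add_zero]
    ext i j
    simp only [Matrix.add_apply, Matrix.of_apply, ct_apply, map_mul, hσ, hβ, Matrix.zero_apply]
    ring
  apply mat_ext_mulVec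
  intro u
  obtain ⟨a, b, e, rfl⟩ := tri_eta u
  rw [hg, eL_mulVec_tri, hH_tri_sp]
  ext i
  rcases i with i | i | i
  · simp [tri]
  · simp only [tri, sp, Pi.add_apply, Pi.smul_apply, Sum.elim_inl, Sum.elim_inr, smul_eq_mul,
      Matrix.mulVec,
      dotProduct, Matrix.of_apply, Matrix.zero_apply, zero_mul, Finset.sum_const_zero, add_zero,
      Pi.zero_apply, map_zero, mul_zero, zero_add]
    rw [Finset.mul_sum, Finset.sum_mul]
    congr 1
    refine Finset.sum_congr rfl (fun j _ => ?_)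
    ring
  · simp [tri, ct_zero]

theorem good_conj (σ : F →+* F) (K : Subgroup (UH σ m d)) (β : F) (w : m ⊕ (m ⊕ d) → F)
    (h : UH σ m d) (hh : h ∈ K) (hgood : Good σ K β (h.1.1 *ᵥ w)) : Good σ K β w := by
  intro g hg
  have h1 : h * g * h⁻¹ ∈ K := by
    apply hgood
    intro u
    have e1 : ((h * g * h⁻¹ : UH σ m d).1.1) = h.1.1 * g.1.1 * (h⁻¹).1.1 := rfl
    have e2 : h.1.1 * (h⁻¹).1.1 = 1 := by
      rw [← Matrix.SpecialLinearGroup.coe_mul, ← Subgroup.coe_mul, mul_inv_cancel]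
      rfl
    have e3 : hH σ ((h⁻¹).1.1 *ᵥ u) w = hH σ u (h.1.1 *ᵥ w) := by
      have := h.2 ((h⁻¹).1.1 *ᵥ u) w
      rw [Matrix.mulVec_mulVec, e2, Matrix.one_mulVec] at this
      exact this.symm
    rw [e1, ← Matrix.mulVec_mulVec, ← Matrix.mulVec_mulVec, hg, Matrix.mulVec_add,
      Matrix.mulVec_mulVec, e2, Matrix.one_mulVec, Matrix.mulVec_smul, e3]
  have h2 : g = h⁻¹ * (h * g * h⁻¹) * h := by group
  rw [h2]
  exact K.mul_mem (K.mul_mem (K.inv_mem hh) h1) hh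

theorem alg (σ : F →+* F) (hσ : ∀ a, σ (σ a) = a) (τ : F) (hτ : τ + σ τ = 1)
    (x y : m → F) (z : d → F) (hx : x ≠ 0)
    (hiso : sp σ x y + sp σ y x + sp σ z z = 0) :
    ∃ (c : Matrix m d F) (S : Matrix m m F), S + ct σ S + c * ct σ c = 0 ∧
      ct σ c *ᵥ x = z ∧ y + S *ᵥ x + c *ᵥ z = 0 := by
  obtain ⟨i₀, hi₀⟩ : ∃ i, x i ≠ 0 := by
    by_contra hcon
    push Not at hcon
    exact hx (funext hcon)
  obtain ⟨uu, hu⟩ : ∃ uu : m → F, ∑ j, σ (uu j) * x j = 1 := by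
    refine ⟨Pi.single i₀ (σ (x i₀))⁻¹, ?_⟩
    rw [Finset.sum_eq_single i₀]
    · rw [Pi.single_eq_same, map_inv₀, hσ, inv_mul_cancel₀ hi₀]
    · intro j _ hj
      rw [Pi.single_eq_of_ne hj, map_zero, zero_mul]
    · intro h
      exact absurd (Finset.mem_univ _) h
  obtain ⟨Nz, hNz⟩ : ∃ Nz : F, Nz = sp σ z z := ⟨_, rfl⟩
  have hNzσ : σ Nz = Nz := by
    simp only [hNz, sp, map_sum, map_mul, hσ]
    exact Finset.sum_congr rfl (fun l _ => mul_comm _ _)
  obtain ⟨c, hc⟩ : ∃ c : Matrix m d F, c = Matrix.of fun i l => uu i * σ (z l) := ⟨_, rfl⟩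
  have c1 : ct σ c *ᵥ x = z := by
    ext l
    simp only [Matrix.mulVec, dotProduct, ct_apply, hc, Matrix.of_apply, map_mul, hσ]
    calc ∑ i, σ (uu i) * z l * x i = z l * ∑ i, σ (uu i) * x i := by
          rw [Finset.mul_sum]
          exact Finset.sum_congr rfl (fun i _ => by ring)
      _ = z l := by rw [hu, mul_one]
  have c2 : c *ᵥ z = Nz • uu := by
    ext i
    simp only [Matrix.mulVec, dotProduct, hc, Matrix.of_apply, Pi.smul_apply, smul_eq_mul, hNz,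
      sp]
    rw [Finset.sum_mul]
    exact Finset.sum_congr rfl (fun l _ => by ring)
  obtain ⟨H, hH⟩ : ∃ H : Matrix m m F, H = c * ct σ c := ⟨_, rfl⟩
  have H1 : ct σ H = H := by rw [hH, ct_mul, ct_ct σ hσ]
  have H2 : H *ᵥ x = Nz • uu := by rw [hH, ← Matrix.mulVec_mulVec, c1, c2]
  obtain ⟨w', hw'⟩ : ∃ w' : m → F, w' = -y - (σ τ * Nz) • uu := ⟨_, rfl⟩
  obtain ⟨ω, hω⟩ : ∃ ω : F, ω = ∑ j, σ (w' j) * x j := ⟨_, rfl⟩
  have hω1 : ω = -(sp σ x y) - τ * Nz := by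
    simp only [hω, hw', Pi.sub_apply, Pi.neg_apply, Pi.smul_apply, smul_eq_mul, map_sub, map_neg,
      map_mul, hσ, hNzσ, sp]
    calc ∑ j, (-σ (y j) - τ * Nz * σ (uu j)) * x j
        = -(∑ j, x j * σ (y j)) - τ * Nz * ∑ j, σ (uu j) * x j := by
          rw [Finset.mul_sum, ← Finset.sum_neg_distrib, ← Finset.sum_sub_distrib]
          exact Finset.sum_congr rfl (fun j _ => by ring)
      _ = _ := by rw [hu, mul_one]
  have hω2 : σ ω = -ω := by
    have e : σ (sp σ x y) = sp σ y x := by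
      simp only [sp, map_sum, map_mul, hσ]
      exact Finset.sum_congr rfl (fun j _ => mul_comm _ _)
    rw [hω1, map_sub, map_neg, map_mul, e, hNzσ]
    have hiso' : sp σ x y + sp σ y x + Nz = 0 := by rw [hNz]; exact hiso
    linear_combination (-1 : F) * hiso' - Nz * hτ
  obtain ⟨S₁, hS₁⟩ : ∃ S₁ : Matrix m m F, S₁ = Matrix.of fun i j =>
      w' i * σ (uu j) - uu i * σ (w' j) + ω * uu i * σ (uu j) := ⟨_, rfl⟩
  have s1 : S₁ + ct σ S₁ = 0 := by
    ext i j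
    simp only [Matrix.add_apply, ct_apply, hS₁, Matrix.of_apply, map_add, map_sub, map_mul, hσ,
      hω2, Matrix.zero_apply]
    ring
  have s2 : S₁ *ᵥ x = w' := by
    ext i
    simp only [Matrix.mulVec, dotProduct, hS₁, Matrix.of_apply]
    calc ∑ j, (w' i * σ (uu j) - uu i * σ (w' j) + ω * uu i * σ (uu j)) * x j
        = w' i * (∑ j, σ (uu j) * x j) - uu i * (∑ j, σ (w' j) * x j)
          + ω * uu i * (∑ j, σ (uu j) * x j) := by
          rw [Finset.mul_sum, Finset.mul_sum, Finset.mul_sum, ← Finset.sum_sub_distrib,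
            ← Finset.sum_add_distrib]
          exact Finset.sum_congr rfl (fun j _ => by ring)
      _ = w' i := by rw [hu, ← hω]; ring
  refine ⟨c, S₁ - τ • H, ?_, c1, ?_⟩
  · rw [ct_sub, ct_smul, H1, ← hH]
    have e : S₁ - τ • H + (ct σ S₁ - σ τ • H) + H = (S₁ + ct σ S₁) + (1 - (τ + σ τ)) • H := by
      rw [sub_smul, one_smul, add_smul]
      abel
    rw [e, s1, hτ, sub_self, zero_smul, add_zero]
  · rw [Matrix.sub_mulVec, Matrix.smul_mulVec, s2, H2, c2]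
    ext i
    simp only [hw', Pi.add_apply, Pi.sub_apply, Pi.neg_apply, Pi.smul_apply, smul_eq_mul,
      Pi.zero_apply]
    linear_combination (-(Nz * uu i)) * hτ

theorem good_inl (σ : F →+* F) (hσ : ∀ a, σ (σ a) = a) (τ : F) (hτ : τ + σ τ = 1)
    (K : Subgroup (UH σ m d)) (hU : Qin σ K) (hL : Qlow σ K) (β : F) (hβ : σ β = -β)
    (w : m ⊕ (m ⊕ d) → F) (hw : hH σ w w = 0) (hx : ∃ i, w (Sum.inl i) ≠ 0) :
    Good σ K β w := by
  obtain ⟨x, y, z, rfl⟩ := tri_eta w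
  rw [hH_tri_sp] at hw
  have hx' : x ≠ 0 := by
    rintro rfl
    obtain ⟨i, hi⟩ := hx
    exact hi rfl
  obtain ⟨c, S, h1, h2, h3⟩ := alg σ hσ τ hτ x y z hx' hw
  obtain ⟨h, hh⟩ := exists_eL σ hσ c S h1
  apply good_conj σ K β _ h (hL h c S h1 hh)
  rw [hh, eL_mulVec_tri, h2, h3, sub_self]
  exact good_upper σ hσ K hU β hβ x

theorem good_inr (σ : F →+* F) (hσ : ∀ a, σ (σ a) = a) (τ : F) (hτ : τ + σ τ = 1)
    (K : Subgroup (UH σ m d)) (hU : Qin σ K) (hL : Qlow σ K) (β : F) (hβ : σ β = -β)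
    (w : m ⊕ (m ⊕ d) → F) (hw : hH σ w w = 0) (hy : ∃ i, w (Sum.inr (Sum.inl i)) ≠ 0) :
    Good σ K β w := by
  obtain ⟨x, y, z, rfl⟩ := tri_eta w
  rw [hH_tri_sp] at hw
  have hy' : y ≠ 0 := by
    rintro rfl
    obtain ⟨i, hi⟩ := hy
    exact hi rfl
  obtain ⟨c, S, h1, h2, h3⟩ := alg σ hσ τ hτ y x z hy' (by rw [← hw]; ring)
  obtain ⟨h, hh⟩ := exists_eU σ hσ c S h1
  apply good_conj σ K β _ h (hU h c S h1 hh)
  rw [hh, eU_mulVec_tri, h2, h3, sub_self]
  exact good_lower σ hσ K hL β hβ y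

theorem good_all (σ : F →+* F) (hσ : ∀ a, σ (σ a) = a) (τ : F) (hτ : τ + σ τ = 1)
    [Nonempty m]
    (K : Subgroup (UH σ m d)) (hU : Qin σ K) (hL : Qlow σ K) (β : F) (hβ : σ β = -β)
    (w : m ⊕ (m ⊕ d) → F) (hw : hH σ w w = 0) : Good σ K β w := by
  by_cases hx : ∃ i, w (Sum.inl i) ≠ 0
  · exact good_inl σ hσ τ hτ K hU hL β hβ w hw hx
  by_cases hy : ∃ i, w (Sum.inr (Sum.inl i)) ≠ 0
  · exact good_inr σ hσ τ hτ K hU hL β hβ w hw hy
  push Not at hx hy
  obtain ⟨x, y, z, rfl⟩ := tri_eta w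
  have hx0 : x = 0 := funext hx
  have hy0 : y = 0 := funext hy
  subst hx0 hy0
  by_cases hz : z = 0
  · subst hz
    exact good_upper σ hσ K hU β hβ 0
  obtain ⟨l₀, hl₀⟩ : ∃ l, z l ≠ 0 := by
    by_contra hcon
    push Not at hcon
    exact hz (funext hcon)
  obtain ⟨i₀⟩ := ‹Nonempty m›
  obtain ⟨c, hc⟩ : ∃ c : Matrix m d F,
      c = Matrix.of fun i l => if i = i₀ ∧ l = l₀ then (1 : F) else 0 := ⟨_, rfl⟩
  have hu : -τ • (c * ct σ c) + ct σ (-τ • (c * ct σ c)) + c * ct σ c = 0 := by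
    rw [ct_smul, ct_mul, ct_ct σ hσ, map_neg]
    have e : -τ • (c * ct σ c) + -σ τ • (c * ct σ c) + c * ct σ c
        = (1 - (τ + σ τ)) • (c * ct σ c) := by
      rw [sub_smul, one_smul, add_smul, neg_smul, neg_smul]
      abel
    rw [e, hτ, sub_self, zero_smul]
  obtain ⟨h, hh⟩ := exists_eU σ hσ c _ hu
  apply good_conj σ K β _ h (hU h c _ hu hh)
  apply good_inl σ hσ τ hτ K hU hL β hβ
  · rw [h.2]
    exact hw
  · refine ⟨i₀, ?_⟩
    rw [hh, eU_mulVec_tri]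
    simp only [tri, Sum.elim_inl, Pi.add_apply, Matrix.mulVec_zero, Pi.zero_apply, add_zero,
      zero_add, Matrix.mulVec, dotProduct, hc, Matrix.of_apply]
    rw [Finset.sum_eq_single l₀]
    · simpa using hl₀
    · intro l _ hl
      simp [hl]
    · intro h
      exact absurd (Finset.mem_univ _) h

theorem uh_gen_of_iso {F : Type*} [Field F] [Fintype F] {q : ℕ} (hF : Fintype.card F = q ^ 2)
    (k r : ℕ) (hk : 1 ≤ k) (hn : 3 ≤ k + (k + r)) (h32 : ¬ (k + (k + r) = 3 ∧ q = 2))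
    (Φ : ↥(UH (H17.frobHom hF) (Fin k) (Fin r)) ≃* ↥(Cfsg.SU (k + (k + r)) F q))
    (P : (Fin k ⊕ (Fin k ⊕ Fin r) → F) ≃ₗ[F] (Fin (k + (k + r)) → F))
    (hP : ∀ u v, Cfsg.hermForm (k + (k + r)) F q (P u) (P v) = hH (H17.frobHom hF) u v)
    (hΦ : ∀ (g : ↥(UH (H17.frobHom hF) (Fin k) (Fin r))) (u : Fin k ⊕ (Fin k ⊕ Fin r) → F),
        H17.suAct (Φ g) (P u) = P (g.1.1 *ᵥ u))
    (K : Subgroup ↥(UH (H17.frobHom hF) (Fin k) (Fin r)))
    (hU : Qin (H17.frobHom hF) K) (hL : Qlow (H17.frobHom hF) K) : K = ⊤ := by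
  have hσ : ∀ a, (H17.frobHom hF) ((H17.frobHom hF) a) = a := H17.frobHom_invol hF
  obtain ⟨τ, hτ⟩ := H17.exists_trace_eq (H17.frobHom hF) (H17.frobHom_ne_id hF) hσ 1
    (map_one _)
  have hne : Nonempty (Fin k) := ⟨⟨0, hk⟩⟩
  have hgen : H17.suT (k + (k + r)) F q ≤ K.map Φ.toMonoidHom := by
    unfold H17.suT
    rw [Subgroup.closure_le]
    rintro A ⟨v, c, hv, hA⟩
    rw [SetLike.mem_coe, Subgroup.mem_map]
    refine ⟨Φ.symm A, ?_, Φ.apply_symm_apply A⟩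
    have hact : ∀ z, H17.suAct A z = z + (c * Cfsg.hermForm _ F q z v) • v := by
      intro z
      unfold H17.suAct
      rw [hA, H17.unitaryTransvection_mulVec]
    have hgact : ∀ u, (Φ.symm A).1.1 *ᵥ u =
        u + (c * hH (H17.frobHom hF) u (P.symm v)) • P.symm v := by
      intro u
      apply P.injective
      rw [← hΦ (Φ.symm A) u, Φ.apply_symm_apply, hact, map_add, map_smul, P.apply_symm_apply,
        ← hP u (P.symm v), P.apply_symm_apply]
    by_cases hc0 : c = 0 ∨ v = 0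
    · have h1 : Φ.symm A = 1 := by
        apply Subtype.ext
        apply Subtype.ext
        apply mat_ext_mulVec
        intro u
        rw [hgact]
        rcases hc0 with rfl | rfl
        · simp
        · simp
      rw [h1]
      exact K.one_mem
    push Not at hc0
    obtain ⟨hc, hv0⟩ := hc0
    have hcq : (H17.frobHom hF) c = -c := by
      obtain ⟨i, hi⟩ : ∃ i, v i ≠ 0 := by
        by_contra hcon
        push Not at hcon
        exact hv0 (funext hcon)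
      have t1 : Cfsg.hermForm (k + (k + r)) F q (Pi.single i 1) v = (v i) ^ q :=
        H17.hermForm_single_left _ i v
      have t2 : Cfsg.hermForm (k + (k + r)) F q v (Pi.single i 1) = v i :=
        H17.hermForm_single_right _ hF i v
      have h1 := H17.suAct_herm A (Pi.single i 1) (Pi.single i 1)
      rw [hact] at h1
      have h2 : Cfsg.hermForm (k + (k + r)) F q
          (Pi.single i 1 + (c * Cfsg.hermForm (k + (k + r)) F q (Pi.single i 1) v) • v)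
          (Pi.single i 1 + (c * Cfsg.hermForm (k + (k + r)) F q (Pi.single i 1) v) • v)
          = Cfsg.hermForm (k + (k + r)) F q (Pi.single i 1) (Pi.single i 1)
            + (c * (v i) ^ q) ^ q * (v i) ^ q + c * (v i) ^ q * v i := by
        simp only [H17.hermForm_add_left, H17.hermForm_add_right _ hF,
          H17.hermForm_smul_left, H17.hermForm_smul_right, hv, t1, t2]
        ring
      rw [h2] at h1
      have h3 : (c ^ q + c) * ((v i) ^ q * v i) = 0 := by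
        have h4 := H17.frob_frob hF (v i)
        rw [mul_pow, h4] at h1
        linear_combination h1
      have h5 : (v i) ^ q * v i ≠ 0 := mul_ne_zero (pow_ne_zero _ hi) hi
      have h6 : c ^ q + c = 0 := by
        rcases mul_eq_zero.mp h3 with h | h
        · exact h
        · exact absurd h h5
      rw [H17.frobHom_apply]
      exact eq_neg_of_add_eq_zero_left h6
    exact good_all (H17.frobHom hF) hσ τ hτ K hU hL c hcq (P.symm v)
      (by rw [← hP, P.apply_symm_apply]; exact hv) (Φ.symm A) hgact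
  rw [H17.su_gen hF hn h32] at hgen
  rw [eq_top_iff]
  intro g _
  have h1 : Φ g ∈ K.map Φ.toMonoidHom := hgen (Subgroup.mem_top _)
  obtain ⟨g', hg', he⟩ := Subgroup.mem_map.mp h1
  have h2 : g' = g := Φ.injective he
  rw [← h2]
  exact hg'

/-- piece GEN of S2412: a subgroup containing both unipotent radicals is everything. -/
theorem uh_gen {F : Type*} [Field F] [Fintype F] {q : ℕ} (hF : Fintype.card F = q ^ 2)
    (k r : ℕ) (hk : 1 ≤ k) (hn : 3 ≤ k + (k + r)) (h32 : ¬ (k + (k + r) = 3 ∧ q = 2))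
    (K : Subgroup ↥(UH (H17.frobHom hF) (Fin k) (Fin r)))
    (hU : Qin (H17.frobHom hF) K) (hL : Qlow (H17.frobHom hF) K) : K = ⊤ := by
  obtain ⟨Φ, P, hP, hΦ⟩ := Cfsg.Agent.H98.U.uh_iso hF k r (k + (k + r)) rfl
  exact uh_gen_of_iso hF k r hk hn h32 Φ P hP hΦ K hU hL

end Cfsg.Agent.H11.U
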