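import Mathlib
import Cfsg.Agent.H72.ZasDefs
import Cfsg.Agent.H11.McKayQ

/-!
# S0690-ACTB (helper11, for helper72): in a group with generalized quaternion Sylow 2-subgroups
of order at least 16 in which all elements of order 4 are conjugate, every quaternion pair
`t, s` is cycled by some element.
-/

set_option autoImplicit false

namespace Cfsg.Agent.H11.Zas

open Cfsg.Agent.H72.Zas QuaternionGroup Cfsg.Agent.H11.McKay

universe u

/-- The elements conjugating `v` to `v` or `v⁻¹`. -/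
def normSub {G : Type*} [Group G] (v : G) : Subgroup G where
  carrier := {x | x * v * x⁻¹ = v ∨ x * v * x⁻¹ = v⁻¹}
  mul_mem' := by
    intro x y hx hy
    have e : x * y * v * (x * y)⁻¹ = x * (y * v * y⁻¹) * x⁻¹ := by group
    show x * y * v * (x * y)⁻¹ = v ∨ x * y * v * (x * y)⁻¹ = v⁻¹
    rw [e]
    rcases hy with hy | hy
    · rw [hy]
      exact hx
    · rw [hy]
      have e2 : x * v⁻¹ * x⁻¹ = (x * v * x⁻¹)⁻¹ := by group
      rw [e2]
      rcases hx with hx | hx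
      · rw [hx]
        exact Or.inr rfl
      · rw [hx, inv_inv]
        exact Or.inl rfl
  one_mem' := Or.inl (by group)
  inv_mem' := by
    intro x hx
    show x⁻¹ * v * x⁻¹⁻¹ = v ∨ x⁻¹ * v * x⁻¹⁻¹ = v⁻¹
    rw [inv_inv]
    have h2 : x⁻¹ * (x * v * x⁻¹) * x = v := by group
    rcases hx with hx | hx
    · left
      rw [hx] at h2
      exact h2
    · right
      rw [hx] at h2
      have e3 : x⁻¹ * v * x = (x⁻¹ * v⁻¹ * x)⁻¹ := by group
      rw [e3, h2]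

theorem mem_normSub {G : Type*} [Group G] (v x : G) :
    x ∈ normSub v ↔ x * v * x⁻¹ = v ∨ x * v * x⁻¹ = v⁻¹ := Iff.rfl

/-- The key step: an element centralizing `u` and moving `q` to `q u^±1`. -/
theorem actB_core {G : Type u} [Group G] [Finite G] (S : Sylow 2 G) (n : ℕ) (hn : 2 ≤ n)
    (e : S ≃* QuaternionGroup (2 ^ n)) (hconj : Conj4 G) (u q : G) (hu : orderOf u = 4)
    (hq : orderOf q = 4) (hqu : q * u * q⁻¹ = u⁻¹) :
    ∃ c : G, c * u * c⁻¹ = u ∧ (c * q * c⁻¹ = q * u ∨ c * q * c⁻¹ = q * u⁻¹) := by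
  classical
  obtain ⟨k, rfl⟩ : ∃ k, n = k + 2 := ⟨n - 2, by omega⟩
  obtain ⟨k2, k4, h44, h22⟩ : ∃ k2 k4 : ZMod (2 * 2 ^ (k + 2)), k4 + k4 = k2 ∧
      k2 + k2 = ((2 ^ (k + 2) : ℕ) : ZMod (2 * 2 ^ (k + 2))) :=
    ⟨((2 ^ (k + 1) : ℕ) : ZMod _), ((2 ^ k : ℕ) : ZMod _), by push_cast; ring,
      by push_cast; ring⟩
  have hNN : ((2 ^ (k + 2) : ℕ) : ZMod (2 * 2 ^ (k + 2))) +
      ((2 ^ (k + 2) : ℕ) : ZMod (2 * 2 ^ (k + 2))) = 0 := by
    have := two_m_zero (2 ^ (k + 2))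
    linear_combination this
  have hN0 : ((2 ^ (k + 2) : ℕ) : ZMod (2 * 2 ^ (k + 2))) ≠ 0 := by
    intro h
    rw [ZMod.natCast_eq_zero_iff] at h
    have hpos : 0 < 2 ^ (k + 2) := Nat.two_pow_pos _
    have := Nat.le_of_dvd hpos h
    omega
  obtain ⟨u₀, heu₀⟩ : ∃ u₀ : S, e u₀ = a k2 := ⟨e.symm (a k2), e.apply_symm_apply _⟩
  obtain ⟨c₀, hec₀⟩ : ∃ c₀ : S, e c₀ = a k4 := ⟨e.symm (a k4), e.apply_symm_apply _⟩
  have hu₀sq : (u₀ : G) * (u₀ : G) ≠ 1 := by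
    intro h
    have h1 : u₀ * u₀ = 1 := Subtype.ext (by simpa using h)
    have h2 := congrArg e h1
    rw [map_mul, heu₀, a_mul_a, h22, map_one, one_def] at h2
    exact hN0 (a.inj h2)
  have hu₀ord : orderOf (u₀ : G) = 4 := by
    have h1 : ¬ (u₀ : G) ^ 2 ^ 1 = 1 := by
      rw [pow_one, pow_two]
      exact hu₀sq
    have h2 : (u₀ : G) ^ 2 ^ (1 + 1) = 1 := by
      have h3 : u₀ ^ 4 = 1 := by
        apply e.injective
        rw [map_pow, heu₀, map_one]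
        have h4 : (a k2 : QuaternionGroup (2 ^ (k + 2))) ^ 4 = a (k2 + k2 + k2 + k2) := by
          rw [pow_succ (a k2) 3, pow_succ (a k2) 2, pow_succ (a k2) 1, pow_one, a_mul_a, a_mul_a,
            a_mul_a]
        rw [h4, one_def]
        congr 1
        linear_combination 2 * h22 + hNN
      have h5 := congrArg Subtype.val h3
      simpa using h5
    have h6 := orderOf_eq_prime_pow h1 h2
    simpa using h6
  obtain ⟨g, hg⟩ := hconj u (u₀ : G) hu hu₀ord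
  obtain ⟨q₁, hq₁⟩ : ∃ q₁ : G, q₁ = g * q * g⁻¹ := ⟨_, rfl⟩
  have hq₁u : q₁ * (u₀ : G) * q₁⁻¹ = (u₀ : G)⁻¹ := by
    rw [← hg, hq₁]
    have h1 : g * q * g⁻¹ * (g * u * g⁻¹) * (g * q * g⁻¹)⁻¹ = g * (q * u * q⁻¹) * g⁻¹ := by
      group
    rw [h1, hqu]
    group
  have hq₁ord : orderOf q₁ = 4 := by
    have h1 := (MulAut.conj g).orderOf_eq q
    rw [MulAut.conj_apply] at h1
    rw [hq₁, h1, hq]
  -- conjugation by elements of `S`
  have hSa : ∀ (x : G) (hx : x ∈ (S : Subgroup G)) (i : ZMod (2 * 2 ^ (k + 2))),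
      e ⟨x, hx⟩ = a i → x * (u₀ : G) * x⁻¹ = (u₀ : G) := by
    intro x hx i hex
    have h1 : (⟨x, hx⟩ : S) * u₀ * (⟨x, hx⟩ : S)⁻¹ = u₀ := by
      apply e.injective
      rw [map_mul, map_mul, map_inv, hex, heu₀, a_inv', a_mul_a, a_mul_a]
      congr 1
      ring
    have h2 := congrArg Subtype.val h1
    simpa using h2
  have hSxa : ∀ (x : G) (hx : x ∈ (S : Subgroup G)) (i : ZMod (2 * 2 ^ (k + 2))),
      e ⟨x, hx⟩ = xa i → x * (u₀ : G) * x⁻¹ = (u₀ : G)⁻¹ := by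
    intro x hx i hex
    have h1 : (⟨x, hx⟩ : S) * u₀ * (⟨x, hx⟩ : S)⁻¹ = u₀⁻¹ := by
      apply e.injective
      rw [map_mul, map_mul, map_inv, map_inv, hex, heu₀, xa_inv', a_inv', xa_mul_a, xa_mul_xa]
      congr 1
      linear_combination hNN
    have h2 := congrArg Subtype.val h1
    simpa using h2
  have hSM : (S : Subgroup G) ≤ normSub (u₀ : G) := by
    intro x hx
    rw [mem_normSub]
    rcases hex : e ⟨x, hx⟩ with i | i
    · exact Or.inl (hSa x hx i hex)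
    · exact Or.inr (hSxa x hx i hex)
  have hq₁M : q₁ ∈ normSub (u₀ : G) := Or.inr hq₁u
  -- Sylow's theorem inside `normSub u₀`
  obtain ⟨SM, hSMc⟩ : ∃ SM : Sylow 2 (normSub (u₀ : G)),
      (SM : Subgroup (normSub (u₀ : G))) = (S : Subgroup G).subgroupOf (normSub (u₀ : G)) :=
    ⟨S.subtype hSM, Sylow.coe_subtype _ _⟩
  have hp : IsPGroup 2 (Subgroup.zpowers (⟨q₁, hq₁M⟩ : normSub (u₀ : G))) := by
    apply IsPGroup.of_card (n := 2)
    rw [Nat.card_zpowers, Subgroup.orderOf_mk, hq₁ord]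
    norm_num
  obtain ⟨TM, hTM⟩ := hp.exists_le_sylow
  obtain ⟨m, hm⟩ := MulAction.exists_smul_eq (normSub (u₀ : G)) TM SM
  have hmem : (m : G) * q₁ * (m : G)⁻¹ ∈ (S : Subgroup G) := by
    have h1 : (⟨q₁, hq₁M⟩ : normSub (u₀ : G)) ∈ (TM : Subgroup (normSub (u₀ : G))) :=
      hTM (Subgroup.mem_zpowers _)
    have h2 := Subgroup.smul_mem_pointwise_smul _ (MulAut.conj m) _ h1
    rw [← Sylow.coe_subgroup_smul, hm, hSMc, Subgroup.mem_subgroupOf] at h2
    simpa [MulAut.smul_def] using h2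
  have hmu : (m : G) * (u₀ : G) * (m : G)⁻¹ = (u₀ : G) ∨
      (m : G) * (u₀ : G) * (m : G)⁻¹ = (u₀ : G)⁻¹ := m.2
  have hc₀u : (c₀ : G) * (u₀ : G) * (c₀ : G)⁻¹ = (u₀ : G) := by
    have h1 := hSa (c₀ : G) c₀.2 k4 hec₀
    exact h1
  have hP : ∀ q' ∈ (S : Subgroup G), q' * (u₀ : G) * q'⁻¹ = (u₀ : G)⁻¹ →
      (c₀ : G) * q' * (c₀ : G)⁻¹ = q' * (u₀ : G)⁻¹ := by
    intro q' hq' hrel
    rcases hex : e ⟨q', hq'⟩ with i | i
    · exfalso
      have h3 := hSa q' hq' i hex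
      rw [hrel] at h3
      apply hu₀sq
      have h4 : (u₀ : G) * (u₀ : G) = (u₀ : G)⁻¹ * (u₀ : G) := by rw [h3]
      rw [h4, inv_mul_cancel]
    · have h1 : c₀ * (⟨q', hq'⟩ : S) * c₀⁻¹ = (⟨q', hq'⟩ : S) * u₀⁻¹ := by
        apply e.injective
        rw [map_mul, map_mul, map_mul, map_inv, map_inv, hec₀, hex, heu₀, a_inv', a_inv',
          a_mul_xa, xa_mul_a, xa_mul_a]
        congr 1
        linear_combination -h44
      have h2 := congrArg Subtype.val h1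
      simpa using h2
  obtain ⟨h, hh⟩ : ∃ h : G, h = (m : G) * g := ⟨_, rfl⟩
  have hu' : h * u * h⁻¹ = (m : G) * (u₀ : G) * (m : G)⁻¹ := by
    have h1 : h * u * h⁻¹ = (m : G) * (g * u * g⁻¹) * (m : G)⁻¹ := by
      rw [hh]
      group
    rw [h1, hg]
  have hq' : h * q * h⁻¹ = (m : G) * q₁ * (m : G)⁻¹ := by
    rw [hq₁, hh]
    group
  have hrel' : (h * q * h⁻¹) * (h * u * h⁻¹) * (h * q * h⁻¹)⁻¹ = (h * u * h⁻¹)⁻¹ := by
    have h1 : (h * q * h⁻¹) * (h * u * h⁻¹) * (h * q * h⁻¹)⁻¹ = h * (q * u * q⁻¹) * h⁻¹ := by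
      group
    rw [h1, hqu]
    group
  have hqS : h * q * h⁻¹ ∈ (S : Subgroup G) := by
    rw [hq']
    exact hmem
  have key : (c₀ : G) * (h * u * h⁻¹) * (c₀ : G)⁻¹ = h * u * h⁻¹ ∧
      ((c₀ : G) * (h * q * h⁻¹) * (c₀ : G)⁻¹ = (h * q * h⁻¹) * (h * u * h⁻¹) ∨
        (c₀ : G) * (h * q * h⁻¹) * (c₀ : G)⁻¹ = (h * q * h⁻¹) * (h * u * h⁻¹)⁻¹) := by
    rw [hu'] at hrel' ⊢
    rcases hmu with hmu | hmu
    · rw [hmu] at hrel' ⊢
      exact ⟨hc₀u, Or.inr (hP _ hqS hrel')⟩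
    · rw [hmu] at hrel' ⊢
      have hrel'' : (h * q * h⁻¹) * (u₀ : G) * (h * q * h⁻¹)⁻¹ = (u₀ : G)⁻¹ := by
        have e1 : (h * q * h⁻¹) * (u₀ : G) * (h * q * h⁻¹)⁻¹ =
            ((h * q * h⁻¹) * (u₀ : G)⁻¹ * (h * q * h⁻¹)⁻¹)⁻¹ := by group
        rw [e1, hrel', inv_inv]
      refine ⟨?_, Or.inl (hP _ hqS hrel'')⟩
      have e1 : (c₀ : G) * (u₀ : G)⁻¹ * (c₀ : G)⁻¹ = ((c₀ : G) * (u₀ : G) * (c₀ : G)⁻¹)⁻¹ := by
        group
      rw [e1, hc₀u]
  obtain ⟨key1, key2⟩ := key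
  refine ⟨h⁻¹ * (c₀ : G) * h, ?_, ?_⟩
  · have e1 : h⁻¹ * (c₀ : G) * h * u * (h⁻¹ * (c₀ : G) * h)⁻¹ =
        h⁻¹ * ((c₀ : G) * (h * u * h⁻¹) * (c₀ : G)⁻¹) * h := by group
    rw [e1, key1]
    group
  · have e1 : h⁻¹ * (c₀ : G) * h * q * (h⁻¹ * (c₀ : G) * h)⁻¹ =
        h⁻¹ * ((c₀ : G) * (h * q * h⁻¹) * (c₀ : G)⁻¹) * h := by group
    rcases key2 with key2 | key2
    · left
      rw [e1, key2]
      group
    · right
      rw [e1, key2]
      group

/-- S0690-ACTB. -/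
theorem stActB : StActB.{u} := by
  intro G _ _ S n hn ⟨e⟩ hconj t s ht hs hst hts
  have ht4 : t * t * (t * t) = 1 := by
    have h1 := pow_orderOf_eq_one t
    rw [ht] at h1
    calc t * t * (t * t) = t ^ 4 := by
          rw [pow_succ t 3, pow_succ t 2, pow_succ t 1, pow_one, mul_assoc, mul_assoc, mul_assoc]
      _ = 1 := h1
  have D1 : s * t = t⁻¹ * s := by
    calc s * t = (s * t * s⁻¹) * s := by group
      _ = t⁻¹ * s := by rw [hst]
  have D2 : t * s * t = s := by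
    calc t * s * t = t * (s * t) := by group
      _ = t * (t⁻¹ * s) := by rw [D1]
      _ = s := by group
  have D3 : t * s * t⁻¹ = s⁻¹ := by
    calc t * s * t⁻¹ = (t * s * t) * (t * t)⁻¹ := by group
      _ = s * (s * s)⁻¹ := by rw [D2, hts]
      _ = s⁻¹ := by group
  have D4 : s * t = (t * s)⁻¹ := by
    apply eq_inv_of_mul_eq_one_right
    calc t * s * (s * t) = t * (s * s) * t := by group
      _ = t * (t * t) * t := by rw [hts]
      _ = t * t * (t * t) := by group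
      _ = 1 := ht4
  have D5 : s * t⁻¹ = t * s := by
    calc s * t⁻¹ = (t * s * t) * t⁻¹ := by rw [D2]
      _ = t * s := by group
  obtain ⟨ct, hct1, hct2⟩ := actB_core S n hn e hconj t s ht hs hst
  obtain ⟨cs, hcs1, hcs2⟩ := actB_core S n hn e hconj s t hs ht D3
  refine ⟨ct * cs, ?_, ?_⟩
  · have e1 : ct * cs * t * (ct * cs)⁻¹ = ct * (cs * t * cs⁻¹) * ct⁻¹ := by group
    rw [e1]
    rcases hcs2 with h | h
    · rw [h]
      have e2 : ct * (t * s) * ct⁻¹ = (ct * t * ct⁻¹) * (ct * s * ct⁻¹) := by group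
      rw [e2, hct1]
      rcases hct2 with h' | h'
      · rw [h']
        left
        rw [← mul_assoc]
        exact D2
      · rw [h']
        right
        rw [← mul_assoc]
        exact D3
    · rw [h]
      have e2 : ct * (t * s⁻¹) * ct⁻¹ = (ct * t * ct⁻¹) * (ct * s * ct⁻¹)⁻¹ := by group
      rw [e2, hct1]
      rcases hct2 with h' | h'
      · rw [h']
        right
        group
      · rw [h']
        left
        calc t * (s * t⁻¹)⁻¹ = (t * t) * s⁻¹ := by group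
          _ = s * s * s⁻¹ := by rw [hts]
          _ = s := by group
  · have e1 : ct * cs * s * (ct * cs)⁻¹ = ct * (cs * s * cs⁻¹) * ct⁻¹ := by group
    rw [e1, hcs1]
    rcases hct2 with h' | h'
    · right
      rw [h']
      exact D4
    · left
      rw [h']
      exact D5

end Cfsg.Agent.H11.Zas

section check
universe v
example : Cfsg.Agent.H72.Zas.StActB.{v} := Cfsg.Agent.H11.Zas.stActB
end check

#print axioms Cfsg.Agent.H11.Zas.stActB
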